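import Cfsg.Agent.Am.X3
import Cfsg.Agent.Al.Ln
import Cfsg.Agent.Al.B
import Cfsg.Agent.Al.G

/-! Alternating subgroups of `E₆(q)`: definitions. -/

set_option autoImplicit false

namespace CF.Am

open Module Function Cfsg.Lie

/-- The module of dimension `27`. -/
abbrev N (K : Type*) := I27 → K

/-- The adjoint module. -/
abbrev LA (K : Type*) := Fin 6 ⊕ Fin 72 → K

/-- The alternating groups. -/
abbrev An (n : ℕ) := alternatingGroup (Fin n)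

section
open CF.E83 CF.Al Equiv
variable {K V W : Type*} [Field K] [AddCommGroup V] [Module K V] [AddCommGroup W] [Module K W]
  {S : Type*} [Group S]

/-- The quadratic map. -/
def sh (v : N K) : N K := fun a => Geom.E6.Q a v

/-- Its polarization. -/
def cr (v w : N K) : N K := fun a => Geom.E6.R a v w

/-- Totally white subspaces. -/
def TW (U : Submodule K (N K)) : Prop := ∀ v ∈ U, sh v = 0

/-- Invariant subspaces. -/
def Sb (r : S →* End K V) (U : Submodule K V) : Prop := ∀ g, ∀ v ∈ U, r g v ∈ U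

/-- Irreducibility. -/
def Irr (r : S →* End K V) : Prop := ∀ U, Sb r U → U = ⊥ ∨ U = ⊤

/-- Canonical subspaces. -/
def Can (r : S →* End K V) (U : Submodule K V) : Prop :=
  ∀ (g : V →+ V) (α : MulAut S), (∀ a v, g (r a v) = r (α a) (g v)) → ∀ v ∈ U, g v ∈ U

/-- The action of an element of the integral group ring. -/
noncomputable def ga [Fintype S] (r : S →* End K V) (a : S → ℤ) : End K V := ∑ g, (a g : K) • r g

/-- Real elements. -/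
abbrev Re (x : S) : Prop := IsConj x x⁻¹

/-- A pair of maps that respects the cubic form. -/
structure Jg (g g' : End K (N K)) : Prop where
  pr : ∀ v w, g v ⬝ᵥ g' w = v ⬝ᵥ w
  s1 : ∀ v, sh (g v) = g' (sh v)
  s2 : ∀ v, sh (g' v) = g (sh v)
  t1 : ∀ v, cubicT (g v) = cubicT v
  t2 : ∀ v, cubicT (g' v) = cubicT v

/-- A dual pair of representations. -/
def JP (r r' : S →* End K (N K)) : Prop := ∀ g, Jg (r g) (r' g)

/-- Fixed space dimensions on the adjoint module. -/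
structure TL (q : ℕ) (l : S →* End K W) : Prop where
  hq : (q : K) = 0
  q2 : 2 ≤ q
  dl : finrank K W = 78
  t2 : (2 : K) ≠ 0 → ∀ x, x ^ 2 = 1 → x ≠ 1 → dm l x = 38 ∨ dm l x = 46
  t3 : (3 : K) ≠ 0 → ∀ x, x ^ 3 = 1 → x ≠ 1 → Re x → dm l x = 24 ∨ dm l x = 30 ∨ dm l x = 36
  t4 : (2 : K) ≠ 0 → ∀ x, x ^ 4 = 1 → x ^ 2 ≠ 1 → Re x →
    (dm l (x ^ 2) = 46 ∧ 22 ≤ dm l x) ∨ (dm l (x ^ 2) = 38 ∧ (dm l x = 20 ∨ dm l x = 36))
  t5 : (5 : K) ≠ 0 → ∀ x, x ^ 5 = 1 → x ≠ 1 → Re x →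
    16 ≤ dm l x ∧ (IsConj x (x ^ 2) ∨ q % 5 = 2 ∨ q % 5 = 3 → dm l x = 18)
  t6 : (2 : K) ≠ 0 → (3 : K) ≠ 0 → ∀ x, x ^ 6 = 1 → Re x → (dm l (x ^ 2) = 24 → 12 ≤ dm l x) ∧
    (dm l (x ^ 2) = 30 → 14 ≤ dm l x) ∧ (dm l (x ^ 2) = 36 → 18 ≤ dm l x)
  t7 : (7 : K) ≠ 0 → ∀ x, x ^ 7 = 1 → x ≠ 1 → IsConj x (x ^ 2) →
    dm l x = 12 ∨ dm l x = 18 ∨ dm l x = 30

/-- Fixed space dimensions on both modules. -/
structure TB (q : ℕ) (r : S →* End K V) (l : S →* End K W) : Prop extends TL q l where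
  dr : finrank K V = 27
  i2 : (2 : K) = 0 → ∀ x, x ^ 2 = 1 → 15 ≤ dm r x ∧ dm r x ≠ 16
  n2 : (2 : K) ≠ 0 → ∀ x, x ^ 2 = 1 → x ≠ 1 →
    (dm r x = 15 ∧ dm l x = 38) ∨ (dm r x = 11 ∧ dm l x = 46)
  n3 : (3 : K) ≠ 0 → ∀ x, x ^ 3 = 1 → x ≠ 1 → Re x →
    (dm r x = 9 ∧ dm l x ≠ 36) ∨ (dm r x = 15 ∧ dm l x = 36)
  n4 : (2 : K) ≠ 0 → ∀ x, x ^ 4 = 1 → Re x → dm r (x ^ 2) = 15 →
    (dm r x = 7 ∧ dm l x = 20) ∨ (dm r x = 9 ∧ dm l x = 20) ∨ (dm r x = 15 ∧ dm l x = 36)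
  n5 : (5 : K) ≠ 0 → ∀ x, x ^ 5 = 1 → x ≠ 1 → Re x →
    5 ≤ dm r x ∧ (IsConj x (x ^ 2) ∨ q % 5 = 2 ∨ q % 5 = 3 → dm r x = 7)
  n7 : (7 : K) ≠ 0 → ∀ x, x ^ 7 = 1 → x ≠ 1 → IsConj x (x ^ 2) →
    (dm r x = 0 ∧ dm l x = 30) ∨ (dm r x = 3 ∧ dm l x = 12) ∨ (dm r x = 9 ∧ dm l x = 18)

/-- What is known when the alternating group acts on the module of dimension `27`. -/
structure HN (q : ℕ) (r r' : S →* End K (N K)) (l : S →* End K W) : Prop where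
  jp : JP r r'
  tb : TB q r l
  fx : Fx r = ⊥
  fx' : Fx r' = ⊥

/-- What is known about the adjoint module; `nw` says that there are new fixed points. -/
structure HL (q : ℕ) (nw : Prop) (l : S →* End K W) : Prop where
  tl : TL q l
  old : ¬ nw → finrank K (Fx l) ≤ 1 ∧ ((3 : K) ≠ 0 → Fx l = ⊥) ∧ Cx l = ⊤
  k5 : nw → (5 : K) ≠ 0 → 3 ≤ q → ∀ y, y ^ 5 = 1 → Re y → dm l y ≠ 18

/-- No totally white submodules in proper canonical subspaces. -/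
def WP (r : S →* End K (N K)) : Prop :=
  ∀ U, Can r U → U ≠ ⊤ → ∀ R ≤ U, Sb r R → TW R → R = ⊥

/-- The diagonal torus of the first `SL₃`. -/
def dg (d : Fin 3 → Kˣ) : End K (N K) := LinearMap.mulLeft K fun a : I27 =>
  ((if a.1 = 0 then d a.2.1 else if a.1 = 2 then (d a.2.2)⁻¹ else 1 : Kˣ) : K)

/-- The four-group `⟨s, t⟩` is standard, and its torus fixes no proper canonical subspace. -/
def V4 (r r' : S →* End K (N K)) (s t : S) : Prop :=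
  ∃ g g' : End K (N K), Jg g g' ∧ r s * g = g * dg ![1, -1, -1] ∧ r t * g = g * dg ![-1, 1, -1] ∧
    r' s * g' = g' * dg ![1, -1, -1] ∧ r' t * g' = g' * dg ![-1, 1, -1] ∧
    ∀ U, Can r' U → (∀ d : Fin 3 → Kˣ, d 0 * d 1 * d 2 = 1 → ∀ v, g' v ∈ U → g' (dg d v) ∈ U) →
      U = ⊥ ∨ U = ⊤

/-- The fixed points on a torus of rank at least `k`. -/
structure Tk (q z k : ℕ) (T : Subgroup S) : Prop where
  le : (q - 1) ^ k ≤ z * Nat.card T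
  ex : 0 < k → ∀ e, 0 < e → (∀ s ∈ T, s ^ e = 1) → q ≤ e * z + 1
  co : (Nat.card T).Coprime q
  th : q = 3 → 3 ≤ k → ¬ Nat.card T ∣ 10

/-- `T` centralizes `x`, its fixed space and its cofixed space. -/
structure Zs (l : S →* End K W) (x : S) (T : Subgroup S) : Prop where
  cm : ∀ s ∈ T, Commute s x
  fx : ∀ s ∈ T, fs (l x) ≤ fs (l s)
  cx : ∀ s ∈ T, LinearMap.range (l s - 1) ≤ LinearMap.range (l x - 1)

/-- Central tori of centralizers. -/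
structure TU (q z : ℕ) (l : S →* End K W) : Prop where
  u2 : (2 : K) ≠ 0 → ∀ x, x ^ 2 = 1 → dm l x = 46 →
    ∃ T, Tk q z 1 T ∧ Zs l x T ∧ ∀ g, Commute g x → ∀ s ∈ T, Commute g s
  u3 : (3 : K) ≠ 0 → ∀ x, x ^ 3 = 1 → Re x → dm l x = 30 → ∃ T, Tk q z 2 T ∧ Zs l x T
  u5 : (5 : K) ≠ 0 → ∀ x, x ^ 5 = 1 → Re x → dm l x = 18 → ∃ T, Tk q z 3 T ∧ Zs l x T
  u7 : (7 : K) ≠ 0 → ∀ x, x ^ 7 = 1 → x ≠ 1 → IsConj x (x ^ 2) → ∃ T, Tk q z 2 T ∧ Zs l x T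

/-- A central extension with kernel of order `z` dividing three. -/
structure Ce {Y X : Type*} [Group Y] [Group X] (z : ℕ) (θ : Y →* X) : Prop where
  surj : Surjective θ
  cen : θ.ker ≤ Subgroup.center Y
  card : Nat.card θ.ker = z
  dvd : z ∣ 3

/-- The lifts of `x` and `y` do not commute. -/
def Nc {Y X : Type*} [Group Y] [Group X] (θ : Y →* X) (x y : X) : Prop :=
  ∃ a b, θ a = x ∧ θ b = y ∧ ¬ Commute a b

/-- The point stabilizer, symmetric groups. -/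
def upP {n : ℕ} : Perm (Fin n) →* Perm (Fin (n + 1)) :=
  .mk' (fun g => finSuccEquivLast.symm.permCongr (optionCongr g)) fun a b => by
    ext i
    simp only [permCongr_apply, symm_symm, optionCongr_apply, Perm.coe_mul, comp_apply,
      apply_symm_apply, Option.map_map]

theorem upP_cast {n : ℕ} (g : Perm (Fin n)) (i : Fin n) : upP g i.castSucc = (g i).castSucc := by
  simp [upP]

theorem upP_last {n : ℕ} (g : Perm (Fin n)) : upP g (Fin.last n) = Fin.last n := by simp [upP]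

/-- The point stabilizer. -/
def up {n : ℕ} : An n →* An (n + 1) :=
  (upP.comp (alternatingGroup _).subtype).codRestrict _ fun g => by
    simpa [upP] using Perm.mem_alternatingGroup.1 g.2

/-- `(0 1 2)`. -/
def x6 : An 6 := ap ![1, 2, 0, 3, 4, 5] ![2, 0, 1, 3, 4, 5]
/-- `(3 4 5)`. -/
def y6 : An 6 := ap ![0, 1, 2, 4, 5, 3] ![0, 1, 2, 5, 3, 4]
/-- `(0 1 2 3 4)`. -/
def f6 : An 6 := ap ![1, 2, 3, 4, 0, 5] ![4, 0, 1, 2, 3, 5]
/-- `(0 1)(2 3)`. -/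
def s6 : An 6 := ap ![1, 0, 3, 2, 4, 5] ![1, 0, 3, 2, 4, 5]
/-- `(0 2)(1 3)`. -/
def t6 : An 6 := ap ![2, 3, 0, 1, 4, 5] ![2, 3, 0, 1, 4, 5]
/-- `(4 5 6)`. -/
def x7 : An 7 := ap ![0, 1, 2, 3, 5, 6, 4] ![0, 1, 2, 3, 6, 4, 5]

/-- The common fixed space of `V₄ × 3` in `A₇`. -/
def F12 (l : An 7 →* End K W) : Submodule K W := fs (l (up s6)) ⊓ fs (l (up t6)) ⊓ fs (l x7)

end

section
open CF.Chev CF.BN CF.E83 Matrix
open CF.Geom.E6 (wt)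

/-- The Lie bracket. -/
noncomputable def bk (K : Type*) [Field K] : LA K →ₗ[K] LA K →ₗ[K] LA K :=
  (toLin' : Matrix _ _ K ≃ₗ[K] _).toLinearMap ∘ₗ cE6.ad K

variable {p q z : ℕ} [Fact p.Prime] {X : Type*} [Group X] (L : LS cE6 1 p q z X)

/-- The finite universal group. -/
abbrev Yg := BN.Fx L.T.σ

/-- Restriction to the finite group. -/
abbrev rY {M : Type*} [Monoid M] (R : L.G →* M) : Yg L →* M := R.comp (Yg L).subtype

/-- A conjugated torus element. -/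
noncomputable abbrev tc (g : L.G) (c : Fin 6 → L.Kˣ) : L.G := g * L.h.r3.tor c * g⁻¹

/-- The two modules of dimension `27`. -/
structure Sd (R R' : L.G →* End L.K (N L.K)) (ε : ℤ) : Prop where
  sg : ε = 1 ∨ ε = -1
  jp : JP R R'
  tor : ∀ c a, R (L.h.r3.tor c) (Pi.single a 1) =
    ((∏ i, c i ^ (ε * wt a i) : L.Kˣ) : L.K) • (Pi.single a 1 : N L.K)
  tor' : ∀ c a, R' (L.h.r3.tor c) (Pi.single a 1) =
    ((∏ i, c i ^ (-ε * wt a i) : L.Kˣ) : L.K) • (Pi.single a 1 : N L.K)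
  fr : ∀ g v, R (L.T.σ g) (L.φ ∘ v) = L.φ ∘ R g v
  fr' : ∀ g v, R' (L.T.σ g) (L.φ ∘ v) = L.φ ∘ R' g v
  irr : Irr (rY L R)
  irr' : Irr (rY L R')
  cen : ∀ g ∈ Subgroup.center L.G, ∃ a : L.K, a ^ 3 = 1 ∧ (g ≠ 1 → a ≠ 1) ∧ ∀ v, R g v = a • v
  cen' : ∀ g ∈ Subgroup.center L.G, ∃ a : L.K, a ^ 3 = 1 ∧ (g ≠ 1 → a ≠ 1) ∧ ∀ v, R' g v = a • v

/-- The adjoint module. -/
structure Ld (f : L.G →* GL (Fin 6 ⊕ Fin 72) L.K) (l : X →* End L.K (LA L.K)) : Prop where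
  hf : L.ρ.IsAdHom f
  eq : ∀ y : Yg L, l (L.θ y) = X3.Ad f y
  fr : ∀ g v, X3.Ad f (L.T.σ g) (L.φ ∘ v) = L.φ ∘ X3.Ad f g v
  br : ∀ g u v, X3.Ad f g (bk L.K u v) = bk L.K (X3.Ad f g u) (X3.Ad f g v)
  alt : ∀ u, bk L.K u u = 0
  fx : finrank L.K (Al.Fx l) ≤ 1
  fx' : (3 : L.K) ≠ 0 → Al.Fx l = ⊥
  cx : Al.Cx l = ⊤
  irr : (5 : L.K) = 0 → Irr l

variable {L}

theorem Jg.symm {K : Type*} [Field K] {g g' : End K (N K)} (h : Jg g g') : Jg g' g :=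
  ⟨fun v w => by rw [dotProduct_comm, h.pr, dotProduct_comm], h.s2, h.s1, h.t2, h.t1⟩

theorem JP.symm {K S : Type*} [Field K] [Group S] {r r' : S →* End K (N K)} (h : JP r r') :
    JP r' r := fun g => (h g).symm

theorem Sd.symm {R R' : L.G →* End L.K (N L.K)} {ε : ℤ} (h : Sd L R R' ε) : Sd L R' R (-ε) :=
  ⟨by have := h.sg; omega, h.jp.symm, h.tor', by simpa using h.tor, h.fr', h.fr, h.irr', h.irr,
    h.cen', h.cen⟩

end

end CF.Am
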