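import Cfsg.Agent.Am.A
import Cfsg.Agent.Al.O

/-! Automorphisms of `A₆` and the triple cover. -/

set_option autoImplicit false

namespace CF.Am

open Function CF.Al Equiv Subgroup CF.Perm
open scoped commutatorElement

namespace AU

variable {Y X : Type*} [Group Y] [Group X] {θ : Y →* X} {z : ℕ}

theorem cm (E : Ce z θ) {a a' b b' : Y} (h1 : θ a = θ a') (h2 : θ b = θ b') : ⁅a, b⁆ = ⁅a', b'⁆ := by
  have k : ∀ {u v : Y}, θ u = θ v → ∃ c ∈ center Y, u = v * c := fun {u v} h =>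
    ⟨v⁻¹ * u, E.cen (by simp [h]), by simp⟩
  obtain ⟨c, hc, rfl⟩ := k h1
  obtain ⟨d, hd, rfl⟩ := k h2
  have e1 := mem_center_iff.1 hc
  have e2 := mem_center_iff.1 hd
  simp only [commutatorElement_def, mul_inv_rev]
  calc a' * c * (b' * d) * (c⁻¹ * a'⁻¹) * (d⁻¹ * b'⁻¹)
      = a' * (c * (b' * d)) * (c⁻¹ * a'⁻¹) * (d⁻¹ * b'⁻¹) := by group
    _ = a' * b' * (d * a'⁻¹) * (d⁻¹ * b'⁻¹) := by rw [← e1]; group
    _ = _ := by rw [← e2]; group

/-- no element acts with determinant `-1` -/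
theorem det (E : Ce z θ) {x y h : X} (c : Commute x y) (nc : Nc θ x y)
    (e : (h * x * h⁻¹ = x⁻¹ ∧ h * y * h⁻¹ = y) ∨ (h * x * h⁻¹ = x * y ∧ h * y * h⁻¹ = x⁻¹ * y)) : False := by
  obtain ⟨a, b, rfl, rfl, n⟩ := nc
  obtain ⟨g, rfl⟩ := E.surj h
  have k : ⁅a, b⁆ ∈ θ.ker := by
    rw [MonoidHom.mem_ker, map_commutatorElement]; exact commutatorElement_eq_one_iff_commute.2 c
  have m := mem_center_iff.1 (E.cen k)
  have o : ⁅a, b⁆ ^ 3 = 1 := by
    obtain ⟨i, hi⟩ := E.dvd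
    have := congrArg Subtype.val (pow_card_eq_one' (x := (⟨_, k⟩ : θ.ker)))
    rw [E.card, coe_pow] at this
    rw [hi, pow_mul, this, coe_one, one_pow]
  have e1 : ⁅g * a * g⁻¹, g * b * g⁻¹⁆ = ⁅a, b⁆ := by
    rw [← conjugate_commutatorElement, m, mul_inv_cancel_right]
  have c1 : ⁅a⁻¹, b⁆ = a⁻¹ * (⁅a, b⁆⁻¹ * a) := by simp only [commutatorElement_def]; group
  have c2 : ⁅a * b, a⁻¹ * b⁆ = ⁅a, b⁆ * (a⁻¹ * (⁅a, b⁆ * a)) := by simp only [commutatorElement_def]; group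
  refine n (commutatorElement_eq_one_iff_commute.1 ?_)
  rcases e with ⟨e2, e3⟩ | ⟨e2, e3⟩
  · rw [cm E (a' := a⁻¹) (b' := b) (by simpa using e2) (by simpa using e3), c1,
      ← mem_center_iff.1 (inv_mem (E.cen k)), inv_mul_cancel_left, inv_eq_iff_mul_eq_one] at e1
    rwa [pow_succ, pow_two, e1, one_mul] at o
  · rw [cm E (a' := a * b) (b' := a⁻¹ * b) (by simpa using e2) (by simpa using e3), c2, ← m a,
      inv_mul_cancel_left] at e1
    simpa using e1

end AU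

open AU

variable {X : Type*} [Group X] [Finite X] {H T : Subgroup X}
  {Y : Type*} [Group Y] [Finite Y] {θ : Y →* X} {z : ℕ} (E : Ce z θ)
include E

theorem eq_range {j : An 6 →* X} (M : Mx H j) (nc : Nc θ (j x6) (j y6))
    (ir : ¬ IsConj (j f6) (j f6 ^ 2)) : H = j.range := by
  refine le_antisymm (fun h hh => ?_) (by rintro _ ⟨g, rfl⟩; exact M.le g)
  choose α hα using M.nor h hh
  have am : ∀ a b, α (a * b) = α a * α b := fun a b => M.inj (by rw [map_mul, ← hα, ← hα, ← hα, map_mul]; group)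
  let ψ : MulAut (An 6) := .ofBijective (MonoidHom.mk' α am) (Finite.injective_iff_bijective.1 fun a b e =>
    M.inj ((MulAut.conj h).injective ((hα a).trans ((congrArg j e).trans (hα b).symm))))
  have hψ : ∀ g, h * j g * h⁻¹ = j (ψ g) := hα
  obtain ⟨ω, k, -⟩ := O.ex_om
  obtain ⟨σ, hσ⟩ := aut_alt_six (by simp) (θ := resAlt ω) (fun c hc h => by
    have h2 : (O.ws [0, 1]).IsThreeCycle := card_support_eq_three_iff.1 (by decide)
    have h4 := (Perm.isConj_iff_cycleType_eq.1 (ω.toMonoidHom.map_isConj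
      (Perm.isConj_iff_cycleType_eq.2 (h2.trans hc.symm)))).trans h
    rw [MulEquiv.coe_toMonoidHom, k] at h4
    exact absurd (Perm.IsThreeCycle.card_support h4) (by decide)) ψ
  obtain ⟨a, τ, hτ, rfl⟩ : ∃ (a : An 6) (τ : O.S6), (τ = 1 ∨ τ = O.ws [0]) ∧ σ = τ * a.1⁻¹ := by
    rcases Int.units_eq_one_or (Perm.sign σ) with s | s
    · exact ⟨⟨σ⁻¹, by simp [s]⟩, 1, .inl rfl, by simp⟩
    · exact ⟨⟨σ⁻¹ * O.ws [0], by simp [s, show Perm.sign (O.ws [0]) = -1 by decide]⟩, _, .inr rfl, by simp⟩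
  have q : ∀ (w g g' : An 6), ψ (a * g * a⁻¹) = w⁻¹ * g' * w →
      j w * h * j a * j g * (j w * h * j a)⁻¹ = j g' := fun w g g' e => by
    have := hψ (a * g * a⁻¹)
    rw [e] at this
    simp only [map_mul, map_inv] at this
    rw [← mul_left_inj (j w), ← mul_right_inj (j w)⁻¹, ← mul_assoc _ (j g'), ← this]; group
  have c : Commute (j x6) (j y6) := Commute.map (Subtype.ext (by decide)) j
  have x1 : x6.1 = O.ws [0, 1] := by decide
  have y1 : y6.1 = O.ws [3, 4] := by decide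
  have f1 : f6.1 = O.ws [0, 1, 2, 3] := by decide
  rcases hσ with e | e <;> rcases hτ with rfl | rfl
  · have := M.cen (j 1 * h * j a) (mul_mem (mul_mem (M.le _) hh) (M.le _)) fun g =>
      (mul_inv_eq_iff_eq_mul.1 (q 1 g g (Subtype.ext (by simp [e, mul_assoc])))).symm
    exact ⟨a⁻¹, by rw [map_inv, eq_comm, eq_inv_iff_mul_eq_one, ← this, map_one, one_mul]⟩
  · refine (det E (h := j 1 * h * j a) c nc (.inl ⟨?_, q _ _ _ (Subtype.ext ?_)⟩)).elim
    · rw [← map_inv]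
      refine q _ _ _ (Subtype.ext ?_)
      simp [e, mul_assoc]
      decide
    · simp [e, mul_assoc]
      decide
  · refine (ir (isConj_iff.2 ⟨j (ap ![0, 2, 4, 5, 3, 1] ![0, 5, 1, 4, 2, 3]) * h * j a, ?_⟩)).elim
    rw [← map_pow]
    refine q _ _ _ (Subtype.ext ?_)
    simp [e, mul_assoc, f1, k]
    decide
  · have x2 : O.ws [0] * (x6.1 * (O.ws [0])⁻¹) = O.ws [1, 0] := by decide
    have y2 : O.ws [0] * (y6.1 * (O.ws [0])⁻¹) = O.ws [3, 4] := by decide
    refine (det E (h := j (ap ![3, 0, 4, 2, 1, 5] ![1, 4, 3, 0, 2, 5]) * h * j a) c nc (.inr ⟨?_, ?_⟩)).elim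
    · rw [← map_mul]
      refine q _ _ _ (Subtype.ext ?_)
      simp [e, mul_assoc, -map_mul, x2, k]
      decide
    · rw [← map_inv, ← map_mul]
      refine q _ _ _ (Subtype.ext ?_)
      simp [e, mul_assoc, -map_mul, y2, k]
      decide

end CF.Am
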