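import Cfsg.Agent.Am.A

/-! Alternating subgroups of `E₆(q)`: basic lemmas. -/

set_option autoImplicit false

namespace CF.Am

open Module Function Cfsg.Lie CF.E83 CF.Al CF.Geom Finset

section
variable {K V W : Type*} [Field K] [AddCommGroup V] [Module K V] [AddCommGroup W] [Module K W]
  {S : Type*} [Group S]

theorem sh_add (v w : N K) : sh (v + w) = sh v + cr v w + sh w := by
  funext a
  simp only [sh, cr, E6.Q, E6.R, Pi.add_apply, ← sum_add_distrib]
  exact sum_congr rfl fun n _ => by ring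

theorem sh_smul (a : K) (v : N K) : sh (a • v) = a ^ 2 • sh v := by
  funext b
  simp only [sh, E6.Q, Pi.smul_apply, smul_eq_mul, mul_sum]
  exact sum_congr rfl fun n _ => by ring

theorem cr_self (v : N K) : cr v v = (2 : K) • sh v := by
  funext b
  simp only [sh, cr, E6.Q, E6.R, Pi.smul_apply, smul_eq_mul, mul_sum]
  exact sum_congr rfl fun n _ => by ring

theorem cr_comm (v w : N K) : cr v w = cr w v := by
  funext b
  simp only [cr, E6.R]
  exact sum_congr rfl fun n _ => by ring

theorem cr_add (u v w : N K) : cr u (v + w) = cr u v + cr u w := by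
  funext a
  simp only [cr, E6.R, Pi.add_apply, ← sum_add_distrib]
  exact sum_congr rfl fun n _ => by ring

theorem cr_smul (a : K) (v w : N K) : cr v (a • w) = a • cr v w := by
  funext b
  simp only [cr, E6.R, Pi.smul_apply, smul_eq_mul, mul_sum]
  exact sum_congr rfl fun n _ => by ring

/-- The cross product as a bilinear map. -/
def crL : N K →ₗ[K] N K →ₗ[K] N K := LinearMap.mk₂ K cr
  (fun u v w => by rw [cr_comm, cr_add, cr_comm w, cr_comm w])
  (fun a v w => by rw [cr_comm, cr_smul, cr_comm]) cr_add fun a v w => cr_smul a v w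

theorem crL_apply (v w : N K) : crL v w = cr v w := rfl

theorem sh_zero : sh (0 : N K) = 0 := by simpa using sh_smul (0 : K) 0

theorem sh_neg (v : N K) : sh (-v) = sh v := by simpa using sh_smul (-1 : K) v

theorem cr_dot (u v w : N K) : cr u v ⬝ᵥ w = cr u w ⬝ᵥ v := by
  simp [dotProduct, cr, E6.R, Fintype.sum_prod_type, Fin.sum_univ_three, Fin.sum_univ_five, E6.p1,
    E6.p2, E6.ep]
  ring

theorem sh_dot (v : N K) : sh v ⬝ᵥ v = 3 * cubicT v := by
  simp [cubicT, mat3, Matrix.det_fin_three, Matrix.trace, Matrix.mul_apply, dotProduct, sh, E6.Q,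
    Fintype.sum_prod_type, Fin.sum_univ_three, Fin.sum_univ_five, E6.p1, E6.p2, E6.ep]
  ring

theorem sh_dot_eq (v w : N K) : sh v ⬝ᵥ w = E6.B v w := dotProduct_comm _ _

theorem T_add' (v w : N K) : cubicT (v + w) = cubicT v + sh v ⬝ᵥ w + sh w ⬝ᵥ v + cubicT w := by
  rw [sh_dot_eq, sh_dot_eq, E6.T_add]

theorem sh_sum {I : Type*} [LinearOrder I] (s : Finset I) (v : I → N K) : sh (∑ i ∈ s, v i) =
    ∑ i ∈ s, sh (v i) + ∑ i ∈ s, ∑ j ∈ s with i < j, cr (v i) (v j) := by
  induction s using Finset.induction_on_min with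
  | empty => simp [sh_zero]
  | insert a s h ih =>
    have ha : a ∉ s := fun m => (h a m).false
    have h1 : (insert a s).filter (a < ·) = s := by
      ext x; simpa using ⟨fun e => e.1.resolve_left e.2.ne', fun e => ⟨.inr e, h x e⟩⟩
    have h2 : ∀ i ∈ s, ∑ j ∈ insert a s with i < j, cr (v i) (v j) =
        ∑ j ∈ s with i < j, cr (v i) (v j) := fun i m => by
      rw [filter_insert, if_neg (h i m).not_gt]
    rw [sum_insert ha, sum_insert ha, sum_insert ha, sh_add, ih, h1, sum_congr rfl h2, ← crL_apply,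
      map_sum]
    simp only [crL_apply]
    abel

theorem TW.cr {U : Submodule K (N K)} (h : TW U) {v w : N K} (hv : v ∈ U) (hw : w ∈ U) :
    cr v w = 0 := by simpa [h _ hv, h _ hw, h _ (add_mem hv hw)] using (sh_add v w).symm

theorem Jg.cr {g g' : End K (N K)} (h : Jg g g') (v w : N K) : cr (g v) (g w) = g' (cr v w) := by
  have := h.s1 (v + w)
  rw [map_add, sh_add, sh_add, map_add, map_add, h.s1, h.s1] at this
  exact add_left_cancel (add_right_cancel this)

theorem Jg.bij {g g' : End K (N K)} (h : Jg g g') : Bijective g := by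
  have : Injective g := (injective_iff_map_eq_zero g).2 fun v e =>
    dotProduct_eq_zero v fun w => by rw [← h.pr, e, zero_dotProduct]
  exact ⟨this, LinearMap.injective_iff_surjective.1 this⟩

theorem JP.comp {r r' : S →* End K (N K)} (h : JP r r') {A : Type*} [Group A] (j : A →* S) :
    JP (r.comp j) (r'.comp j) := fun g => h (j g)

theorem JP.dot {r r' : S →* End K (N K)} (h : JP r r') (g : S) (v w : N K) :
    r g v ⬝ᵥ w = v ⬝ᵥ r' g⁻¹ w := by
  rw [← (h g).pr v, ← End.mul_apply, ← map_mul, mul_inv_cancel, map_one, End.one_apply]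

/-- The orthogonal complement. -/
def pp (U : Submodule K (N K)) : Submodule K (N K) :=
  U.dualAnnihilator.comap (dotProductEquiv K I27).toLinearMap

theorem mem_pp {U : Submodule K (N K)} {w : N K} : w ∈ pp U ↔ ∀ v ∈ U, v ⬝ᵥ w = 0 := by
  simp [pp, dotProduct_comm]

theorem rk_pp (U : Submodule K (N K)) : finrank K U + finrank K (pp U) = 27 := by
  rw [pp, Submodule.comap_equiv_eq_map_symm, LinearEquiv.finrank_map_eq,
    Subspace.finrank_add_finrank_dualAnnihilator_eq]
  simp

theorem JP.dm_eq {r r' : S →* End K (N K)} (h : JP r r') (x : S) : dm r' x = dm r x := by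
  have h1 : fs (r' x) = pp (LinearMap.range (r x - 1)) := by
    ext w
    rw [mem_fs, mem_pp]
    refine ⟨?_, fun e => sub_eq_zero.1 (dotProduct_eq_zero _ fun u => ?_)⟩
    · rintro e _ ⟨v, rfl⟩
      rw [LinearMap.sub_apply, sub_dotProduct, End.one_apply, ← (h x).pr v w, e, sub_self]
    · obtain ⟨u, rfl⟩ := (h x).bij.2 u
      have := e _ ⟨u, rfl⟩
      rw [LinearMap.sub_apply, sub_dotProduct, End.one_apply] at this
      rw [dotProduct_comm, dotProduct_sub, (h x).pr, ← neg_sub, this, neg_zero]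
  have h2 := rk_pp (LinearMap.range (r x - 1))
  have h3 := (r x - 1).finrank_range_add_finrank_ker
  rw [← h1] at h2
  simp only [finrank_fintype_fun_eq_card, Fintype.card_prod, Fintype.card_fin] at h3
  unfold dm
  unfold fs at *
  omega

theorem JP.pp_cx {r r' : S →* End K (N K)} (h : JP r r') : pp (Cx r) = Fx r' := by
  ext w
  rw [mem_pp, mem_Fx, show (∀ v ∈ Cx r, v ⬝ᵥ w = 0) ↔ Cx r ≤ pp (Submodule.span K {w}) from
    forall₂_congr fun v _ => by
      simp only [mem_pp, Submodule.mem_span_singleton, forall_exists_index, forall_apply_eq_imp_iff]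
      exact ⟨fun e a => by rw [smul_dotProduct, dotProduct_comm, e, smul_zero],
        fun e => by simpa [dotProduct_comm] using e 1⟩, Cx_le]
  simp only [mem_pp, Submodule.mem_span_singleton, forall_exists_index, forall_apply_eq_imp_iff]
  refine ⟨fun e g => sub_eq_zero.1 (dotProduct_eq_zero _ fun u => ?_), fun e g v a => ?_⟩
  · have := e g⁻¹ u 1
    rwa [one_smul, dotProduct_sub, dotProduct_comm, h.dot, inv_inv, dotProduct_comm u,
      ← sub_dotProduct] at this
  · rw [smul_dotProduct, dotProduct_sub, dotProduct_comm, h.dot, e, dotProduct_comm, sub_self,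
      smul_zero]

theorem JP.cx {r r' : S →* End K (N K)} (h : JP r r') : Cx r = ⊤ ↔ Fx r' = ⊥ := by
  have := rk_pp (Cx r)
  rw [← h.pp_cx, ← Submodule.finrank_eq_zero]
  refine ⟨fun e => ?_, fun e => Submodule.eq_top_of_finrank_eq (by simpa [e] using this)⟩
  rw [e] at this ⊢
  simpa using this

theorem JP.ga [Fintype S] {r r' : S →* End K (N K)} (h : JP r r') {a : S → ℤ} (ha : ∀ g, a g⁻¹ = a g)
    (v w : N K) : ga r a v ⬝ᵥ w = v ⬝ᵥ ga r' a w := by
  simp only [Am.ga, LinearMap.sum_apply, LinearMap.smul_apply, sum_dotProduct, dotProduct_sum,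
    smul_dotProduct, dotProduct_smul, h.dot]
  exact Fintype.sum_equiv (Equiv.inv S) _ _ fun g => by simp [ha]

/-- Scott for a dual pair. -/
theorem JP.sco {r r' : S →* End K (N K)} (h : JP r r') {x y : S}
    (g : ∀ H : Subgroup S, x ∈ H → y ∈ H → H = ⊤) (e : 27 < dm r x + dm r y + dm r (x * y)) :
    Fx r ≠ ⊥ ∨ Fx r' ≠ ⊥ := (sco' g (by simpa using e)).imp_right (mt h.cx.2)

theorem Re.map {A : Type*} [Group A] (j : A →* S) {x : A} (h : Re x) : Re (j x) := by
  have := j.map_isConj h
  rwa [map_inv] at this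

theorem TL.comp {q : ℕ} {l : S →* End K W} (h : TL q l) {A : Type*} [Group A] {j : A →* S}
    (hj : Injective j) : TL q (l.comp j) := by
  have k : ∀ {x : A} {n}, x ^ n = 1 → j x ^ n = 1 := fun e => by rw [← map_pow, e, map_one]
  have n : ∀ {x : A}, x ≠ 1 → j x ≠ 1 := mt (map_eq_one_iff j hj).1
  have c : ∀ {x : A}, IsConj x (x ^ 2) → IsConj (j x) (j x ^ 2) := fun e =>
    map_pow j _ 2 ▸ j.map_isConj e
  refine ⟨h.hq, h.q2, h.dl, fun a x e b => h.t2 a _ (k e) (n b),
    fun a x e b d => h.t3 a _ (k e) (n b) (d.map j), fun a x e b d => ?_,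
    fun a x e b d => (h.t5 a _ (k e) (n b) (d.map j)).imp_right fun f g => f (g.imp_left c),
    fun a a' x e d => ?_, fun a x e b d => h.t7 a _ (k e) (n b) (c d)⟩
  · have := h.t4 a _ (k e) (map_pow j x 2 ▸ n b) (d.map j)
    rwa [← map_pow] at this
  · have := h.t6 a a' _ (k e) (d.map j)
    rwa [← map_pow] at this

theorem TB.comp {q : ℕ} {r : S →* End K V} {l : S →* End K W} (h : TB q r l) {A : Type*} [Group A]
    {j : A →* S} (hj : Injective j) : TB q (r.comp j) (l.comp j) := by
  have k : ∀ {x : A} {n}, x ^ n = 1 → j x ^ n = 1 := fun e => by rw [← map_pow, e, map_one]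
  have n : ∀ {x : A}, x ≠ 1 → j x ≠ 1 := mt (map_eq_one_iff j hj).1
  have c : ∀ {x : A}, IsConj x (x ^ 2) → IsConj (j x) (j x ^ 2) := fun e =>
    map_pow j _ 2 ▸ j.map_isConj e
  exact ⟨h.toTL.comp hj, h.dr, fun a x e => h.i2 a _ (k e), fun a x e b => h.n2 a _ (k e) (n b),
    fun a x e b d => h.n3 a _ (k e) (n b) (d.map j),
    fun a x e d b => h.n4 a _ (k e) (d.map j) (map_pow j x 2 ▸ b),
    fun a x e b d => (h.n5 a _ (k e) (n b) (d.map j)).imp_right fun f g => f (g.imp_left c),
    fun a x e b d => h.n7 a _ (k e) (n b) (c d)⟩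

theorem TB.symm {q : ℕ} {r r' : S →* End K (N K)} {l : S →* End K W} (h : TB q r l) (j : JP r r') :
    TB q r' l := by
  refine ⟨h.toTL, h.dr, ?_, ?_, ?_, ?_, ?_, ?_⟩ <;> simp only [j.dm_eq]
  exacts [h.i2, h.n2, h.n3, h.n4, h.n5, h.n7]

theorem HN.symm {q : ℕ} {r r' : S →* End K (N K)} {l : S →* End K W} (h : HN q r r' l) :
    HN q r' r l := ⟨h.jp.symm, h.tb.symm h.jp, h.fx', h.fx⟩

theorem HN.sco {q : ℕ} {r r' : S →* End K (N K)} {l : S →* End K W} (h : HN q r r' l) {x y : S}
    (g : ∀ H : Subgroup S, x ∈ H → y ∈ H → H = ⊤) : dm r x + dm r y + dm r (x * y) ≤ 27 :=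
  not_lt.1 fun e => (h.jp.sco g e).elim (· h.fx) (· h.fx')

theorem HL.sco [FiniteDimensional K W] {q : ℕ} {nw : Prop} {l : S →* End K W} (h : HL q nw l) {x y : S}
    (g : ∀ H : Subgroup S, x ∈ H → y ∈ H → H = ⊤) (e : 79 < dm l x + dm l y + dm l (x * y)) : nw := by
  by_contra k
  obtain ⟨h1, -, h2⟩ := h.old k
  have := Al.sco (r := l) g
  rw [h2, finrank_top, h.tl.dl] at this
  omega

theorem ga_map [Fintype S] (r : S →* End K V) {a : S → ℤ} {α : MulAut S} (ha : ∀ g, a (α g) = a g)
    {g : V →+ V} (h : ∀ a v, g (r a v) = r (α a) (g v)) (v : V) : g (ga r a v) = ga r a (g v) := by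
  simp only [ga, LinearMap.sum_apply, LinearMap.smul_apply, map_sum, Int.cast_smul_eq_zsmul,
    map_zsmul, h]
  exact Fintype.sum_equiv α.toEquiv _ _ fun x => by simp [ha]

theorem can_ker [Fintype S] (r : S →* End K V) {a : S → ℤ} (ha : ∀ (α : MulAut S) g, a (α g) = a g) :
    Can r (LinearMap.ker (ga r a)) := fun g α h v hv => by
  rw [LinearMap.mem_ker, ← ga_map r (ha α) h, LinearMap.mem_ker.1 hv, map_zero]

theorem can_range [Fintype S] (r : S →* End K V) {a : S → ℤ}
    (ha : ∀ (α : MulAut S) g, a (α g) = a g) : Can r (LinearMap.range (ga r a)) := by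
  rintro g α h _ ⟨v, rfl⟩
  exact ⟨g v, (ga_map r (ha α) h v).symm⟩

theorem Can.sb {r : S →* End K V} {U : Submodule K V} (h : Can r U) : Sb r U := fun g =>
  h (r g).toAddMonoidHom (MulAut.conj g) fun a v => by
    simp [← End.mul_apply, ← map_mul]

/-- `(g - 1)² = g² - 1` in characteristic two. -/
theorem half [FiniteDimensional K V] (h2 : (2 : K) = 0) (r : S →* End K V) (x : S) :
    dm r (x ^ 2) ≤ 2 * dm r x := by
  have h1 := rk_map (r x - 1) (fs (r (x ^ 2)))
  have h3 : (fs (r (x ^ 2))).map (r x - 1) ≤ fs (r x) := by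
    rintro _ ⟨v, hv, rfl⟩
    have := mem_fs.1 hv
    rw [sq, map_mul, End.mul_apply] at this
    rw [mem_fs, LinearMap.sub_apply, map_sub, this, End.one_apply, sub_eq_sub_iff_add_eq_add,
      ← two_smul K, ← two_smul K, h2, zero_smul, zero_smul]
  have := Submodule.finrank_mono h3
  have := Submodule.finrank_mono (inf_le_right (a := fs (r (x ^ 2))) (b := LinearMap.ker (r x - 1)))
  unfold dm
  unfold fs at *
  omega

theorem up_cast {n : ℕ} (g : An n) (i : Fin n) : (up g).1 i.castSucc = (g.1 i).castSucc :=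
  upP_cast _ _

theorem up_last {n : ℕ} (g : An n) : (up g).1 (Fin.last n) = Fin.last n := upP_last _

theorem up_inj {n : ℕ} : Injective (up (n := n)) := fun a b e => Subtype.ext (Equiv.ext fun i =>
  Fin.castSucc_injective _ (by rw [← up_cast, ← up_cast, e]))

theorem exists_up {n : ℕ} {g : An (n + 1)} (h : g.1 (Fin.last n) = Fin.last n) : ∃ a, up a = g := by
  let σ := Equiv.removeNone (finSuccEquivLast.permCongr g.1)
  have h1 : upP σ = g.1 := by
    ext i : 1
    induction i using Fin.lastCases with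
    | last => rw [upP_last, h]
    | cast i =>
      obtain ⟨k, hk⟩ := Fin.exists_castSucc_eq.2 (g.1.injective.ne (Fin.castSucc_ne_last i) |>.trans_eq h)
      have := Equiv.removeNone_some (finSuccEquivLast.permCongr g.1) (x := i) ⟨k, by simp [← hk]⟩
      rw [upP_cast, ← hk]
      simpa [← hk] using this
  refine ⟨⟨σ, ?_⟩, Subtype.ext h1⟩
  have := Equiv.Perm.mem_alternatingGroup.1 g.2
  rw [← h1] at this
  simpa [upP] using this

theorem exists_mv {n : ℕ} (hn : 2 ≤ n) (i k : Fin (n + 1)) : ∃ g : An (n + 1), g.1 k = i := by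
  have := alternatingGroup.isPretransitive_of_three_le_card (α := Fin (n + 1)) (by simp; omega)
  exact MulAction.exists_smul_eq (An (n + 1)) k i

/-- The orbit of a vector fixed by the point stabilizer. -/
theorem exists_vs {n : ℕ} (hn : 2 ≤ n) (r : An (n + 1) →* End K V) {v : V} (hv : v ∈ Fx (r.comp up)) :
    ∃ u : Fin (n + 1) → V, u (Fin.last n) = v ∧ ∀ g i, r g (u i) = u (g.1 i) := by
  choose c hc using fun i => exists_mv hn i (Fin.last n)
  have k : ∀ g : An (n + 1), g.1 (Fin.last n) = Fin.last n → r g v = v := fun g e => by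
    obtain ⟨a, rfl⟩ := exists_up e
    exact mem_Fx.1 hv a
  refine ⟨fun i => r (c i) v, k _ (hc _), fun g i => ?_⟩
  have := k ((c (g.1 i))⁻¹ * (g * c i)) (by
    simp only [Subgroup.coe_mul, Subgroup.coe_inv, Equiv.Perm.mul_apply, hc]
    exact Equiv.Perm.inv_eq_iff_eq.2 (hc _).symm)
  have e := congrArg (r (c (g.1 i))) this
  rw [← End.mul_apply, ← map_mul, mul_inv_cancel_left, map_mul] at e
  exact e

end

end CF.Am
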