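import Cfsg.Agent.Am.A

/-! The Brauer character of any module in positive characteristic. -/

set_option autoImplicit false

namespace CF.Am

open Module Function CF.E83 CF.Al Matrix Polynomial

namespace BG

variable {K F R I : Type*} [Field K] [Field F] [CommRing R] [Fintype I] [DecidableEq I]

theorem ker_eq {E : Matrix I I K} {c : K} (hc : c ≠ 0) (h : E * E = c • E) :
    finrank K (LinearMap.ker (toLin' E)) = E.charpoly.natTrailingDegree := by
  rw [← charpoly_toLin', ← LinearMap.finrank_maxGenEigenspace_zero_eq]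
  refine congrArg (fun U : Submodule K (I → K) => finrank K U) ?_
  ext v
  simp only [LinearMap.mem_ker, End.mem_maxGenEigenspace, zero_smul, sub_zero]
  refine ⟨fun e => ⟨1, by simpa using e⟩, fun ⟨k, e⟩ => ?_⟩
  induction k with
  | zero => simp [show v = 0 from e]
  | succ k ih =>
    rcases k with _ | k
    · simpa using e
    refine ih ((smul_eq_zero.1 ?_).resolve_left hc)
    rw [pow_succ, pow_succ, mul_assoc, End.mul_eq_comp (toLin' E), ← toLin'_mul, h, map_smul,
      mul_smul_comm, ← pow_succ] at e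
    exact e

theorem add_eq {E : Matrix I I K} {c : K} (hc : c ≠ 0) (h : E * E = c • E) :
    finrank K (LinearMap.range (toLin' E)) = (c • 1 - E).charpoly.natTrailingDegree := by
  rw [← ker_eq hc (by simp [sub_mul, mul_sub, h, smul_sub, smul_smul])]
  refine congrArg (fun U : Submodule K (I → K) => finrank K U) ?_
  ext v
  refine ⟨?_, fun e => ⟨c⁻¹ • v, ?_⟩⟩
  · rintro ⟨w, rfl⟩
    simp [sub_mulVec, smul_mulVec, h]
  · have : c • v = E *ᵥ v := by simpa [sub_mulVec, smul_mulVec, sub_eq_zero] using e
    rw [map_smul, toLin'_apply, ← this, smul_smul, inv_mul_cancel₀ hc, one_smul]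

theorem tr_le {ι : R →+* K} (hι : Injective ι) (π : R →+* F) (E : Matrix I I R) :
    (E.map ι).charpoly.natTrailingDegree ≤ (E.map π).charpoly.natTrailingDegree :=
  le_natTrailingDegree (charpoly_monic _).ne_zero fun m hm => by
    have := coeff_eq_zero_of_lt_natTrailingDegree hm
    rw [charpoly_map, coeff_map, map_eq_zero_iff ι hι] at this
    rw [charpoly_map, coeff_map, this, map_zero]

theorem rank_eq {ι : R →+* K} (hι : Injective ι) (π : R →+* F) {E : Matrix I I R} {c : R}
    (h1 : ι c ≠ 0) (h2 : π c ≠ 0) (h : E * E = c • E) :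
    finrank F (LinearMap.range (toLin' (E.map π))) = finrank K (LinearMap.range (toLin' (E.map ι))) := by
  have k : ∀ {L : Type _} [CommRing L] (f : R →+* L), E.map f * E.map f = f c • E.map f ∧
      (c • 1 - E).map f = f c • 1 - E.map f := fun f =>
    ⟨by rw [← Matrix.map_mul, h]; ext; simp, by ext i j; by_cases e : i = j <;> simp [e]⟩
  have k' : E.map π * E.map π = π c • E.map π ∧ (c • 1 - E).map π = π c • 1 - E.map π :=
    ⟨by rw [← Matrix.map_mul, h]; ext; simp, by ext i j; by_cases e : i = j <;> simp [e]⟩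
  have a1 := tr_le hι π E
  have a2 := tr_le hι π (c • 1 - E)
  rw [(k ι).2, k'.2, ← add_eq h1 (k ι).1, ← add_eq h2 k'.1] at a2
  rw [← ker_eq h1 (k ι).1, ← ker_eq h2 k'.1] at a1
  have a3 := (toLin' (E.map π)).finrank_range_add_finrank_ker
  have a4 := (toLin' (E.map ι)).finrank_range_add_finrank_ker
  rw [finrank_fintype_fun_eq_card] at a3 a4
  omega

theorem br_of {V S : Type*} [AddCommGroup V] [Module K V] [Group S] [Fintype S] [Finite F] {p : ℕ}
    [CharP K p] [CharP F p] {ι : R →+* K} (hι : Injective ι) (π : R →+* F) (b : Basis I K V)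
    {r : S →* End K V} (n : S →* Matrix I I R) (h : ∀ g, (n g).map ι = LinearMap.toMatrix b b (r g)) :
    ∃ β, Br r β := by
  obtain ⟨β, c⟩ := exists_br0 (en (π.mapMatrix.toMonoidHom.comp n))
  refine ⟨β, c.conj, fun a N hN ha => ?_⟩
  have hN' : (N : F) ≠ 0 := by
    rwa [Ne, CharP.intCast_eq_zero_iff _ p, ← CharP.intCast_eq_zero_iff K p]
  have h2 : (∑ g, (a g : R) • n g) * ∑ g, (a g : R) • n g = (N : R) • ∑ g, (a g : R) • n g := by
    rw [Finset.sum_mul_sum, Finset.smul_sum]
    simp only [smul_smul, ← Int.cast_mul, ← ha, Int.cast_sum, Finset.sum_smul]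
    rw [Finset.sum_comm (f := fun g h : S => ((a h * a (h⁻¹ * g) : ℤ) : R) • n g)]
    refine Finset.sum_congr rfl fun x _ => Fintype.sum_equiv (Equiv.mulLeft x) _ _ fun y => ?_
    simp [smul_smul, mul_comm]
  have h3 := rank_eq hι π (by simpa using hN) (by simpa using hN') h2
  have h4 : (∑ g, (a g : R) • n g).map ι = LinearMap.toMatrix b b (∑ g, (a g : K) • r g) := by
    simp only [map_sum, map_smul, ← h]
    ext i j
    simp [Matrix.sum_apply]
  have := Module.Finite.of_basis b
  rw [h4, toLin'_apply', ← Matrix.rank, toLin'_apply', ← Matrix.rank,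
    Matrix.rank_eq_finrank_range_toLin _ b b, Matrix.toLin_toMatrix] at h3
  rw [c.rk a N hN' ha, ← h3, Matrix.rank, ← toLin'_apply',
    show (∑ g, (a g : R) • n g).map π = ∑ g, (a g : F) • (n g).map π by ext; simp [Matrix.sum_apply],
    map_sum, Finset.sum_congr rfl fun g _ => map_smul toLin' (a g : F) _]
  rfl

end BG

variable {K V S : Type*} [Field K] [AddCommGroup V] [Module K V] [Group S]

theorem exists_br [Fintype S] [FiniteDimensional K V] {q : ℕ} (hq : (q : K) = 0) (q2 : 2 ≤ q)
    (r : S →* End K V) : ∃ β, Br r β := by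
  classical
  obtain ⟨p, hp⟩ := CharP.exists K
  have : Fact p.Prime := ⟨(CharP.char_is_prime_or_zero K p).resolve_right fun e => by
    have := (CharP.cast_eq_zero_iff K p q).1 hq
    rw [e, zero_dvd_iff] at this
    omega⟩
  let _ := ZMod.algebra K p
  let b := Module.finBasis K V
  let A : S →* Matrix _ _ K := (LinearMap.toMatrixAlgEquiv b).toMulEquiv.toMonoidHom.comp r
  let R := Algebra.adjoin (ZMod p) (Set.range fun x : S × _ × _ => A x.1 x.2.1 x.2.2)
  have : Algebra.FiniteType (ZMod p) R :=
    (Subalgebra.fg_iff_finiteType _).1 (Subalgebra.fg_def.2 ⟨_, Set.finite_range _, rfl⟩)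
  obtain ⟨m, hm⟩ := Ideal.exists_maximal R
  let _ := Ideal.Quotient.field m
  have : Module.Finite (ZMod p) (R ⧸ m) := finite_of_finite_type_of_isJacobsonRing _ _
  have : Finite (R ⧸ m) := Module.finite_of_finite (ZMod p)
  have : CharP (R ⧸ m) p := charP_of_injective_algebraMap (algebraMap (ZMod p) _).injective p
  have hi : Injective fun M : Matrix (Fin (finrank K V)) (Fin (finrank K V)) R =>
      M.map R.val.toRingHom := Matrix.map_injective Subtype.val_injective
  let n : S → Matrix (Fin (finrank K V)) (Fin (finrank K V)) R := fun g =>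
    .of fun i j => ⟨A g i j, Algebra.subset_adjoin ⟨(g, i, j), rfl⟩⟩
  have h1 : ∀ g, (n g).map R.val.toRingHom = A g := fun _ => rfl
  exact BG.br_of (p := p) (ι := R.val.toRingHom) Subtype.val_injective (Ideal.Quotient.mk m) b
    ⟨⟨n, hi ((h1 1).trans (by simp))⟩, fun x y => hi (by
      simp only [Matrix.map_mul, h1, map_mul A])⟩ h1

end CF.Am
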