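import Cfsg.Agent.Am.B7b
import Cfsg.Agent.Am.BG

/-! Modules of `A₇` in characteristic two: the numerical constraints. -/

set_option autoImplicit false

namespace CF.Am

open Module Function Cfsg.Lie CF.E83 CF.Al

variable {K V : Type*} [Field K] [AddCommGroup V] [Module K V] [FiniteDimensional K V]
  [IsAlgClosed K]

theorem blk7 {r : An 7 →* End K V} (h2 : (2 : K) = 0) (fx : Fx r = ⊥) (cx : Cx r = ⊤) {n a b y w : ℤ}
    (hn : n = finrank K V) (ha : a = dm r C7.X) (hb : b = dm r C7.Z) (hy : y = dm r C3.Y)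
    (hw : w = dm r (C3.T * C3.U)) : ∃ m d t u : ℕ, m ≤ n ∧
      315 * (n - m) = 54 * n + 105 * (3 * a - n) + 840 * (3 * b - n) - 126 * (5 * y - n) -
        240 * (7 * w - n) ∧
      1260 * (y - d) = 40 * n + 140 * (3 * a - n) + 560 * (3 * b - n) - 240 * (7 * w - n) ∧
      m ≤ 2 * t ∧ m ≤ 4 * u ∧ t + u + d ≤ m :=
  (exists_br (q := 2) (by exact_mod_cast h2) le_rfl r).elim fun _ h =>
    B7.blk h h2 fx cx hn ha hb hy hw

end CF.Am
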