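import Cfsg.Agent.Al.C7

/-! The non-principal `2`-block of `A₇`: the idempotent and three sums. -/

set_option autoImplicit false
set_option maxRecDepth 100000

namespace CF.Am.B7

open CF.Al CF.Al.C3 Finset

/-- the number of fixed points -/
def nf (g : A7) : ℕ := ∑ i : Fin 7, if g.1 i = i then 1 else 0

def F (k : ℕ) : ℤ := [-2, 6, -1, 0, 3, 0, 0, 54].getD k 0

/-- the coefficients of the block idempotent -/
def f (g : A7) : ℤ := if nf (g * g) = nf g then F (nf g) else 0

def nc (c : ℕ) : ℕ := fc c fun c => ((List.range 7).map fun i => if C3.ap c i = i then 1 else 0).sum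

def fd (c : ℕ) : ℤ := fc c fun c => fc (nc c) fun k => if nc (cm c c) = k then F k else 0

theorem nf_cd (g : A7) : nf g = nc (cd g) := by
  rw [nc, fc_eq, nf]
  simp only [Fin.ext_iff, ← ap_cd]
  exact Fin.sum_univ_eq_sum_range (fun i => if C3.ap (cd g) i = i then 1 else 0) 7

theorem f_cd (g : A7) : f g = fd (cd g) := by simp only [f, fd, fc_eq, ← cd_mul, ← nf_cd]

theorem nf_conj (g h : A7) : nf (h * g * h⁻¹) = nf g :=
  (Fintype.sum_equiv h.1 _ _ fun i => by simp).symm

theorem nf_inv (g : A7) : nf g⁻¹ = nf g := sum_congr rfl fun i _ => by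
  simp only [Subgroup.coe_inv, Equiv.Perm.inv_eq_iff_eq, @eq_comm _ i]

theorem f_conj (g h : A7) : f (h * g * h⁻¹) = f g := by simp only [f, conj_mul, nf_conj]

theorem f_inv (g : A7) : f g⁻¹ = f g := by simp only [f, ← mul_inv_rev, nf_inv]

def ft (i : ℕ) : ℤ := [54, 0, 0, -1, -2, -2, 3, 0, 6].getD i 0

theorem fv : ∀ i < 9, f (el (ri i)) = ft i := by
  simp only [f_cd, cd_el]
  decide +kernel

theorem f_el {n : ℕ} (h : n ∈ range 2520) : f (el n) = ft (cl n) := by
  obtain ⟨h9, e⟩ := cls (mem_range.1 h)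
  rw [← e, f_conj, fv _ h9]

theorem cv : ∀ i < 9, fc (ec (ri i)) (fun r => ((List.range 2520).map fun n => fc (cl n) fun k =>
    if ft k = 0 then 0 else ft k * fd (cm (ec n) r)).sum) = 315 * ft i := by decide +kernel

theorem conv (g : A7) : ∑ h, f h * f (h⁻¹ * g) = 315 * f g := by
  obtain ⟨n, hn, rfl⟩ := mem_image.1 (img.ge (mem_univ g))
  obtain ⟨h9, e⟩ := cls (mem_range.1 hn)
  have := cv _ h9
  simp only [fc_eq, ← cd_el, ← cd_mul, ← f_cd] at this
  rw [f_el hn, ← e, ← this]
  generalize el (cj n) = c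
  generalize el (ri (cl n)) = r
  rw [← Fintype.sum_equiv ((Equiv.inv A7).trans (MulAut.conj c).toEquiv) (fun h => f h * f (h * r)) _ fun h => ?_,
    sum_el, sum_congr rfl fun k hk => (?_ : _ = if ft (cl k) = 0 then 0 else ft (cl k) * f (el k * r))]
  · rfl
  · rw [f_el hk]; split_ifs with z <;> simp [z]
  · simp only [Equiv.trans_apply, Equiv.inv_apply, MulEquiv.toEquiv_eq_coe, MulEquiv.coe_toEquiv, MulAut.conj_apply]
    rw [f_conj, f_inv, ← f_conj (h * r) c]
    congr 2
    group

theorem cy : ∀ i < 9, fc (ec 591) (fun r => ((List.range 2520).map fun n => fc (cl n) fun k =>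
    if k = i then fd (cm (ec n) r) else 0).sum) = [-1, 0, 0, 126, -45, -45, 35, 0, -70].getD i 0 := by
  decide +kernel

theorem co : ∀ i < 7, ((List.range 2520).map fun n => if n % 7 = i then ft (cl n) else 0).sum =
    if i = 0 then 270 else -45 := by decide +kernel

theorem z0 : ((List.range 2520).all fun n => C3.ap (ec n) 0 == n % 7) = true := by decide +kernel

/-- class sums of the idempotent times an element of order five -/
theorem sum_Y (β : A7 → ℂ) (h : ∀ g k, β (k * g * k⁻¹) = β g) : ∑ g, (f (g * Y) : ℂ) * β g =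
    ∑ i ∈ range 9, ([-1, 0, 0, 126, -45, -45, 35, 0, -70].getD i 0 : ℤ) * β (el (ri i)) := by
  rw [sum_el, ← sum_fiberwise_of_maps_to (t := range 9) (g := cl) fun n hn => mem_range.2 (cls (mem_range.1 hn)).1]
  refine sum_congr rfl fun i hi => ?_
  rw [sum_congr rfl fun n hn => (?_ : _ = (f (el n * Y) : ℂ) * β (el (ri i))), ← sum_mul, ← Int.cast_sum,
    ← cy i (mem_range.1 hi), sum_filter]
  · simp only [f_cd, cd_mul, Y, cd_el, fc_eq]
    rfl
  · rw [← h (el (ri i)) (el (cj n)), ← (mem_filter.1 hn).2, (cls (mem_range.1 (mem_filter.1 hn).1)).2]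

/-- coset sums -/
theorem sum_co (i : Fin 7) : ∑ g with g.1 0 = i, f g = if i = 0 then 270 else -45 := by
  rw [sum_filter, sum_el, show (if i = 0 then (270 : ℤ) else -45) = if i.1 = 0 then 270 else -45 by simp,
    ← co i i.isLt, sum_congr (s₂ := range 2520) rfl fun n hn => (?_ : _ = if n % 7 = i.1 then ft (cl n) else 0)]
  · rfl
  have := List.all_eq_true.1 z0 n (List.mem_range.2 (mem_range.1 hn))
  rw [beq_iff_eq, ← cd_el] at this
  simp only [f_el hn, ← this, Fin.ext_iff, ← ap_cd]
  rfl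

end CF.Am.B7
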