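import Cfsg.Agent.Am.B
import Cfsg.Agent.Am.B7a

/-! Modules of `A₇` in characteristic two: the block decomposition. -/

set_option autoImplicit false
set_option maxRecDepth 100000

namespace CF.Am.B7

open Module Function CF.E83 CF.Al Finset MonoidAlgebra C3 C7
open CF.Ev (lin lin_single B.geo)
open CF.Block (ofFun coeff_ofFun coeff_mul_sum)

variable {K V : Type*} [Field K] [AddCommGroup V] [Module K V]

section
variable {S : Type*} [Group S] [Fintype S] {r : S →* End K V} {a : S → ℤ} {N : ℤ} {β : S → ℂ}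

theorem ga_apply (r : S →* End K V) (a : S → ℤ) (v : V) : ga r a v = ∑ g, (a g : K) • r g v := by
  simp only [ga, LinearMap.sum_apply, LinearMap.smul_apply]

omit [Group S] in
theorem fib {I : Type*} [Fintype I] [DecidableEq I] (p : S → I) (a : S → ℤ) (u : I → V) :
    ∑ g, (a g : K) • u (p g) = ∑ i, ((∑ g with p g = i, a g : ℤ) : K) • u i := by
  rw [← sum_fiberwise univ p]
  exact sum_congr rfl fun i _ => by
    rw [sum_congr rfl fun g hg => by rw [(mem_filter.1 hg).2], ← sum_smul, ← Int.cast_sum]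

theorem ga_dual (ha : ∀ g, a g⁻¹ = a g) (e : ga r a = 0) : ga (Representation.dual r) a = 0 := by
  ext φ v
  have := congrArg φ (LinearMap.congr_fun e v)
  simp only [ga, LinearMap.sum_apply, LinearMap.smul_apply, map_sum, map_smul, LinearMap.zero_apply, map_zero] at this ⊢
  rw [← this]
  exact Fintype.sum_equiv (Equiv.inv _) _ _ fun g => by simp [ha, Module.Dual.transpose_apply]

theorem ga_com (ha : ∀ g h, a (h * g * h⁻¹) = a g) (g : S) (v : V) : r g (ga r a v) = ga r a (r g v) :=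
  ga_map r (α := MulAut.conj g) (fun x => ha x g) (g := (r g).toAddMonoidHom) (fun a v => by
    simp [← End.mul_apply, ← map_mul]) v

theorem AA (hc : ∀ g, ∑ h, a h * a (h⁻¹ * g) = N * a g) : (ofFun a : ℤ[S]) * ofFun a = N • ofFun a :=
  MonoidAlgebra.ext (Finsupp.ext fun g => by rw [coeff_mul_sum]; exact hc g)

theorem alg_of : alg r (ofFun a) = ga r a := alg_apply r _

theorem rk1 (h : Br r β) (hc : ∀ g, ∑ h, a h * a (h⁻¹ * g) = N * a g) (hN : (N : K) ≠ 0) :
    ∑ g, (a g : ℂ) * β g = N * finrank K (LinearMap.range (ga r a)) := h.rk a N hN hc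

/-- the rank of a central idempotent on the fixed space of `x` -/
theorem rk2 (h : Br r β) (ha : ∀ g h, a (h * g * h⁻¹) = a g) (hc : ∀ g, ∑ h, a h * a (h⁻¹ * g) = N * a g)
    (hN : (N : K) ≠ 0) {x : S} {n : ℕ} (hn : (n : K) ≠ 0) (hx : x ^ n = 1) :
    ∑ i ∈ range n, ∑ g, (a (g * (x ^ i)⁻¹) : ℂ) * β g = N * n * finrank K ((fs (r x)).map (ga r a)) := by
  set s : ℤ[S] := ∑ i ∈ range n, single x 1 ^ i with hs
  have m : ∀ i : ℕ, (single x 1 : ℤ[S]) ^ i * s = s := fun i => by
    induction i with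
    | zero => simp
    | succ i ih =>
      have := mul_geom_sum (single x 1 : ℤ[S]) n
      rw [single_pow, hx, one_pow, ← MonoidAlgebra.one_def, sub_self, sub_mul, one_mul, sub_eq_zero] at this
      rw [pow_succ, mul_assoc, hs, this, ← hs, ih]
  have ss : s * s = (n : ℤ) • s := by
    nth_rw 1 [hs]; rw [sum_mul, sum_congr rfl fun i _ => m i]; simp
  have c : Commute s (ofFun a) := Commute.sum_left _ _ _ fun i _ => Commute.pow_left
    (MonoidAlgebra.ext (Finsupp.ext fun g => by
      rw [coeff_single_mul_apply, coeff_mul_single_apply, coeff_ofFun, coeff_ofFun, ← ha _ x, one_mul, mul_one,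
        mul_inv_cancel_left])) i
  have e := h.rk' (ofFun a * s) (N := N * n) (by exact_mod_cast mul_ne_zero hN hn) (by
    rw [mul_assoc, ← mul_assoc s, c.eq, mul_assoc, ← mul_assoc, AA hc, ss, smul_mul_smul_comm])
  rw [map_mul (alg r), End.mul_eq_comp, LinearMap.range_comp, hs, map_sum (alg r),
    sum_congr rfl fun i _ => map_pow _ _ i, alg_single, one_smul, B.geo hn (by rw [← map_pow, hx, map_one]), alg_of,
    mul_sum, map_sum] at e
  push_cast at e
  rw [← e]
  exact sum_congr rfl fun i _ => sum_congr rfl fun g _ => by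
    rw [single_pow, coeff_mul_single_apply, coeff_ofFun, one_pow, mul_one]

theorem sh_cj (h : Br r β) (ha : ∀ g h, a (h * g * h⁻¹) = a g) {x y : S} (c : IsConj x y) :
    ∑ g, (a (g * y) : ℂ) * β g = ∑ g, (a (g * x) : ℂ) * β g := by
  obtain ⟨u, rfl⟩ := isConj_iff.1 c
  exact (Fintype.sum_equiv (MulAut.conj u).toEquiv _ _ fun g => by simp [h.conj, ha]).symm

/-- the kernel of a central idempotent -/
theorem exists_ker [FiniteDimensional K V] (ha : ∀ g h, a (h * g * h⁻¹) = a g)
    (hc : ∀ g, ∑ h, a h * a (h⁻¹ * g) = N * a g) (hN : (N : K) = 1) (fx : Fx r = ⊥) (cx : Cx r = ⊤) :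
    ∃ ρ : S →* End K (LinearMap.ker (ga r a)), ga ρ a = 0 ∧ Fx ρ = ⊥ ∧ Cx ρ = ⊤ ∧
      ∀ x, dm ρ x = finrank K ↥(fs (r x) ⊓ LinearMap.ker (ga r a)) := by
  have com := ga_com (r := r) ha
  have EE : ∀ v, ga r a (ga r a v) = ga r a v := fun v => by
    have := congrArg (alg r · v) (AA hc)
    simp only [map_mul, map_zsmul, alg_of, ← Int.cast_smul_eq_zsmul K] at this
    rwa [hN, one_smul] at this
  generalize hE : ga r a = E at *
  have st : ∀ g, ∀ v ∈ LinearMap.ker E, r g v ∈ LinearMap.ker E := fun g v hv => by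
    rw [LinearMap.mem_ker, ← com, LinearMap.mem_ker.1 hv, map_zero]
  let ρ : S →* End K (LinearMap.ker E) := ⟨⟨fun g => (r g).restrict (st g), LinearMap.ext fun v => Subtype.ext (by simp)⟩,
    fun g k => LinearMap.ext fun v => Subtype.ext (by simp)⟩
  have hρ : ∀ g v, (ρ g v : V) = r g v := fun _ _ => rfl
  let P : V →ₗ[K] LinearMap.ker E := (1 - E).codRestrict _ fun v => by simp [EE]
  have hP : ∀ v, (P v : V) = v - E v := fun _ => rfl
  refine ⟨ρ, LinearMap.ext fun v => Subtype.ext ?_,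
    eq_bot_iff.2 fun v hv => Subtype.ext (fx.le (mem_Fx.2 fun g => congrArg Subtype.val (mem_Fx.1 hv g))),
    eq_top_iff.2 fun v _ => ?_, fun x => ?_⟩
  · have := (LinearMap.congr_fun hE v).trans (LinearMap.mem_ker.1 v.2)
    simpa [ga, hρ] using this
  · have : Cx r ≤ (Cx ρ).comap P := Cx_le.2 fun g w => by
      rw [Submodule.mem_comap, map_sub, show P (r g w) = ρ g (P w) from Subtype.ext (by rw [hρ, hP, hP, map_sub, com])]
      exact sub_mem_Cx g _
    have := this (cx.ge (Submodule.mem_top (x := v.1)))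
    rwa [Submodule.mem_comap, show P v = v from Subtype.ext (by rw [hP, LinearMap.mem_ker.1 v.2, sub_zero])] at this
  · rw [dm, ← Submodule.finrank_map_subtype_eq, inf_comm, ← Submodule.map_comap_subtype,
      show fs (ρ x) = (fs (r x)).comap (LinearMap.ker E).subtype from Submodule.ext fun v => by
        rw [Submodule.mem_comap, mem_fs, mem_fs, Subtype.ext_iff]; rfl]

end

/-- fixed vectors of the point stabilizer in the principal block -/
theorem fix (h2 : (2 : K) = 0) {s : A7 →* End K V} (e : ga s f = 0) : Fx (s.comp up) ≤ Fx s := fun v hv => by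
  obtain ⟨u, h6, hu⟩ := exists_vs (by norm_num) s hv
  have c : ∀ i : Fin 7, ((if i = 0 then 270 else -45 : ℤ) : K) • u i = u i - if i = 0 then u 0 else 0 := fun i => by
    split_ifs with a
    · rw [a, sub_self, show ((270 : ℤ) : K) = 0 by push_cast; linear_combination 135 * h2, zero_smul]
    · rw [sub_zero, show ((-45 : ℤ) : K) = 1 by push_cast; linear_combination -23 * h2, one_smul]
  have h0 : ∑ i, u i = u 0 := by
    have := LinearMap.congr_fun e (u 0)
    rw [ga_apply, sum_congr rfl fun g _ => by rw [hu], fib fun g : A7 => g.1 0,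
      sum_congr rfl fun i _ => by rw [sum_co, c], sum_sub_distrib, LinearMap.zero_apply, sub_eq_zero] at this
    simpa using this
  have k : ∀ g, s g (u 0) = u 0 := fun g => by
    rw [← h0, map_sum, sum_congr rfl fun i _ => hu g i, Equiv.sum_comp g.1 u]
  obtain ⟨g, hg⟩ := exists_mv (n := 6) (by norm_num) (Fin.last 6) 0
  rw [← h6, ← hg, ← hu, k]
  exact mem_Fx.2 k

theorem c5 {g : A7} (e : g ^ 5 = 1) (n1 : g ≠ 1) : IsConj Y g := by
  obtain ⟨n, hn, rfl⟩ := mem_image.1 (img.ge (mem_univ g))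
  obtain ⟨h9, c⟩ := cls (mem_range.1 hn)
  rw [← c, conj_pow, conj_eq_one_iff, eq_one, cd_pow, cd_el] at e
  rw [← c, Ne, conj_eq_one_iff, eq_one, cd_el] at n1
  exact cc' ⟨mem_range.1 hn, (by decide +kernel : ∀ i < 9, pc (ec (ri i)) 5 = 1754760 → ec (ri i) ≠ 1754760 →
    ri i = 591) _ h9 e n1⟩

variable [FiniteDimensional K V] {r : A7 →* End K V} {β : A7 → ℂ}

/-- Scott's lemma on the principal block -/
theorem sct (h2 : (2 : K) = 0) (e : ga r f = 0) (fx : Fx r = ⊥) (cx : Cx r = ⊤) :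
    ∃ t u, finrank K V ≤ 2 * t ∧ finrank K V ≤ 4 * u ∧ t + u + dm r Y ≤ finrank K V := by
  have := Fact.mk Nat.prime_two
  have h1 : Fx (r.comp up) = ⊥ := eq_bot_iff.2 (fx ▸ fix h2 e)
  have h3 : Cx (r.comp up) = ⊤ := by
    have := fix h2 (ga_dual f_inv e)
    rwa [Ln.dual_comp, Ln.fx_dual, Ln.fx_dual, cx, Submodule.dualAnnihilator_top, le_bot_iff,
      Submodule.dualAnnihilator_eq_bot_iff] at this
  have s := sco (r := r.comp up) g6a
  rw [h1, h3, finrank_top, finrank_bot, show dm (r.comp up) (a6a * b6a) = dm r Y from (dm_conj (c5 (by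
    rw [← map_pow, show (a6a * b6a) ^ 5 = 1 by decide +kernel, map_one])
      (mt (map_eq_one_iff _ up_inj).1 (by decide +kernel)))).symm] at s
  exact ⟨_, _, unip (r := r.comp up) (p := 2) (k := 1) (x := a6a) (by exact_mod_cast h2) (by decide +kernel),
    unip (r := r.comp up) (p := 2) (k := 2) (x := b6a) (by exact_mod_cast h2) (by decide +kernel), by omega⟩

omit [FiniteDimensional K V] in
/-- the two rank formulas -/
theorem rks (h : Br r β) (h2 : (2 : K) = 0) :
    315 * (finrank K (LinearMap.range (ga r f)) : ℤ) = 54 * finrank K V + 105 * (3 * dm r X - finrank K V) +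
      840 * (3 * dm r Z - finrank K V) - 126 * (5 * dm r Y - finrank K V) - 240 * (7 * dm r (T * U) - finrank K V) ∧
    1260 * (finrank K ((fs (r Y)).map (ga r f)) : ℤ) = 40 * finrank K V + 140 * (3 * dm r X - finrank K V) +
      560 * (3 * dm r Z - finrank K V) - 240 * (7 * dm r (T * U) - finrank K V) := by
  have o : ∀ k : ℤ, ((2 * k + 1 : ℤ) : K) ≠ 0 := fun k => by push_cast; rw [h2, zero_mul, zero_add]; exact one_ne_zero
  have h3 : (3 : K) ≠ 0 := by exact_mod_cast o 1
  have h5 : ((5 : ℕ) : K) ≠ 0 := by exact_mod_cast o 2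
  have e := rk1 h conv (o 157)
  have e' := rk2 h f_conj conv (o 157) h5 Y5
  have oY : orderOf Y = 5 := have := Fact.mk Nat.prime_five; orderOf_eq_prime Y5 Y1
  have cY : ∀ i, i ≠ 0 → i < 5 → IsConj Y (Y ^ i)⁻¹ := fun i a b => c5 (by rw [inv_pow, pow_right_comm, Y5]; simp)
    (inv_ne_one.2 (pow_ne_one_of_lt_orderOf a (oY ▸ b)))
  rw [sum_range_succ', sum_congr rfl fun i hi => sh_cj h f_conj (cY (i + 1) (by omega) (by
    have := mem_range.1 hi; omega)), sum_const, sum_Y β h.conj,
    sum_congr (s₂ := univ) rfl fun g _ => by rw [pow_zero, inv_one, mul_one], e] at e'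
  rw [sum_cl _ fun g c => by rw [f_conj, h.conj], sum_congr rfl fun i hi => by rw [fv i (mem_range.1 hi)]] at e
  have y5 := h.cyc (n := 5) h5 Y5
  have w7 := h.cyc (n := 7) (by exact_mod_cast o 3) W7
  have x3 := h.three h3 X3 cX
  have z3 := h.three h3 Z3 cZ
  simp only [sum_range_succ, range_zero, sum_empty, pow_zero, pow_one, h.one, ← h.isConj cY2, ← h.isConj cY3,
    ← h.isConj cY4, ← h.isConj cW2, ← h.isConj cW4, ← h.isConj cW5, ← h.isConj cW6] at y5 w7
  simp only [sum_range_succ, range_zero, sum_empty, ri, ft, List.getD_cons_zero, List.getD_cons_succ, e0, eW, eW3,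
    h.one, card_range, nsmul_eq_mul, show el 591 = Y from rfl, show el 5 = X from rfl, show el 54 = Z from rfl] at e e'
  generalize finrank K (LinearMap.range (ga r f)) = k1, finrank K ((fs (r Y)).map (ga r f)) = k2 at *
  refine ⟨Int.cast_injective (α := ℂ) ?_, Int.cast_injective (α := ℂ) ?_⟩ <;> push_cast at *
  · linear_combination -e + 105 * x3 + 840 * z3 - 126 * y5 - 240 * w7
  · linear_combination -(4 / 5) * (e' + e) + 140 * x3 + 560 * z3 - 240 * w7

theorem blk (h : Br r β) (h2 : (2 : K) = 0) (fx : Fx r = ⊥) (cx : Cx r = ⊤) {n a b y w : ℤ}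
    (hn : n = finrank K V) (ha : a = dm r C7.X) (hb : b = dm r C7.Z) (hy : y = dm r C3.Y)
    (hw : w = dm r (C3.T * C3.U)) : ∃ m d t u : ℕ, m ≤ n ∧
      315 * (n - m) = 54 * n + 105 * (3 * a - n) + 840 * (3 * b - n) - 126 * (5 * y - n) -
        240 * (7 * w - n) ∧
      1260 * (y - d) = 40 * n + 140 * (3 * a - n) + 560 * (3 * b - n) - 240 * (7 * w - n) ∧
      m ≤ 2 * t ∧ m ≤ 4 * u ∧ t + u + d ≤ m := by
  obtain ⟨e1, e2⟩ := rks h h2
  obtain ⟨ρ, a1, a2, a3, a4⟩ := exists_ker f_conj conv (by push_cast; linear_combination 157 * h2) fx cx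
  obtain ⟨t, u, s1, s2, s3⟩ := sct h2 a1 a2 a3
  have k1 := (ga r f).finrank_range_add_finrank_ker
  have k2 : _ = dm r Y := rk_map (ga r f) (fs (r Y))
  rw [← a4] at k2
  exact ⟨finrank K (LinearMap.ker (ga r f)), dm ρ Y, t, u, by omega, by omega, by omega, s1, s2, s3⟩

end CF.Am.B7
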