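import Cfsg.Agent.Am.B
import Cfsg.Agent.Am.BG
import Cfsg.Agent.Al.C3

/-! `A₇` in characteristic three: the character of the module of dimension `27`. -/

set_option autoImplicit false
set_option maxRecDepth 100000

namespace CF.Am

open Module Function CF.E83 CF.Al CF.Al.C3 Finset

variable {K V W : Type*} [Field K] [AddCommGroup V] [Module K V] [AddCommGroup W] [Module K W]

namespace C73a

theorem ga_mul {S : Type*} [Group S] [Fintype S] (r : S →* End K V) {a b c : S → ℤ} {n : ℤ}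
    (h : ∀ g, ∑ x, a x * b (x⁻¹ * g) = n * c g) : ga r a * ga r b = (n : K) • ga r c := by
  simp only [ga, sum_mul_sum, smul_mul_smul_comm, smul_sum, smul_smul, ← map_mul, ← Int.cast_mul, ← h,
    Int.cast_sum, sum_smul]
  rw [sum_comm (f := fun g x => ((a x * b (x⁻¹ * g) : ℤ) : K) • r g)]
  exact sum_congr rfl fun x _ => Fintype.sum_equiv (Equiv.mulLeft x) _ _ fun g => by simp

theorem key' [FiniteDimensional K V] {r : A7 →* End K V} {β : A7 → ℂ} (h : Br r β) (h2 : (2 : K) ≠ 0)
    (h5 : (5 : K) ≠ 0) (h7 : (7 : K) ≠ 0) :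
    (78 * finrank K V + 210 * (2 * dm r T - finrank K V) - 2520 * (2 * dm r U - dm r T) : ℤ) +
      378 * (5 * dm r Y - finrank K V) + 120 * (7 * dm r (T * U) - finrank K V) =
      280 * finrank K (LinearMap.range (ga r a)) := by
  have e := h.rk a 280 (by
    rw [show ((280 : ℤ) : K) = 2 * 2 * 2 * 5 * 7 by norm_num]; simp [h2, h5, h7]) conv
  rw [sum_cl _ fun g c => by rw [a_conj, h.conj], sum_congr rfl fun i hi => by rw [av i (mem_range.1 hi)]] at e
  have y := h.cyc (n := 5) (by exact_mod_cast h5) Y5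
  have w := h.cyc (n := 7) (by exact_mod_cast h7) W7
  have t := h.two h2 T_2
  have u := h.four h2 U4 cU
  rw [← dm_conj cTU] at u
  simp only [sum_range_succ, range_zero, sum_empty, pow_zero, pow_one, h.one, ← h.isConj cY2, ← h.isConj cY3,
    ← h.isConj cY4, ← h.isConj cW2, ← h.isConj cW4, ← h.isConj cW5, ← h.isConj cW6] at y w
  simp only [sum_range_succ, range_zero, sum_empty, ri, List.getD_cons_zero, List.getD_cons_succ, e0, eW, eW3,
    h.one] at e
  rw [ga]
  generalize finrank K (LinearMap.range (∑ g, (a g : K) • r g)) = k at e ⊢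
  refine Int.cast_injective (α := ℂ) ?_
  change _ + _ * (_ * β T) + _ * (_ * β U) + _ * (_ * β Y) + _ + _ + _ + _ + _ = _ at e
  push_cast at e y w ⊢
  linear_combination e - 210 * t + 2520 * u - 378 * y - 120 * w

theorem re {S : Type*} [Group S] {x : S} {n : ℕ} (e : x ^ (n + 1) = 1) (c : IsConj x (x ^ n)) : Re x := by
  rwa [eq_inv_of_mul_eq_one_left ((pow_succ x n).symm.trans e)] at c

end C73a

open C73a

variable [FiniteDimensional K V] [FiniteDimensional K W] [IsAlgClosed K] {q : ℕ} {nw : Prop}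

theorem c73a {r r' : An 7 →* End K (N K)} {l : An 7 →* End K W} (h : HN q r r' l) (k : HL q nw l)
    (h3 : (3 : K) = 0) : dm r C3.T = 15 ∧ dm r C3.U = 7 ∧ dm r C3.Y = 7 ∧ dm r (C3.T * C3.U) = 3 ∧
      ∀ v, ga r C3.a v = (280 : K) • v := by
  have h2 : (2 : K) ≠ 0 := fun e => one_ne_zero (α := K) (by linear_combination h3 - e)
  have h5 : (5 : K) ≠ 0 := fun e => h2 (by linear_combination e - h3)
  have h7 : (7 : K) ≠ 0 := fun e => one_ne_zero (α := K) (by linear_combination e - 2 * h3)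
  have b := h.tb
  have q3 : 3 ≤ q := b.q2.lt_of_ne fun e => h2 (by simpa [← e] using b.hq)
  obtain ⟨β, c⟩ := exists_br b.hq b.q2 r
  have e := key' c h2 h5 h7
  have y := (b.n5 h5 Y Y5 Y1 (re Y5 cY4)).2 (.inl cY2)
  have n : ¬ nw := fun n => k.k5 n h5 q3 Y Y5 (re Y5 cY4) ((b.t5 h5 Y Y5 Y1 (re Y5 cY4)).2 (.inl cY2))
  have s' := mt (k.sco gen) n
  have s := h.sco gen
  have t := b.n2 h2 T T_2 T1
  have u := b.t4 h2 U U4 U2 (re U4 cU)
  have u' := b.n4 h2 U U4 (re U4 cU)
  have w := b.n7 h7 _ W7 W1 cW2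
  rw [← dm_conj cTU] at u u'
  rw [b.dr] at e
  have m := ga_mul r conv
  generalize ga r a = E at *
  obtain ⟨d2, d4, d7, d⟩ : dm r T = 15 ∧ dm r U = 7 ∧ dm r (T * U) = 3 ∧
    finrank K (LinearMap.range E) = 27 := by omega
  refine ⟨d2, d4, y, d7, fun v => ?_⟩
  refine LinearMap.injective_iff_surjective.2
    (LinearMap.range_eq_top.1 (Submodule.eq_top_of_finrank_eq (d.trans b.dr.symm))) ?_
  rw [map_smul, ← End.mul_apply, m, LinearMap.smul_apply, Int.cast_ofNat]

end CF.Am
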