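import Cfsg.Agent.Am.C6a0
import Cfsg.Agent.Am.C73a

/-! `A₆` in characteristic three: the module of dimension four and its square. -/

set_option autoImplicit false
set_option maxRecDepth 100000

namespace CF.Am

open Module Function Finset Cfsg.Lie CF.E83 CF.Al Submodule

variable {K W : Type*} [Field K] [AddCommGroup W] [Module K W]

namespace C6a

theorem sum0 {r : An 6 →* End K (N K)} (fx : Fx r = ⊥) {v : Fin 6 → N K} (hv : ∀ g i, r g (v i) = v (g.1 i)) :
    ∑ i, v i = 0 := by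
  refine (mem_bot K).1 (fx ▸ (mem_iInf _).2 fun g => mem_fs.2 ?_)
  simp only [map_sum, hv]
  exact Equiv.sum_comp g.1 v

theorem mm {U : Submodule K W} {x y : W} (h : x ∈ U) (e : y = x) : y ∈ U := e ▸ h

/-- A nonzero submodule of the image is everything. -/
theorem sub9 [IsAlgClosed K] {q : ℕ} (hq : (q : K) = 0) (q2 : 2 ≤ q) (h3 : (3 : K) = 0)
    {r : An 6 →* End K (N K)} (rk : finrank K (LinearMap.range (ga r a)) = 9) {U : Submodule K (N K)}
    (sb : Sb r U) (le : U ≤ LinearMap.range (ga r a)) (n : U ≠ ⊥) : U = LinearMap.range (ga r a) := by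
  obtain ⟨β, hβ⟩ := exists_br hq q2 (Representation.subrepresentation r U fun g v hv => sb g v hv)
  have k := (key hβ h3).1
  have e : LinearMap.range (ga (Representation.subrepresentation r U fun g v hv => sb g v hv) a) = ⊤ := by
    refine eq_top_iff.2 fun w _ => ⟨w, Subtype.ext ?_⟩
    obtain ⟨x, hx⟩ := le w.2
    have m := LinearMap.congr_fun (C73a.ga_mul (a := a) (b := a) (c := a) (n := 40) r conv) x
    rw [End.mul_apply, LinearMap.smul_apply, hx] at m
    have : ga r a w = w := by rw [m]; push_cast; linear_combination (norm := module) h3 • ((13 : K) • w.1)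
    rw [← this]
    simp [ga]
  rw [e, finrank_top] at k
  have := finrank_mono le
  have := (finrank_eq_zero (R := K) (S := U)).not.2 n
  exact eq_of_le_of_finrank_eq le (by omega)

end C6a

open C6a

theorem c6c1 [FiniteDimensional K W] [IsAlgClosed K] {q : ℕ} {r r' : An 6 →* End K (N K)} {l : An 6 →* End K W}
    (h : HN q r r' l) (h3 : (3 : K) = 0)
    (d2 : ∀ t, t ^ 2 = 1 → t ≠ 1 → dm r t = 15) (d4 : ∀ u, u ^ 4 = 1 → u ^ 2 ≠ 1 → dm r u = 7)
    (d5 : ∀ y, y ^ 5 = 1 → y ≠ 1 → dm r y = 5) (wp : WP r) (nz : Fx (r.comp up) ≠ ⊥) :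
    ∃ (U : Submodule K (N K)) (u : Fin 4 → N K), Can r' U ∧ finrank K U = 9 ∧
      (∀ i, r s6 (u i) = ![1, 1, -1, -1] i • u i ∧ r t6 (u i) = ![1, -1, 1, -1] i • u i) ∧
      U = Submodule.span K (Set.range (fun i => sh (u i)) ∪
        Set.range fun x : Fin 4 × Fin 4 => cr (u x.1) (u x.2)) ∧
      sh (u 0) = sh (u 1) + sh (u 2) + sh (u 3) ∧ cubicT (u 0) = 0 ∧ (∀ i j, sh (u i) ⬝ᵥ u j = 0) ∧
      (∀ i j k, cr (u i) (u j) ⬝ᵥ u k = 0) := by
  obtain ⟨v0, hv0, n0⟩ := Submodule.exists_mem_ne_zero_of_ne_bot nz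
  obtain ⟨v : Fin 6 → N K, v5 : v 5 = v0, hv⟩ := exists_vs (n := 5) (by norm_num) r hv0
  obtain ⟨B, hB⟩ : ∃ B : N K →ₗ[K] N K →ₗ[K] N K, ∀ x y, cr x y = B x y := ⟨crL, fun _ _ => rfl⟩
  have sy : ∀ x y, B x y = B y x := fun x y => by rw [← hB, cr_comm, hB]
  have sB : ∀ x : N K, sh x = -B x x := fun x => by
    rw [← hB, cr_self]; linear_combination (norm := module) h3 • sh x
  have eq : ∀ g x y, r' g (B x y) = B (r g x) (r g y) := fun g x y => by rw [← hB, ← hB, (h.jp g).cr]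
  have s0 := sum0 h.fx hv
  have s1 := sum0 h.fx' (v := fun i => B (v i) (v i)) fun g i => by rw [eq, hv]
  have s2 : ∀ i, ∑ j, B (v i) (v j) = 0 := fun i => by rw [← map_sum, s0, map_zero]
  have rk : ∀ {r : An 6 →* End K (N K)}, (∀ x, dm r x = dm r' x) → finrank K (LinearMap.range (ga r a)) = 9 :=
    fun {r} e => by
      obtain ⟨β, hβ⟩ := exists_br h.tb.hq h.tb.q2 r
      obtain ⟨k, u4, u2, y5, y1⟩ := key hβ h3
      rw [e, e, h.jp.dm_eq, h.jp.dm_eq, d4 _ u4 u2, d5 _ y5 y1] at k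
      omega
  have c0 := can_ker r a_aut
  have c1 := can_range r' a_aut
  have kv : ∀ i, v i ∈ LinearMap.ker (ga r a) := fun i => by
    obtain ⟨g, rfl⟩ := exists_mv (n := 5) (by norm_num) i 5
    refine hv g 5 ▸ c0.sb g _ ?_
    simp only [LinearMap.mem_ker, ga, LinearMap.sum_apply, LinearMap.smul_apply, hv]
    rw [sum45 fun _ l => v l, sum_comm]
    simp only [← Finset.sum_smul, ← Int.cast_sum, (by decide : ∀ l, ∑ k, c k l = 0), Int.cast_zero, zero_smul,
      sum_const_zero]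
  have z := congr($(s2 0) + $(s2 1) + $(s2 2) + $(s2 3) - $(s2 4) - $(s2 5) - $s1)
  simp only [Fin.sum_univ_six] at z s0
  have m0 : ∀ i j, B (v i - v j) (v i - v j) ∈ LinearMap.range (ga r' a) := fun i j => by
    rcases eq_or_ne i j with rfl | n
    · simp
    obtain ⟨g, rfl, rfl⟩ := ex2 n
    rw [← hv, ← hv, ← map_sub, ← eq]
    refine c1.sb g _ ⟨B (v 4) (v 5), ?_⟩
    simp only [ga, LinearMap.sum_apply, LinearMap.smul_apply, eq, hv]
    rw [sum45 fun k l => B (v k) (v l)]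
    simp only [Fin.sum_univ_six, map_sub, LinearMap.sub_apply]
    simp +decide only [c, ↓reduceIte]
    push_cast
    linear_combination (norm := (simp only [sy]; module)) (2 : K) • z +
      h3 • (B (v 4) (v 4) + B (v 5) (v 5) + (10 : K) • B (v 4) (v 5) - (2 : K) • (B (v 0) (v 4) +
        B (v 0) (v 5) + B (v 1) (v 4) + B (v 1) (v 5) + B (v 2) (v 4) + B (v 2) (v 5) + B (v 3) (v 4) +
        B (v 3) (v 5)))
  obtain ⟨u, hu⟩ : ∃ u : Fin 4 → N K,
    u = ![v 4 - v 5, v 0 + v 1 - v 2 - v 3, v 0 - v 1 + v 2 - v 3, v 0 - v 1 - v 2 + v 3] := ⟨_, rfl⟩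
  have u0 : u 0 = v 4 - v 5 := by rw [hu]; rfl
  have u1 : u 1 = v 0 + v 1 - v 2 - v 3 := by rw [hu]; rfl
  have u2 : u 2 = v 0 - v 1 + v 2 - v 3 := by rw [hu]; rfl
  have u3 : u 3 = v 0 - v 1 - v 2 + v 3 := by rw [hu]; rfl
  have f4 : ∀ {P : Fin 4 → Prop}, P 0 → P 1 → P 2 → P 3 → ∀ i, P i := fun a b c d i => by
    fin_cases i; exacts [a, b, c, d]
  set R := span K (Set.range u) with hR
  have uR : ∀ i, u i ∈ R := fun i => subset_span ⟨i, rfl⟩
  have eR : R = span K (Set.range fun i => v i - v 5) := by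
    have d : ∀ i, v i - v 5 ∈ span K (Set.range fun i => v i - v 5) := fun i => subset_span ⟨i, rfl⟩
    refine le_antisymm (span_le.2 (Set.range_subset_iff.2 (f4 (u0 ▸ d 4) ?_ ?_ ?_)))
      (span_le.2 (Set.range_subset_iff.2 fun i => ?_))
    · exact mm (sub_mem (sub_mem (add_mem (d 0) (d 1)) (d 2)) (d 3)) (by rw [u1]; abel)
    · exact mm (sub_mem (add_mem (sub_mem (d 0) (d 1)) (d 2)) (d 3)) (by rw [u2]; abel)
    · exact mm (add_mem (sub_mem (sub_mem (d 0) (d 1)) (d 2)) (d 3)) (by rw [u3]; abel)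
    have g : ∀ (i : Fin 4) (x y z : K), v i.castSucc.castSucc - v 5 = x • u 1 + y • u 2 + z • u 3 - u 0 →
        v i.castSucc.castSucc - v 5 ∈ R := fun i x y z e => e ▸ sub_mem (add_mem (add_mem (smul_mem _ _ (uR 1))
      (smul_mem _ _ (uR 2))) (smul_mem _ _ (uR 3))) (uR 0)
    fin_cases i
    · refine g 0 1 1 1 ?_
      rw [u0, u1, u2, u3]
      change v 0 - _ = _
      linear_combination (norm := module) s0 - h3 • (v 0 + v 5)
    · refine g 1 1 (-1) (-1) ?_
      rw [u0, u1, u2, u3]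
      change v 1 - _ = _
      linear_combination (norm := module) s0 - h3 • (v 1 + v 5)
    · refine g 2 (-1) 1 (-1) ?_
      rw [u0, u1, u2, u3]
      change v 2 - _ = _
      linear_combination (norm := module) s0 - h3 • (v 2 + v 5)
    · refine g 3 (-1) (-1) 1 ?_
      rw [u0, u1, u2, u3]
      change v 3 - _ = _
      linear_combination (norm := module) s0 - h3 • (v 3 + v 5)
    · exact u0 ▸ uR 0
    · simp
  have dR : ∀ i, v i - v 5 ∈ R := fun i => eR ▸ subset_span ⟨i, rfl⟩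
  have sR : Sb r R := fun g => (eR.le.trans (span_le.2 (Set.range_subset_iff.2 fun i => mem_comap.2
    (mm (sub_mem (dR (g.1 i)) (dR (g.1 5))) (by rw [map_sub, hv, hv]; abel)))) : R ≤ R.comap (r g))
  have kR : R ≤ LinearMap.ker (ga r a) :=
    eR.le.trans (span_le.2 (Set.range_subset_iff.2 fun i => sub_mem (kv i) (kv 5)))
  have le : map₂ B R R ≤ LinearMap.range (ga r' a) := by
    rw [eR, map₂_span_span, span_le]
    rintro _ ⟨_, ⟨i, rfl⟩, _, ⟨j, rfl⟩, rfl⟩
    refine mm (sub_mem (sub_mem (m0 i j) (m0 i 5)) (m0 j 5)) ?_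
    beta_reduce
    rw [show v i - v j = (v i - v 5) - (v j - v 5) by abel]
    generalize v i - v 5 = x
    generalize v j - v 5 = y
    simp only [map_sub, LinearMap.sub_apply, sy y x]
    linear_combination (norm := module) h3 • B x y
  have eU : map₂ B R R = LinearMap.range (ga r' a) := by
    refine sub9 h.tb.hq h.tb.q2 h3 (rk fun _ => rfl) (fun g => (map₂_le.2 fun x hx y hy => ?_ :
      map₂ B R R ≤ (map₂ B R R).comap (r' g))) le fun e => n0 ?_
    · exact mem_comap.2 (eq g x y ▸ apply_mem_map₂ B (sR g x hx) (sR g y hy))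
    have e0 : R = ⊥ := wp _ c0 (fun t => by
      have := rk (r := r) fun x => (h.jp.dm_eq x).symm
      rw [LinearMap.ker_eq_top.1 t, LinearMap.range_zero, finrank_bot] at this
      omega) R kR sR fun x hx => by
        rw [sB, show B x x = 0 from (mem_bot K).1 (e ▸ apply_mem_map₂ B hx hx), neg_zero]
    refine v5 ▸ (mem_bot K).1 (h.fx ▸ (mem_iInf _).2 fun g => mem_fs.2 ?_)
    rw [hv]
    exact sub_eq_zero.1 ((mem_bot K).1 (e0 ▸ dR _))
  have p : ∀ i j k, B (u i) (u j) ⬝ᵥ u k = 0 := fun i j k => by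
    obtain ⟨w, e⟩ := le (apply_mem_map₂ B (uR i) (uR j))
    rw [← e, dotProduct_comm, ← h.jp.ga a_inv, LinearMap.mem_ker.1 (kR (uR k)), zero_dotProduct]
  have p' : ∀ i j, sh (u i) ⬝ᵥ u j = 0 := fun i j => by rw [sB, neg_dotProduct, p, neg_zero]
  refine ⟨_, u, c1, rk fun _ => rfl, ?_, ?_, ?_, ?_, p', fun i j k => hB _ _ ▸ p i j k⟩
  · have hs : ∀ j, r s6 (v j) = v (![1, 0, 3, 2, 4, 5] j) := hv s6
    have ht : ∀ j, r t6 (v j) = v (![2, 3, 0, 1, 4, 5] j) := hv t6
    refine f4 ?_ ?_ ?_ ?_ <;> simp [u0, u1, u2, u3, hs, ht] <;> constructor <;> abel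
  · rw [← eU]
    refine le_antisymm ?_ (span_le.2 ?_)
    · rw [hR, map₂_span_span]
      refine span_mono ?_
      rintro _ ⟨_, ⟨i, rfl⟩, _, ⟨j, rfl⟩, rfl⟩
      exact .inr ⟨(i, j), hB _ _⟩
    · rintro _ (⟨i, rfl⟩ | ⟨x, rfl⟩)
      · exact mm (neg_mem (apply_mem_map₂ B (uR i) (uR i))) (sB _)
      · exact mm (apply_mem_map₂ B (uR _) (uR _)) (hB _ _)
  · simp only [sB, u0, u1, u2, u3, map_add, map_sub, LinearMap.add_apply, LinearMap.sub_apply]
    linear_combination (norm := (simp only [sy]; module)) h3 • (B (v 0) (v 0) + B (v 1) (v 1) + B (v 2) (v 2) +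
      B (v 3) (v 3) - B (v 4) (v 4) - B (v 5) (v 5)) - z
  · have e := (h.jp (ap ![1, 0, 2, 3, 5, 4] ![1, 0, 2, 3, 5, 4])).t1 (u 0)
    rw [show r _ (u 0) = -u 0 by rw [u0, map_sub, hv, hv, neg_sub]; rfl] at e
    have t := T_add' (u 0) (-u 0)
    have t0 := T_add' (0 : N K) 0
    rw [add_neg_cancel, sh_neg, dotProduct_neg, p', e] at t
    rw [add_zero, dotProduct_zero] at t0
    linear_combination t + t0 + cubicT (u 0) * h3

end CF.Am
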