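import Cfsg.Agent.Am.C6b0
import Cfsg.Agent.Am.C6a

/-! Alternating subgroups of `E₆(q)`: the group `A₆` in characteristic three. -/

set_option autoImplicit false

namespace CF.Am

open Module Function Cfsg.Lie CF.E83 CF.Al Submodule

variable {K W : Type*} [Field K] [AddCommGroup W] [Module K W] [FiniteDimensional K W] [IsAlgClosed K] {q : ℕ}

theorem C6b.one {r r' : An 6 →* End K (N K)} {l : An 6 →* End K W} (h : HN q r r' l) (h3 : (3 : K) = 0)
    (d2 : ∀ t, t ^ 2 = 1 → t ≠ 1 → dm r t = 15) (d4 : ∀ u, u ^ 4 = 1 → u ^ 2 ≠ 1 → dm r u = 7)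
    (d5 : ∀ y, y ^ 5 = 1 → y ≠ 1 → dm r y = 5) (wp : WP r) (v : V4 r r' s6 t6) : Fx (r.comp up) = ⊥ := by
  by_contra nz
  obtain ⟨U, u, c, h9, e, hU, e0, e1, e2, e3⟩ := c6c1 h h3 d2 d4 d5 wp nz
  obtain ⟨g, g', j, a, b, -, -, k⟩ := v
  choose w hw using fun i => j.bij.2 (u i)
  obtain rfl : u = fun i => g (w i) := funext fun i => (hw i).symm
  have i' := j.symm.bij.1
  let U0 := span K (Set.range (fun i => sh (w i)) ∪ Set.range fun x : Fin 4 × Fin 4 => cr (w x.1) (w x.2))
  have m : U = U0.map g' := by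
    rw [hU, map_span, Set.image_union, ← Set.range_comp, ← Set.range_comp]
    simp only [j.s1, j.cr, comp_def]
  have := c6c2 (U := U0) (u := w) (fun h2 => one_ne_zero (α := K) (by linear_combination h3 - h2))
    ((equivMapOfInjective g' i' U0).finrank_eq.trans (m ▸ h9))
    (fun i => ⟨j.bij.1 (by rw [map_zsmul, ← (e i).1]; exact (LinearMap.congr_fun a _).symm),
      j.bij.1 (by rw [map_zsmul, ← (e i).2]; exact (LinearMap.congr_fun b _).symm)⟩) rfl
    (i' (by simpa only [map_add, j.s1] using e0)) (j.t1 _ ▸ e1)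
    (fun a b => by rw [← j.symm.pr, ← j.s1]; exact e2 a b) fun a b c => by rw [← j.symm.pr, ← j.cr]; exact e3 a b c
  obtain e | e := k U c fun d _ v hv => by
    rw [m] at hv ⊢
    exact mem_map_of_mem (this d v ((comap_map_eq_of_injective i' U0).le hv))
  · rw [e, finrank_bot] at h9
    omega
  · rw [e, finrank_top, h.tb.dr] at h9
    omega

theorem c6c {r r' : An 6 →* End K (N K)} {l : An 6 →* End K W} (h : HN q r r' l) (h3 : (3 : K) = 0)
    (d2 : ∀ t, t ^ 2 = 1 → t ≠ 1 → dm r t = 15) (d4 : ∀ u, u ^ 4 = 1 → u ^ 2 ≠ 1 → dm r u = 7)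
    (d5 : ∀ y, y ^ 5 = 1 → y ≠ 1 → dm r y = 5) (wp : WP r) (wp' : WP r') (v : V4 r r' s6 t6)
    (v' : V4 r' r s6 t6) : False := by
  haveI : Fact (Nat.Prime 3) := ⟨by norm_num⟩
  have a := d2 (up a5) (by rw [← map_pow, show a5 ^ 2 = 1 by decide +kernel, map_one])
    fun e => absurd (up_inj (e.trans (map_one _).symm)) (by decide +kernel)
  have b := unip (r := r.comp up) (p := 3) (by exact_mod_cast h3) (x := b5) (k := 1) (by decide +kernel)
  have c := d5 (up (a5 * b5)) (by rw [← map_pow, show (a5 * b5) ^ 5 = 1 by decide +kernel, map_one])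
    fun e => absurd (up_inj (e.trans (map_one _).symm)) (by decide +kernel)
  rw [h.tb.dr] at b
  refine ((h.jp.comp up).sco g5 ?_).elim (absurd (C6b.one h h3 d2 d4 d5 wp v)) (absurd (C6b.one h.symm h3
    (fun t a b => (h.jp.dm_eq t).trans (d2 t a b)) (fun t a b => (h.jp.dm_eq t).trans (d4 t a b))
    (fun t a b => (h.jp.dm_eq t).trans (d5 t a b)) wp' v'))
  change dm (r.comp up) a5 = 15 at a
  change dm (r.comp up) (a5 * b5) = 5 at c
  omega

end CF.Am
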