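import Cfsg.Agent.Am.B

/-! Alternating subgroups of `E₆(q)`: a computation with matrices of size three. -/

set_option autoImplicit false

namespace CF.Am.C6b

open Module Matrix

variable {K : Type*} [Field K]

/-- Matrices of size three. -/
abbrev M3 (K : Type*) := Matrix (Fin 3) (Fin 3) K

/-- The kernel of a matrix of rank at least two is at most a line. -/
theorem line {A : M3 K} (h : ∀ x y : Fin 3 → K, A ≠ vecMulVec x y) :
    ∃ n, ∀ v, A *ᵥ v = 0 → ∃ s : K, s • n = v := by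
  have r := LinearMap.finrank_range_add_finrank_ker (toLin' A)
  rw [finrank_fintype_fun_eq_card, Fintype.card_fin] at r
  by_cases k : finrank K (LinearMap.ker (toLin' A)) ≤ 1
  · obtain ⟨n, e⟩ := finrank_le_one_iff.1 k
    exact ⟨n, fun v hv => (e ⟨v, by simpa using hv⟩).imp fun s e => congrArg Subtype.val e⟩
  · obtain ⟨x, e⟩ := finrank_le_one_iff.1 (show finrank K (LinearMap.range (toLin' A)) ≤ 1 by omega)
    choose y e using fun j => e ⟨_, Pi.single j 1, rfl⟩
    refine (h x y ?_).elim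
    ext i j
    have := congrFun (congrArg Subtype.val (e j)) i
    simp at this
    rw [vecMulVec_apply, mul_comm, this]

theorem nr {A C : M3 K} (d : C.det = 0) (li : ∀ s, C * diagonal s * A = 0 → s = 0) (x y : Fin 3 → K) :
    A ≠ vecMulVec x y := by
  rintro rfl
  have k : ∀ s : Fin 3 → K, C *ᵥ (fun i => s i * x i) = 0 → s = 0 := fun s e => li s (by
    rw [mul_vecMulVec, ← mulVec_mulVec,
      show diagonal s *ᵥ x = fun i => s i * x i from funext (mulVec_diagonal s x), e, zero_vecMulVec])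
  obtain ⟨v, v0, e⟩ := exists_mulVec_eq_zero_iff.2 d
  have x0 : ∀ i, x i ≠ 0 := fun i h => by
    have := congrFun (k (Pi.single i 1) (by
      rw [show (fun j => (Pi.single i 1 : Fin 3 → K) j * x j) = 0 from funext fun j => by
        by_cases c : j = i <;> simp [c, h], mulVec_zero])) i
    simp at this
  have e' : (fun i => v i / x i * x i) = v := funext fun i => div_mul_cancel₀ _ (x0 i)
  exact v0 (funext fun i => by
    simpa [x0 i] using congrFun (k (fun i => v i / x i) (by rw [e', e])) i)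

theorem row {A C : M3 K} (li : ∀ s, C * diagonal s * A = 0 → s = 0) {v : Fin 3 → K} (e : v ᵥ* A = 0)
    {j : Fin 3} (n : v j ≠ 0) : ∃ k ≠ j, v k ≠ 0 := by
  by_contra! c
  have z : ∀ i, A j i = 0 := fun i => by
    have := congrFun e i
    rw [vecMul, dotProduct, Finset.sum_eq_single j (fun k _ h => by simp [c k h]) (by simp)] at this
    simpa [n] using this
  have := congrFun (li (Pi.single j 1) (by
    rw [Matrix.mul_assoc, show diagonal (Pi.single j 1) * A = 0 from ext fun a b => by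
      by_cases c : a = j <;> simp [diagonal_mul, c, z], Matrix.mul_zero])) j
  simp at this

/-- The matrix lemma. -/
theorem mat {A B C : M3 K} (h0 : B.adjugate = -(C * A)) (h1 : B.det = 0) (h2 : A.det + C.det = 0)
    (h3 : ∀ k, (A * B * C) k k = 0) (li : ∀ s, C * diagonal s * A = 0 → s = 0) :
    ∃ n m : Fin 3 → K, ∀ k, (∃ s : K, s • n = B *ᵥ Cᵀ k) ∧ (∃ s : K, s • n = A.adjugateᵀ k) ∧
      (∃ s : K, s • m = A k ᵥ* B) ∧ ∃ s : K, s • m = C.adjugate k := by
  have dd : C.det * A.det = 0 := by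
    have := det_adjugate B
    rw [h0, h1, det_neg, det_mul] at this
    simpa using this
  have dA : A.det = 0 := by
    rw [show C.det = -A.det by linear_combination h2] at dd
    simpa using dd
  have dC : C.det = 0 := by rwa [dA, zero_add] at h2
  have li' : ∀ s, Aᵀ * diagonal s * Cᵀ = 0 → s = 0 := fun s e => li s (by
    simpa [Matrix.mul_assoc] using congrArg transpose e)
  have nA := nr dC li
  obtain ⟨n, hn⟩ := line nA
  obtain ⟨m, hm⟩ := line (nr ((det_transpose A).trans dA) li')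
  obtain ⟨l, hl⟩ := line (A := Aᵀ) fun x y e => nA y x (by
    rw [← transpose_transpose A, e, transpose_vecMulVec])
  have e1 : A * B * C * A = 0 := by
    have := mul_adjugate B
    rw [h0, h1, zero_smul, Matrix.mul_neg, neg_eq_zero] at this
    rw [Matrix.mul_assoc, Matrix.mul_assoc, this, Matrix.mul_zero]
  have e2 : (A * B * C)ᵀ * Cᵀ = 0 := by
    have := adjugate_mul B
    rw [h0, h1, zero_smul, Matrix.neg_mul, neg_eq_zero] at this
    rw [← transpose_mul, ← Matrix.mul_assoc, ← Matrix.mul_assoc, this, Matrix.zero_mul, transpose_zero]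
  have r1 : ∀ i, (A * B * C) i ᵥ* A = 0 := fun i => by rw [← mul_apply_eq_vecMul, e1]; rfl
  have r2 : ∀ i, (A * B * C)ᵀ i ᵥ* Cᵀ = 0 := fun i => by rw [← mul_apply_eq_vecMul, e2]; rfl
  choose s hs using fun i => hl _ ((mulVec_transpose _ _).trans (r1 i))
  have M0 : A * B * C = 0 := by
    generalize A * B * C = M at *
    have f : ∀ i j, M i j = s i * l j := fun i j => (congrFun (hs i) j).symm
    ext i j
    by_contra n
    obtain ⟨k, k1, k2⟩ := row li (r1 i) n
    obtain ⟨k', k3, k4⟩ := row li' (r2 j) (j := i) n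
    have a : i ≠ j := fun e => n (e ▸ h3 i)
    have b : k ≠ i := fun e => k2 (e ▸ h3 k)
    have c : k' ≠ j := fun e => k4 (e ▸ h3 k')
    obtain rfl : k = k' := by omega
    rw [transpose_apply, f] at k4
    rw [f] at k2
    exact mul_ne_zero (left_ne_zero_of_mul k4) (right_ne_zero_of_mul k2) (f k k ▸ h3 k)
  refine ⟨n, m, fun k => ⟨hn _ ?_, hn _ ?_, hm _ ?_, hm _ ?_⟩⟩
  · rw [mulVec_mulVec]
    exact funext fun i => congrFun (congrFun M0 i) k
  · have := mul_adjugate A
    rw [dA, zero_smul] at this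
    exact funext fun i => congrFun (congrFun this i) k
  · rw [mulVec_transpose, vecMul_vecMul, ← mul_apply_eq_vecMul, ← Matrix.mul_assoc, M0]; rfl
  · rw [mulVec_transpose, ← mul_apply_eq_vecMul, adjugate_mul, dC, zero_smul]; rfl

/-- Two independent vectors in a plane span it. -/
theorem two {V : Type*} [AddCommGroup V] [Module K V] {U : Submodule K V} {n m : V} {α β γ δ : K}
    (p : α • n + γ • m ∈ U) (q : β • n + δ • m ∈ U)
    (li : ∀ s t : K, s • (α • n + γ • m) + t • (β • n + δ • m) = 0 → s = 0 ∧ t = 0) : n ∈ U ∧ m ∈ U := by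
  have e1 : δ • (α • n + γ • m) + (-γ) • (β • n + δ • m) = (α * δ - β * γ) • n := by module
  have e2 : (-β) • (α • n + γ • m) + α • (β • n + δ • m) = (α * δ - β * γ) • m := by module
  have D : α * δ - β * γ ≠ 0 := fun D => by
    rw [D, zero_smul] at e1 e2
    have := li 1 0 (by rw [(li _ _ e2).2, neg_eq_zero.1 (li _ _ e1).2]; simp)
    simp at this
  exact ⟨(U.smul_mem_iff D).1 (e1 ▸ U.add_mem (U.smul_mem _ p) (U.smul_mem _ q)),
    (U.smul_mem_iff D).1 (e2 ▸ U.add_mem (U.smul_mem _ p) (U.smul_mem _ q))⟩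

open Cfsg.Lie CF.E83 CF.Al Function

/-- The middle matrix. -/
def EB (B : M3 K) : N K := fun a => if a.1 = 1 then B a.2.1 a.2.2 else 0

/-- A row of the first and a column of the last matrix. -/
def ER (k : Fin 3) (x y : Fin 3 → K) : N K := fun a =>
  if a.1 = 0 ∧ a.2.1 = k then x a.2.2 else if a.1 = 2 ∧ a.2.2 = k then y a.2.1 else 0

theorem EB_inj {B : M3 K} (h : EB B = 0) : B = 0 := ext fun i j => by
  simpa [EB] using congrFun h (1, i, j)

theorem ER_lin (k : Fin 3) (s t : K) (x y : Fin 3 → K) :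
    ER k (s • x) (t • y) = s • ER k x 0 + t • ER k 0 y := by
  funext a
  simp only [ER, Pi.add_apply, Pi.smul_apply]
  split_ifs <;> simp

theorem dg_EB (d : Fin 3 → Kˣ) (B : M3 K) : dg d (EB B) = EB B := by
  funext a
  by_cases h : a.1 = 1 <;> simp [dg, EB, h]

theorem dg_ER (d : Fin 3 → Kˣ) (k : Fin 3) (x y : Fin 3 → K) :
    dg d (ER k x y) = ER k ((d k : K) • x) (((d k)⁻¹ : Kˣ) • y) := by
  funext ⟨a, i, j⟩
  fin_cases a <;> simp [dg, ER, Units.smul_def] <;> split_ifs <;> simp_all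

theorem f0 (B : M3 K) : sh (EB B) = EB B.adjugateᵀ := by
  funext ⟨a, i, j⟩
  fin_cases a <;> fin_cases i <;> fin_cases j <;>
    simp [sh, Geom.E6.Q, Geom.E6.p1, Geom.E6.p2, Geom.E6.ep, Fin.sum_univ_five, EB, adjugate_fin_three] <;> ring

theorem f1 (k : Fin 3) (x y : Fin 3 → K) : sh (ER k x y) = EB (-vecMulVec x y) := by
  funext ⟨a, i, j⟩
  fin_cases k <;> fin_cases a <;> fin_cases i <;> fin_cases j <;>
    simp [sh, Geom.E6.Q, Geom.E6.p1, Geom.E6.p2, Geom.E6.ep, Fin.sum_univ_five, EB, ER, vecMulVec_apply] <;> ring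

theorem f2 (B : M3 K) (k : Fin 3) (x y : Fin 3 → K) : cr (EB B) (ER k x y) = ER k (-(B *ᵥ y)) (-(x ᵥ* B)) := by
  funext ⟨a, i, j⟩
  fin_cases k <;> fin_cases a <;> fin_cases i <;> fin_cases j <;>
    simp [cr, Geom.E6.R, Geom.E6.p1, Geom.E6.p2, Geom.E6.ep, Fin.sum_univ_five, EB, ER, mulVec, vecMul, dotProduct,
      Fin.sum_univ_three] <;> ring

theorem f3 (A C : M3 K) (k : Fin 3) : cr (ER (k + 1) (A (k + 1)) (Cᵀ (k + 1))) (ER (k + 2) (A (k + 2)) (Cᵀ (k + 2))) =
    ER k (A.adjugateᵀ k) (C.adjugate k) := by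
  funext ⟨a, i, j⟩
  fin_cases k <;> fin_cases a <;> fin_cases i <;> fin_cases j <;>
    simp [cr, Geom.E6.R, Geom.E6.p1, Geom.E6.p2, Geom.E6.ep, Fin.sum_univ_five, ER, adjugate_fin_three] <;> ring

theorem T_EB (B : M3 K) : cubicT (EB B) = B.det := by
  simp [cubicT, mat3, EB, det_fin_three, trace, mul_apply, Fin.sum_univ_three]

theorem dot_EB (X Y : M3 K) : EB X ⬝ᵥ EB Y = ∑ i, ∑ j, X i j * Y i j := by
  simp [dotProduct, EB, Fintype.sum_prod_type, Fin.sum_univ_three]

theorem dot_ER (k : Fin 3) (x y x' y' : Fin 3 → K) : ER k x y ⬝ᵥ ER k x' y' = x ⬝ᵥ x' + y ⬝ᵥ y' := by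
  fin_cases k <;> simp [dotProduct, ER, Fintype.sum_prod_type, Fin.sum_univ_three]

theorem zero_of (h2 : (2 : K) ≠ 0) {x : K} (h : -x = x) : x = 0 := by
  have : 2 * x = 0 := by linear_combination -h
  simpa [h2] using this

theorem u0 (h2 : (2 : K) ≠ 0) {v : N K} (e : dg ![1, -1, -1] v = v) (e' : dg ![-1, 1, -1] v = v) :
    v = EB (mat3 v 1) := by
  funext ⟨a, i, j⟩
  have c := congrFun e (a, i, j)
  have c' := congrFun e' (a, i, j)
  fin_cases a <;> fin_cases i <;> fin_cases j <;> simp [dg, EB, mat3] at c c' ⊢ <;>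
    first | exact zero_of h2 c | exact zero_of h2 c'

theorem uk (h2 : (2 : K) ≠ 0) {v : N K} (k : Fin 3) (e : dg ![1, -1, -1] v = (![1, -1, -1] k : ℤ) • v)
    (e' : dg ![-1, 1, -1] v = (![-1, 1, -1] k : ℤ) • v) :
    v = ER k (fun j => v (0, k, j)) fun i => v (2, i, k) := by
  funext ⟨a, i, j⟩
  have c := congrFun e (a, i, j)
  have c' := congrFun e' (a, i, j)
  fin_cases k <;> fin_cases a <;> fin_cases i <;> fin_cases j <;> simp [dg, ER] at c c' ⊢ <;>
    first | exact zero_of h2 c | exact zero_of h2 c' | exact zero_of h2 c.symm | exact zero_of h2 c'.symm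

end CF.Am.C6b

namespace CF.Am

open Module Function Cfsg.Lie CF.E83 CF.Al Matrix Submodule C6b

variable {K : Type*} [Field K] [IsAlgClosed K]

theorem c6c2 (h2 : (2 : K) ≠ 0) {U : Submodule K (N K)} {u : Fin 4 → N K} (h9 : finrank K U = 9)
    (e : ∀ i, dg ![1, -1, -1] (u i) = ![1, 1, -1, -1] i • u i ∧
      dg ![-1, 1, -1] (u i) = ![1, -1, 1, -1] i • u i)
    (hU : U = Submodule.span K (Set.range (fun i => sh (u i)) ∪
      Set.range fun x : Fin 4 × Fin 4 => cr (u x.1) (u x.2)))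
    (e0 : sh (u 0) = sh (u 1) + sh (u 2) + sh (u 3)) (e1 : cubicT (u 0) = 0)
    (e2 : ∀ i j, sh (u i) ⬝ᵥ u j = 0) (e3 : ∀ i j k, cr (u i) (u j) ⬝ᵥ u k = 0) (d : Fin 3 → Kˣ) :
    ∀ v ∈ U, dg d v ∈ U := by
  let w : Fin 3 × Fin 3 → N K := fun x =>
    ![sh (u x.2.succ), cr (u 0) (u x.2.succ), cr (u (x.2 + 1).succ) (u (x.2 + 2).succ)] x.1
  have hw : U = span K (Set.range w) := by
    have m : ∀ x, w x ∈ span K (Set.range w) := fun x => subset_span ⟨x, rfl⟩
    have s : ∀ i, sh (u i) ∈ span K (Set.range w) := fun i => by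
      fin_cases i
      exacts [e0 ▸ add_mem (add_mem (m (0, 0)) (m (0, 1))) (m (0, 2)), m (0, 0), m (0, 1), m (0, 2)]
    have s' : ∀ i, cr (u i) (u i) ∈ span K (Set.range w) := fun i => cr_self (u i) ▸ smul_mem _ _ (s i)
    have c : ∀ i j, cr (u i) (u j) ∈ span K (Set.range w) → cr (u j) (u i) ∈ span K (Set.range w) :=
      fun i j h => cr_comm (u i) (u j) ▸ h
    refine hU.trans (le_antisymm (span_le.2 ?_) (span_le.2 ?_))
    · rintro _ (⟨i, rfl⟩ | ⟨⟨i, j⟩, rfl⟩)
      · exact s i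
      · fin_cases i <;> fin_cases j
        exacts [s' 0, m (1, 0), m (1, 1), m (1, 2), c 0 1 (m (1, 0)), s' 1, m (2, 2),
          c 3 1 (m (2, 1)), c 0 2 (m (1, 1)), c 1 2 (m (2, 2)), s' 2,
          m (2, 0), c 0 3 (m (1, 2)), m (2, 1), c 2 3 (m (2, 0)), s' 3]
    · rintro _ ⟨⟨a, k⟩, rfl⟩
      fin_cases a
      exacts [subset_span (.inl ⟨_, rfl⟩), subset_span (.inr ⟨(_, _), rfl⟩), subset_span (.inr ⟨(_, _), rfl⟩)]
  have li : LinearIndependent K w :=
    linearIndependent_iff_card_eq_finrank_span.2 (by rw [Set.finrank, ← hw, h9]; rfl)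
  obtain ⟨B, a0⟩ : ∃ B, u 0 = EB B := ⟨_, u0 h2 (by simpa using (e 0).1) (by simpa using (e 0).2)⟩
  obtain ⟨A, C, ak⟩ : ∃ A C : M3 K, ∀ k : Fin 3, u k.succ = ER k (A k) (Cᵀ k) :=
    ⟨of fun k j => u k.succ (0, k, j), of fun i k => u k.succ (2, i, k), fun k =>
      uk h2 k (e k.succ).1 (e k.succ).2⟩
  have w0 : ∀ k, w (0, k) = EB (-vecMulVec (A k) (Cᵀ k)) := fun k => by rw [← f1 k, ← ak]; rfl
  have w1 : ∀ k, w (1, k) = ER k (-(B *ᵥ Cᵀ k)) (-(A k ᵥ* B)) := fun k => by rw [← f2, ← ak, ← a0]; rfl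
  have w2 : ∀ k, w (2, k) = ER k (A.adjugateᵀ k) (C.adjugate k) := fun k => by rw [← f3, ← ak, ← ak]; rfl
  obtain ⟨n, m, h⟩ := mat (A := A) (B := B) (C := C) (by
      have : EB (B.adjugateᵀ + (C * A)ᵀ) = 0 := by
        rw [a0, f0, show sh (u 1) = _ from w0 0, show sh (u 2) = _ from w0 1, show sh (u 3) = _ from w0 2] at e0
        funext a
        have := congrFun e0 a
        by_cases c : a.1 = 1 <;> simp [EB, c, mul_apply, Fin.sum_univ_three, vecMulVec_apply] at this ⊢
        linear_combination this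
      rw [← transpose_add] at this
      exact eq_neg_of_add_eq_zero_left (transpose_eq_zero.1 (EB_inj this))) (by rwa [a0, T_EB] at e1) (by
      have := e3 2 3 1
      rw [show cr (u 2) (u 3) = _ from w2 0, show u 1 = _ from ak 0, dot_ER] at this
      have b := congrFun (congrFun (mul_adjugate A) 0) 0
      have c := congrFun (congrFun (adjugate_mul C) 0) 0
      simp [mul_apply, dotProduct] at b c this
      rw [← b, ← c, ← this]
      simp only [mul_comm]) (fun k => by
      have := e2 k.succ 0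
      rw [show sh (u k.succ) = _ from w0 k, a0, dot_EB] at this
      simp [mul_apply, Fin.sum_univ_three, vecMulVec_apply] at this ⊢
      linear_combination -this) fun s c => funext (Fintype.linearIndependent_iff.1
        (li.comp (fun k => (0, k)) (Prod.mk_right_injective 0)) s (by
      funext a
      have := congrFun (congrFun c a.2.2) a.2.1
      by_cases c : a.1 = 1 <;>
        simp [w0, EB, c, mul_apply, Fin.sum_univ_three, vecMulVec_apply, diagonal_apply] at this ⊢
      linear_combination -this))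
  have mw : ∀ x, w x ∈ U := fun x => hw ▸ subset_span ⟨x, rfl⟩
  have k : ∀ k (s t : K), ER k (s • n) (t • m) ∈ U := fun k s t => by
    obtain ⟨⟨α, h1⟩, ⟨β, h2⟩, ⟨γ, h3⟩, δ, h4⟩ := h k
    have p : w (1, k) = (-α) • ER k n 0 + (-γ) • ER k 0 m := by rw [w1, ← ER_lin, neg_smul, neg_smul, h1, h3]
    have q : w (2, k) = β • ER k n 0 + δ • ER k 0 m := by rw [w2, ← ER_lin, h2, h4]
    have := two (p ▸ mw _) (q ▸ mw _) fun s t c => by
      have := Fintype.linearIndependent_iff.1 (li.comp (fun i : Fin 2 => (i.succ, k))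
        fun a b c => Fin.succ_injective _ (congrArg Prod.fst c)) ![s, t] (by
          rw [Fin.sum_univ_two, ← c, ← p, ← q]; rfl)
      exact ⟨this 0, this 1⟩
    exact ER_lin k s t n m ▸ add_mem (smul_mem _ _ this.1) (smul_mem _ _ this.2)
  refine fun v hv => (hw.le.trans (span_le.2 ?_) : U ≤ U.comap (dg d)) hv
  rintro _ ⟨⟨a, i⟩, rfl⟩
  obtain ⟨⟨α, h1⟩, ⟨β, h2⟩, ⟨γ, h3⟩, δ, h4⟩ := h i
  show dg d (w (a, i)) ∈ U
  fin_cases a
  · rw [show w (⟨0, by omega⟩, i) = _ from w0 i, dg_EB, ← w0]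
    exact mw _
  · rw [show w (⟨1, by omega⟩, i) = _ from w1 i, dg_ER, ← h1, ← h3, ← neg_smul, ← neg_smul, smul_smul, Units.smul_def,
      smul_smul]
    exact k _ _ _
  · rw [show w (⟨2, by omega⟩, i) = _ from w2 i, dg_ER, ← h2, ← h4, smul_smul, Units.smul_def, smul_smul]
    exact k _ _ _

end CF.Am
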