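import Cfsg.Agent.Am.C72a
import Cfsg.Agent.Am.B7

/-! `A₇` in characteristic two. -/

set_option autoImplicit false
set_option maxRecDepth 100000

namespace CF.Am

open Module Function CF.E83 CF.Al CF.Al.C3 CF.Al.C7 C72

variable {K W : Type*} [Field K] [AddCommGroup W] [Module K W] [FiniteDimensional K W] [IsAlgClosed K]
  {q : ℕ}

theorem c72s {r r' : An 7 →* End K (N K)} {l : An 7 →* End K W} (h : HN q r r' l) (h2 : (2 : K) = 0) :
    False := by
  have h3 : (3 : K) ≠ 0 := fun e => one_ne_zero (α := K) (by linear_combination e - h2)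
  have h5 : (5 : K) ≠ 0 := fun e => one_ne_zero (α := K) (by linear_combination e - 2 * h2)
  have h7 : (7 : K) ≠ 0 := fun e => one_ne_zero (α := K) (by linear_combination e - 3 * h2)
  have b := h.tb
  have y := (b.n5 h5 Y Y5 Y1 (re Y5 cY4)).2 (.inl cY2)
  have x := b.n3 h3 X X3 X1 (re X3 cX)
  have z := b.n3 h3 Z Z3 Z1 (re Z3 cZ)
  have w := b.n7 h7 _ W7 C3.W1 cW2
  have t := (b.i2 h2 T T_2).1
  have u := half h2 r U
  have s := h.sco gen
  have s' := h.sco gen'
  have d := d17 b h2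
  obtain ⟨m, d', t', u', e⟩ := blk7 h2 h.fx (h.jp.cx.2 h.fx') rfl rfl rfl rfl rfl
  rw [← dm_conj cTU] at u
  rw [← dm_conj c398, ← dm_conj cy] at s'
  rw [b.dr] at e
  omega

theorem c72n {l : An 7 →* End K W} (h : TL q l) (fx : Fx l = ⊥) (cx : Cx l = ⊤) (h2 : (2 : K) = 0)
    (x3 : ∀ x : An 6, x ^ 3 = 1 → x ≠ 1 → dm l (up x) = 30) : False := by
  have h5 : (5 : K) ≠ 0 := fun e => one_ne_zero (α := K) (by linear_combination e - 2 * h2)
  have h7 : (7 : K) ≠ 0 := fun e => one_ne_zero (α := K) (by linear_combination e - 3 * h2)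
  have k : ∀ {g g' : An 7}, g ^ 3 = 1 → g ≠ 1 → IsConj g g' → g'.1 (Fin.last 6) = Fin.last 6 →
      dm l g = 30 := fun e n c f => by
    obtain ⟨a, rfl⟩ := exists_up f
    rw [dm_conj c]
    exact x3 a (up_inj (by rw [map_pow, map_one]; exact isConj_one_right.1 (e ▸ c.pow 3)))
      fun o => n (isConj_one_left.1 (by rwa [o, map_one] at c))
  have x := k X3 X1 cc (by decide +kernel)
  have z := k Z3 Z1 cz (by decide +kernel)
  have y := (h.t5 h5 Y Y5 Y1 (re Y5 cY4)).2 (.inl cY2)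
  have w := h.t7 h7 _ W7 C3.W1 cW2
  obtain ⟨m, d, t, u, e⟩ := blk7 h2 fx cx rfl rfl rfl rfl rfl
  rw [h.dl] at e
  omega

end CF.Am
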