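import Cfsg.Agent.Am.B
import Cfsg.Agent.Am.BG
import Cfsg.Agent.Al.C7

/-! `A₇` in characteristic two: involutions. -/

set_option autoImplicit false
set_option maxRecDepth 100000

namespace CF.Am

open Module Function CF.E83 CF.Al CF.Al.C3 CF.Al.C7 Finset

variable {K V W : Type*} [Field K] [AddCommGroup V] [Module K V] [AddCommGroup W] [Module K W]
  [FiniteDimensional K V] [FiniteDimensional K W]

namespace C72

theorem add_le {A B C : Submodule K V} (a : A ≤ C) (b : B ≤ C) (h : ∀ v ∈ A, v ∈ B → v = 0) :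
    finrank K A + finrank K B ≤ finrank K C := by
  have := Submodule.finrank_sup_add_finrank_inf_eq A B
  rw [show A ⊓ B = ⊥ from eq_bot_iff.2 fun v hv => h v hv.1 hv.2, finrank_bot] at this
  exact this ▸ Submodule.finrank_mono (sup_le a b)

omit [FiniteDimensional K V] in
theorem map_le (h2 : (2 : K) = 0) {t : End K V} (tt : t * t = 1) {A M : Submodule K V} (a : A ≤ M)
    (hM : ∀ v ∈ M, t v ∈ M) : A.map (t - 1) ≤ M ⊓ fs t := by
  rintro _ ⟨v, hv, rfl⟩
  refine ⟨sub_mem (hM v (a hv)) (a hv), mem_fs.2 ?_⟩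
  rw [LinearMap.sub_apply, map_sub, ← End.mul_apply, tt, End.one_apply, sub_eq_sub_iff_add_eq_add,
    ← two_smul K, ← two_smul K, h2, zero_smul, zero_smul]

/-- `A₄` in characteristic two. -/
theorem a4 (h2 : (2 : K) = 0) {t s x : End K V} (tt : t * t = 1) (xt : x * t = s * x)
    (xs : x * s = t * s * x) {M : Submodule K V} (hM : ∀ v ∈ M, t v ∈ M) :
    finrank K ↥(M ⊓ fs x) ≤ finrank K ↥(M ⊓ fs t) := by
  rw [← rk_map (t - 1)]
  refine add_le (map_le h2 tt inf_le_left hM) (inf_le_inf_right _ inf_le_left) ?_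
  rintro _ ⟨v, hv, rfl⟩ ⟨⟨-, hw⟩, -⟩
  have h1 := mem_fs.1 hv.2
  have h3 := mem_fs.1 hw
  have e1 := LinearMap.congr_fun xt v
  have e2 := LinearMap.congr_fun xs v
  have e3 := LinearMap.congr_fun tt v
  simp only [End.mul_apply, h1, End.one_apply] at e1 e2 e3
  rw [LinearMap.sub_apply, End.one_apply, map_sub, h1, e1, sub_left_inj] at h3
  rw [h3, e3, e1, h3] at e2
  rw [LinearMap.sub_apply, e2, End.one_apply, sub_self]

def LP : List ℕ := [0, 22, 25, 672, 694, 697, 756, 778, 781]

theorem re {S : Type*} [Group S] {x : S} {n : ℕ} (e : x ^ (n + 1) = 1) (c : IsConj x (x ^ n)) : Re x := by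
  rwa [eq_inv_of_mul_eq_one_left ((pow_succ x n).symm.trans e)] at c

theorem cc : IsConj X (el 22) := cc' (by decide +kernel)
theorem cx : IsConj X (el 672) := cc' (by decide +kernel)
theorem cz : IsConj Z (el 694) := cc' (by decide +kernel)
theorem cy : IsConj Y (Z * el 398) := cj_of 213 (by rw [cd_mul, Y, Z, cd_el, cd_el, cd_el]; decide +kernel)

theorem d7 {r : A7 →* End K V} {β : A7 → ℂ} (h : Br r β) (h3 : (3 : K) ≠ 0) :
    3 * finrank K ↥(fs (r (el 672)) ⊓ fs (r (el 22))) + finrank K V ≤ 2 * dm r X + 2 * dm r Z := by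
  have e := C7.key h (L := LP) (c := [1, 0, 0, 0, 0, 0, 4, 0, 4]) (m := 9) (by decide +kernel) rfl
    (by decide +kernel) (by rw [show ((9 : ℕ) : K) = 3 * 3 by norm_num]; simp [h3])
  have x := h.three h3 X3 cX
  have z := h.three h3 Z3 cZ
  simp only [sum_range_succ, range_zero, sum_empty, ri, List.getD_cons_zero, List.getD_cons_succ, e0,
    h.one] at e
  rw [X] at x
  rw [Z] at z
  have : (3 * finrank K (fx r LP) + finrank K V : ℤ) = 2 * dm r X + 2 * dm r Z := by
    refine Int.cast_injective (α := ℂ) ?_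
    simp only [X, Z] at *
    push_cast at *
    linear_combination (-e + 2 * x + 2 * z) / 3
  have le : fs (r (el 672)) ⊓ fs (r (el 22)) ≤ fx r LP := fun v hv => mem_fx.2 fun n hn => by
    obtain ⟨i, -, j, -, e⟩ := (by decide +kernel :
      ∀ n ∈ LP, ∃ i < 3, ∃ j < 3, ec n = cm (pc (ec 22) i) (pc (ec 672) j)) n hn
    rw [show el n = el 22 ^ i * el 672 ^ j from cd_inj (by simp only [cd_mul, cd_pow, cd_el, e]), map_mul,
      map_pow, map_pow, End.mul_apply, End.pow_apply, End.pow_apply, iterate_fixed (mem_fs.1 hv.1),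
      iterate_fixed (mem_fs.1 hv.2)]
  have := Submodule.finrank_mono le
  omega

theorem d16 (h2 : (2 : K) = 0) {t s x c : End K V} (tt : t * t = 1) (xt : x * t = s * x)
    (xs : x * s = t * s * x) (ct : c * t = t * c) (cx : c * x = x * c) (c3 : c * c * c = 1) :
    2 * finrank K (fs x) + finrank K (fs c) ≤ 2 * finrank K (fs t) + 2 * finrank K ↥(fs x ⊓ fs c) := by
  have h1 := rk_map (c - 1) (fs x)
  have h3 := rk_map (t - 1) (fs c)
  have h4 := Submodule.finrank_mono (map_le h2 tt (le_refl (fs c)) fun v hv => mem_fs.2 (by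
    rw [← End.mul_apply, ct, End.mul_apply, mem_fs.1 hv]))
  have h5 := a4 h2 tt xt xs (M := LinearMap.range (c - 1)) (by
    rintro _ ⟨v, rfl⟩
    exact ⟨t v, by rw [LinearMap.sub_apply, LinearMap.sub_apply, map_sub, ← End.mul_apply, ct]; rfl⟩)
  have h6 : (fs x).map (c - 1) ≤ LinearMap.range (c - 1) ⊓ fs x := by
    rintro _ ⟨v, hv, rfl⟩
    refine ⟨⟨v, rfl⟩, mem_fs.2 ?_⟩
    rw [LinearMap.sub_apply, map_sub, ← End.mul_apply, ← cx, End.mul_apply, End.one_apply, mem_fs.1 hv]
  have h7 := add_le (A := LinearMap.range (c - 1) ⊓ fs t) (B := fs c ⊓ fs t) inf_le_right inf_le_right (by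
    rintro _ ⟨⟨v, rfl⟩, -⟩ ⟨hv, -⟩
    have e := mem_fs.1 hv
    have e' := congrArg c e
    have e3 := LinearMap.congr_fun c3 v
    simp only [LinearMap.sub_apply, End.one_apply, map_sub, End.mul_apply] at e e' e3 ⊢
    rw [e3] at e'
    have : (2 : K) • (c v - v) = 0 := by rw [h2, zero_smul]
    linear_combination (norm := module) -(2 : K) • e - e' - this)
  have := Submodule.finrank_mono h6
  unfold fs at *
  omega

end C72

open C72

variable [IsAlgClosed K] {q : ℕ}

theorem d17 {r : An 7 →* End K V} {l : An 7 →* End K W} (h : TB q r l) (h2 : (2 : K) = 0)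
    (a : dm r C7.X = 15) (b : dm r C7.Z = 9) : 17 ≤ dm r C3.T := by
  have h3 : (3 : K) ≠ 0 := fun e => one_ne_zero (α := K) (by linear_combination e - h2)
  obtain ⟨β, c⟩ := exists_br h.hq h.q2 r
  have e := d7 c h3
  have g : T * T = 1 ∧ el 672 * T = el 42 * el 672 ∧ el 672 * el 42 = T * el 42 * el 672 ∧
      el 22 * T = T * el 22 ∧ el 22 * el 672 = el 672 * el 22 ∧ el 22 * el 22 * el 22 = 1 := by
    refine ⟨?_, ?_, ?_, ?_, ?_, ?_⟩ <;>
      exact cd_inj (by simp only [cd_mul, T, cd_el, cd_one]; decide +kernel)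
  have d := d16 h2 (t := r T) (s := r (el 42)) (x := r (el 672)) (c := r (el 22))
  simp only [← map_mul, g, map_one, forall_const] at d
  have i := h.i2 h2 T T_2
  have c1 := dm_conj (r := r) cc
  have c2 := dm_conj (r := r) C72.cx
  rw [h.dr] at e
  unfold dm at *
  omega

end CF.Am
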