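import Cfsg.Agent.Am.A
import Cfsg.Agent.Al.C3

/-! Coset sums of the block idempotent of `A₇` in characteristic three. -/

set_option autoImplicit false
set_option maxRecDepth 100000

namespace CF.Am

open Module Function Cfsg.Lie CF.E83 CF.Al Finset

namespace C73b

theorem blocks {M : Type*} [AddCommMonoid M] (f : ℕ → M) (k : ℕ) :
    ∀ n, ∑ i ∈ range (k * n), f i = ∑ s ∈ range k, ∑ m ∈ range n, f (k * m + s)
  | 0 => by simp
  | n + 1 => by
    rw [mul_add, mul_one, sum_range_add, blocks f k n, ← sum_add_distrib]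
    simp only [sum_range_succ]

def p0 (s : ℕ) : Fin 7 := Fin.ofNat 7 (C3.ap (C3.ec s) 0)

def p1 (s : ℕ) : Fin 7 := Fin.ofNat 7 (C3.ap (C3.ec s) 1)

def wt (k l : Fin 7) : ℤ := if k = 0 ∧ l = 1 then 180 else if k = 1 ∧ l = 0 then -100 else
  if k < 2 ∨ l < 2 then 12 else -16

theorem t1 : ((List.range 42).all fun s => (List.range 60).all fun m => C3.fc (C3.ec (42 * m + s)) fun c =>
    C3.ap c 0 == (p0 s).1 && C3.ap c 1 == (p1 s).1) = true := by decide +kernel

theorem t2 : ∀ s < 42, ((List.range 60).map fun m => C3.ac (C3.ec (42 * m + s))).sum = wt (p0 s) (p1 s) := by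
  decide +kernel

theorem t3 : (range 42).image (fun s => (p0 s, p1 s)) = univ.filter fun x => x.1 ≠ x.2 := by decide +kernel

theorem t4 : ∀ a < 42, ∀ b < 42, p0 a = p0 b → p1 a = p1 b → a = b := by decide +kernel

theorem el01 {s m : ℕ} (hs : s < 42) (hm : m < 60) :
    (C3.el (42 * m + s)).1 0 = p0 s ∧ (C3.el (42 * m + s)).1 1 = p1 s := by
  have := List.all_eq_true.1 (List.all_eq_true.1 t1 s (List.mem_range.2 hs)) m (List.mem_range.2 hm)
  rw [C3.fc_eq, Bool.and_eq_true, beq_iff_eq, beq_iff_eq, ← C3.cd_el] at this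
  exact ⟨Fin.ext ((C3.ap_cd _ 0).symm.trans this.1), Fin.ext ((C3.ap_cd _ 1).symm.trans this.2)⟩

theorem cos {M : Type*} [AddCommGroup M] (F : Fin 7 → Fin 7 → M) :
    ∑ g : An 7, C3.a g • F (g.1 0) (g.1 1) = ∑ k, ∑ l, if k ≠ l then wt k l • F k l else 0 := by
  rw [C3.sum_el, blocks _ 42 60, ← Fintype.sum_prod_type', ← sum_filter, ← t3, sum_image fun a ha b hb e =>
    t4 a (mem_range.1 ha) b (mem_range.1 hb) (congrArg Prod.fst e) (congrArg Prod.snd e)]
  refine sum_congr rfl fun s hs => ?_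
  rw [sum_congr rfl fun m hm => by rw [(el01 (mem_range.1 hs) (mem_range.1 hm)).1,
    (el01 (mem_range.1 hs) (mem_range.1 hm)).2], ← sum_smul, ← t2 s (mem_range.1 hs)]
  simp only [C3.a_cd, C3.cd_el]
  rfl

theorem two {i j : Fin 7} (h : i ≠ j) : ∃ g : An 7, g.1 0 = i ∧ g.1 1 = j := by
  obtain ⟨s, hs, e⟩ := mem_image.1 (t3.ge (mem_filter.2 ⟨mem_univ (i, j), h⟩))
  exact ⟨_, (el01 (mem_range.1 hs) (m := 0) (by omega)).imp (·.trans (congrArg Prod.fst e))
    (·.trans (congrArg Prod.snd e))⟩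

end C73b

end CF.Am
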