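import Cfsg.Agent.Am.JA
import Cfsg.Agent.Am.B
import Cfsg.Agent.Am.C73t

/-! `A₇` in characteristic three on the module of dimension `27`. -/

set_option autoImplicit false
set_option maxRecDepth 100000
set_option linter.unusedSectionVars false

namespace CF.Am

open Module Function Cfsg.Lie CF.E83 CF.Al Finset

variable {K W : Type*} [Field K] [AddCommGroup W] [Module K W]

namespace C73b

variable {r r' : An 7 →* End K (N K)} {v : Fin 7 → N K}

theorem ga_ap {S : Type*} [Group S] [Fintype S] (r : S →* End K W) (a : S → ℤ) (x : W) :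
    ga r a x = ∑ g, a g • r g x := by
  simp only [ga, LinearMap.sum_apply, LinearMap.smul_apply, Int.cast_smul_eq_zsmul]

theorem sum0 (fx : Fx r = ⊥) (hv : ∀ g i, r g (v i) = v (g.1 i)) : ∑ i, v i = 0 :=
  (Submodule.mem_bot K).1 (fx ▸ mem_Fx.2 fun g => by
    rw [map_sum]; exact Fintype.sum_equiv g.1 _ _ (hv g))

theorem shv (jp : JP r r') (hv : ∀ g i, r g (v i) = v (g.1 i)) (g : An 7) (i : Fin 7) :
    r' g (sh (v i)) = sh (v (g.1 i)) := by rw [← (jp g).s1, hv]

theorem psi (h3 : (3 : K) = 0) (jp : JP r r') (fx : Fx r = ⊥) (fx' : Fx r' = ⊥)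
    (e' : ∀ v, ga r' C3.a v = (280 : K) • v) (hv : ∀ g i, r g (v i) = v (g.1 i)) {i j : Fin 7} (h : i ≠ j) :
    cr (v i) (v j) = -(sh (v i) + sh (v j)) := by
  obtain ⟨g, rfl, rfl⟩ := two h
  rw [← shv jp hv, ← shv jp hv, ← hv, ← hv, (jp g).cr, ← map_add, ← map_neg]
  congr 1
  have e := e' (cr (v 0) (v 1))
  rw [ga_ap, sum_congr rfl fun g _ => by rw [← (jp g).cr, hv, hv], cos fun k l => cr (v k) (v l)] at e
  have s : ∀ i, ∑ j, cr (v i) (v j) = 0 := fun i => by
    simp only [← crL_apply]; rw [← map_sum, sum0 fx hv, map_zero]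
  have s0 := s 0
  have s1 := s 1
  have s2 := sum_eq_zero (s := univ) fun i _ => s i
  have s3 := sum0 fx' (shv jp hv)
  have c := fun i j => cr_comm (v i) (v j)
  simp [Fin.sum_univ_seven, wt, cr_self, c 1 0, c 2 0, c 3 0, c 4 0, c 5 0, c 6 0, c 2 1, c 3 1, c 4 1, c 5 1, c 6 1,
    c 3 2, c 4 2, c 5 2, c 6 2, c 4 3, c 5 3, c 6 3, c 5 4, c 6 4, c 6 5] at e s0 s1 s2 s3
  funext a
  have e := congrFun e a
  have s0 := congrFun s0 a
  have s1 := congrFun s1 a
  have s2 := congrFun s2 a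
  have s3 := congrFun s3 a
  simp only [Pi.add_apply, Pi.neg_apply, Pi.smul_apply, Pi.mul_apply, smul_eq_mul,
    Pi.ofNat_apply] at e s0 s1 s2 s3 ⊢
  linear_combination 32 * s3 - e - 16 * s2 + 56 * (s0 + s1) -
    (93 * cr (v 0) (v 1) a + 37 * (sh (v 0) a + sh (v 1) a)) * h3

/-- the sum over an element of order seven -/
noncomputable def P (r : An 7 →* End K (N K)) (w : An 7) : End K (N K) := ∑ k ∈ range 7, r (w ^ k)

theorem P_mul {w : An 7} (e : w ^ 7 = 1) (x : N K) : P r w (r w x) = P r w x := by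
  have := (sum_range_succ' (fun k => r (w ^ k) x) 7).symm.trans (sum_range_succ _ 7)
  simp only [e, pow_zero, add_left_inj, pow_succ _ _, map_mul, End.mul_apply] at this
  simpa only [P, LinearMap.sum_apply] using this

theorem tr {w : An 7} (e : w ^ 7 = 1) (n : w ≠ 1) (i j : Fin 7) : ∃ k : ℕ, (w ^ k).1 i = j := by
  have : Fact (Nat.Prime 7) := ⟨by norm_num⟩
  have o : orderOf w.1 = 7 := by rw [Subgroup.orderOf_coe]; exact orderOf_eq_prime e n
  have c := Equiv.Perm.isCycle_of_prime_order'' (σ := w.1) (by simpa using this.out) (o.trans (Fintype.card_fin 7).symm)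
  have s : w.1.support = univ := eq_univ_of_card _ (by rw [← c.orderOf, o]; rfl)
  exact c.exists_pow_eq (Equiv.Perm.mem_support.1 (s ▸ mem_univ i)) (Equiv.Perm.mem_support.1 (s ▸ mem_univ j))

theorem white (h3 : (3 : K) = 0) (jp : JP r r') (fx : Fx r = ⊥) (fx' : Fx r' = ⊥)
    (e' : ∀ v, ga r' C3.a v = (280 : K) • v) (d7 : dm r (C3.T * C3.U) = 3) (wp : WP r)
    (hv : ∀ g i, r g (v i) = v (g.1 i)) (z : ∀ i, sh (v i) = 0) (i : Fin 7) : v i = 0 := by
  have h7 : (7 : K) = 1 := by linear_combination 2 * h3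
  have c : ∀ i j, cr (v i) (v j) = 0 := fun i j => by
    obtain rfl | h := eq_or_ne i j
    · rw [cr_self, z, smul_zero]
    · rw [psi h3 jp fx fx' e' hv h, z, z, add_zero, neg_zero]
  have := wp (⨅ w ∈ {w : An 7 | w ^ 7 = 1 ∧ w ≠ 1}, LinearMap.ker (P r w)) (fun g α h x hx => ?_) (fun q => ?_)
    (Submodule.span K (Set.range v)) (Submodule.span_le.2 ?_) (fun g => ?_) fun x hx => ?_
  · exact (Submodule.mem_bot K).1 (this ▸ Submodule.subset_span ⟨i, rfl⟩)
  · simp only [Submodule.mem_iInf, LinearMap.mem_ker, P, LinearMap.sum_apply] at hx ⊢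
    intro w hw
    obtain ⟨w, rfl⟩ := α.surjective w
    have := congrArg g (hx w ⟨α.injective (by rw [map_pow, hw.1, map_one]), fun q => hw.2 (by rw [q, map_one])⟩)
    simpa only [map_sum, h, map_pow α, map_zero] using this
  · obtain ⟨x, hx, n⟩ := Submodule.exists_mem_ne_zero_of_ne_bot (p := fs (r (C3.T * C3.U))) fun q => by
      rw [dm, q, finrank_bot] at d7; omega
    have := q.ge (Submodule.mem_top (x := x))
    simp only [Submodule.mem_iInf, LinearMap.mem_ker, P, LinearMap.sum_apply] at this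
    have := this _ ⟨C3.W7, C3.W1⟩
    rw [sum_congr rfl fun k _ => by rw [map_pow, End.pow_apply, iterate_fixed (mem_fs.1 hx)], sum_const, card_range,
      ← Nat.cast_smul_eq_nsmul K, Nat.cast_ofNat, h7, one_smul] at this
    exact n this
  · rintro _ ⟨i, rfl⟩
    simp only [SetLike.mem_coe, Submodule.mem_iInf, LinearMap.mem_ker]
    intro w hw
    have k : ∀ k, P r w (r (w ^ k) (v i)) = P r w (v i) := fun k => by
      induction k with
      | zero => simp
      | succ k ih => rw [pow_succ', map_mul, End.mul_apply, P_mul hw.1, ih]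
    have := congrArg (P r w) (sum0 fx hv)
    rw [map_sum, sum_congr rfl (g := fun _ => P r w (v i)) fun j _ => by
      obtain ⟨m, rfl⟩ := tr hw.1 hw.2 i j
      rw [← hv, k], sum_const, map_zero, ← Nat.cast_smul_eq_nsmul K] at this
    simpa [h7] using this
  · refine fun _ hx => Submodule.mem_comap.1 (Submodule.span_le.2 ?_ hx)
    rintro _ ⟨i, rfl⟩
    exact Submodule.subset_span ⟨_, (hv g i).symm⟩
  · obtain ⟨a, rfl⟩ := (Submodule.mem_span_range_iff_exists_fun K).1 hx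
    rw [sh_sum]
    simp only [sh_smul, z, smul_zero, sum_const_zero, zero_add, ← crL_apply, map_smul, LinearMap.smul_apply]
    simp only [crL_apply, c, smul_zero, sum_const_zero]

theorem s4 (h3 : (3 : K) = 0) (ps : ∀ {i j}, i ≠ j → cr (v i) (v j) = -(sh (v i) + sh (v j))) (ε : K) :
    sh (v 0 + v 1 + ε • (v 2 + v 3)) = ε • (sh (v 0) + sh (v 1) + (sh (v 2) + sh (v 3))) := by
  rw [sh_add, sh_smul, sh_add, sh_add, cr_smul, ← crL_apply (v 0 + v 1)]
  simp only [map_add, LinearMap.add_apply, crL_apply]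
  rw [ps (i := 0) (j := 1) (by decide), ps (i := 2) (j := 3) (by decide), ps (i := 0) (j := 2) (by decide),
    ps (i := 0) (j := 3) (by decide), ps (i := 1) (j := 2) (by decide), ps (i := 1) (j := 3) (by decide)]
  funext a
  simp only [Pi.add_apply, Pi.neg_apply, Pi.smul_apply, smul_eq_mul]
  linear_combination -(ε * (sh (v 0) a + sh (v 1) a + sh (v 2) a + sh (v 3) a)) * h3

def g1 : An 7 := ap ![2, 3, 0, 1, 4, 5, 6] ![2, 3, 0, 1, 4, 5, 6]

def g2 : An 7 := ap ![4, 6, 5, 3, 0, 1, 2] ![4, 5, 6, 3, 0, 2, 1]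

theorem gv : g1.1 0 = 2 ∧ g1.1 1 = 3 ∧ g1.1 2 = 0 ∧ g1.1 3 = 1 ∧ g2.1 4 = 0 ∧ g2.1 5 = 1 ∧ g2.1 6 = 2 := by decide

theorem c2 : IsConj C3.T (up a6a) := C3.cj_of 223 (by rw [C3.T, C3.cd_el]; decide +kernel)

theorem c4 : IsConj C3.U (up b6a) := C3.cj_of 712 (by rw [C3.U, C3.cd_el]; decide +kernel)

theorem c5 : IsConj C3.Y (up (a6a * b6a)) := C3.cj_of 959 (by rw [C3.Y, C3.cd_el]; decide +kernel)

theorem fam (h3 : (3 : K) = 0) (jp : JP r r') (fx : Fx r = ⊥) (fx' : Fx r' = ⊥)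
    (e : ∀ v, ga r C3.a v = (280 : K) • v) (e' : ∀ v, ga r' C3.a v = (280 : K) • v)
    (d7 : dm r (C3.T * C3.U) = 3) (wp : WP r) (wp' : WP r') : Fx (r.comp up) = ⊥ := by
  refine eq_bot_iff.2 fun x hx => ?_
  obtain ⟨v, rfl, hv⟩ : ∃ v : Fin 7 → N K, v 6 = x ∧ ∀ (g : An 7) i, r g (v i) = v (g.1 i) :=
    exists_vs (n := 6) (by omega) r hx
  refine white h3 jp fx fx' e' d7 wp hv (white h3 jp.symm fx' fx e ((jp.dm_eq _).trans d7) wp' (shv jp hv) fun i => ?_) _
  have t : ∀ i, sh (sh (v i)) = cubicT (v 0) • v i := fun i => by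
    obtain ⟨g, rfl⟩ := exists_mv (n := 6) (by omega) i 0
    rw [sh_sh, ← hv, (jp g).t1]
  rw [t]
  refine smul_eq_zero.2 (or_iff_not_imp_left.2 fun n => ?_)
  have e1 := congrArg sh (s4 h3 (psi h3 jp fx fx' e' hv) (-1))
  have e2 := s4 h3 (psi h3 jp.symm fx' fx e (shv jp hv)) 1
  rw [one_smul, one_smul] at e2
  rw [neg_one_smul K (sh _ + _ + _), sh_neg, e2, t, t, t, t, sh_sh] at e1
  generalize cubicT (v 0 + v 1 + _) = c at e1
  generalize cubicT (v 0) = τ at e1 n
  have e3 := congrArg (r g1) e1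
  simp only [map_smul, map_add, hv, gv] at e3
  have e4 : v 0 + v 1 + v 2 + v 3 = 0 := by
    refine (smul_eq_zero (R := K)).1 ?_ |>.resolve_left n
    funext a
    have e1 := congrFun e1 a
    have e3 := congrFun e3 a
    simp only [Pi.add_apply, Pi.smul_apply, smul_eq_mul, Pi.zero_apply] at e1 e3 ⊢
    linear_combination (τ * (v 0 a + v 1 a + v 2 a + v 3 a)) * h3 + e1 + e3
  have e5 := sum0 fx hv
  rw [Fin.sum_univ_seven, e4, zero_add] at e5
  have e6 := congrArg (r g2) e5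
  simp only [map_add, map_zero, hv, gv] at e6
  rw [e6, zero_add] at e4
  obtain ⟨g, rfl⟩ := exists_mv (n := 6) (by omega) i 3
  rw [← hv, e4, map_zero]

end C73b

open C73b

variable [FiniteDimensional K W] [IsAlgClosed K] {q : ℕ}

theorem c73b {r r' : An 7 →* End K (N K)} {l : An 7 →* End K W} (h : HN q r r' l) (h3 : (3 : K) = 0)
    (d2 : dm r C3.T = 15) (d4 : dm r C3.U = 7) (d5 : dm r C3.Y = 7) (d7 : dm r (C3.T * C3.U) = 3)
    (e : ∀ v, ga r C3.a v = (280 : K) • v) (e' : ∀ v, ga r' C3.a v = (280 : K) • v)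
    (wp : WP r) (wp' : WP r') : False := by
  have a2 : dm (r.comp up) a6a = 15 := (dm_conj c2).symm.trans d2
  have a4 : dm (r.comp up) b6a = 7 := (dm_conj c4).symm.trans d4
  have a5 : dm (r.comp up) (a6a * b6a) = 7 := (dm_conj c5).symm.trans d5
  exact ((h.jp.comp up).sco g6a (by omega)).elim
    (· (fam h3 h.jp h.fx h.fx' e e' d7 wp wp'))
    (· (fam h3 h.jp.symm h.fx' h.fx e' e ((h.jp.dm_eq _).trans d7) wp' wp))

end CF.Am
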