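import Cfsg.Agent.Am.K7

/-! The character of degree `35` of `A₇`. -/

set_option autoImplicit false
set_option maxRecDepth 100000

namespace CF.Am.C75

open CF.Al C3 K7

def v : List ℤ := [35, -1, 1, 0, 0, 0, -1, -1, -1]

theorem cv35 : cv v v (v.map (72 * ·)) := by decide +kernel

theorem aut (α : MulAut A7) (g : A7) : cf v (α g) = cf v g := by
  have e : ∀ g : A7, cf v g = if g = 1 then 35 else if g ^ 2 = 1 then -1 else if g ^ 4 = 1 then 1 else
      if g ^ 5 = 1 then 0 else if g ^ 7 = 1 then 0 else -1 := fun g => by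
    simp only [cf, kd]; split_ifs <;> rfl
  simp only [e, ← map_pow, MulEquiv.map_eq_one_iff]

theorem cs : ∀ j ∈ [0, 1, 6, 7], ∀ i < 9, 35 * fc (ec (ri j)) (fun r => ((List.range 2520).map fun n =>
    fc (cl n) fun k => if k = i then v.getD (kc (cm (ec n) r)) 0 else 0).sum) =
      ([1, 105, 630, 504, 360, 360, 70, 210, 280].getD i 0 : ℕ) * v.getD i 0 * v.getD j 0 := by decide +kernel

end CF.Am.C75
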