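import Cfsg.Agent.Am.C7p
import Cfsg.Agent.Am.B7b
import Cfsg.Agent.Am.C75t

/-! `A₇` on the adjoint module of `E₆` in characteristic five: the block of defect zero. -/

set_option autoImplicit false
set_option maxRecDepth 100000

namespace CF.Am

open Module Function Cfsg.Lie CF.E83 CF.Al Finset MonoidAlgebra C3 C7 K7
open CF.Ev (lin lin_single)
open CF.Block (ofFun coeff_ofFun)

namespace C75

theorem cf_ri {i : ℕ} (h : i < 9) : cf v (el (ri i)) = v.getD i 0 := by
  rw [cf, kd_ri i h]; interval_cases i <;> rfl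

theorem sum_s {β : A7 → ℂ} (h : ∀ g k, β (k * g * k⁻¹) = β g) {j : ℕ} (hj : j ∈ [0, 1, 6, 7]) :
    35 * ∑ g, (cf v (g * el (ri j)) : ℂ) * β g = v.getD j 0 * ∑ g, (cf v g : ℂ) * β g := by
  rw [sum_cl (fun g => (cf v g : ℂ) * β g) fun g c => by rw [cf_conj, h], sum_el,
    ← sum_fiberwise_of_maps_to (t := range 9) (g := cl) fun n hn => mem_range.2 (cls (mem_range.1 hn)).1,
    mul_sum, mul_sum]
  refine sum_congr rfl fun i hi => ?_
  have e := cs j hj i (mem_range.1 hi)
  rw [sum_congr rfl fun n hn => (?_ : _ = (cf v (el n * el (ri j)) : ℂ) * β (el (ri i))), ← sum_mul,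
    ← Int.cast_sum, cf_ri (mem_range.1 hi), sum_filter]
  · simp only [fc_eq, ← cd_el, ← cd_mul, ← kd_cd] at e
    replace e : 35 * ∑ n ∈ range 2520, (if cl n = i then cf v (el n * el (ri j)) else 0) = _ := e
    generalize ∑ n ∈ range 2520, (if cl n = i then cf v (el n * el (ri j)) else 0) = A at e
    have e' := congrArg (Int.cast (R := ℂ)) e
    rw [Int.cast_mul, Int.cast_mul, Int.cast_mul, Int.cast_natCast, Int.cast_ofNat] at e'
    rw [← mul_assoc, e']
    ring
  · rw [← h (el (ri i)) (el (cj n)), ← (mem_filter.1 hn).2, (cls (mem_range.1 (mem_filter.1 hn).1)).2]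

variable {K V : Type*} [Field K] [AddCommGroup V] [Module K V]

section
variable {S : Type*} [Group S] [Fintype S] {r : S →* End K V} {a : S → ℤ} {N : ℤ} {β : S → ℂ}

/-- the rank of a central idempotent on the fixed space of a subgroup -/
theorem rkQ (h : Br r β) (ha : ∀ g h, a (h * g * h⁻¹) = a g) (hc : ∀ g, ∑ h, a h * a (h⁻¹ * g) = N * a g)
    (hN : (N : K) ≠ 0) {Q : Type*} [Group Q] [Fintype Q] (ι : Q →* S) (hQ : (Fintype.card Q : K) ≠ 0) :
    ∑ x, ∑ g, (a (g * ι x) : ℂ) * β g =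
      N * Fintype.card Q * finrank K ((Fx (r.comp ι)).map (ga r a)) := by
  set s : ℤ[S] := ∑ x, single (ι x) 1 with hs
  have ss : s * s = (Fintype.card Q : ℤ) • s := by
    rw [hs, sum_mul_sum, natCast_zsmul, ← card_univ, ← sum_const]
    exact sum_congr rfl fun g _ => Fintype.sum_equiv (Equiv.mulLeft g) _ _ fun u => by simp [single_mul_single]
  have c : Commute s (ofFun a) := Commute.sum_left _ _ _ fun i _ =>
    MonoidAlgebra.ext (Finsupp.ext fun g => by
      rw [coeff_single_mul_apply, coeff_mul_single_apply, coeff_ofFun, coeff_ofFun, ← ha _ (ι i), one_mul, mul_one,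
        mul_inv_cancel_left])
  have e := h.rk' (ofFun a * s) (N := N * Fintype.card Q) (by exact_mod_cast mul_ne_zero hN hQ) (by
    rw [mul_assoc, ← mul_assoc s, c.eq, mul_assoc, ← mul_assoc, B7.AA hc, ss, smul_mul_smul_comm])
  have f : LinearMap.range (alg r s) = Fx (r.comp ι) := by
    rw [hs, map_sum (alg r), sum_congr rfl fun g _ => alg_single r (ι g) _]
    refine le_antisymm ?_ fun w hw => ⟨(Fintype.card Q : K)⁻¹ • w, ?_⟩
    · rintro _ ⟨w, rfl⟩
      refine mem_Fx.2 fun g => ?_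
      rw [LinearMap.sum_apply, map_sum]
      exact Fintype.sum_equiv (Equiv.mulLeft g) _ _ fun u => by simp
    · have : ∀ g, r (ι g) w = w := mem_Fx.1 hw
      rw [map_smul, LinearMap.sum_apply, sum_congr rfl fun g _ => by rw [one_smul, this g]]
      simp [← Nat.cast_smul_eq_nsmul K, smul_smul, hQ]
  rw [map_mul (alg r), End.mul_eq_comp, LinearMap.range_comp, f, B7.alg_of, hs, mul_sum, map_sum] at e
  push_cast at e
  rw [← e]
  exact Fintype.sum_equiv (Equiv.inv Q) _ _ fun i => sum_congr rfl fun g _ => by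
    rw [coeff_mul_single_apply, coeff_ofFun, mul_one, Equiv.inv_apply, map_inv, inv_inv]

omit [Fintype S] in
/-- subrepresentations -/
def sub (r : S →* End K V) {U : Submodule K V} (h : Sb r U) : S →* End K U :=
  ⟨⟨fun g => (r g).restrict (h g), LinearMap.ext fun v => Subtype.ext (by simp)⟩,
    fun g k => LinearMap.ext fun v => Subtype.ext (by simp)⟩

theorem ga_sub {U : Submodule K V} (h : Sb r U) (u : U) : (ga (sub r h) a u : V) = ga r a u := by
  simp only [B7.ga_apply, Submodule.coe_sum, Submodule.coe_smul]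
  rfl

theorem le_ker [FiniteDimensional K V] {B : Submodule K V} (hB : Sb r B) {n : ℕ} (d : finrank K B < n)
    (e : n ∣ finrank K (LinearMap.range (ga (sub r hB) a))) : B ≤ LinearMap.ker (ga r a) := fun u hu => by
  have z := Nat.eq_zero_of_dvd_of_lt e ((Submodule.finrank_le _).trans_lt d)
  have := LinearMap.congr_fun (LinearMap.range_eq_bot.1 (Submodule.finrank_eq_zero.1 z)) ⟨u, hu⟩
  exact (ga_sub hB ⟨u, hu⟩).symm.trans (congrArg Subtype.val this)

end

variable [FiniteDimensional K V] {r : A7 →* End K V} {β : A7 → ℂ}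

theorem k72 (h5 : (5 : K) = 0) : ((72 : ℤ) : K) ≠ 0 := fun e =>
  one_ne_zero (α := K) (by push_cast at e; linear_combination 3 * e - 43 * h5)

theorem ar {A B : ℂ} {k k' : ℕ} (e1 : A = (72 : ℤ) * k) (e2 : A + B = (72 : ℤ) * (2 : ℕ) * k')
    (e3 : 35 * B = (-1 : ℤ) * A) : 17 * k = 35 * k' := Nat.cast_injective (R := ℂ) (by
  push_cast at *
  linear_combination (35 * e2 - e3 - 34 * e1) / 144)

omit [FiniteDimensional K V] in
theorem dvd35 (c : Br r β) (h5 : (5 : K) = 0) : 35 ∣ finrank K (LinearMap.range (ga r (cf v))) := by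
  have h2 : ((2 : ℕ) : K) ≠ 0 := fun e => one_ne_zero (α := K) (by push_cast at e; linear_combination h5 - 2 * e)
  have e1 := B7.rk1 c (conv' cv35) (k72 h5)
  have e2 := B7.rk2 c (cf_conj v) (conv' cv35) (k72 h5) h2 T_2
  have e3 := sum_s c.conj (j := 1) (by decide)
  have i : T⁻¹ = T := inv_eq_of_mul_eq_one_right ((sq T).symm.trans T_2)
  rw [show el (ri 1) = T from rfl, show v.getD 1 0 = -1 from rfl] at e3
  simp only [sum_range_succ, range_zero, sum_empty, zero_add, pow_zero, inv_one, pow_one, mul_one, i] at e2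
  exact (by norm_num : Nat.Coprime 35 17).dvd_of_dvd_mul_left ⟨_, ar e1 e2 e3⟩

theorem small [IsAlgClosed K] (h5 : (5 : K) = 0) {B : Submodule K V} (hB : Sb r B) (d : finrank K B < 35) :
    B ≤ LinearMap.ker (ga r (cf v)) := by
  obtain ⟨γ, c⟩ := exists_br (q := 5) (by exact_mod_cast h5) (by norm_num) (sub r hB)
  exact le_ker hB d (dvd35 c h5)

def L : List ℕ := [0, 43, 16, 10, 840, 883, 856, 850, 1680, 1723, 1696, 1690]

theorem okL : ok L = true := by decide +kernel

theorem es : up s6 = el 43 := cd_inj (by rw [cd_el]; decide +kernel)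
theorem et : up t6 = el 16 := cd_inj (by rw [cd_el]; decide +kernel)
theorem ex : x7 = el 840 := cd_inj (by rw [cd_el]; decide +kernel)

theorem wL : ∀ n ∈ L, ∃ i < 2, ∃ j < 2, ∃ k < 3,
    ec n = cm (pc (ec 43) i) (cm (pc (ec 16) j) (pc (ec 840) k)) := by decide +kernel

omit [FiniteDimensional K V] in
theorem F_eq : fx r L = F12 r := by
  rw [F12, es, et, ex]
  refine le_antisymm (fun u hu => ⟨⟨mem_fs.2 (mem_fx.1 hu _ (by decide)), mem_fs.2 (mem_fx.1 hu _ (by decide))⟩,
    mem_fs.2 (mem_fx.1 hu _ (by decide))⟩) fun u hu => mem_fx.2 fun n hn => ?_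
  obtain ⟨i, -, j, -, k, -, e⟩ := wL n hn
  rw [show el n = el 43 ^ i * (el 16 ^ j * el 840 ^ k) from cd_inj (by simp only [cd_mul, cd_pow, cd_el, e])]
  simp only [map_mul, map_pow, End.mul_apply, End.pow_apply, iterate_fixed (mem_fs.1 hu.2),
    iterate_fixed (mem_fs.1 hu.1.2), iterate_fixed (mem_fs.1 hu.1.1)]

omit [FiniteDimensional K V] in
theorem rkF (h : Br r β) (h5 : (5 : K) = 0) :
    35 * finrank K ((F12 r).map (ga r (cf v))) = 2 * finrank K (LinearMap.range (ga r (cf v))) := by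
  obtain ⟨h1, h2, -⟩ := ok_iff okL
  have nd : (L.map el).Nodup := h2.map_on fun a ha b hb => el_inj (by simpa using h1 a ha) (by simpa using h1 b hb)
  have s : ∀ {M : Type} [AddCommMonoid M] (F : A7 → M) [Fintype (sg L okL)],
      ∑ g : sg L okL, F g = ((L.map el).map F).sum := fun F _ => by
    rw [← List.sum_toFinset F nd]
    exact (sum_subtype _ (fun _ => List.mem_toFinset) F).symm
  classical
  have n : Fintype.card (sg L okL) = 12 := by
    rw [Fintype.card_eq_sum_ones, s fun _ => 1]; rfl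
  have e := rkQ h (cf_conj v) (conv' cv35) (k72 h5) (sg L okL).subtype (by
    rw [n]; intro e; exact one_ne_zero (α := K) (by push_cast at e; linear_combination 5 * h5 - 2 * e))
  rw [n, show Fx (r.comp (sg L okL).subtype) = fx r L from Submodule.ext fun v => mem_Fx.trans
    ⟨fun k => mem_fx.2 fun a ha => k ⟨_, List.mem_map_of_mem ha⟩, fun k ⟨g, hg⟩ => by
      obtain ⟨a, ha, rfl⟩ := List.mem_map.1 hg
      exact mem_fx.1 k a ha⟩, F_eq] at e
  have e1 := B7.rk1 h (conv' cv35) (k72 h5)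
  have e2 := congrArg (35 * ·) (s fun x => ∑ g, (cf v (g * x) : ℂ) * β g)
  have e3 : ∀ n ∈ L, 35 * ∑ g, (cf v (g * el n) : ℂ) * β g = v.getD (cl n) 0 * ∑ g, (cf v g : ℂ) * β g :=
    fun n hn => by
      rw [B7.sh_cj h (cf_conj v) (cc (h1 n hn)), sum_s h.conj ((by decide +kernel : ∀ n ∈ L, cl n ∈ [0, 1, 6, 7]) n hn)]
  rw [List.map_map, Function.comp_def, ← List.sum_map_mul_left, List.map_congr_left e3, List.sum_map_mul_right,
    show (L.map fun n => ((v.getD (cl n) 0 : ℤ) : ℂ)).sum = ((L.map fun n => v.getD (cl n) 0).sum : ℤ) by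
      rw [Int.cast_list_sum, List.map_map]; rfl,
    show (L.map fun n => v.getD (cl n) 0).sum = 24 by decide +kernel] at e2
  refine Nat.cast_injective (R := ℂ) ?_
  simp only [Subgroup.subtype_apply] at e
  push_cast at *
  linear_combination (e2 - 35 * e + 24 * e1) / 864

/-- the span of an alternating product -/
theorem alt28 {U : Submodule K V} (d : finrank K U = 8) (b : V →ₗ[K] V →ₗ[K] V) (alt : ∀ u, b u u = 0) :
    ∃ B : Submodule K V, finrank K B ≤ 28 ∧ (∀ u ∈ U, ∀ w ∈ U, b u w ∈ B) ∧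
      ∀ C : Submodule K V, (∀ u ∈ U, ∀ w ∈ U, b u w ∈ C) → B ≤ C := by
  let e := finBasisOfFinrankEq K U d
  let F : {p : Fin 8 × Fin 8 // p.1 < p.2} → V := fun p => b (e p.1.1) (e p.1.2)
  refine ⟨Submodule.span K (Set.range F), (finrank_range_le_card F).trans (by decide), fun u hu w hw => ?_,
    fun C hC => Submodule.span_le.2 ?_⟩
  · have k : ∀ i j, b (e i) (e j) ∈ Submodule.span K (Set.range F) := fun i j => by
      rcases lt_trichotomy i j with c | rfl | c
      · exact Submodule.subset_span ⟨⟨(i, j), c⟩, rfl⟩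
      · rw [alt]; exact zero_mem _
      · have := alt (e i + e j)
        simp only [map_add, LinearMap.add_apply, alt, zero_add, add_zero] at this
        rw [eq_neg_of_add_eq_zero_right this]
        exact neg_mem (Submodule.subset_span ⟨⟨(j, i), c⟩, rfl⟩)
    have h1 := congrArg Subtype.val (e.sum_repr ⟨u, hu⟩)
    have h2 := congrArg Subtype.val (e.sum_repr ⟨w, hw⟩)
    simp only [Submodule.coe_sum, Submodule.coe_smul] at h1 h2
    rw [← h1, ← h2]
    simp only [map_sum, map_smul, LinearMap.sum_apply, LinearMap.smul_apply]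
    exact sum_mem fun j _ => Submodule.smul_mem _ _ (sum_mem fun i _ => Submodule.smul_mem _ _ (k i j))
  · rintro _ ⟨p, rfl⟩
    exact hC _ (e _).2 _ (e _).2

theorem fin {S : Type*} [Group S] {l : S →* End K V} {E : End K V} {F : Submodule K V} (dl : finrank K V = 78)
    (b : V →ₗ[K] V →ₗ[K] V) (hb : ∀ g u v, l g (b u v) = b (l g u) (l g v)) (alt : ∀ u, b u u = 0)
    (cn : Can l (LinearMap.ker E)) (sm : ∀ B, Sb l B → finrank K B < 35 → B ≤ LinearMap.ker E)
    (d1 : finrank K (LinearMap.range E) = 70) (d2 : finrank K F = 6)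
    (g : 35 * finrank K (F.map E) = 2 * finrank K (LinearMap.range E)) :
    ∃ U, Can l U ∧ finrank K U = 8 ∧ (∀ u ∈ U, ∀ v ∈ U, b u v ∈ U) ∧ finrank K F = 6 ∧
      2 ≤ finrank K ↥(U ⊓ F) := by
  have d3 := E.finrank_range_add_finrank_ker
  have d4 := rk_map E F
  rw [inf_comm] at d4
  obtain ⟨B, b1, b2, b3⟩ := alt28 (U := LinearMap.ker E) (by omega) b alt
  refine ⟨_, cn, by omega, fun u hu w hw => sm B (fun g => ?_) (by omega) (b2 u hu w hw), d2, by omega⟩
  exact b3 (B.comap (l g)) fun u hu w hw => by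
    rw [Submodule.mem_comap, hb]
    exact b2 _ (cn.sb g u hu) _ (cn.sb g w hw)

theorem dims (c : Br r β) (h5 : (5 : K) = 0) (dl : finrank K V = 78) (t : dm r T = 38) (u : dm r U = 20)
    (z : dm r Z = 24) (x : β X + 3 * β (el 53) = 0) :
    finrank K (LinearMap.range (ga r (cf v))) = 70 ∧ finrank K (F12 r) = 6 := by
  have h2 : (2 : K) ≠ 0 := fun e => one_ne_zero (α := K) (by linear_combination h5 - 2 * e)
  have h3 : (3 : K) ≠ 0 := fun e => h2 (by linear_combination h5 - e)
  have f2 := c.two h2 T_2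
  have f4 := c.four h2 U4 cU
  have f3 := c.three h3 Z3 cZ
  have e := B7.rk1 c (conv' cv35) (k72 h5)
  have f := C7.key c (c := [1, 3, 0, 0, 0, 0, 2, 6, 0]) (m := 12) okL rfl (by decide +kernel) fun e =>
    one_ne_zero (α := K) (by push_cast at e; linear_combination 5 * h5 - 2 * e)
  rw [F_eq] at f
  rw [← dm_conj cTU, t, u] at f4
  rw [t, dl] at f2
  rw [z, dl] at f3
  generalize finrank K (LinearMap.range (ga r (cf v))) = k, finrank K (F12 r) = k' at *
  rw [v, sum_cf _ _ _ _ _ _ _ _ _ c.conj, c.one, dl] at e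
  simp only [sum_range_succ, range_zero, sum_empty, ri, List.getD_cons_zero, List.getD_cons_succ, e0,
    c.one, dl, show el 546 = T from rfl, show el 5 = X from rfl] at f
  push_cast at e f f2 f3 f4
  refine ⟨Nat.cast_injective (R := ℂ) ?_, Nat.cast_injective (R := ℂ) ?_⟩ <;> push_cast
  · linear_combination (-e - 105 * f2 + 630 * f4 - 140 * f3 - 70 * x) / 72
  · linear_combination (-f + 3 * f2 + 2 * x) / 12

end C75

open C75

variable {K W : Type*} [Field K] [AddCommGroup W] [Module K W] [FiniteDimensional K W] [IsAlgClosed K]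
  {q : ℕ}

theorem c75 {l : An 7 →* End K W} (h : TL q l) (fx : Fx l = ⊥) (cx : Cx l = ⊤) (h5 : (5 : K) = 0)
    (b : W →ₗ[K] W →ₗ[K] W) (hb : ∀ g u v, l g (b u v) = b (l g u) (l g v)) (alt : ∀ u, b u u = 0) :
    ∃ U, Can l U ∧ finrank K U = 8 ∧ (∀ u ∈ U, ∀ v ∈ U, b u v ∈ U) ∧ finrank K (F12 l) = 6 ∧
      2 ≤ finrank K ↥(U ⊓ F12 l) := by
  have h2 : (2 : K) ≠ 0 := fun e => one_ne_zero (α := K) (by linear_combination h5 - 2 * e)
  have h3 : (3 : K) ≠ 0 := fun e => h2 (by linear_combination h5 - e)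
  obtain ⟨β, c⟩ := exists_br h.hq h.q2 l
  obtain ⟨t, u, z, x⟩ := c7a h fx cx h2 h3
  have d := dims c h5 h.dl t u z (x β c)
  have cn := can_ker l aut
  have g := rkF c h5
  have sm := fun B => small (r := l) (B := B) h5
  generalize ga l (cf v) = E at *
  exact fin h.dl b hb alt cn sm d.1 d.2 g

end CF.Am
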