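import Cfsg.Agent.Al.C7

/-! Rational class functions of `A₇`. -/

set_option autoImplicit false
set_option maxRecDepth 100000

namespace CF.Am.K7

open Module CF.E83 CF.Al Finset C3

/-- the number of the rational class (`4` for all elements of order seven) -/
def kd (g : A7) : ℕ := if g = 1 then 0 else if g ^ 2 = 1 then 1 else if g ^ 4 = 1 then 2 else
  if g ^ 5 = 1 then 3 else if g ^ 7 = 1 then 4 else if g ^ 3 = 1 then
    (if g.1.support.card = 3 then 6 else 8) else 7

def nf (c : ℕ) : ℕ := (if C3.ap c 0 ≠ 0 then 1 else 0) + (if C3.ap c 1 ≠ 1 then 1 else 0) +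
  (if C3.ap c 2 ≠ 2 then 1 else 0) + (if C3.ap c 3 ≠ 3 then 1 else 0) +
  (if C3.ap c 4 ≠ 4 then 1 else 0) + (if C3.ap c 5 ≠ 5 then 1 else 0) + (if C3.ap c 6 ≠ 6 then 1 else 0)

theorem nf_cd (g : A7) : g.1.support.card = nf (cd g) := by
  have e : ∀ i : Fin 7, (g.1 i ≠ i) = (C3.ap (cd g) i ≠ i) := fun i => by
    rw [ap_cd, Ne, Ne, Fin.ext_iff]
  rw [Equiv.Perm.support, card_filter, Fin.sum_univ_seven]
  simp only [e]
  rfl

def kc (c : ℕ) : ℕ := fc c fun c => if c = 1754760 then 0 else fc (cm c c) fun c2 =>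
  if c2 = 1754760 then 1 else fc (cm c2 c2) fun c4 => if c4 = 1754760 then 2 else fc (cm c4 c) fun c5 =>
  if c5 = 1754760 then 3 else if cm c5 c2 = 1754760 then 4 else if cm c2 c = 1754760 then
    (if nf c = 3 then 6 else 8) else 7

theorem kd_cd (g : A7) : kd g = kc (cd g) := by
  simp only [kd, kc, fc_eq, ← cd_mul, ← eq_one, show g * g = g ^ 2 from (sq g).symm, ← pow_add, ← pow_succ,
    nf_cd]

theorem kd_conj (g h : A7) : kd (h * g * h⁻¹) = kd g := by
  simp only [kd, conj_pow, conj_eq_one_iff, Subgroup.coe_mul, Subgroup.coe_inv,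
    Equiv.Perm.card_support_conj]

theorem kd_inv (g : A7) : kd g⁻¹ = kd g := by
  simp only [kd, inv_pow, inv_eq_one, Subgroup.coe_inv, Equiv.Perm.support_inv]

theorem kd_ri : ∀ i < 9, kd (el (ri i)) = [0, 1, 2, 3, 4, 4, 6, 7, 8].getD i 0 := by
  simp only [kd_cd, cd_el]
  decide +kernel

/-- The class function with values `v` on `1, 2A, 4A, 5A, 7A, 7B, 3A, 6A, 3B` (`7B` = `7A`). -/
def cf (v : List ℤ) (g : A7) : ℤ := v.getD (kd g) 0

theorem cf_conj (v : List ℤ) (g h : A7) : cf v (h * g * h⁻¹) = cf v g := by rw [cf, kd_conj, cf]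

theorem cf_inv (v : List ℤ) (g : A7) : cf v g⁻¹ = cf v g := by rw [cf, kd_inv, cf]

/-- The check of `v * w = u`. -/
def cv (v w u : List ℤ) : Prop := ∀ i < 9, fc (ec (ri i)) (fun r => ((List.range 2520).map fun n =>
    fc (ec n) fun c => v.getD (kc c) 0 * w.getD (kc (cm c r)) 0).sum) = u.getD (kc (ec (ri i))) 0

instance (v w u : List ℤ) : Decidable (cv v w u) := Nat.decidableBallLT _ _

theorem conv {v w u : List ℤ} (h : cv v w u) (g : A7) : ∑ h, cf v h * cf w (h⁻¹ * g) = cf u g := by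
  obtain ⟨n, hn, rfl⟩ := mem_image.1 (img.ge (mem_univ g))
  obtain ⟨h9, e⟩ := cls (mem_range.1 hn)
  have := h _ h9
  simp only [fc_eq, ← cd_el, ← cd_mul, ← kd_cd] at this
  rw [← e, cf_conj, cf, ← this]
  generalize el (cj n) = c
  generalize el (ri (cl n)) = r
  rw [← Fintype.sum_equiv ((Equiv.inv A7).trans (MulAut.conj c).toEquiv)
    (fun h => cf v h * cf w (h * r)) _ fun h => ?_, sum_el]
  · rfl
  · simp only [Equiv.trans_apply, Equiv.inv_apply, MulEquiv.toEquiv_eq_coe, MulEquiv.coe_toEquiv,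
      MulAut.conj_apply]
    rw [cf_conj, cf_inv, ← cf_conj w (h * r) c]
    congr 2
    group

theorem cf_mul (N : ℤ) (v : List ℤ) (g : A7) : cf (v.map (N * ·)) g = N * cf v g := by
  rw [cf, cf, ← List.getD_map (f := (N * ·)), mul_zero]

theorem conv' {v : List ℤ} {N : ℤ} (h : cv v v (v.map (N * ·))) (g : A7) :
    ∑ h, cf v h * cf v (h⁻¹ * g) = N * cf v g := (conv h g).trans (cf_mul N v g)

/-- Sums against class functions. -/
theorem sum_cf (a0 a1 a2 a3 a4 a5 a6 a7 a8 : ℤ) {β : A7 → ℂ} (hβ : ∀ g h, β (h * g * h⁻¹) = β g) :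
    ∑ g, (cf [a0, a1, a2, a3, a4, a5, a6, a7, a8] g : ℂ) * β g =
      a0 * β 1 + 105 * a1 * β T + 630 * a2 * β U + 504 * a3 * β Y +
        360 * a4 * (β (T * U) + β ((T * U) ^ 3)) + 70 * a6 * β C7.X + 210 * a7 * β (el 53) +
        280 * a8 * β C7.Z := by
  rw [sum_cl _ fun g c => by rw [cf_conj, hβ], sum_congr rfl fun i hi => by
    rw [cf, kd_ri i (mem_range.1 hi)]]
  simp only [sum_range_succ, range_zero, sum_empty, ri, List.getD_cons_zero, List.getD_cons_succ, e0, eW,
    eW3, T, U, Y, C7.X, C7.Z]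
  rw [show el 546 * el 725 = T * U from rfl]
  push_cast
  ring

variable {K V : Type*} [Field K] [AddCommGroup V] [Module K V] {r : A7 →* End K V} {β : A7 → ℂ}

theorem b5 (h : Br r β) (h5 : (5 : K) ≠ 0) : 4 * β Y = 5 * dm r Y - finrank K V := by
  have y := h.cyc (n := 5) (by exact_mod_cast h5) Y5
  simp only [sum_range_succ, range_zero, sum_empty, pow_zero, pow_one, h.one, ← h.isConj cY2,
    ← h.isConj cY3, ← h.isConj cY4] at y
  push_cast at y
  linear_combination y

theorem b7 (h : Br r β) (h7 : (7 : K) ≠ 0) :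
    3 * (β (T * U) + β ((T * U) ^ 3)) = 7 * dm r (T * U) - finrank K V := by
  have w := h.cyc (n := 7) (by exact_mod_cast h7) W7
  simp only [sum_range_succ, range_zero, sum_empty, pow_zero, pow_one, h.one, ← h.isConj cW2,
    ← h.isConj cW4, ← h.isConj cW5, ← h.isConj cW6] at w
  push_cast at w
  linear_combination w

theorem re_of {S : Type*} [Group S] {x : S} {k : ℕ} (e : x ^ (k + 1) = 1) (c : IsConj x (x ^ k)) :
    IsConj x x⁻¹ := by
  rwa [← eq_inv_of_mul_eq_one_left ((pow_succ x k).symm.trans e)]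

end CF.Am.K7
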