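import Cfsg.Agent.Am.A
import Cfsg.Agent.Am.K7
import Cfsg.Agent.Am.BG

/-! `A₇` on the adjoint module of `E₆` in characteristic prime to six. -/

set_option autoImplicit false
set_option maxRecDepth 100000

namespace CF.Am

open Module Function Cfsg.Lie CF.E83 CF.Al Finset C3 C7 K7

namespace C7p

theorem G6 : el 53 ^ 6 = 1 := eq_one.2 (by rw [cd_pow, cd_el]; decide +kernel)
theorem cG2 : IsConj X (el 53 ^ 2) := cj_of 206 (by rw [cd_pow, X, cd_el, cd_el]; decide +kernel)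
theorem cG3 : IsConj T (el 53 ^ 3) := cj_of 380 (by rw [cd_pow, T, cd_el, cd_el]; decide +kernel)
theorem cG4 : IsConj X (el 53 ^ 4) := cj_of 157 (by rw [cd_pow, X, cd_el, cd_el]; decide +kernel)
theorem cG5 : IsConj (el 53) (el 53 ^ 5) := cj_of 7 (by rw [cd_pow, cd_el]; decide +kernel)

theorem cv14 : cv [14, 2, 0, -1, 0, 0, -1, -1, 2] [14, 2, 0, -1, 0, 0, -1, -1, 2]
    ([14, 2, 0, -1, 0, 0, -1, -1, 2].map (180 * ·)) := by decide +kernel

variable {K W : Type*} [Field K] [AddCommGroup W] [Module K W] [FiniteDimensional K W]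
  {l : A7 →* End K W} {β : A7 → ℂ}

omit [FiniteDimensional K W] in
theorem b6 (h : Br l β) (h2 : (2 : K) ≠ 0) (h3 : (3 : K) ≠ 0) :
    2 * β (el 53) = 6 * dm l (el 53) - 3 * dm l X - 2 * dm l T + finrank K W := by
  have y := h.cyc (n := 6) (by rw [show ((6 : ℕ) : K) = 2 * 3 by norm_num]; simp [h2, h3]) G6
  have t := h.two h2 T_2
  have x := h.three h3 X3 cX
  simp only [sum_range_succ, range_zero, sum_empty, pow_zero, pow_one, h.one, ← h.isConj cG2,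
    ← h.isConj cG3, ← h.isConj cG4, ← h.isConj cG5] at y
  push_cast at y
  linear_combination y - t - x

omit [FiniteDimensional K W] in
theorem eA (h : Br l β) (h2 : (2 : K) ≠ 0) (h3 : (3 : K) ≠ 0) : (36 * finrank K (fx l C7.LA) : ℤ) =
    6 * dm l X + 24 * dm l Z + 18 * dm l (el 53) - 12 * finrank K W := by
  have k36 : ((36 : ℕ) : K) ≠ 0 := by
    rw [show ((36 : ℕ) : K) = 2 * 2 * 3 * 3 by norm_num]; simp [h2, h3]
  have a := C7.key h (c := [1, 3, 0, 0, 0, 0, 10, 6, 16]) (m := 36) okA rfl (by decide +kernel) k36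
  have t := h.two h2 T_2
  have x := h.three h3 X3 cX
  have z := h.three h3 Z3 cZ
  have g := b6 h h2 h3
  simp only [sum_range_succ, range_zero, sum_empty, ri, List.getD_cons_zero, List.getD_cons_succ, e0,
    h.one] at a
  refine Int.cast_injective (α := ℂ) ?_
  simp only [T, X, Z] at *
  push_cast at *
  linear_combination -a + 3 * t + 5 * x + 8 * z + 3 * g

theorem am (fx' : Fx l = ⊥) :
    finrank K (fx l LB) + finrank K (fx l LC) ≤ finrank K (fx l LD) := by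
  have h1 := Submodule.finrank_sup_add_finrank_inf_eq (fx l LB) (fx l LC)
  have h2 := Submodule.finrank_mono (sup_le (fx_le (r := l) (L := LD) (M := LB) (by decide +kernel))
    (fx_le (r := l) (L := LD) (M := LC) (by decide +kernel)))
  have h3 := C3.gen (Sg l (fx l LB ⊓ fx l LC) ⊤)
    ⟨fun v hv => mem_fx.1 hv.1 546 (by decide +kernel), fun _ => trivial⟩
    ⟨fun v hv => mem_fx.1 hv.2 725 (by decide +kernel), fun _ => trivial⟩
  have h4 : fx l LB ⊓ fx l LC ≤ Fx l := fun v hv => mem_Fx.2 fun g => (h3.ge trivial : g ∈ _).1 v hv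
  have := Submodule.finrank_mono h4
  rw [fx', finrank_bot] at this
  omega

theorem d7 {q : ℕ} (h : TL q l) : 12 ≤ dm l (T * U) := by
  by_cases h7 : (7 : K) = 0
  · have := Fact.mk Nat.prime_seven
    have := unip (r := l) (p := 7) (k := 1) (by exact_mod_cast h7) W7
    rw [h.dl] at this
    omega
  · have := h.t7 h7 _ W7 C3.W1 cW2
    omega

theorem ar1 {t u w : ℕ} (s : t + u + w + 78 ≤ 2 * 78 + 0) (hw : 12 ≤ w)
    (hu : (t = 46 ∧ 22 ≤ u) ∨ (t = 38 ∧ (u = 20 ∨ u = 36))) : t = 38 ∧ u = 20 := by omega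

theorem ar2 {a b c d x z g : ℕ}
    (e1 : (4 * b : ℤ) = 2 * a + (2 * (20 : ℕ) + (38 : ℕ) - (78 : ℕ)))
    (e2 : (2 * c : ℤ) = d + (2 * (20 : ℕ) - (38 : ℕ)))
    (e3 : (18 * d : ℤ) = 18 * (38 : ℕ) + 6 * x + 6 * z - 12 * (78 : ℕ))
    (e4 : (36 * a : ℤ) = 6 * x + 24 * z + 18 * g - 12 * (78 : ℕ)) (m : b + c ≤ d)
    (hx : x = 24 ∨ x = 30 ∨ x = 36) (hz : z = 24 ∨ z = 30 ∨ z = 36)
    (hg : (x = 24 → 12 ≤ g) ∧ (x = 30 → 14 ≤ g) ∧ (x = 36 → 18 ≤ g)) : z = 24 ∧ 3 * g = x + 12 := by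
  omega

end C7p

open C7p

variable {K W : Type*} [Field K] [AddCommGroup W] [Module K W] [FiniteDimensional K W] [IsAlgClosed K]
  {q : ℕ}

theorem c7a {l : An 7 →* End K W} (h : TL q l) (fx : Fx l = ⊥) (cx : Cx l = ⊤) (h2 : (2 : K) ≠ 0)
    (h3 : (3 : K) ≠ 0) : dm l C3.T = 38 ∧ dm l C3.U = 20 ∧ dm l C7.Z = 24 ∧
      ∀ β, Br l β → β (C3.el 5) + 3 * β (C3.el 53) = 0 := by
  obtain ⟨γ, c⟩ := exists_br h.hq h.q2 l
  obtain ⟨e1, e2, e3⟩ := eqs c h2 h3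
  have e4 := eA c h2 h3
  have u := h.t4 h2 U U4 U2 (re_of U4 cU)
  have x := h.t3 h3 X X3 X1 (re_of X3 cX)
  have z := h.t3 h3 Z Z3 Z1 (re_of Z3 cZ)
  have g := h.t6 h2 h3 _ G6 (re_of G6 cG5)
  have s := sco (r := l) C3.gen
  have w := d7 h
  have m := am fx
  rw [← dm_conj cTU] at u
  rw [← dm_conj cG2] at g
  rw [fx, cx, finrank_top, finrank_bot, h.dl] at s
  rw [h.dl] at e1 e3
  rw [h.dl] at e4
  have k : dm l T = 38 ∧ dm l U = 20 := ar1 s w u
  rw [k.1, k.2] at e1 e2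
  rw [k.1] at e3
  have k' : dm l Z = 24 ∧ 3 * dm l (el 53) = dm l X + 12 := ar2 e1 e2 e3 e4 m x z g
  refine ⟨k.1, k.2, k'.1, fun β b => ?_⟩
  have f := b6 b h2 h3
  have f' := b.three h3 X3 cX
  have f'' := congrArg (Nat.cast (R := ℂ)) k'.2
  rw [h.dl] at f f'
  rw [k.1] at f
  rw [show el 5 = X from rfl]
  generalize dm l (el 53) = a, dm l X = c at f f' f''
  push_cast at f f' f''
  linear_combination (f' + 3 * f) / 2 + 3 * f''

theorem c7p {l : An 7 →* End K W} (h : TL q l) (fx : Fx l = ⊥) (cx : Cx l = ⊤) (h2 : (2 : K) ≠ 0)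
    (h3 : (3 : K) ≠ 0) (h5 : (5 : K) ≠ 0) : False := by
  obtain ⟨β, b⟩ := exists_br h.hq h.q2 l
  obtain ⟨t, -, z, x⟩ := c7a h fx cx h2 h3
  have e := b.rk _ 180 (by
    rw [show ((180 : ℤ) : K) = 2 * 2 * 3 * 3 * 5 by norm_num]; simp [h2, h3, h5]) (conv' cv14)
  have y := ((h.t5 h5 Y Y5 Y1 (re_of Y5 cY4)).2 (.inl cY2))
  have f := b.two h2 T_2
  have f' := b.three h3 Z3 cZ
  have f'' := b5 b h5
  replace x : β X + 3 * β (el 53) = 0 := x β b
  rw [sum_cf _ _ _ _ _ _ _ _ _ b.conj, b.one] at e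
  rw [t] at f
  rw [z] at f'
  rw [y] at f''
  rw [h.dl] at e f f' f''
  obtain ⟨k, e⟩ : ∃ k : ℕ, _ = ((180 : ℤ) : ℂ) * k := ⟨_, e⟩
  have : ((180 * k + 2520 : ℕ) : ℂ) = 0 := by
    push_cast at *
    linear_combination -e + 210 * f + 280 * f' - 126 * f'' - 70 * x
  have := Nat.cast_eq_zero.1 this
  omega

end CF.Am
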