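import Cfsg.Agent.Am.B
import Cfsg.Agent.Am.BG

/-! Alternating subgroups of `E₆(q)`: degrees nine to twelve in characteristic two. -/

set_option autoImplicit false

namespace CF.Am

open Module Function CF.E83 CF.Al Finset

namespace C92

/-- Conjugates of a power of a fixed word. -/
def cw (m : ℕ) (c u : List (Fin 4)) : List (Fin 4) := u ++ (List.replicate m c).flatten ++ u.reverse.map (· + 2)

def a9 : An 9 := ap ![5, 2, 1, 8, 4, 0, 7, 6, 3] ![5, 2, 1, 8, 4, 0, 7, 6, 3]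
def b9 : An 9 := ap ![8, 1, 6, 4, 2, 0, 3, 5, 7] ![5, 1, 4, 6, 3, 7, 2, 8, 0]

theorem g9 : ∀ H : Subgroup (An 9), a9 ∈ H → b9 ∈ H → H = ⊤ :=
  G.gen (fun k => cw 2 [0, 1, 0, 1, 0, 1, 1, 0, 3] (![[], [], [0, 1, 1, 0, 3, 0, 3], [3, 0, 3, 0, 1, 0, 1, 1],
    [0, 3, 0, 1, 1, 0], [0, 1, 0, 1], [3, 0, 1, 1], [3, 0, 3, 0, 1, 0, 3, 0, 1], [0]] k) |>.take (if k = 1 then 0 else 99))
    (by decide +kernel)

def a10 : An 10 := ap ![4, 1, 2, 5, 0, 3, 8, 9, 6, 7] ![4, 1, 2, 5, 0, 3, 8, 9, 6, 7]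
def b10 : An 10 := ap ![2, 8, 5, 9, 3, 0, 6, 1, 7, 4] ![5, 7, 0, 4, 9, 2, 6, 8, 1, 3]

theorem g10 : ∀ H : Subgroup (An 10), a10 ∈ H → b10 ∈ H → H = ⊤ :=
  G.gen (fun k => cw 7 [0, 1, 0, 3] (![[], [], [0, 3, 0, 1, 0, 3, 0, 3, 0, 1, 0, 3, 0, 3, 0, 1, 0, 1],
    [0, 3, 0, 1, 0, 3, 0, 1, 0, 1], [1, 0, 3, 0, 3, 0, 1, 0, 3, 0, 1], [1, 0, 3, 0, 1, 0, 3, 0, 3, 0, 1, 0, 1],
    [1, 0, 1, 0, 1, 0, 3, 0, 1, 0, 3, 0, 3, 0, 1, 0, 1, 0], [3, 0, 1, 0, 3, 0, 1], [1, 0, 1, 0, 1],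
    [0, 1, 0, 3, 0, 1, 0, 1, 0, 1, 0]] k) |>.take (if k = 1 then 0 else 99)) (by decide +kernel)

def a11 : An 11 := ap ![8, 3, 2, 1, 6, 7, 4, 5, 0, 9, 10] ![8, 3, 2, 1, 6, 7, 4, 5, 0, 9, 10]
def b11 : An 11 := ap ![9, 10, 0, 7, 6, 5, 8, 2, 1, 3, 4] ![2, 8, 7, 9, 10, 5, 4, 3, 6, 0, 1]

theorem g11 : ∀ H : Subgroup (An 11), a11 ∈ H → b11 ∈ H → H = ⊤ :=
  G.gen (fun k => cw 4 [0, 1, 0, 3] (![[], [], [3, 0, 1, 1, 0, 3, 0, 3], [0, 3, 0, 3, 3, 0, 1, 1],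
    [3, 3, 0, 1, 0, 3, 3, 0], [1, 1, 0, 3, 0, 1, 1], [1, 0, 3, 0, 3], [1, 0, 3, 0, 1, 1, 0, 3, 3, 0],
    [1, 1, 0, 1, 1, 0, 1], [3, 0, 3, 3, 0, 1, 1, 0, 1], [1, 0, 1, 1, 0, 3, 0, 1]] k) |>.take (if k = 1 then 0 else 99))
    (by decide +kernel)

def c0 : An 12 := ap ![1, 2, 0, 3, 4, 5, 6, 7, 8, 9, 10, 11] ![2, 0, 1, 3, 4, 5, 6, 7, 8, 9, 10, 11]
def c1 : An 12 := ap ![0, 1, 2, 4, 5, 3, 6, 7, 8, 9, 10, 11] ![0, 1, 2, 5, 3, 4, 6, 7, 8, 9, 10, 11]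
def c2 : An 12 := ap ![0, 1, 2, 3, 4, 5, 7, 8, 6, 9, 10, 11] ![0, 1, 2, 3, 4, 5, 8, 6, 7, 9, 10, 11]
def c3 : An 12 := ap ![0, 1, 2, 3, 4, 5, 6, 7, 8, 10, 11, 9] ![0, 1, 2, 3, 4, 5, 6, 7, 8, 11, 9, 10]
/-- Representatives of the elements of order dividing three. -/
def rp : Fin 5 → An 12 := ![1, c0, c0 * c1, c0 * c1 * c2, c0 * c1 * c2 * c3]
def ba : An 12 := ap ![10, 2, 7, 4, 8, 11, 5, 1, 3, 0, 9, 6] ![9, 7, 1, 8, 3, 6, 11, 2, 4, 10, 0, 5]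
def bb : An 12 := ap ![5, 10, 9, 0, 7, 3, 1, 11, 2, 8, 6, 4] ![3, 6, 8, 5, 11, 0, 10, 4, 9, 2, 1, 7]

theorem ga : ∀ H : Subgroup (An 12), rp 4 ∈ H → ba ∈ H → H = ⊤ :=
  G.gen (fun k => cw 2 [0, 1, 2, 1, 0, 3, 0, 1, 2, 3] (![[], [], [3, 2, 3, 0, 3, 2, 3, 2], [3, 2, 3, 2, 3],
    [1, 2, 3, 2, 1, 0, 1], [0, 1, 0, 1, 2, 1, 2], [], [1, 0, 1, 0, 1, 2, 3, 2], [2, 1, 2, 1, 0, 1, 0, 3],
    [2, 3, 0, 1, 0, 1, 0, 1], [1, 0, 1, 0, 3, 0, 3], [1, 2, 1, 2, 3, 2, 1, 0, 3]] k) |>.take (if k = 1 then 0 else 99))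
    (by decide +kernel)

theorem gb : ∀ H : Subgroup (An 12), rp 2 ∈ H → bb ∈ H → H = ⊤ :=
  G.gen (fun k => cw 2 [0, 1, 0, 3, 0, 3, 0, 1, 0, 3, 2, 3] (![[], [], [3, 2, 1, 2, 3, 2, 3, 0, 1],
    [0, 3, 0, 3, 0, 1, 0, 3, 2], [0, 3, 2, 3, 0, 1], [1, 0, 1, 0, 1], [0, 3, 2, 3, 2], [1, 0, 3, 0, 1, 0, 1, 2],
    [0, 1, 0, 3, 0, 1, 0, 3], [3, 2, 1, 2, 3, 2], [3, 2, 1, 2, 3, 0, 3], [1, 0, 1, 0, 3, 0, 3]] k)
      |>.take (if k = 1 then 0 else 99)) (by decide +kernel)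

/-- The cyclic group generated by an element of order three. -/
def hz {S : Type*} [Group S] (x : S) (h : x ^ 3 = 1) : Multiplicative (Fin 3) →* S :=
  .mk' (fun a => x ^ a.toAdd.1) fun a b => by rw [← pow_add]; exact (pow_eq_pow_mod _ h).symm

abbrev Z3 := Multiplicative (Fin 3)

/-- The elementary abelian group of order `81`. -/
def io : (Z3 × Z3) × Z3 × Z3 →* An 12 :=
  ((hz c0 (by decide +kernel)).noncommCoprod (hz c1 (by decide +kernel))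
    (by unfold Commute SemiconjBy; decide +kernel)).noncommCoprod
    ((hz c2 (by decide +kernel)).noncommCoprod (hz c3 (by decide +kernel))
      (by unfold Commute SemiconjBy; decide +kernel)) (by unfold Commute SemiconjBy; decide +kernel)

def m1 : An 12 := ap ![3, 5, 4, 6, 7, 8, 9, 10, 11, 0, 1, 2] ![9, 10, 11, 0, 2, 1, 3, 4, 5, 6, 7, 8]
def m2 : An 12 := ap ![3, 5, 4, 0, 1, 2, 6, 7, 8, 9, 10, 11] ![3, 4, 5, 0, 2, 1, 6, 7, 8, 9, 10, 11]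

/-- The weight. -/
def wt (g : (Z3 × Z3) × Z3 × Z3) : Fin 5 := (if g.1.1 = 1 then 0 else 1) + (if g.1.2 = 1 then 0 else 1) +
  (if g.2.1 = 1 then 0 else 1) + (if g.2.2 = 1 then 0 else 1)

def tb (g : (Z3 × Z3) × Z3 × Z3) : An 12 := G.wd m1 m2 (List.getD
  [[], [2], [0, 0, 0], [2, 2], [2, 2, 1], [2, 2], [0, 0], [0, 0], [0, 0, 1], [3], [1, 2], [2, 1, 0], [0, 3], [0, 3],
    [2, 1, 0], [0, 1, 1], [3, 0, 0], [2, 2, 2], [0], [3, 2], [3, 2, 3], [0], [0], [3, 2, 2], [0, 1], [0, 1], [1, 0, 0, 1],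
    [], [2, 1], [0, 0, 0], [3, 0], [3, 0], [2, 3, 2], [3, 0, 1], [0, 0], [0, 0, 1], [], [2, 1], [2, 1, 1], [], [],
    [2, 1, 0], [0, 3, 2], [3, 0, 0], [3, 0, 0, 0], [1], [0, 3, 0], [0, 0, 0], [1], [0], [2, 1, 0, 0], [0, 0, 3, 0], [0, 0],
    [0, 0, 0], [1, 0], [2], [2, 3], [1, 0], [1, 0], [2, 2], [1, 0, 1], [1, 0, 1], [2, 2, 3], [3], [2], [2, 3], [3], [2],
    [2, 2], [2, 2, 1, 0], [1, 1, 0, 0], [2, 2, 2], [1, 1], [3, 2], [3, 2, 3], [1, 1], [1, 0], [3, 2, 2], [0, 0, 0, 0],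
    [1, 0, 0], [0, 0, 0, 0]] (27 * g.1.1.toAdd.1 + 9 * g.1.2.toAdd.1 + 3 * g.2.1.toAdd.1 + g.2.2.toAdd.1) [])

theorem tb_cj : ∀ g, tb g * rp (wt g) * (tb g)⁻¹ = io g := by decide +kernel

theorem wt_card : ∀ k, #{g | wt g = k} = ![1, 8, 24, 32, 16] k := by decide +kernel

theorem cj {S : Type*} [Group S] {x y : S} (u : S) (h : u * x * u⁻¹ = y) : IsConj x y := isConj_iff.2 ⟨u, h⟩

theorem rp_sq (k : Fin 5) : IsConj (rp k) (rp k ^ 2) ∧ Re (rp k) ∧ rp k ^ 3 = 1 ∧ (k ≠ 0 → rp k ≠ 1) := by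
  let u : An 12 := ap ![0, 2, 1, 3, 5, 4, 6, 8, 7, 9, 11, 10] ![0, 2, 1, 3, 5, 4, 6, 8, 7, 9, 11, 10]
  have : ∀ k, u * rp k * u⁻¹ = rp k ^ 2 ∧ u * rp k * u⁻¹ = (rp k)⁻¹ ∧ rp k ^ 3 = 1 ∧ (k ≠ 0 → rp k ≠ 1) := by
    decide +kernel
  exact ⟨cj u (this k).1, cj u (this k).2.1, (this k).2.2⟩

variable {K W : Type*} [Field K] [AddCommGroup W] [Module K W] {S : Type*} [Group S] {q : ℕ}
  {r r' : S →* End K (N K)} {l : S →* End K W} {x : S}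

theorem n3 (h2 : (2 : K) = 0) : (3 : K) ≠ 0 := by rw [show (3 : K) = 2 + 1 by norm_num, h2, zero_add]; exact one_ne_zero

theorem d2 (h : HN q r r' l) (h2 : (2 : K) = 0) (e : x ^ 2 = 1) : 15 ≤ dm r x := (h.tb.i2 h2 x e).1

theorem d4 (h : HN q r r' l) (h2 : (2 : K) = 0) (e : (x ^ 2) ^ 2 = 1) : 8 ≤ dm r x := by
  have := d2 h h2 e
  have := half h2 r x
  omega

theorem d8 (h : HN q r r' l) (h2 : (2 : K) = 0) (e : ((x ^ 2) ^ 2) ^ 2 = 1) : 4 ≤ dm r x := by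
  have := d4 h h2 e
  have := half h2 r x
  omega

theorem d3 (h : HN q r r' l) (h2 : (2 : K) = 0) (e : x ^ 3 = 1) (n : x ≠ 1) (c : Re x) : dm r x = 9 ∨ dm r x = 15 :=
  (h.tb.n3 (n3 h2) x e n c).imp And.left And.left

theorem d5 (h : HN q r r' l) (h2 : (2 : K) = 0) (e : x ^ 5 = 1) (n : x ≠ 1) (c : IsConj x (x ^ 2)) : dm r x = 7 := by
  refine (h.tb.n5 ?_ x e n ?_).2 (.inl c)
  · rw [show (5 : K) = 2 + 2 + 1 by norm_num, h2, zero_add, zero_add]; exact one_ne_zero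
  · have := c.trans (c.pow 2)
    rwa [show (x ^ 2) ^ 2 = x⁻¹ by rw [← pow_mul, eq_inv_iff_mul_eq_one, ← pow_succ, e]] at this

end C92

open C92 in
theorem c92 {K W : Type*} [Field K] [AddCommGroup W] [Module K W] [FiniteDimensional K W] [IsAlgClosed K] {q : ℕ}
    {n : ℕ} (h9 : 9 ≤ n) (h12 : n ≤ 12) {r r' : An n →* End K (N K)} {l : An n →* End K W}
    (h : HN q r r' l) (h2 : (2 : K) = 0) : False := by
  obtain rfl | rfl | rfl | rfl : n = 9 ∨ n = 10 ∨ n = 11 ∨ n = 12 := by omega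
  · have := h.sco C92.g9
    have := d2 h h2 (x := C92.a9) (by decide +kernel)
    have := d4 h h2 (x := C92.b9) (by decide +kernel)
    have := d3 h h2 (x := (C92.a9 * C92.b9) ^ 2) (by decide +kernel) (by decide +kernel)
      (cj (ap ![1, 0, 7, 4, 3, 8, 6, 2, 5] ![1, 0, 7, 4, 3, 8, 6, 2, 5]) (by decide +kernel))
    have := half h2 r (C92.a9 * C92.b9)
    omega
  · have := h.sco C92.g10
    have := d2 h h2 (x := C92.a10) (by decide +kernel)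
    have := d3 h h2 (x := C92.b10) (by decide +kernel) (by decide +kernel)
      (cj (ap ![3, 1, 4, 0, 2, 9, 6, 8, 7, 5] ![3, 1, 4, 0, 2, 9, 6, 8, 7, 5]) (by decide +kernel))
    have := d8 h h2 (x := C92.a10 * C92.b10) (by decide +kernel)
    omega
  · have := h.sco g11
    have := d2 h h2 (x := a11) (by decide +kernel)
    have := d5 h h2 (x := b11) (by decide +kernel) (by decide +kernel)
      (cj (ap ![0, 1, 7, 2, 8, 5, 10, 9, 6, 3, 4] ![0, 1, 3, 9, 10, 5, 8, 2, 4, 7, 6]) (by decide +kernel))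
    have := d5 h h2 (x := a11 * b11) (by decide +kernel) (by decide +kernel)
      (cj (ap ![0, 6, 2, 7, 4, 8, 10, 5, 3, 1, 9] ![0, 9, 2, 8, 4, 7, 1, 3, 5, 10, 6]) (by decide +kernel))
    omega
  have d : ∀ k, k ≠ 0 → dm r (rp k) = 9 ∨ dm r (rp k) = 15 := fun k hk =>
    d3 h h2 (rp_sq k).2.2.1 ((rp_sq k).2.2.2 hk) (rp_sq k).2.1
  have e4 : dm r (rp 4) = 9 := by
    have := h.sco C92.ga
    have := dm_conj (r := r) (x := rp 4) (y := ba)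
      (cj (ap ![5, 11, 6, 0, 10, 9, 3, 4, 8, 1, 2, 7] ![3, 9, 10, 6, 7, 0, 2, 11, 8, 5, 4, 1]) (by decide +kernel))
    have := d 4 (by decide)
    omega
  have e2 : dm r (rp 2) = 9 := by
    have := h.sco gb
    have := dm_conj (r := r) (x := rp 4) (y := bb)
      (cj (ap ![0, 5, 3, 2, 9, 8, 1, 10, 6, 4, 7, 11] ![0, 6, 3, 2, 9, 1, 8, 10, 5, 4, 7, 11]) (by decide +kernel))
    have := d8 h h2 (x := rp 2 * bb) (by decide +kernel)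
    have := d 2 (by decide)
    omega
  obtain ⟨β, b⟩ := exists_br h.tb.hq h.tb.q2 r
  have s := b.hom io (by
    rw [show ((Fintype.card ((Z3 × Z3) × Z3 × Z3) : ℕ) : K) = 3 ^ 4 by simp; norm_num]
    exact pow_ne_zero _ (n3 h2))
  have t := fun k => b.three (n3 h2) (rp_sq k).2.2.1 (rp_sq k).1
  rw [sum_congr rfl fun g _ => (b.isConj (cj _ (tb_cj g))).symm, ← sum_fiberwise' univ wt fun k => β (rp k)] at s
  simp only [sum_const, wt_card, Fin.sum_univ_five] at s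
  have t0 := t 0
  have t1 := t 1
  have t2 := t 2
  have t3 := t 3
  have t4 := t 4
  rw [show dm r (rp 0) = _ from dm_one] at t0
  simp only [h.tb.dr, e2, e4] at t0 t1 t2 t3 t4
  have : (3 + 4 * (dm r (rp 1) - 9) / 3 + 16 * (dm r (rp 3) - 9) / 3 : ℂ) = 9 * finrank K (Fx (r.comp io)) := by
    simp at s
    push_cast at t0 t1 t2 t3 t4
    linear_combination s / 9 - t0 / 18 - 4 * t1 / 9 - 4 * t2 / 3 - 16 * t3 / 9 - 8 * t4 / 9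
  have k : (9 + 4 * (dm r (rp 1) - 9) + 16 * (dm r (rp 3) - 9) : ℤ) = 27 * finrank K (Fx (r.comp io)) := by
    exact_mod_cast (by linear_combination 3 * this :
      (9 + 4 * (dm r (rp 1) - 9) + 16 * (dm r (rp 3) - 9) : ℂ) = 27 * finrank K (Fx (r.comp io)))
  have := d 1 (by decide)
  have := d 3 (by decide)
  omega

end CF.Am
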