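import Cfsg.Agent.Am.A
import Cfsg.Agent.Perm.SymAut

/-! Centralizers in a group with alternating socle. -/

set_option autoImplicit false

namespace CF.Am

open Function Subgroup CF.Al Equiv Equiv.Perm CF.Perm

variable {X : Type*} [Group X] [Finite X] {H T : Subgroup X}

namespace CG

omit [Finite X] in
theorem act {A : Type*} [Group A] {j : A →* X} (M : Mx H j) :
    ∃ φ : H →* MulAut A, ∀ h g, j (φ h g) = h * j g * h⁻¹ := by
  choose f hf using fun (h : H) g => M.nor h h.2 g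
  have m : ∀ a b g, f (a * b) g = f a (f b g) := fun a b g => M.inj (by
    rw [← hf, ← hf, ← hf, Subgroup.coe_mul]; group)
  have o : ∀ g, f 1 g = g := fun g => M.inj (by rw [← hf]; simp)
  exact ⟨.mk' (fun h => ⟨⟨f h, f h⁻¹, fun g => by rw [← m, inv_mul_cancel, o],
    fun g => by rw [← m, mul_inv_cancel, o]⟩, fun a b => M.inj (by
      change j (f h (a * b)) = j (f h a * f h b)
      rw [map_mul, ← hf, ← hf, ← hf, map_mul]; group)⟩) fun a b => MulEquiv.ext (m a b),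
    fun h g => (hf h g).symm⟩

omit [Finite X] in
/-- A subgroup of index at most two embeds into the symmetric group. -/
theorem emb {n : ℕ} (h5 : 5 ≤ n) {j : An n →* X} (M : Mx H j) (le : T ≤ H) :
    ∃ (U : Subgroup T) (f : U →* Perm (Fin n)), Injective f ∧ U.index ∣ 2 ∧ (n ≠ 6 → U = ⊤) ∧
      ∀ (s : U) (g : An n), Commute (s.1 : X) (j g) → Commute (f s) g.1 := by
  obtain ⟨φ, hφ⟩ := act M
  have ci := conjNormal_alt_injective (Ω := Fin n) (by simp; omega)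
  let I := (MulAut.conjNormal : Perm (Fin n) →* MulAut (An n)).range
  let ψ := φ.comp (inclusion le)
  have e : ∀ s : I.comap ψ, MulAut.conjNormal ((MonoidHom.ofInjective ci).symm
      (ψ.subgroupComap I s)) = ψ s := fun s => MonoidHom.apply_ofInjective_symm ci _
  have tp : n ≠ 6 → I.comap ψ = ⊤ := fun h6 => eq_top_iff.2 fun s _ =>
    (exists_aut_eq_conj (by simp; omega) (by simpa using h6) (ψ s)).imp fun _ => Eq.symm
  refine ⟨I.comap ψ, (MonoidHom.ofInjective ci).symm.toMonoidHom.comp (ψ.subgroupComap I),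
    (injective_iff_map_eq_one _).2 fun s (h : (MonoidHom.ofInjective ci).symm _ = 1) => ?_, ?_, tp,
    fun s g c => ?_⟩
  · have := e s
    rw [h, map_one] at this
    refine Subtype.ext (Subtype.ext (M.cen _ (le s.1.2) fun g => ?_))
    have k := hφ (inclusion le s) g
    rw [show φ (inclusion le s) = 1 from this.symm] at k
    exact eq_mul_inv_iff_mul_eq.1 k
  · rcases ne_or_eq n 6 with h6 | rfl
    · simp [tp h6]
    obtain ⟨θ, hθ⟩ := exists_outer (Ω := Fin 6) (by simp)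
    have k := aut_alt_six (Ω := Fin 6) (by simp) (θ := resAlt θ) fun c hc => hθ c hc
    by_cases h : ∀ s, ψ s ∈ I
    · exact index_dvd_two_iff'.2 ⟨1, fun b => .inr (h b)⟩
    obtain ⟨a, ha⟩ := not_forall.1 h
    obtain ⟨σ, h | h⟩ := k (ψ a)
    · exact (ha ⟨σ, h.symm⟩).elim
    refine index_dvd_two_iff'.2 ⟨a⁻¹, fun b => ?_⟩
    obtain ⟨τ, h' | h'⟩ := k (ψ b)
    · exact .inr ⟨τ, h'.symm⟩
    · exact .inl ⟨σ⁻¹ * τ, by rw [map_mul, map_mul, map_inv, map_inv, h, h']; group⟩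
  · have k : ψ s g = g := M.inj ((hφ (inclusion le s) g).trans (mul_inv_eq_iff_eq_mul.2 c))
    rw [← e] at k
    exact mul_inv_eq_iff_eq_mul.1 (congrArg Subtype.val k)

omit [Finite X] in
theorem card_dvd {n : ℕ} (h5 : 5 ≤ n) {j : An n →* X} (M : Mx H j) (le : T ≤ H)
    (C : Subgroup (Perm (Fin n)))
    (c : ∀ s ∈ T, ∀ σ, (∀ g : An n, Commute s (j g) → Commute σ g.1) → σ ∈ C) :
    Nat.card T ∣ Nat.card C * 2 ∧ (n ≠ 6 → Nat.card T ∣ Nat.card C) := by
  obtain ⟨U, f, i, d, t, h⟩ := emb h5 M le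
  have := card_dvd_of_injective (f.codRestrict C fun s => c _ s.1.2 _ (h s))
    fun a b e => i (congrArg Subtype.val e)
  exact ⟨card_mul_index U ▸ Nat.mul_dvd_mul this d, fun h6 => by rwa [t h6, card_top] at this⟩

theorem ct {n p : ℕ} (hp : p.Prime) {y : An n} (e : y ^ p = 1) (n1 : y ≠ 1) :
    ∃ k, y.1.cycleType = Multiset.replicate (k + 1) p ∧ (k + 1) * p ≤ n := by
  haveI := Fact.mk hp
  have o : orderOf y.1 = p := (orderOf_coe y).trans (orderOf_eq_prime e n1)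
  obtain ⟨k, h⟩ := cycleType_prime_order (σ := y.1) (o ▸ hp)
  rw [o] at h
  have := sum_cycleType_le y.1
  rw [h, Multiset.sum_replicate, Fintype.card_fin] at this
  exact ⟨k, h, this⟩

theorem cc {n p k : ℕ} {y : Perm (Fin n)} (h : y.cycleType = Multiset.replicate (k + 1) p) :
    Nat.card (centralizer {y}) = (n - (k + 1) * p).factorial * p ^ (k + 1) * (k + 1).factorial := by
  rw [nat_card_centralizer, h, Multiset.toFinset_replicate, Multiset.sum_replicate,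
    Multiset.prod_replicate]
  simp

omit [Finite X] in
theorem cenp {n p : ℕ} (h5 : 5 ≤ n) (hp : p.Prime) {j : An n →* X} (M : Mx H j) (le : T ≤ H)
    {y : An n} (e : y ^ p = 1) (n1 : y ≠ 1) (c : ∀ s ∈ T, Commute s (j y)) :
    ∃ k N, (k + 1) * p ≤ n ∧ N = (n - (k + 1) * p).factorial * p ^ (k + 1) * (k + 1).factorial ∧
      Nat.card T ∣ N * 2 ∧ (n ≠ 6 → Nat.card T ∣ N) := by
  obtain ⟨k, h, l⟩ := ct hp e n1
  exact ⟨k, _, l, cc h, card_dvd h5 M le _ fun s hs σ h =>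
    mem_centralizer_singleton_iff.2 (h y (c s hs))⟩

theorem ct2 {n : ℕ} (h7 : n ≤ 7) {t : An n} (e : t ^ 2 = 1) (n1 : t ≠ 1) :
    t.1.cycleType = Multiset.replicate 2 2 := by
  obtain ⟨k, h, l⟩ := ct Nat.prime_two e n1
  have := sign_of_cycleType t.1
  rw [mem_alternatingGroup.1 t.2, h] at this
  obtain rfl | rfl | rfl : k = 0 ∨ k = 1 ∨ k = 2 := by omega
  exacts [absurd this (by decide), h, absurd this (by decide)]

theorem sq {n : ℕ} (h7 : n ≤ 7) {a b : An n} (a2 : a ^ 2 = 1) (a1 : a ≠ 1) (ab : Commute b a)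
    (k : ∀ σ : Perm (Fin n), σ * a = a * σ → σ * b = b * σ → σ * σ = 1) {t : An n} (e : t ^ 2 = 1)
    (n1 : t ≠ 1) {σ : Perm (Fin n)} (c : ∀ g : An n, Commute g t → Commute σ g.1) : σ ^ 2 = 1 := by
  obtain ⟨τ, h⟩ := isConj_iff.1 (isConj_iff_cycleType_eq.2 ((ct2 h7 a2 a1).trans (ct2 h7 e n1).symm))
  have ht : t = MulAut.conjNormal τ a := Subtype.ext h.symm
  have cj : ∀ g : An n, Commute g a → τ⁻¹ * σ * τ * g = g * (τ⁻¹ * σ * τ) := fun g hg => by
    have : σ * (τ * g * τ⁻¹) = τ * g * τ⁻¹ * σ := c (MulAut.conjNormal τ g) (ht ▸ hg.map _)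
    calc _ = τ⁻¹ * (σ * (τ * g * τ⁻¹)) * τ := by group
      _ = _ := by rw [this]; group
  calc σ ^ 2 = τ * (τ⁻¹ * σ * τ * (τ⁻¹ * σ * τ)) * τ⁻¹ := by rw [pow_two]; group
    _ = 1 := by rw [k _ (cj a (.refl a)) (cj b ab), mul_one, mul_inv_cancel]

theorem ap_cm {n : ℕ} {σ g : Perm (Fin n)} (h : σ ∈ centralizer {g}) (i : Fin n) :
    σ (g i) = g (σ i) := DFunLike.congr_fun (mem_centralizer_singleton_iff.1 h) i

theorem fx {n : ℕ} {σ g : Perm (Fin n)} (h : σ ∈ centralizer {g}) {i k : Fin n} (e : σ i = i)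
    (l : g i = k := by decide) : σ k = k := by rw [← l, ap_cm h, e]

/-- A centralizer is bounded by the images of two points. -/
theorem card_le {n : ℕ} (C : Subgroup (Perm (Fin n))) (a b : Fin n) (P : Fin n × Fin n → Prop)
    [DecidablePred P] (m : ∀ σ ∈ C, P (σ a, σ b))
    (i : ∀ σ ∈ C, σ a = a → σ b = b → σ = 1) : Nat.card C ≤ Fintype.card {x // P x} := by
  rw [← Nat.card_eq_fintype_card]
  refine Nat.card_le_card_of_injective (fun σ => ⟨_, m σ.1 σ.2⟩) fun σ τ e => ?_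
  obtain ⟨e, e'⟩ : σ.1 a = τ.1 a ∧ σ.1 b = τ.1 b := Prod.mk.inj (congrArg Subtype.val e)
  refine Subtype.ext (inv_mul_eq_one.1 (i _ (mul_mem (inv_mem σ.2) τ.2) ?_ ?_))
  · exact Perm.inv_eq_iff_eq.2 e.symm
  · exact Perm.inv_eq_iff_eq.2 e'.symm

theorem mv {n : ℕ} {σ g : Perm (Fin n)} (h : σ ∈ centralizer {g}) (i : Fin n) :
    g (σ i) = σ i ↔ g i = i := by rw [← ap_cm h, σ.injective.eq_iff]

end CG

open CG

theorem cen5 {n : ℕ} (h5 : 5 ≤ n) (h7 : n ≤ 7) {j : An n →* X} (M : Mx H j) (le : T ≤ H) {y : An n}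
    (e : y ^ 5 = 1) (n1 : y ≠ 1) (c : ∀ s ∈ T, Commute s (j y)) : Nat.card T ∣ 10 := by
  obtain ⟨k, N, l, h, a, b⟩ := cenp h5 Nat.prime_five M le e n1 c
  obtain rfl : k = 0 := by omega
  subst h
  interval_cases n
  exacts [a, a, b (by omega)]

theorem cen7 {j : An 7 →* X} (M : Mx H j) (le : T ≤ H) {y : An 7} (e : y ^ 7 = 1) (n1 : y ≠ 1)
    (c : ∀ s ∈ T, Commute s (j y)) : Nat.card T ≤ 14 := by
  obtain ⟨k, N, l, h, a, -⟩ := cenp (by omega) (by norm_num) M le e n1 c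
  obtain rfl : k = 0 := by omega
  subst h
  exact Nat.le_of_dvd (by decide) a

theorem cen3 {j : An 6 →* X} (M : Mx H j) (le : T ≤ H) (c : ∀ s ∈ T, Commute s (j x6)) :
    Nat.card T ≤ 36 := by
  obtain ⟨k, N, l, h, a, -⟩ := cenp (by omega) Nat.prime_three M le (by decide) (by decide) c
  subst h
  obtain rfl | rfl : k = 0 ∨ k = 1 := by omega
  all_goals exact Nat.le_of_dvd (by decide) a

theorem cen25 {j : An 5 →* X} (M : Mx H j) {t : An 5} (e : t ^ 2 = 1) (n1 : t ≠ 1) {s : X} (m : s ∈ H)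
    (c : ∀ g, Commute g t → Commute (j g) s) : s ^ 2 = 1 := by
  obtain ⟨U, f, i, -, u, h⟩ := emb le_rfl M (le_refl H)
  let s' : U := ⟨⟨s, m⟩, u (by omega) ▸ mem_top _⟩
  have := sq (by omega) (a := ap ![1, 0, 3, 2, 4] ![1, 0, 3, 2, 4])
    (b := ap ![2, 3, 0, 1, 4] ![2, 3, 0, 1, 4]) (by decide) (by decide)
    (by unfold Commute SemiconjBy; decide) (by decide +kernel) e n1
    fun g hg => h s' g (c g hg).symm
  rw [← map_pow, map_eq_one_iff _ i] at this
  exact congrArg (fun x : U => (x.1 : X)) this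

theorem cen26 {j : An 6 →* X} (M : Mx H j) {t : An 6} (e : t ^ 2 = 1) (n1 : t ≠ 1) {s : X} (m : s ∈ H)
    (c : ∀ g, Commute g t → Commute (j g) s) : s ^ 4 = 1 := by
  obtain ⟨g, hg⟩ := M.sq s m
  have := sq (by omega) (a := s6) (b := t6) (by decide) (by decide)
    (by unfold Commute SemiconjBy; decide) (by decide +kernel) e n1 (σ := g.1) fun a ha =>
      congrArg Subtype.val (M.inj (show j (g * a) = j (a * g) by
        rw [map_mul, map_mul, ← hg]
        exact ((c a ha).mul_right (c a ha)).symm))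
  rw [show 4 = 2 * 2 from rfl, pow_mul, pow_two s, hg, ← map_pow,
    show g ^ 2 = 1 from Subtype.ext this, map_one]

theorem cenV {j : An 6 →* X} (M : Mx H j) (le : T ≤ H)
    (c : ∀ s ∈ T, Commute s (j s6) ∧ Commute s (j t6)) : Nat.card T ≤ 16 := by
  have a := (card_dvd (by omega) M le (centralizer {s6.1} ⊓ centralizer {t6.1}) fun s hs σ h =>
    ⟨mem_centralizer_singleton_iff.2 (h _ (c s hs).1),
      mem_centralizer_singleton_iff.2 (h _ (c s hs).2)⟩).1
  have b := card_le (centralizer {s6.1} ⊓ centralizer {t6.1}) 0 4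
    (fun x => s6.1 x.1 ≠ x.1 ∧ s6.1 x.2 = x.2)
    (fun σ h => ⟨(mv h.1 0).not.2 (by decide), (mv h.1 4).2 rfl⟩) fun σ h e0 e4 => by
      have e1 : σ 1 = 1 := fx h.1 e0
      have e2 : σ 2 = 2 := fx h.2 e0
      have e3 : σ 3 = 3 := fx h.2 e1
      have e5 : σ 5 = 5 := (by decide : ∀ x, s6.1 x = x → x ≠ 4 → x = 5) _ ((mv h.1 5).2 rfl)
        fun e => absurd (σ.injective (e.trans e4.symm)) (by decide)
      ext i
      fin_cases i <;> simp [e0, e1, e2, e3, e4, e5]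
  have := Nat.le_of_dvd (Nat.mul_pos Nat.card_pos two_pos) a
  rw [show Fintype.card _ = 8 by decide] at b
  omega

theorem cenS {j : An 7 →* X} (M : Mx H j) (le : T ≤ H)
    (c : ∀ s ∈ T, Commute s (j (up s6)) ∧ Commute s (j (up t6 * x7))) : Nat.card T ≤ 12 ∧
      ((∀ s ∈ T, Commute s (j (up x6))) → Nat.card T ≤ 3) := by
  let C := centralizer {(up s6).1} ⊓ centralizer {(up t6 * x7).1}
  have i : ∀ σ ∈ C, σ 0 = 0 → σ 4 = 4 → σ = 1 := fun σ h e0 e4 => by
    have e1 : σ 1 = 1 := fx h.1 e0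
    have e2 : σ 2 = 2 := fx h.2 e0
    have e3 : σ 3 = 3 := fx h.2 e1
    have e5 : σ 5 = 5 := fx h.2 e4
    have e6 : σ 6 = 6 := fx h.2 e5
    ext i
    fin_cases i <;> simp [e0, e1, e2, e3, e4, e5, e6]
  have m := fun s hs σ (h : ∀ g : An 7, Commute s (j g) → Commute σ g.1) =>
    mem_inf.2 ⟨mem_centralizer_singleton_iff.2 (h _ (c s hs).1),
      mem_centralizer_singleton_iff.2 (h _ (c s hs).2)⟩
  refine ⟨(Nat.le_of_dvd Nat.card_pos ((card_dvd (by omega) M le C m).2 (by omega))).trans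
    ((card_le C 0 4 (fun x => (up s6).1 x.1 ≠ x.1 ∧ (up s6).1 x.2 = x.2)
      (fun σ h => ⟨(mv h.1 0).not.2 (by decide), (mv h.1 4).2 (by decide)⟩) i).trans (by decide)),
    fun c' => (Nat.le_of_dvd Nat.card_pos ((card_dvd (by omega) M le
      (C ⊓ centralizer {(up x6).1}) fun s hs σ h => mem_inf.2 ⟨m s hs σ h,
        mem_centralizer_singleton_iff.2 (h _ (c' s hs))⟩).2 (by omega))).trans
    ((card_le (C ⊓ centralizer {(up x6).1}) 3 4 (fun x => ((up s6).1 x.1 ≠ x.1 ∧ (up x6).1 x.1 = x.1) ∧ (up s6).1 x.2 = x.2)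
      (fun σ h => ⟨⟨(mv h.1.1 3).not.2 (by decide), (mv h.2 3).2 (by decide)⟩,
        (mv h.1.1 4).2 (by decide)⟩) fun σ h e3 e4 => i σ h.1 ?_ e4).trans (by decide))⟩
  have e1 : σ 1 = 1 := fx h.1.2 e3
  exact fx h.1.1 e1

end CF.Am
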