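import Cfsg.Agent.Am.C72a
import Cfsg.Agent.Am.C92
import Cfsg.Agent.Am.CG

/-! `A₈` in characteristic two: elements of order three. -/

set_option autoImplicit false

namespace CF.Am

open Module Function CF.E83 CF.Al Finset Polynomial

namespace C82a

theorem same {n p : ℕ} (hp : p.Prime) {x y : An n} (ex : x ^ p = 1) (ey : y ^ p = 1) (n1 : x ≠ 1) (n2 : y ≠ 1)
    (h : x.1.support.card = y.1.support.card) (l : x.1.support.card + 2 ≤ n) : IsConj x y := by
  obtain ⟨k, a, -⟩ := CG.ct hp ex n1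
  obtain ⟨m, b, -⟩ := CG.ct hp ey n2
  refine alternatingGroup.isConj_of (Equiv.Perm.isConj_iff_cycleType_eq.2 ?_) (by rwa [Fintype.card_fin])
  rw [← Equiv.Perm.sum_cycleType, ← Equiv.Perm.sum_cycleType, a, b, Multiset.sum_replicate,
    Multiset.sum_replicate] at h
  rw [a, b, Nat.eq_of_mul_eq_mul_right hp.pos h]

variable {K V : Type*} [Field K] [AddCommGroup V] [Module K V] [FiniteDimensional K V]

theorem sum_eig (T : End K V) {c : ℕ → K} (s : Finset ℕ) (h : Set.InjOn c s) :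
    finrank K (LinearMap.ker (aeval T (∏ i ∈ s, (X - C (c i))))) =
      ∑ i ∈ s, finrank K (LinearMap.ker (aeval T (X - C (c i)))) := by
  induction s using Finset.induction_on with
  | empty => rw [prod_empty, map_one, sum_empty, End.one_eq_id, LinearMap.ker_id, finrank_bot]
  | insert a s n ih =>
    have co : IsCoprime (X - C (c a)) (∏ i ∈ s, (X - C (c i))) := IsCoprime.prod_right fun i m =>
      isCoprime_X_sub_C_of_isUnit_sub (sub_ne_zero.2 fun e =>
        n (by rw [h (x₁ := a) (x₂ := i) (by simp) (by simp [m]) e]; exact m)).isUnit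
    rw [prod_insert n, sum_insert n, ← ih (h.mono (by simp)), ← sup_ker_aeval_eq_ker_aeval_mul_of_coprime T co,
      ← Submodule.finrank_sup_add_finrank_inf_eq, (disjoint_ker_aeval_of_isCoprime T co).eq_bot, finrank_bot,
      add_zero]

theorem q15 [IsAlgClosed K] (h5 : (5 : K) ≠ 0) {S : Type*} [Group S] (r : S →* End K V) {g u : S}
    (e : g ^ 15 = 1) (c : u * g * u⁻¹ = g ^ 2) : ∃ k, dm r (g ^ 5) = dm r g + 4 * k := by
  haveI : NeZero ((5 : ℕ) : K) := ⟨by exact_mod_cast h5⟩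
  obtain ⟨ζ, hζ⟩ := HasEnoughRootsOfUnity.exists_primitiveRoot K 5
  let d : ℕ → ℕ := fun i => finrank K (LinearMap.ker (aeval (r g) (X - C (ζ ^ i * 1))))
  have s := sum_eig (r g) (c := fun i => ζ ^ i * 1) (range 5) fun i a j b h =>
    hζ.pow_inj (by simpa using a) (by simpa using b) (by simpa using h)
  rw [← X_pow_sub_C_eq_prod hζ (by norm_num) (one_pow 5)] at s
  have le : ∀ i j, (8 * i) % 5 = j → d i ≤ d j := fun i j h => by
    have iu : Injective (r u) := LeftInverse.injective (g := r u⁻¹) fun v => by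
      rw [← End.mul_apply, ← map_mul, inv_mul_cancel, map_one, End.one_apply]
    refine (LinearEquiv.finrank_eq (Submodule.equivMapOfInjective _ iu _)).le.trans (Submodule.finrank_mono ?_)
    rintro _ ⟨v, m, rfl⟩
    simp only [SetLike.mem_coe, LinearMap.mem_ker, map_sub, aeval_X, aeval_C, LinearMap.sub_apply, mul_one,
      algebraMap_end_apply, sub_eq_zero] at m ⊢
    have p : ∀ k, r (g ^ k) v = (ζ ^ i) ^ k • v := fun k => by
      induction k with
      | zero => simp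
      | succ k ih => rw [pow_succ, map_mul, End.mul_apply, m, map_smul, ih, smul_smul, pow_succ']
    have : g * u = u * g ^ 8 := by
      rw [eq_comm, ← mul_inv_eq_iff_eq_mul, ← conj_pow, c, ← pow_mul, pow_succ, e, one_mul]
    rw [← End.mul_apply, ← map_mul, this, map_mul, End.mul_apply, p, map_smul, ← pow_mul, ← h, mul_comm,
      ← pow_eq_pow_mod _ hζ.pow_eq_one]
  have := le 1 3 rfl
  have := le 3 4 rfl
  have := le 4 2 rfl
  have := le 2 1 rfl
  refine ⟨d 1, ?_⟩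
  have e0 : d 0 = dm r g := by
    simp only [d]
    rw [dm, fs, pow_zero, one_mul, map_sub, aeval_X, map_one, map_one]
  have e1 : dm r (g ^ 5) = ∑ i ∈ range 5, d i := by
    rw [← s, dm, fs, map_sub, map_pow, map_pow, aeval_X, map_one, map_one]
  simp only [sum_range_succ, range_zero, sum_empty] at e1
  omega

def a1 : An 8 := ap ![4, 1, 6, 3, 7, 2, 5, 0] ![7, 1, 5, 3, 0, 6, 2, 4]
def b1 : An 8 := ap ![7, 3, 4, 5, 0, 6, 1, 2] ![4, 6, 7, 1, 2, 3, 5, 0]
def a2 : An 8 := ap ![3, 1, 2, 0, 4, 5, 7, 6] ![3, 1, 2, 0, 4, 5, 7, 6]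
def b2 : An 8 := ap ![4, 6, 7, 2, 1, 3, 0, 5] ![6, 4, 3, 5, 0, 7, 1, 2]

theorem g1 : ∀ H : Subgroup (An 8), a1 ∈ H → b1 ∈ H → H = ⊤ :=
  G.gen ![[], [], [1, 0, 3, 2, 3, 0, 1, 0, 1, 1, 0], [3, 2, 3, 2, 1, 0, 1, 2, 3, 2, 3],
    [0, 1, 2, 1, 0, 1, 1, 0, 1, 2, 1, 0, 1], [2, 1, 0, 1, 2, 1, 2, 1, 2, 1, 2, 1],
    [2, 3, 0, 3, 2, 3, 0, 3, 0, 3, 0, 3, 2], [2, 3, 2, 3, 0, 3, 2, 1, 1, 2, 3, 0, 3]] (by decide +kernel)

theorem g2 : ∀ H : Subgroup (An 8), a2 ∈ H → b2 ∈ H → H = ⊤ :=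
  G.gen ![[], [], [1, 0, 3, 0, 3, 0, 1, 1, 0, 1, 0, 1, 0, 1, 0, 1, 0, 1],
    [1, 0, 1, 0, 3, 0, 3, 0, 3, 0, 3, 0, 1, 1, 0, 3], [0, 3, 0, 1, 1, 0, 1, 0, 3, 0, 1, 0, 1, 0, 1, 0],
    [0, 3, 0, 1, 0, 1, 0, 1, 0, 1, 0, 1, 1, 0], [1, 0, 1, 0, 1, 1, 0, 3, 0, 1, 0, 3, 0, 3, 0, 3, 0, 3],
    [3, 0, 1, 1, 0, 1, 0, 1, 0, 1, 0, 1, 0, 3, 0, 1]] (by decide +kernel)

theorem sX : (up C7.X).1.support.card = 3 := by decide +kernel
theorem sZ : (up C7.Z).1.support.card = 6 := by decide +kernel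
theorem cT : IsConj (up C3.T) a2 :=
  same Nat.prime_two (by decide +kernel) (by decide +kernel) (by decide +kernel) (by decide +kernel)
    (by decide +kernel) (by decide +kernel)

end C82a

open C82a C92 in
theorem c82a {K W : Type*} [Field K] [AddCommGroup W] [Module K W] [FiniteDimensional K W] [IsAlgClosed K] {q : ℕ}
    {r r' : An 8 →* End K (N K)} {l : An 8 →* End K W} (h : HN q r r' l) (h2 : (2 : K) = 0) :
    ∀ x, x ^ 3 = 1 → x ≠ 1 → dm r x = 9 := by
  have su : ∀ x : An 8, x ^ 3 = 1 → x ≠ 1 → x.1.support.card = 3 ∨ x.1.support.card = 6 := fun x e n => by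
    obtain ⟨k, a, b⟩ := CG.ct Nat.prime_three e n
    rw [← Equiv.Perm.sum_cycleType, a, Multiset.sum_replicate, smul_eq_mul]
    omega
  have dd : ∀ x : An 8, x ^ 3 = 1 → x ≠ 1 → dm r x = 9 ∨ dm r x = 15 := fun x e n =>
    d3 h h2 e n (same Nat.prime_three e (by rw [inv_pow, e, inv_one]) n (inv_ne_one.2 n)
      (by rw [Subgroup.coe_inv, Equiv.Perm.support_inv]) (by have := su x e n; omega))
  have k6 : ∀ x : An 8, x ^ 3 = 1 → x ≠ 1 → x.1.support.card = 6 → dm r x = 9 := fun x e n s => by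
    have := h.sco g1
    have := d4 h h2 (x := b1) (by decide +kernel)
    have := d5 h h2 (x := a1 * b1) (by decide +kernel) (by decide +kernel)
      (cj (ap ![4, 3, 1, 7, 0, 5, 6, 2] ![4, 2, 7, 1, 0, 5, 6, 3]) (by decide +kernel))
    have := dm_conj (r := r) (same Nat.prime_three (y := a1) e (by decide +kernel) n (by decide +kernel)
      (s.trans (by decide +kernel)) (by omega))
    have := dd x e n
    omega
  intro x e n
  refine (su x e n).elim (fun s => (dd x e n).resolve_right fun d => ?_) (k6 x e n)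
  have X3 : up C7.X ^ 3 = 1 := by rw [← map_pow, C7.X3, map_one]
  have := d17 (h.tb.comp up_inj) h2
    ((dm_conj (r := r) (same Nat.prime_three e X3 n (by decide +kernel) (s.trans sX.symm) (by omega))).symm.trans d)
    (k6 (up C7.Z) (by rw [← map_pow, C7.Z3, map_one]) (by decide +kernel) sZ)
  have t : 17 ≤ dm r a2 := dm_conj (r := r) cT ▸ this
  have := h.sco g2
  have := d4 h h2 (x := b2) (by decide +kernel)
  obtain ⟨k, hk⟩ := q15 (by rw [show (5 : K) = 2 + 2 + 1 by norm_num, h2, zero_add, zero_add]; exact one_ne_zero) r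
    (g := a2 * b2) (u := ap ![1, 4, 3, 2, 5, 0, 6, 7] ![5, 0, 3, 2, 1, 4, 6, 7]) (by decide +kernel) (by decide +kernel)
  have := dm_conj (r := r) (same Nat.prime_three (y := (a2 * b2) ^ 5) e (by decide +kernel) n (by decide +kernel)
    (s.trans (by decide +kernel)) (by omega))
  omega

end CF.Am
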