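import Cfsg.Agent.Am.TS
import Cfsg.Agent.Am.C72

/-! `A₈` in characteristic two, all elements of order three of dimension nine. -/

set_option autoImplicit false

namespace CF.Am

open Module Function Cfsg.Lie CF.E83 CF.Al Equiv

namespace C82b

theorem tr3 {i j k : Fin 8} (a : i ≠ j) (b : i ≠ k) (c : j ≠ k) : ∃ g : An 8, g.1 0 = i ∧ g.1 1 = j ∧ g.1 2 = k := by
  obtain ⟨σ, e⟩ := Perm.exists_extending_pair (f := ![(0 : Fin 8), 1, 2]) (g := ![i, j, k]) (by decide) (by
    intro x y; fin_cases x <;> fin_cases y <;> simp [a, b, c, a.symm, b.symm, c.symm])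
  rcases Int.units_eq_one_or (Perm.sign σ) with s | s
  · exact ⟨⟨σ, s⟩, e 0, e 1, e 2⟩
  · exact ⟨⟨σ * swap 3 4, by rw [Perm.mem_alternatingGroup, map_mul, s, Perm.sign_swap (by decide)]; rfl⟩, e 0, e 1, e 2⟩

theorem third : ∀ i j : Fin 8, ∃ k, i ≠ k ∧ j ≠ k := by decide

section
variable {K V S : Type*} [Field K] [AddCommGroup V] [Module K V] [Group S]

theorem av {r : S →* End K V} {x : S} (e : x ^ 3 = 1) (v : V) : v + r x v + r x (r x v) ∈ fs (r x) := by
  have : r x (r x (r x v)) = v := by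
    rw [← End.mul_apply, ← End.mul_apply, ← map_mul, ← map_mul, ← pow_three', e, map_one, End.one_apply]
  rw [mem_fs, map_add, map_add, this]
  abel

theorem le3 [FiniteDimensional K V] (h2 : (2 : K) = 0) {r : S →* End K V} (dr : finrank K V = 27) {x y : S}
    (c : Commute x y) (ex : x ^ 3 = 1) (ey : y ^ 3 = 1) (d1 : dm r x = 9) (d2 : dm r y = 9) (d3 : dm r (x * y) = 9)
    (d4 : dm r (x * (y * y)) = 9) : finrank K ↥(fs (r x) ⊓ fs (r y)) ≤ 3 := by
  have l3 : fs (r x) ⊓ fs (r y) ≤ fs (r (x * y)) := fun v h => mem_fs.2 (by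
    rw [map_mul, End.mul_apply, mem_fs.1 h.2, mem_fs.1 h.1])
  have l4 : fs (r x) ⊓ fs (r y) ≤ fs (r (x * (y * y))) := fun v h => mem_fs.2 (by
    rw [map_mul, map_mul, End.mul_apply, End.mul_apply, mem_fs.1 h.2, mem_fs.1 h.2, mem_fs.1 h.1])
  have a1 := Submodule.finrank_sup_add_finrank_inf_eq (fs (r x)) (fs (r y))
  have a2 := Submodule.finrank_sup_add_finrank_inf_eq (fs (r x) ⊔ fs (r y)) (fs (r (x * y)))
  have a3 := Submodule.finrank_sup_add_finrank_inf_eq (fs (r x) ⊔ fs (r y) ⊔ fs (r (x * y))) (fs (r (x * (y * y))))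
  have b2 := Submodule.finrank_mono (le_inf (inf_le_left.trans le_sup_left) l3 :
    fs (r x) ⊓ fs (r y) ≤ (fs (r x) ⊔ fs (r y)) ⊓ fs (r (x * y)))
  have b3 := Submodule.finrank_mono (le_inf ((inf_le_left.trans le_sup_left).trans le_sup_left) l4 :
    fs (r x) ⊓ fs (r y) ≤ (fs (r x) ⊔ fs (r y) ⊔ fs (r (x * y))) ⊓ fs (r (x * (y * y))))
  have t : fs (r x) ⊔ fs (r y) ⊔ fs (r (x * y)) ⊔ fs (r (x * (y * y))) = ⊤ := eq_top_iff.2 fun v _ => by
    have m1 := av (r := r) ex v
    have m0 := av (r := r) ex (v + r y v + r y (r y v))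
    have m2 := av (r := r) ey v
    have m3 := av (r := r) (x := x * y) (by rw [c.mul_pow, ex, ey, one_mul]) v
    have m4 := av (r := r) (x := x * (y * y)) (by
      rw [(c.mul_right c).mul_pow, (Commute.refl y).mul_pow, ex, ey, one_mul, one_mul]) v
    have cm : ∀ w, r y (r x w) = r x (r y w) := fun w => by
      rw [← End.mul_apply, ← End.mul_apply, ← map_mul, ← map_mul, c.eq]
    have y3 : ∀ w, r y (r y (r y w)) = w := fun w => by
      rw [← End.mul_apply, ← End.mul_apply, ← map_mul, ← map_mul, ← pow_three', ey, map_one, End.one_apply]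
    have k := add_mem (add_mem (add_mem (Submodule.mem_sup_left (Submodule.mem_sup_left (Submodule.mem_sup_left
      (T := fs (r y)) (sub_mem m1 m0)))) (Submodule.mem_sup_left (Submodule.mem_sup_left (Submodule.mem_sup_right m2))))
      (Submodule.mem_sup_left (Submodule.mem_sup_right m3))) (Submodule.mem_sup_right m4)
    convert k using 1
    simp only [map_mul, End.mul_apply, map_add, cm, y3]
    have : v + v = 0 := by rw [← two_smul K, h2, zero_smul]
    rw [eq_comm, ← sub_eq_zero, ← this]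
    abel
  rw [t, finrank_top] at a3
  unfold dm at d1 d2 d3 d4
  omega

variable {r : An 8 →* End K V} {u : Fin 8 → V} (hu : ∀ g i, r g (u i) = u (g.1 i)) (fx : Fx r = ⊥)
include hu fx

theorem sum0 : ∑ i, u i = 0 := by
  rw [← Submodule.mem_bot K, ← fx, mem_Fx]
  intro g
  rw [map_sum, Finset.sum_congr rfl fun i _ => hu g i]
  exact Equiv.sum_comp g.1 u

theorem ind (nz : u ≠ 0) {a : Fin 8 → K} (e : ∑ i, a i • u i = 0) {i j : Fin 8} : a i = a j := by
  have mv : ∀ (g : An 8) {a : Fin 8 → K}, ∑ i, a i • u i = 0 → ∑ i, a i • u (g.1 i) = 0 := fun g a e => by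
    have := congrArg (r g) e
    rwa [map_sum, map_zero, Finset.sum_congr rfl fun i _ => by rw [map_smul, hu]] at this
  have key : ∀ {a : Fin 8 → K}, ∑ i, a i • u i = 0 → a 0 = a 2 := fun {a} e => by_contra fun ne => nz (by
    have e1 := mv (ap ![3, 1, 0, 2, 4, 5, 6, 7] ![2, 1, 3, 0, 4, 5, 6, 7]) e
    have e2 : (a 0 - a 2) • u 0 + (a 2 - a 3) • u 2 + (a 3 - a 0) • u 3 = 0 := by
      rw [Fin.sum_univ_eight] at e e1
      change a 0 • u 3 + a 1 • u 1 + a 2 • u 0 + a 3 • u 2 + a 4 • u 4 + a 5 • u 5 + a 6 • u 6 + a 7 • u 7 = 0 at e1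
      linear_combination (norm := module) e - e1
    have e3 := congrArg (r (ap ![1, 4, 2, 3, 0, 5, 6, 7] ![4, 0, 2, 3, 1, 5, 6, 7])) e2
    simp only [map_add, map_smul, hu, map_zero] at e3
    change (a 0 - a 2) • u 1 + (a 2 - a 3) • u 2 + (a 3 - a 0) • u 3 = 0 at e3
    have e4 : u 0 = u 1 := smul_right_injective V (sub_ne_zero.2 ne) (by
      beta_reduce; linear_combination (norm := module) e2 - e3)
    have e5 : ∀ i j, u i = u j := fun i j => by
      by_cases q : i = j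
      · rw [q]
      obtain ⟨k, b, c⟩ := third i j
      obtain ⟨g, g0, g1, -⟩ := tr3 q b c
      rw [← g0, ← g1, ← hu, ← hu, e4]
    funext i
    rw [Pi.zero_apply, ← Submodule.mem_bot K, ← fx, mem_Fx]
    exact fun g => (hu g i).trans (e5 _ _))
  by_cases q : i = j
  · rw [q]
  obtain ⟨k, b, c⟩ := third i j
  obtain ⟨g, g0, -, g2⟩ := tr3 b q c.symm
  rw [← g0, ← g2]
  refine key (a := fun i => a (g.1 i)) ?_
  have := mv g⁻¹ e
  rw [← Equiv.sum_comp g.1] at this
  simpa using this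

end

/-- `(0 1 2)`. -/
def x8 : An 8 := ap ![1, 2, 0, 3, 4, 5, 6, 7] ![2, 0, 1, 3, 4, 5, 6, 7]
/-- `(3 4 5)`. -/
def y8 : An 8 := ap ![0, 1, 2, 4, 5, 3, 6, 7] ![0, 1, 2, 5, 3, 4, 6, 7]

variable {K : Type*} [Field K] {r r' : An 8 →* End K (N K)}

theorem perp (h2 : (2 : K) = 0) (jp : JP r r') (fx : Fx r = ⊥) (d : ∀ x, x ^ 3 = 1 → x ≠ 1 → dm r x = 9)
    {u : Fin 8 → N K} (hu : ∀ g i, r g (u i) = u (g.1 i)) (nz : u ≠ 0) {w : N K} (w1 : r' x8 w = w)
    (w2 : r' y8 w = w) (k : ∀ i, u i ⬝ᵥ w = 0) : w = 0 := by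
  have c : Commute x8 y8 := show x8 * y8 = y8 * x8 by decide
  have ex : x8 ^ 3 = 1 := by decide
  have ey : y8 ^ 3 = 1 := by decide
  have l := le3 h2 (r := r) (by simp) c ex ey (d _ ex (by decide)) (d _ ey (by decide)) (d _ (by decide) (by decide))
    (d _ (by decide) (by decide))
  have li : LinearIndependent K ![u 0 + u 1 + u 2, u 6, u 7] := Fintype.linearIndependent_iff.2 fun a e => by
    have q := fun i j => ind hu fx nz (a := ![a 0, a 0, a 0, 0, 0, 0, a 1, a 2]) (i := i) (j := j) (by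
      rw [Fin.sum_univ_three] at e
      rw [Fin.sum_univ_eight, ← e]
      simp [add_assoc])
    intro i
    fin_cases i
    exacts [q 0 3, q 6 3, q 7 3]
  have sp := Submodule.eq_of_le_of_finrank_le (S₁ := Submodule.span K (Set.range ![u 0 + u 1 + u 2, u 6, u 7]))
    (S₂ := fs (r x8) ⊓ fs (r y8)) (Submodule.span_le.2 (by
    rintro _ ⟨i, rfl⟩
    fin_cases i <;> refine ⟨mem_fs.2 ?_, mem_fs.2 ?_⟩ <;> simp only [Fin.zero_eta, Fin.mk_one, Fin.reduceFinMk,
      Matrix.cons_val, map_add, hu]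
    · change u 1 + u 2 + u 0 = _; abel
    all_goals rfl)) (by rw [finrank_span_eq_card li]; simpa using l)
  have p : ∀ v ∈ fs (r x8) ⊓ fs (r y8), v ⬝ᵥ w = 0 := fun v hv => by
    rw [← sp] at hv
    induction hv using Submodule.span_induction with
    | mem _ h => obtain ⟨i, rfl⟩ := h; fin_cases i <;> simp [add_dotProduct, k]
    | zero => simp
    | add _ _ _ _ a b => rw [add_dotProduct, a, b, add_zero]
    | smul _ _ _ a => rw [smul_dotProduct, a, smul_zero]
  have t : ∀ {g : An 8}, r' g w = w → ∀ v, (v + r g v + r g (r g v)) ⬝ᵥ w = v ⬝ᵥ w := fun {g} e v => by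
    have : ∀ v, r g v ⬝ᵥ w = v ⬝ᵥ w := fun v => by rw [← (jp g).pr v w, e]
    rw [add_dotProduct, add_dotProduct, this (r g v), this]
    linear_combination (v ⬝ᵥ w) * h2
  refine dotProduct_eq_zero_iff.1 fun v => ?_
  rw [dotProduct_comm, ← t w2, ← t w1]
  refine p _ ⟨av ex _, mem_fs.2 ?_⟩
  have cm : ∀ w, r y8 (r x8 w) = r x8 (r y8 w) := fun w => by
    rw [← End.mul_apply, ← End.mul_apply, ← map_mul, ← map_mul, c.eq]
  rw [map_add, map_add, cm, cm, cm, mem_fs.1 (av ey v)]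

theorem main (h2 : (2 : K) = 0) (jp : JP r r') (fx : Fx r = ⊥) (fx' : Fx r' = ⊥)
    (d : ∀ x, x ^ 3 = 1 → x ≠ 1 → dm r x = 9) : Fx (r.comp up) = ⊥ := by
  refine (Submodule.eq_bot_iff _).2 fun v hv => by_contra fun v0 => ?_
  obtain ⟨u, u7, hu⟩ := exists_vs (by norm_num) r hv
  have nz : u ≠ 0 := fun e => v0 (by rw [← u7, e]; rfl)
  have ng : ∀ v : N K, -v = v := fun v => neg_eq_iff_add_eq_zero.2 (by rw [← two_smul K, h2, zero_smul])
  have s0 := sum0 hu fx
  have φ0 : (fun i => sh (u i)) = 0 := by_contra fun nφ => by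
    have al : ∀ i j, sh (u i) ⬝ᵥ u j = sh (u i) ⬝ᵥ u i := fun i j => by
      have b : ∀ j k, i ≠ j → i ≠ k → sh (u i) ⬝ᵥ u j = sh (u i) ⬝ᵥ u k := fun j k a b => by
        have m : ∀ j, i ≠ j → sh (u i) ⬝ᵥ u j = sh (u 0) ⬝ᵥ u 1 := fun j a => by
          obtain ⟨k, b, c⟩ := third i j
          obtain ⟨g, g0, g1, -⟩ := tr3 a b c
          rw [← g0, ← g1, ← hu, ← hu, (jp g).s1, (jp g).symm.pr]
        rw [m j a, m k b]
      by_cases q : i = j
      · rw [q]
      have := congrArg (sh (u i) ⬝ᵥ ·) s0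
      simp only [dotProduct_sum, dotProduct_zero] at this
      rw [← Finset.add_sum_erase _ _ (Finset.mem_univ i), Finset.sum_congr rfl fun k m =>
        b k j (Finset.ne_of_mem_erase m).symm q, Finset.sum_const, Finset.card_erase_of_mem (Finset.mem_univ i)] at this
      simp only [Finset.card_univ, Fintype.card_fin, nsmul_eq_mul] at this
      push_cast at this
      linear_combination this - (sh (u i) ⬝ᵥ u i + 3 * sh (u i) ⬝ᵥ u j) * h2
    have z := perp h2 jp.symm fx' (fun x e n => (jp.dm_eq x).trans (d x e n)) (u := fun i => sh (u i))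
      (fun g i => by rw [← hu, (jp g).s1]) nφ (w := u 6 + u 7) (by rw [map_add, hu, hu]; rfl)
      (by rw [map_add, hu, hu]; rfl) fun i => by
        rw [dotProduct_add, al i 6, al i 7]; linear_combination (sh (u i) ⬝ᵥ u i) * h2
    exact zero_ne_one (ind hu fx nz (a := ![0, 0, 0, 0, 0, 0, 1, 1]) (i := 0) (j := 6) (by
      rw [Fin.sum_univ_eight, ← z]; simp))
  have φ : ∀ i, sh (u i) = 0 := congrFun φ0
  have cs : ∀ i, cr (u i) (u i) = 0 := fun i => by rw [cr_self, φ, smul_zero]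
  have t0 : ∀ i j, cr (u i) (u j) ⬝ᵥ u i = 0 := fun i j => by rw [cr_dot, cs, zero_dotProduct]
  have t1 : ∀ {i j k}, i ≠ j → i ≠ k → j ≠ k → cr (u i) (u j) ⬝ᵥ u k = cr (u 0) (u 1) ⬝ᵥ u 2 := fun a b c => by
    obtain ⟨g, g0, g1, g2⟩ := tr3 a b c
    rw [← g0, ← g1, ← g2, ← hu, ← hu, ← hu, (jp g).cr, (jp g).symm.pr]
  have τ : cr (u 0) (u 1) ⬝ᵥ u 2 = 0 := by
    have e : u 1 + (u 2 + (u 3 + u 0)) = u 4 + (u 5 + (u 6 + u 7)) := by
      rw [Fin.sum_univ_eight] at s0
      rw [← ng (u 4 + _)]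
      linear_combination (exp := 1) s0
    have := congrArg (fun v => sh v ⬝ᵥ u 0) e
    simp only [sh_add, cr_add, φ, add_dotProduct, zero_dotProduct, cr_comm _ (u 0), t0] at this
    iterate 9 rw [t1 (k := 0) (by decide) (by decide) (by decide)] at this
    linear_combination this + (2 * cr (u 0) (u 1) ⬝ᵥ u 2) * h2
  have ψ : cr (u 6) (u 7) = 0 := perp h2 jp fx d hu nz (by rw [← (jp _).cr, hu, hu]; rfl)
    (by rw [← (jp _).cr, hu, hu]; rfl) fun i => by
      rw [dotProduct_comm]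
      by_cases a : 6 = i
      · rw [← a, t0]
      by_cases b : 7 = i
      · rw [← b, cr_comm, t0]
      rw [t1 (by decide) a b, τ]
  have ψ' : ∀ i j, cr (u i) (u j) = 0 := fun i j => by
    by_cases q : i = j
    · rw [q, cs]
    obtain ⟨k, b, c⟩ := third i j
    obtain ⟨g, g0, g1, -⟩ := tr3 q b c
    obtain ⟨g', f0, f1, -⟩ := tr3 (i := 6) (j := 7) (k := 0) (by decide) (by decide) (by decide)
    rw [← f0, ← f1, ← hu, ← hu, (jp g').cr] at ψ
    rw [← g0, ← g1, ← hu, ← hu, (jp g).cr, (jp g').symm.bij.1 (ψ.trans (map_zero _).symm), map_zero]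
  have li : LinearIndependent K fun i : Fin 7 => u i.castSucc := Fintype.linearIndependent_iff.2 fun a e i => by
    simpa only [Fin.snoc_castSucc, Fin.snoc_last] using ind hu fx nz (a := Fin.snoc (α := fun _ => K) a 0) (i := i.castSucc) (j := Fin.last 7) (by
      rw [Fin.sum_univ_castSucc, Fin.snoc_last]; simpa using e)
  have c2 : ∀ v ∈ Submodule.span K (Set.range fun i : Fin 7 => u i.castSucc),
      ∀ w ∈ Submodule.span K (Set.range fun i : Fin 7 => u i.castSucc), cr v w = 0 := fun v hv w hw => by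
    have c1 : ∀ {v : N K}, (∀ i, cr v (u i) = 0) → ∀ w ∈ Submodule.span K (Set.range fun i : Fin 7 => u i.castSucc),
        cr v w = 0 := fun {v} k w hw => by
      induction hw using Submodule.span_induction with
      | mem _ h => obtain ⟨i, rfl⟩ := h; exact k _
      | zero => simpa using cr_smul 0 v 0
      | add _ _ _ _ a b => rw [cr_add, a, b, add_zero]
      | smul _ _ _ a => rw [cr_smul, a, smul_zero]
    exact c1 (fun i => (cr_comm _ _).trans (c1 (ψ' i) v hv)) w hw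
  have := ts (U := Submodule.span K (Set.range fun i : Fin 7 => u i.castSucc)) fun v hv => by
    induction hv using Submodule.span_induction with
    | mem _ h => obtain ⟨i, rfl⟩ := h; exact φ _
    | zero => simpa using sh_smul (0 : K) 0
    | add _ _ m1 m2 a b => rw [sh_add, a, b, c2 _ m1 _ m2, add_zero, add_zero]
    | smul _ _ _ a => rw [sh_smul, a, smul_zero]
  rw [finrank_span_eq_card li] at this
  simp at this

end C82b

variable {K W : Type*} [Field K] [AddCommGroup W] [Module K W] [FiniteDimensional K W] [IsAlgClosed K] {q : ℕ}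

theorem c82b {r r' : An 8 →* End K (N K)} {l : An 8 →* End K W} (h : HN q r r' l) (h2 : (2 : K) = 0)
    (d : ∀ x, x ^ 3 = 1 → x ≠ 1 → dm r x = 9) : False :=
  c72s ⟨h.jp.comp up, h.tb.comp up_inj, C82b.main h2 h.jp h.fx h.fx' d,
    C82b.main h2 h.jp.symm h.fx' h.fx fun x e n => (h.jp.dm_eq x).trans (d x e n)⟩ h2

end CF.Am
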