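import Cfsg.Agent.Am.B

/-! Alternating subgroups of `E₆(q)`: degree at least eight, odd characteristic. -/

set_option autoImplicit false
set_option linter.unusedSectionVars false

namespace CF.Am

open Module Function Cfsg.Lie CF.E83 CF.Al

variable {K V W : Type*} [Field K] [AddCommGroup V] [Module K V] [AddCommGroup W] [Module K W]
  {S : Type*} [Group S]

namespace C8o

theorem ser (r : S →* End K V) {l : List S} (h : ∀ a ∈ l, a * a = 1 ∧ ∀ b ∈ l, a * b = b * a) : Ser r l := by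
  have g (l : List S) (a) (h : ∀ b ∈ l, a * b = b * a) : Good r l a := by
    induction l with
    | nil => trivial
    | cons b l i => exact ⟨i fun c m => h c (.tail _ m), fun v _ => by
        rw [← End.mul_apply, ← map_mul, h b (.head _), map_mul, End.mul_apply]⟩
  induction l with
  | nil => trivial
  | cons a l i => exact ⟨i fun b m => ⟨(h b (.tail _ m)).1, fun c n => (h b (.tail _ m)).2 c (.tail _ n)⟩,
      g _ _ fun b m => (h a (.head _)).2 b (.tail _ m), fun v _ => by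
        rw [← End.mul_apply, ← map_mul, (h a (.head _)).1, map_one, End.one_apply]⟩

/-- An involution. -/
def a : An 8 := ap ![1, 0, 3, 2, 4, 5, 6, 7] ![1, 0, 3, 2, 4, 5, 6, 7]
/-- An involution. -/
def b : An 8 := ap ![2, 3, 0, 1, 4, 5, 6, 7] ![2, 3, 0, 1, 4, 5, 6, 7]
/-- An involution. -/
def c : An 8 := ap ![0, 1, 2, 3, 5, 4, 7, 6] ![0, 1, 2, 3, 5, 4, 7, 6]
/-- An involution. -/
def d : An 8 := ap ![0, 1, 2, 3, 6, 7, 4, 5] ![0, 1, 2, 3, 6, 7, 4, 5]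
/-- An involution. -/
def e : An 8 := ap ![4, 5, 6, 7, 0, 1, 2, 3] ![4, 5, 6, 7, 0, 1, 2, 3]
/-- An involution. -/
def x : An 8 := ap ![1, 0, 3, 2, 5, 4, 7, 6] ![1, 0, 3, 2, 5, 4, 7, 6]
/-- An involution. -/
def y : An 8 := ap ![2, 3, 0, 1, 6, 7, 4, 5] ![2, 3, 0, 1, 6, 7, 4, 5]

theorem k {s g : An 8} (u : Fin 8 → Fin 8) (h : (∀ i, u (u i) = i) ∧ ∀ i, u (u i) = i := by decide)
    (t : Equiv.Perm.sign (⟨u, u, h.1, h.2⟩ : Equiv.Perm (Fin 8)) = 1 := by decide +kernel)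
    (e : ∀ i, u (s.1 (u i)) = g.1 i := by decide +kernel) : IsConj s g :=
  isConj_iff.2 ⟨ap u u h t, Subtype.ext (Equiv.ext e)⟩

theorem cj : IsConj a (d) ∧
    IsConj a (c) ∧
    IsConj a (d * c) ∧
    IsConj a (b) ∧
    IsConj x (d * b) ∧
    IsConj x (c * b) ∧
    IsConj x (d * (c * b)) ∧
    IsConj x (d * a) ∧
    IsConj x (c * a) ∧
    IsConj x (d * (c * a)) ∧
    IsConj a (b * a) ∧
    IsConj x (d * (b * a)) ∧
    IsConj x (c * (b * a)) ∧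
    IsConj x (d * (c * (b * a))) ∧
    IsConj x (e) ∧
    IsConj x (y) ∧
    IsConj x (e * y) ∧
    IsConj x (e * x) ∧
    IsConj x (y * x) ∧
    IsConj x (e * (y * x)) :=
  ⟨k ![4, 6, 5, 7, 0, 2, 1, 3],
    k ![4, 5, 6, 7, 0, 1, 2, 3],
    k ![4, 7, 5, 6, 0, 2, 3, 1],
    k ![0, 2, 1, 3, 4, 5, 7, 6],
    k ![0, 2, 1, 3, 4, 6, 5, 7],
    k ![0, 2, 1, 3, 4, 5, 7, 6],
    k ![0, 2, 1, 3, 4, 7, 6, 5],
    k ![0, 1, 3, 2, 4, 6, 5, 7],
    k ![0, 1, 2, 3, 4, 5, 6, 7],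
    k ![0, 1, 3, 2, 4, 7, 6, 5],
    k ![0, 3, 2, 1, 4, 5, 7, 6],
    k ![0, 3, 2, 1, 4, 6, 5, 7],
    k ![0, 3, 2, 1, 4, 5, 7, 6],
    k ![0, 3, 2, 1, 4, 7, 6, 5],
    k ![0, 4, 2, 6, 1, 5, 3, 7],
    k ![0, 2, 1, 3, 4, 6, 5, 7],
    k ![0, 6, 2, 4, 3, 5, 1, 7],
    k ![0, 5, 2, 7, 4, 1, 6, 3],
    k ![0, 3, 2, 1, 4, 7, 6, 5],
    k ![0, 7, 2, 5, 4, 3, 6, 1]⟩

theorem cm0 {l : List (An 8)} (h : (l.all fun s => s * s = 1 && l.all fun t => s * t = t * s) = true) :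
    ∀ s ∈ l, s * s = 1 ∧ ∀ t ∈ l, s * t = t * s := by simpa using h

theorem cm : (∀ s ∈ [a, b, c, d], s * s = 1 ∧ ∀ t ∈ [a, b, c, d], s * t = t * s) ∧
    (∀ s ∈ [x, y, e], s * s = 1 ∧ ∀ t ∈ [x, y, e], s * t = t * s) ∧ a ≠ 1 ∧ x ≠ 1 :=
  ⟨cm0 (by decide +kernel), cm0 (by decide +kernel), by decide +kernel, by decide +kernel⟩

theorem bt_cj [FiniteDimensional K V] (r : S →* End K V) {s g : S} (h : IsConj s g) : bt r g = bt r s := by
  obtain ⟨u, rfl⟩ := isConj_iff.1 h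
  exact bt_conj ..

end C8o

variable [FiniteDimensional K V] [FiniteDimensional K W] [IsAlgClosed K] {q : ℕ} {nw : Prop}

open C8o in
theorem c8o {n : ℕ} (h8 : 8 ≤ n) {r : An n →* End K V} {l : An n →* End K W} (h : TB q r l)
    (h2 : (2 : K) ≠ 0) : False := by
  obtain ⟨f, hf⟩ := ExA.exists_alt_hom (α := Fin 8) (β := Fin n) (by simpa using h8)
  replace h := h.comp hf
  have j := cj
  have m := cm
  generalize r.comp f = r, a = a, b = b, c = c, d = d, e = e, x = x, y = y at *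
  have e1 := (ser r m.1).sum h2
  have e2 := (ser r m.2.1).sum h2
  simp only [Fs, mul_one, List.length_cons, List.length_nil] at e1 e2
  have aa := (m.1 a (.head _)).1
  have xx := (m.2.1 x (.head _)).1
  have b1 := dm_two (r := r) h2 (one_mul 1)
  have b2 := dm_two (r := r) h2 aa
  have b3 := dm_two (r := r) h2 xx
  have t1 := h.n2 h2 a (by rw [sq, aa]) m.2.2.1
  have t2 := h.n2 h2 x (by rw [sq, xx]) m.2.2.2
  rw [dm_one] at b1
  rw [h.dr] at b1 b2 b3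
  obtain ⟨j0, j1, j2, j3, j4, j5, j6, j7, j8, j9, j10, j11, j12, j13, j14, j15, j16, j17, j18, j19⟩ := j
  rw [bt_cj r j0, bt_cj r j1, bt_cj r j2, bt_cj r j3, bt_cj r j4, bt_cj r j5, bt_cj r j6, bt_cj r j7, bt_cj r j8, bt_cj r j9, bt_cj r j10, bt_cj r j11, bt_cj r j12, bt_cj r j13] at e1
  rw [bt_cj r j14, bt_cj r j15, bt_cj r j16, bt_cj r j17, bt_cj r j18, bt_cj r j19] at e2
  omega

end CF.Am
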