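import Cfsg.Agent.ExA.B
import Cfsg.Agent.BN.Ss2

/-! The fixed points of a Frobenius map on the centre of a semisimple centralizer. -/

set_option autoImplicit false

namespace CF.Am.G1

open CF.Chev CF.BN CF.ExA Cfsg.Lie Function Module Matrix

section lat

variable {B J : Type} [Fintype B] [DecidableEq B]

theorem le_det {M : Matrix B B ℤ} {d : ℕ} (hd : 0 < d) (h : M ^ d = 1) (q : ℕ) :
    (q - 1) ^ Fintype.card B ≤ ((q : ℤ) • M - 1).det.natAbs := by
  set N := (Int.castRingHom ℂ).mapMatrix M with hN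
  replace h : N ^ d = 1 := by rw [hN, ← map_pow, h, map_one]
  have h1 := (Int.castRingHom ℂ).map_det ((q : ℤ) • M - 1)
  rw [map_sub, map_zsmul, map_one, ← hN, det_eq_prod_roots_charpoly] at h1
  have h2 : ∀ μ ∈ ((q : ℤ) • N - 1).charpoly.roots.map (‖·‖₊), ((q - 1 : ℕ) : NNReal) ≤ μ := by
    simp only [Multiset.mem_map]
    rintro _ ⟨μ, hμ, rfl⟩
    have h3 := (Polynomial.mem_roots'.1 hμ).2
    rw [Polynomial.IsRoot.def, eval_charpoly] at h3
    obtain ⟨v, hv, e⟩ := exists_mulVec_eq_zero_iff.2 h3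
    have h4 : (q : ℂ) • N *ᵥ v = (μ + 1) • v := by
      rw [sub_mulVec, sub_mulVec, one_mulVec, sub_eq_zero, eq_sub_iff_add_eq] at e
      rw [add_smul, one_smul, ← smul_mulVec, Nat.cast_smul_eq_nsmul, ← natCast_zsmul, ← e]
      simp
    have h5 : ∀ j, (q : ℂ) ^ j • (N ^ j) *ᵥ v = (μ + 1) ^ j • v := fun j => by
      induction' j with j ih
      · simp
      · rw [pow_succ N, ← mulVec_mulVec, pow_succ (q : ℂ), mul_smul, ← mulVec_smul, h4, mulVec_smul,
          smul_comm, ih, smul_smul, pow_succ']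
    have h6 := h5 d
    rw [h, one_mulVec] at h6
    have h7 := congrArg (‖·‖) (smul_left_injective ℂ hv h6)
    simp only [norm_pow, Complex.norm_natCast] at h7
    have h8 := (pow_left_inj₀ (by positivity) (by positivity) hd.ne').1 h7
    have h9 := norm_add_le μ 1
    rw [← NNReal.coe_le_coe, coe_nnnorm]
    rcases q with _ | q
    · simp
    · simp only [norm_one] at h9
      push_cast at h8
      simp only [Nat.add_sub_cancel, NNReal.coe_natCast]
      linarith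
  have h3 := Multiset.pow_card_le_prod h2
  rw [Multiset.card_map, IsAlgClosed.card_roots_eq_natDegree, charpoly_natDegree_eq_dim,
    show (‖·‖₊) = (nnnormHom : ℂ →*₀ NNReal) from rfl, ← map_multiset_prod, ← h1] at h3
  have h4 : nnnormHom ((Int.castRingHom ℂ) ((q : ℤ) • M - 1).det) =
      (((q : ℤ) • M - 1).det.natAbs : NNReal) := by
    ext; simp only [nnnormHom_apply, eq_intCast, coe_nnnorm, Complex.norm_intCast, NNReal.coe_natCast,
      Nat.cast_natAbs, Int.cast_abs]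
  exact_mod_cast h3.trans_eq h4

theorem exists_sub (f : (B → ℤ) →ₗ[ℤ] (J → ℤ)) {A : Matrix B B ℤ}
    (hA : ∀ v ∈ f.ker, A *ᵥ v ∈ f.ker) : ∃ (Λ : Matrix B (Fin (finrank ℤ f.ker)) ℤ)
      (Γ : Matrix (Fin (finrank ℤ f.ker)) B ℤ)
      (M : Matrix (Fin (finrank ℤ f.ker)) (Fin (finrank ℤ f.ker)) ℤ),
      Γ * Λ = 1 ∧ A * Λ = Λ * M ∧ ∀ j, Λᵀ j ∈ f.ker := by
  obtain ⟨s, hs⟩ := f.rangeRestrict.exists_rightInverse_of_surjective f.range_rangeRestrict
  let b := Module.finBasis ℤ f.ker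
  let r : (B → ℤ) →ₗ[ℤ] f.ker := (LinearMap.id - s ∘ₗ f.rangeRestrict).codRestrict _ fun v => by
    have := congrArg Subtype.val (DFunLike.congr_fun hs (f.rangeRestrict v))
    simpa [sub_eq_zero] using this.symm
  let e := Pi.basisFun ℤ B
  refine ⟨LinearMap.toMatrix b e f.ker.subtype, LinearMap.toMatrix e b r,
    LinearMap.toMatrix b b ((toLin' A).restrict hA), ?_, ?_, fun j => ?_⟩
  · rw [← LinearMap.toMatrix_comp, ← LinearMap.toMatrix_id b]
    congr 1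
    ext v : 2
    have : f.rangeRestrict v.1 = 0 := Subtype.ext v.2
    simp [r, this]
  · rw [← LinearMap.toMatrix_comp]
    conv_lhs => rw [← LinearMap.toMatrix_toLin e e A, ← LinearMap.toMatrix_comp]
    congr 1
  · convert (b j).2
    ext i
    simp [e, LinearMap.toMatrix_apply]

end lat

variable {B ι : Type} [Fintype B] [DecidableEq B] [Fintype ι] [DecidableEq ι] {C : ChevBasis B ι}
  {π : Equiv.Perm B}

variable (C π) in
/-- The node permutation comes from an automorphism of the root system. -/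
def Gr : Prop := ∃ τ ∈ C.Aut, ∀ i, τ (C.simple i) = C.simple (π i)

theorem gr_one : Gr C 1 := ⟨1, one_mem _, fun _ => rfl⟩

theorem gr_E6 : Gr cE6 pE6 := ⟨cE6.wp l0E6 * cE6.negPerm,
  mul_mem (cE6.W_le_Aut (cE6.wp_mem_W _)) cE6.negPerm_mem_Aut, fun i =>
    (Equiv.Perm.mul_apply _ _ _).trans ((congrArg _ (cE6.negPerm_apply _)).trans (wp_l0E6 i))⟩

open scoped _root_.Classical in
variable (C) in
/-- The cocharacters of the centre of the centralizer. -/
noncomputable def fc {K : Type*} [Field K] (c : B → Kˣ) : (B → ℤ) →ₗ[ℤ] (ι → ℤ) :=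
  LinearMap.pi fun r => if rv C c r = 1 then
    { toFun y := pr C y (C.vec r), map_add' _ _ := pr_add .., map_smul' _ _ := pr_smul .. } else 0

theorem mem_fc {K : Type*} [Field K] {c : B → Kˣ} {y : B → ℤ} :
    y ∈ (fc C c).ker ↔ ∀ r, rv C c r = 1 → pr C y (C.vec r) = 0 := by
  simp only [LinearMap.mem_ker, funext_iff, fc, LinearMap.pi_apply]
  exact forall_congr' fun r => by split_ifs with h <;> simp [h]

variable {p q z : ℕ} [Fact p.Prime] {X : Type*} [Group X] (L : LS C π p q z X)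

theorem rv_pow (c : B → L.Kˣ) (r : ι) : rv C (c ^ q) r = 1 ↔ rv C c r = 1 := by
  have : rv C (c ^ q) r = rv C c r ^ q := by
    simp only [rv_eq, Pi.pow_apply, ← zpow_natCast, zpow_comm _ (q : ℤ), Finset.prod_zpow]
  refine ⟨fun hr => Units.ext (L.φ.injective ?_), fun h => by simp [this, h]⟩
  rw [L.φ_eq, ← Units.val_pow_eq_pow_val, ← this, hr]; simp

/-- The Frobenius map on the centre of the centralizer. -/
theorem exists_v {τ : Equiv.Perm ι} (hτ : τ ∈ C.Aut) (h0 : ∀ i, τ (C.simple i) = C.simple (π i))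
    {g : L.G} {c : B → L.Kˣ} (hc : IsOfFinOrder c)
    (hx : L.T.σ (g * L.h.r3.tor c * g⁻¹) = g * L.h.r3.tor c * g⁻¹) : ∃ w ∈ C.W,
    mp (Mw C (w * τ)) (c ^ q) = c ∧ ∀ e, (∀ r, rv C c r = 1 → rv C e r = 1) →
      L.T.σ (g * L.h.r3.tor e * g⁻¹) = g * L.h.r3.tor (mp (Mw C (w * τ)) (e ^ q)) * g⁻¹ := by
  have h1 : ∀ e, L.T.σ (L.h.r3.tor e) = L.h.r3.tor (mp (Mw C τ) (e ^ q)) := fun e => by
    rw [L.σ_tor, ← zpow_natCast, map_zpow, ← mp_smul, show Pm π q = (q : ℤ) • Mw C τ by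
      ext i j; simp [Pm, Mw, h0, C.cov_simple, Pi.single_apply]]
  have h3 : g⁻¹ * L.T.σ g * L.h.r3.tor (mp (Mw C τ) (c ^ q)) * (g⁻¹ * L.T.σ g)⁻¹ =
      L.h.r3.tor c := by
    rw [map_mul, map_mul, h1, map_inv] at hx
    rw [_root_.mul_inv_rev, ← mul_assoc, mul_assoc _ (L.T.σ g), mul_assoc _ (_ * _), hx]; group
  obtain ⟨w, hw, h4⟩ := L.h.exists_W_of_conj h3
  have h5 := conj_tor L.h.r3 (nW_wd hw).acts
  refine ⟨w, hw, by rw [Mw_mul (C.W_le_Aut hw) hτ, ← mp_mp, h4], fun e he => ?_⟩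
  have h7 : Commute ((L.ρ.nw (wd C w))⁻¹ * (g⁻¹ * L.T.σ g)) (L.h.r3.tor (mp (Mw C τ) (e ^ q))) :=
    cent_le L.h ((mp (Mw C τ)).isOfFinOrder (hc.pow (n := q))) (fun r => by
      obtain ⟨r, rfl⟩ := τ.surjective r
      simpa only [rv_Mw hτ, rv_pow] using he r) (mul_inv_eq_iff_eq_mul.1 (by
      rw [_root_.mul_inv_rev, inv_inv, mul_assoc _ (_ * _), mul_assoc, ← mul_assoc (_ * _),
        h3.trans ((h5 _).trans (congrArg _ h4)).symm]
      group))
  rw [map_mul, map_mul, h1, map_inv, Mw_mul (C.W_le_Aut hw) hτ, ← mp_mp, ← h5,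
    ← mul_inv_cancel_left g (L.T.σ g), ← mul_inv_cancel_left (L.ρ.nw (wd C w)) (g⁻¹ * _),
    mul_assoc g, mul_assoc (L.ρ.nw _), h7.eq]
  group

/-- **G1.** -/
theorem g1 (hπ : Gr C π) {g : L.G} {c : B → L.Kˣ} (hc : IsOfFinOrder c)
    (hx : L.T.σ (g * L.h.r3.tor c * g⁻¹) = g * L.h.r3.tor c * g⁻¹) :
    ∃ (S : Subgroup (Fin (finrank ℤ (fc C c).ker) → L.Kˣ)) (ψ : S →* BN.Fx L.T.σ), Injective ψ ∧
      (q - 1) ^ finrank ℤ (fc C c).ker ≤ Nat.card S ∧ (∀ s, ∃ e, (∀ r, rv C c r = 1 → rv C e r = 1) ∧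
        (ψ s : L.G) = g * L.h.r3.tor e * g⁻¹) ∧
        ∃ (M : Matrix (Fin _) (Fin _) ℤ) (d : ℕ), 0 < d ∧ M ^ d = 1 ∧
        S = (mp ((q : ℤ) • M - 1)).ker ∧ Nat.card S = ((q : ℤ) • M - 1).det.natAbs := by
  obtain ⟨τ, hτ, h0⟩ := hπ
  obtain ⟨w, hw, h1, h2⟩ := exists_v L hτ h0 hc hx
  have hv := mul_mem (C.W_le_Aut hw) hτ
  generalize w * τ = v at h1 h2 hv
  obtain ⟨Λ, Γ, M, h3, h4, h5⟩ := exists_sub (fc C c) (A := Mw C v) fun y hy => mem_fc.2 fun r hr => by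
    obtain ⟨r, rfl⟩ := v.surjective r
    rw [← h1, rv_Mw hv, rv_pow] at hr
    rw [pr_Mw hv, mem_fc.1 hy r hr]
  generalize finrank ℤ (fc C c).ker = k at Λ Γ M h3 h4 h5 ⊢
  have h6 : ∀ n, Mw C v ^ n * Λ = Λ * M ^ n := fun n => by
    induction' n with n ih
    · simp
    · rw [pow_succ, Matrix.mul_assoc, h4, ← Matrix.mul_assoc, ih, Matrix.mul_assoc, pow_succ]
  have h7 : M ^ orderOf v = 1 := by
    rw [← Matrix.one_mul (M ^ _), ← h3, Matrix.mul_assoc, ← h6, ← Mw_pow hv, pow_orderOf_eq_one,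
      Mw_one, Matrix.one_mul]
  have h8 : ∀ t : _ → L.Kˣ, ∀ r, rv C c r = 1 → rv C (mp Λ t) r = 1 := fun t r hr => by
    rw [rv_eq]
    refine (prod_prod_zpow t (fun j k => Λ j k) _).trans (Finset.prod_eq_one fun j _ => ?_)
    have := mem_fc.1 (h5 j) r hr
    rw [pr_vec] at this
    simp only [transpose_apply] at this
    simp [this]
  have h9 := card_ker_mp (K := L.K) (E := (q : ℤ) • M - 1) (by
    have := (Int.castRingHom L.K).map_det ((q : ℤ) • M - 1)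
    rw [show RingHom.mapMatrix _ _ = -1 by
      ext i j
      change (((q : ℤ) * M i j - (1 : Matrix _ _ ℤ) i j : ℤ) : L.K) = _
      by_cases h : i = j <;> simp [L.cast_q, h, one_apply]] at this
    exact this.trans_ne (by simp [det_neg]))
  let ψ : (Fin k → L.Kˣ) →* L.G := ((MulAut.conj g).toMonoidHom.comp L.h.r3.tor).comp (mp Λ)
  have h10 : ∀ t, ψ t = g * L.h.r3.tor (mp Λ t) * g⁻¹ := fun _ => rfl
  have h11 : ∀ t : (mp ((q : ℤ) • M - 1)).ker, ψ.comp (Subgroup.subtype _) t ∈ BN.Fx L.T.σ :=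
    fun ⟨t, ht⟩ => by
    have : mp ((q : ℤ) • M - 1) t = 1 := ht
    rw [sub_eq_add_neg, mp_add, ← neg_one_smul ℤ (1 : Matrix _ _ ℤ), mp_smul, mp_smul, mp_one,
      _root_.zpow_neg_one, mul_inv_eq_one, zpow_natCast] at this
    change L.T.σ (ψ t) = ψ t
    rw [h10, h2 _ (h8 t), map_pow, mp_mp, h4, ← mp_mp, ← map_pow, this]
  refine ⟨_, MonoidHom.codRestrict _ _ h11, fun a b e => ?_, ?_, fun t => ⟨_, h8 t, h10 t⟩, M, _,
    orderOf_pos v, h7, rfl, h9⟩
  · have : ψ a = ψ b := congrArg Subtype.val e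
    rw [h10, h10, mul_left_inj, mul_right_inj] at this
    have := congrArg (mp Γ) (L.h.inj this)
    exact Subtype.ext (by simpa [mp_mp, h3, mp_one] using this)
  · rw [h9]; simpa only [Fintype.card_fin] using le_det (orderOf_pos v) h7 q

theorem le_rk {K : Type*} [Field K] {c : B → Kˣ} {n : ℕ} {y : Fin n → B → ℤ}
    (h : LinearIndependent ℤ y) (h1 : ∀ j r, rv C c r = 1 → pr C (y j) (C.vec r) = 0) :
    n ≤ finrank ℤ (fc C c).ker := by
  simpa using (LinearIndependent.of_comp (fc C c).ker.subtype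
    (v := fun j => (⟨y j, mem_fc.2 (h1 j)⟩ : (fc C c).ker)) h).fintype_card_le_finrank

/-- **G1**, counting form. -/
theorem g1' (hπ : Gr C π) {g : L.G} {c : B → L.Kˣ} (hc : IsOfFinOrder c)
    (hx : L.T.σ (g * L.h.r3.tor c * g⁻¹) = g * L.h.r3.tor c * g⁻¹) {n : ℕ}
    (hn : n ≤ finrank ℤ (fc C c).ker) : ∃ S : Subgroup (BN.Fx L.T.σ), (q - 1) ^ n ≤ Nat.card S ∧
      (0 < n → ∀ m, 0 < m → (∀ s ∈ S, s ^ m = 1) → q ≤ m + 1) ∧
      ∀ s ∈ S, (∃ e, (∀ r, rv C c r = 1 → rv C e r = 1) ∧ (s : L.G) = g * L.h.r3.tor e * g⁻¹) ∧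
        ∀ y : L.G, Commute y (g * L.h.r3.tor c * g⁻¹) → Commute y s := by
  obtain ⟨S, ψ, h1, h2, h3, -⟩ := g1 L hπ hc hx
  have hq : 0 < q - 1 := by
    obtain ⟨M, hM, e⟩ := L.pow
    exact Nat.sub_pos_of_lt (e ▸ Nat.one_lt_pow hM.ne' (Fact.out : p.Prime).one_lt)
  refine ⟨ψ.range, ((Nat.pow_le_pow_right hq hn).trans h2).trans_eq
    (Nat.card_congr (MonoidHom.ofInjective h1).toEquiv), fun h0 m hm h => ?_, ?_⟩
  · have : NeZero m := ⟨hm.ne'⟩
    have h4 := Nat.card_le_card_of_injective (β := Fin _ → rootsOfUnity m L.K)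
      (fun s : S => fun i => ⟨s.1 i, congrFun (congrArg Subtype.val (h1 (a₁ := s ^ m) (a₂ := 1)
        (by rw [map_pow, h _ ⟨s, rfl⟩, map_one]))) i⟩)
      fun a b e => Subtype.ext (funext fun i => congrArg Subtype.val (congrFun e i))
    rw [Nat.card_fun, Nat.card_eq_fintype_card (α := Fin _), Fintype.card_fin] at h4
    have := (Nat.pow_le_pow_iff_left (h0.trans_le hn).ne').1 (h2.trans (h4.trans
      (Nat.pow_le_pow_left (card_rootsOfUnity L.K m) _)))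
    omega
  · rintro _ ⟨s, rfl⟩
    obtain ⟨e, he, h4⟩ := h3 s
    refine ⟨⟨e, he, h4⟩, fun y hy => ?_⟩
    have := (cent_le L.h hc he (g := g⁻¹ * y * g) (by
      simpa [mul_assoc] using hy.map (MulAut.conj g⁻¹))).map (MulAut.conj g)
    rw [h4]
    simpa [mul_assoc] using this

end CF.Am.G1
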