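import Cfsg.Agent.Am.G1

/-! Semilinear maps have fixed vectors; the central torus of the centralizer of a toral family. -/

set_option autoImplicit false

namespace CF.Am.G2

open CF.Chev CF.BN CF.ExA Cfsg.Lie Function Module Matrix Polynomial Finset

theorem exists_fix {K V : Type*} [Field K] [IsAlgClosed K] [AddCommGroup V] [Module K V]
    [FiniteDimensional K V] {p M : ℕ} [Fact p.Prime] [CharP K p] (hM : 0 < M) (φ : V →+ V)
    (hφ : ∀ (a : K) v, φ (a • v) = a ^ p ^ M • φ v) (inj : Injective φ) {U : Submodule K V}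
    (hU : ∀ v ∈ U, φ v ∈ U) (h : U ≠ ⊥) : ∃ v ∈ U, v ≠ 0 ∧ φ v = v := by
  classical
  obtain ⟨v, hv, v0⟩ := (Submodule.ne_bot_iff _).1 h
  have q1 : 1 < p ^ M := Nat.one_lt_pow hM.ne' (Fact.out : p.Prime).one_lt
  have h1 : ∃ n, ∃ a : ℕ → K, a n ≠ 0 ∧ ∑ i ∈ range (n + 1), a i • φ^[i] v = 0 := by
    obtain ⟨s, a, h1, i, h2⟩ := not_linearIndependent_iff.1
      (Module.Finite.not_linearIndependent_of_infinite (R := K) fun i : ℕ => φ^[i] v)
    obtain ⟨n, h3, h4⟩ := exists_max_image (s.filter fun i => a i ≠ 0) id ⟨i, mem_filter.2 h2⟩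
    refine ⟨n, fun i => if i ∈ s then a i else 0, by simpa using h3, ?_⟩
    simp only [ite_smul, zero_smul, sum_ite_mem]
    rw [← h1]
    exact sum_subset inter_subset_right fun j hj k => by
      rw [by_contra fun e : ¬ a j = 0 => k (mem_inter.2 ⟨mem_range.2 (Nat.lt_succ_of_le
        (h4 j (mem_filter.2 ⟨hj, e⟩))), hj⟩), zero_smul]
  obtain ⟨a, h2, h3⟩ := Nat.find_spec h1
  have h4 := fun m => Nat.find_min h1 (m := m)
  generalize Nat.find h1 = n at h2 h3 h4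
  obtain _ | n := n
  · simp [h2, v0] at h3
  have h5 : a 0 ≠ 0 := fun k => by
    choose b hb using fun i => IsAlgClosed.exists_pow_nat_eq (a (i + 1)) (zero_lt_one.trans q1)
    refine h4 n n.lt_succ_self ⟨b, fun e => h2 (by rw [← hb, e, zero_pow (by omega)]), inj ?_⟩
    rw [sum_range_succ', k, zero_smul, add_zero] at h3
    simpa only [map_sum, hφ, hb, map_zero, iterate_succ_apply'] using h3
  let P : ℕ → K[X] := fun i => i.rec (C (-a 0) * X) fun i Q => Q ^ p ^ M - C (a (i + 1)) * X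
  have p0 : ∀ i, (P i).coeff 0 = 0 := fun i => by
    induction' i with i ih
    · simp [P]
    · simp only [coeff_zero_eq_eval_zero] at ih ⊢
      change (P i ^ _ - _).eval 0 = 0
      simp [ih, hM.ne', (Fact.out : p.Prime).ne_zero]
  have p1 : ∀ i, (P i).natDegree = (p ^ M) ^ i := fun i => by
    induction' i with i ih
    · simpa [P] using natDegree_C_mul_X _ h5
    · have : (P i ^ p ^ M).natDegree = (p ^ M) ^ (i + 1) := by rw [natDegree_pow, ih, pow_succ']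
      exact (natDegree_sub_eq_left_of_natDegree_lt (((natDegree_C_mul_le _ _).trans
        natDegree_X_le).trans_lt (this ▸ Nat.one_lt_pow (by omega) q1))).trans this
  obtain ⟨s, hs⟩ := IsAlgClosed.exists_root (P (n + 1)).divX (fun k => by
    have := natDegree_eq_zero_iff_degree_le_zero.2 k.le
    rw [natDegree_divX_eq_natDegree_tsub_one, p1 (n + 1)] at this
    have := Nat.one_lt_pow (n := n + 1) (by omega) q1
    omega)
  have s0 : s ≠ 0 := by
    rintro rfl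
    rw [IsRoot.def, ← coeff_zero_eq_eval_zero, coeff_divX] at hs
    obtain ⟨Q, hQ⟩ := X_dvd_iff.2 (p0 n)
    change coeff (P n ^ _ - _) 1 = 0 at hs
    rw [hQ, mul_pow, coeff_sub, coeff_X_pow_mul', if_neg (by omega)] at hs
    exact h2 (by simpa using hs)
  have h6 : (P (n + 1)).eval s = 0 := by
    rw [← divX_mul_X_add (P (n + 1)), p0 (n + 1)]; simp [hs.eq_zero]
  have h7 : ∀ m, φ (∑ i ∈ range (m + 1), (P i).eval s • φ^[i] v) =
      ∑ i ∈ range (m + 1), (P i).eval s • φ^[i] v + s • ∑ i ∈ range (m + 2), a i • φ^[i] v +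
        (P (m + 1)).eval s • φ^[m + 1] v := fun m => by
    have e : ∀ i, (P (i + 1)).eval s = (P i).eval s ^ p ^ M - a (i + 1) * s := fun i => by
      change (P i ^ _ - _).eval s = _; simp
    induction' m with m ih
    · simp only [sum_range_succ, sum_range_zero, zero_add, hφ, e, iterate_succ_apply', iterate_zero, id]
      simp only [P, Nat.rec_zero, eval_mul, eval_C, eval_X]
      module
    · rw [sum_range_succ, map_add, ih, hφ, sum_range_succ _ (m + 2), e (m + 1),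
        iterate_succ_apply' φ (m + 1)]
      module
  refine ⟨_, sum_mem fun i _ => U.smul_mem _ (Set.MapsTo.iterate (s := (U : Set V)) (f := φ) hU i hv), fun k => ?_,
    by rw [h7 n, h3, h6]; simp⟩
  have h8 : ∀ m ≤ n, ∀ b : ℕ → K, ∑ i ∈ range (m + 1), b i • φ^[i] v = 0 → b 0 = 0 := fun m => by
    induction' m with m ih
    · exact fun _ b e => by simpa [v0] using e
    · intro hm b e
      by_cases k : b (m + 1) = 0
      · exact ih (by omega) b (by rwa [sum_range_succ, k, zero_smul, add_zero] at e)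
      · exact (h4 _ (by omega) ⟨b, k, e⟩).elim
  simpa [P, h5, s0] using h8 n le_rfl _ k

open G1

variable {B ι : Type} [Fintype B] [DecidableEq B] [Fintype ι] [DecidableEq ι] {C : ChevBasis B ι}
  {π : Equiv.Perm B}

open scoped _root_.Classical in
variable (C) in
/-- The cocharacters that vanish on a set of roots. -/
noncomputable def fR (R : Set ι) : (B → ℤ) →ₗ[ℤ] (ι → ℤ) :=
  LinearMap.pi fun r => if r ∈ R then
    { toFun y := pr C y (C.vec r), map_add' _ _ := pr_add .., map_smul' _ _ := pr_smul .. } else 0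

theorem mem_fR {R : Set ι} {y : B → ℤ} : y ∈ (fR C R).ker ↔ ∀ r ∈ R, pr C y (C.vec r) = 0 := by
  simp only [LinearMap.mem_ker, funext_iff, fR, LinearMap.pi_apply]
  exact forall_congr' fun r => by split_ifs with h <;> simp [h]

theorem le_rk {R : Set ι} {n : ℕ} {y : Fin n → B → ℤ} (h : LinearIndependent ℤ y)
    (h1 : ∀ j, ∀ r ∈ R, pr C (y j) (C.vec r) = 0) : n ≤ finrank ℤ (fR C R).ker := by
  simpa using (LinearIndependent.of_comp (fR C R).ker.subtype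
    (v := fun j => (⟨y j, mem_fR.2 (h1 j)⟩ : (fR C R).ker)) h).fintype_card_le_finrank

variable {p q z : ℕ} [Fact p.Prime] {X : Type*} [Group X] (L : LS C π p q z X)
  {τ : Equiv.Perm ι} (hτ : τ ∈ C.Aut) (h0 : ∀ i, τ (C.simple i) = C.simple (π i)) {g : L.G}
  {T : Set (B → L.Kˣ)}
  (hx : ∀ c ∈ T, L.T.σ (g * L.h.r3.tor c * g⁻¹) = g * L.h.r3.tor c * g⁻¹)
include h0

theorem σ_tor (e : B → L.Kˣ) : L.T.σ (L.h.r3.tor e) = L.h.r3.tor (mp (Mw C τ) (e ^ q)) := by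
  rw [L.σ_tor, ← zpow_natCast, map_zpow, ← mp_smul, show Pm π q = (q : ℤ) • Mw C τ by
    ext i j; simp [Pm, Mw, h0, C.cov_simple, Pi.single_apply]]

include hτ hx

theorem exists_v : ∃ w ∈ C.W, (∀ c ∈ T, mp (Mw C (w * τ)) (c ^ q) = c) ∧
    ∀ e, (∀ r, (∀ c ∈ T, rv C c r = 1) → rv C e r = 1) →
      L.T.σ (g * L.h.r3.tor e * g⁻¹) = g * L.h.r3.tor (mp (Mw C (w * τ)) (e ^ q)) * g⁻¹ := by
  have h1 := σ_tor L h0
  obtain ⟨w, u, hu, n, hn, u', hu', e⟩ := exists_unu L.h.top (g⁻¹ * L.T.σ g)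
  have h3 := fun c hc => conj_H_decomp L.h.faith hu hn hu' (tor_mem_H L.h.r3 (mp (Mw C τ) (c ^ q)))
    (tor_mem_H L.h.r3 c) (by
      have := hx c hc
      rw [map_mul, map_mul, h1, map_inv] at this
      rw [← e, _root_.mul_inv_rev, ← mul_assoc, mul_assoc _ (L.T.σ g), mul_assoc _ (_ * _), this]
      group)
  have hv := mul_mem hn.mem_Aut hτ
  have h4 : ∀ e, n * L.h.r3.tor (mp (Mw C τ) (e ^ q)) * n⁻¹ =
      L.h.r3.tor (mp (Mw C (w * τ)) (e ^ q)) := fun e => by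
    rw [conj_tor L.h.r3 hn.acts, mp_mp, Mw_mul hn.mem_Aut hτ]
  have h5 : ∀ c ∈ T, mp (Mw C (w * τ)) (c ^ q) = c := fun c hc =>
    L.h.inj ((h4 c).symm.trans (h3 c hc).2.1)
  refine ⟨w, hn.mem_W, h5, fun d hd => ?_⟩
  have h6 := commute_tor_U L.h.r3 (c := mp (Mw C (w * τ)) (d ^ q)) (L.ρ.U_mono (fun r hr => by
    obtain ⟨r, rfl⟩ := (w * τ).surjective r
    refine (rv_Mw hv _ _).trans ((G1.rv_pow L _ _).2 (hd r fun c hc => ?_))
    rw [← G1.rv_pow, ← rv_Mw hv, h5 c hc, hr.2 c hc])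
    (mem_U_of_conj L.h.faith L.h.r3 C.closed_pos (fun _ h => h) hu fun c hc => (h3 c hc).1))
  have h7 := commute_tor_U L.h.r3 (c := mp (Mw C τ) (d ^ q)) (L.ρ.U_mono (fun r hr => by
    obtain ⟨r, rfl⟩ := τ.surjective r
    refine (rv_Mw hτ _ _).trans ((G1.rv_pow L _ _).2 (hd r fun c hc => ?_))
    simpa only [rv_Mw hτ, G1.rv_pow] using hr.2 _ ⟨c, hc, rfl⟩)
    (mem_U_of_conj L.h.faith L.h.r3 C.closed_pos (fun _ h => h) (L.ρ.Uw_le_Up _ hu')
      (T := (fun c => mp (Mw C τ) (c ^ q)) '' T) (by rintro _ ⟨c, hc, rfl⟩; exact (h3 c hc).2.2)))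
  rw [map_mul, map_mul, h1, map_inv, ← mul_inv_cancel_left g (L.T.σ g), e, ← mul_right_inj g⁻¹,
    ← mul_left_inj g]
  rw [← h4] at h6 ⊢
  calc _ = u * n * (u' * L.h.r3.tor (mp (Mw C τ) (d ^ q))) * u'⁻¹ * n⁻¹ * u⁻¹ := by group
    _ = u * (n * L.h.r3.tor (mp (Mw C τ) (d ^ q)) * n⁻¹) * u⁻¹ := by rw [h7.eq]; group
    _ = _ := by rw [h6.eq]; group

/-- **G1** for a toral family. -/
theorem g2 : ∃ w ∈ C.W, ∃ (k : ℕ) (Λ : Matrix B (Fin k) ℤ) (M : Matrix (Fin k) (Fin k) ℤ)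
    (ψ : (mp (A := L.Kˣ) ((q : ℤ) • M - 1)).ker →* BN.Fx L.T.σ),
    k = finrank ℤ (fR C {r | ∀ c ∈ T, rv C c r = 1}).ker ∧ (∀ c ∈ T, mp (Mw C (w * τ)) (c ^ q) = c) ∧
    Mw C (w * τ) * Λ = Λ * M ∧ (∃ Γ : Matrix (Fin k) B ℤ, Γ * Λ = 1) ∧
    (∀ j r, (∀ c ∈ T, rv C c r = 1) → pr C (Λᵀ j) (C.vec r) = 0) ∧ Injective ψ ∧
    (∀ s, (ψ s : L.G) = g * L.h.r3.tor (mp Λ s.1) * g⁻¹ ∧
      ∀ r, (∀ c ∈ T, rv C c r = 1) → rv C (mp Λ s.1) r = 1) ∧
    Nat.card (mp (A := L.Kˣ) ((q : ℤ) • M - 1)).ker = ((q : ℤ) • M - 1).det.natAbs ∧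
    (q - 1) ^ k ≤ ((q : ℤ) • M - 1).det.natAbs := by
  obtain ⟨w, hw, h1, h2⟩ := exists_v L hτ h0 hx
  refine ⟨w, hw, ?_⟩
  have hv := mul_mem (C.W_le_Aut hw) hτ
  generalize w * τ = v at h1 h2 hv
  obtain ⟨Λ, Γ, M, h3, h4, h5⟩ := exists_sub (fR C {r | ∀ c ∈ T, rv C c r = 1}) (A := Mw C v)
    fun y hy => mem_fR.2 fun r hr => by
      obtain ⟨r, rfl⟩ := v.surjective r
      rw [pr_Mw hv, mem_fR.1 hy r fun c hc => ?_]
      rw [← G1.rv_pow, ← rv_Mw hv, h1 c hc, hr c hc]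
  refine ⟨_, Λ, M, ?_⟩
  simp only [mem_fR] at h5
  generalize finrank ℤ (fR C {r | ∀ c ∈ T, rv C c r = 1}).ker = k at Λ Γ M h3 h4 h5 ⊢
  have h6 : ∀ n, Mw C v ^ n * Λ = Λ * M ^ n := fun n => by
    induction' n with n ih
    · simp
    · rw [pow_succ, Matrix.mul_assoc, h4, ← Matrix.mul_assoc, ih, Matrix.mul_assoc, pow_succ]
  have h7 : M ^ orderOf v = 1 := by
    rw [← Matrix.one_mul (M ^ _), ← h3, Matrix.mul_assoc, ← h6, ← Mw_pow hv, pow_orderOf_eq_one,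
      Mw_one, Matrix.one_mul]
  have h8 : ∀ t : _ → L.Kˣ, ∀ r, (∀ c ∈ T, rv C c r = 1) → rv C (mp Λ t) r = 1 := fun t r hr => by
    rw [rv_eq]
    refine (prod_prod_zpow t (fun j k => Λ j k) _).trans (Finset.prod_eq_one fun j _ => ?_)
    have := h5 j r hr
    rw [pr_vec] at this
    simp only [transpose_apply] at this
    simp [this]
  have h9 := card_ker_mp (K := L.K) (E := (q : ℤ) • M - 1) (by
    have := (Int.castRingHom L.K).map_det ((q : ℤ) • M - 1)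
    rw [show RingHom.mapMatrix _ _ = -1 by
      ext i j
      change (((q : ℤ) * M i j - (1 : Matrix _ _ ℤ) i j : ℤ) : L.K) = _
      by_cases h : i = j <;> simp [L.cast_q, h, one_apply]] at this
    exact this.trans_ne (by simp [det_neg]))
  let ψ : (Fin k → L.Kˣ) →* L.G := ((MulAut.conj g).toMonoidHom.comp L.h.r3.tor).comp (mp Λ)
  have h10 : ∀ t, ψ t = g * L.h.r3.tor (mp Λ t) * g⁻¹ := fun _ => rfl
  have h11 : ∀ t : (mp ((q : ℤ) • M - 1)).ker, ψ.comp (Subgroup.subtype _) t ∈ BN.Fx L.T.σ :=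
    fun ⟨t, ht⟩ => by
    have : mp ((q : ℤ) • M - 1) t = 1 := ht
    rw [sub_eq_add_neg, mp_add, ← neg_one_smul ℤ (1 : Matrix _ _ ℤ), mp_smul, mp_smul, mp_one,
      _root_.zpow_neg_one, mul_inv_eq_one, zpow_natCast] at this
    change L.T.σ (ψ t) = ψ t
    rw [h10, h2 _ (h8 t), map_pow, mp_mp, h4, ← mp_mp, ← map_pow, this]
  refine ⟨MonoidHom.codRestrict _ _ h11, rfl, h1, h4, ⟨Γ, h3⟩, h5, fun a b e => ?_,
    fun t => ⟨h10 t, h8 t⟩, h9, ?_⟩
  · have : ψ a = ψ b := congrArg Subtype.val e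
    rw [h10, h10, mul_left_inj, mul_right_inj] at this
    have := congrArg (mp Γ) (L.h.inj this)
    exact Subtype.ext (by simpa [mp_mp, h3, mp_one] using this)
  · simpa only [Fintype.card_fin] using le_det (orderOf_pos v) h7 q

/-- **G1** for a toral family, counting form. -/
theorem g2' {n : ℕ} (hn : n ≤ finrank ℤ (fR C {r | ∀ c ∈ T, rv C c r = 1}).ker) :
    ∃ S : Subgroup (BN.Fx L.T.σ), (q - 1) ^ n ≤ Nat.card S ∧ ∀ s ∈ S, ∃ e,
      (∀ r, (∀ c ∈ T, rv C c r = 1) → rv C e r = 1) ∧ (s : L.G) = g * L.h.r3.tor e * g⁻¹ := by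
  obtain ⟨-, -, k, Λ, M, ψ, rfl, -, -, -, -, h1, h2, h3, h4⟩ := g2 L hτ h0 hx
  have hq : 0 < q - 1 := by
    obtain ⟨M, hM, e⟩ := L.pow
    exact Nat.sub_pos_of_lt (e ▸ Nat.one_lt_pow hM.ne' (Fact.out : p.Prime).one_lt)
  refine ⟨ψ.range, (((Nat.pow_le_pow_right hq hn).trans h4).trans_eq h3.symm).trans_eq
    (Nat.card_congr (MonoidHom.ofInjective h1).toEquiv), ?_⟩
  rintro _ ⟨s, rfl⟩
  exact ⟨_, (h2 s).2, (h2 s).1⟩

end CF.Am.G2
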