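import Cfsg.Agent.Am.B

/-! The hexacode inside a monomial module of the triple cover of `A₆`. -/

set_option autoImplicit false
set_option linter.unusedSectionVars false

namespace CF.Am

open Module Function CF.Al Submodule

namespace H4a

/-- `(0 5)(1 2)`. -/
def b6 : An 6 := ap ![5, 2, 1, 3, 4, 0] ![5, 2, 1, 3, 4, 0]

theorem g6 : ∀ H : Subgroup (An 6), f6 ∈ H → b6 ∈ H → H = ⊤ :=
  G.gen ![[], [], [2, 2, 1, 0, 1, 2, 1, 2], [0, 1, 2, 2, 1, 0, 1, 0], [0, 0, 1, 0, 1, 2, 1],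
    [0, 1, 0, 1, 2, 1, 0, 0, 1]] (by decide +kernel)

variable {X Y K V : Type*} [Group X] [Group Y] [Finite Y] {θ : Y →* X} {j : An 6 →* X} [Field K] [AddCommGroup V]
  [Module K V] {r : Y →* End K V} {F B : Y}

theorem all (hF : θ F = j f6) (hB : θ B = j b6) {P : Submonoid Y} (mF : F ∈ P) (mB : B ∈ P) (g : An 6) :
    ∃ y ∈ P, θ y = j g :=
  let Q : Subgroup Y := { P with
    inv_mem' := fun {y} h => by
      have := pow_mem (show y ∈ P from h) (orderOf y - 1)
      rwa [eq_inv_of_mul_eq_one_left (a := y ^ _)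
        (by rw [← pow_succ, Nat.sub_add_cancel (orderOf_pos y), pow_orderOf_eq_one])] at this }
  (g6 ((Q.map θ).comap j) ⟨F, mF, hF⟩ ⟨B, mB, hB⟩).ge (Subgroup.mem_top g)

theorem inv (hF : θ F = j f6) (hB : θ B = j b6) (sc : ∀ g, θ g = 1 → ∃ a : K, ∀ v, r g v = a • v) {u : Fin 3 → V}
    (mF : ∀ i, r F (u i) ∈ span K (Set.range u)) (mB : ∀ i, r B (u i) ∈ span K (Set.range u)) :
    ∀ y, θ y ∈ j.range → ∀ w ∈ span K (Set.range u), r y w ∈ span K (Set.range u) := by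
  rintro y ⟨g, e⟩ w hw
  have k : ∀ {x}, (∀ i, r x (u i) ∈ span K (Set.range u)) → ∀ w ∈ span K (Set.range u), r x w ∈ span K (Set.range u) :=
    fun {x} h => (span_le (p := (span K (Set.range u)).comap (r x))).2 (by rintro _ ⟨i, rfl⟩; exact h i)
  obtain ⟨x, hx, f⟩ := all hF hB (P :=
    { carrier := {y | ∀ w ∈ span K (Set.range u), r y w ∈ span K (Set.range u)}
      one_mem' := fun w h => by rwa [map_one]
      mul_mem' := fun ha hb w h => by rw [map_mul]; exact ha _ (hb w h) }) (k mF) (k mB) g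
  obtain ⟨a, ha⟩ := sc (y * x⁻¹) (by rw [map_mul, map_inv, f, e, mul_inv_cancel])
  rw [← inv_mul_cancel_right y x, map_mul, End.mul_apply, ha]
  exact smul_mem _ _ (hx w hw)

/-- A permutation action splits the extension. -/
theorem split (hF : θ F = j f6) (hB : θ B = j b6) (hj : Injective j) (cen : θ.ker ≤ Subgroup.center Y)
    (sc : ∀ g, θ g = 1 → ∃ a : K, (g ≠ 1 → a ≠ 1) ∧ ∀ v, r g v = a • v) {w : Fin 6 → V} (h0 : w 5 ≠ 0)
    (mF : ∀ i, r F (w i) = w (f6.1 i)) (mB : ∀ i, r B (w i) = w (b6.1 i)) : ¬ Nc θ (j x6) (j y6) := by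
  rintro ⟨a, b, ha, hb, n⟩
  have k := all hF hB (P :=
    { carrier := {y | ∃ g, θ y = j g ∧ ∀ i, r y (w i) = w (g.1 i)}
      one_mem' := ⟨1, by simp, fun i => by simp⟩
      mul_mem' := fun ⟨g, e, f⟩ ⟨g', e', f'⟩ => ⟨g * g', by rw [map_mul, map_mul, e, e'], fun i => by
        rw [map_mul, End.mul_apply, f', f]; rfl⟩ }) ⟨_, hF, mF⟩ ⟨_, hB, mB⟩
  obtain ⟨x, ⟨_, e, fx⟩, hx⟩ := k x6
  obtain rfl := hj (hx.symm.trans e)
  obtain ⟨y, ⟨_, e', fy⟩, hy⟩ := k y6
  obtain rfl := hj (hy.symm.trans e')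
  obtain ⟨s, s1, hs⟩ := sc (x * y * (y * x)⁻¹) (by
    rw [map_mul, map_inv, map_mul, map_mul, hx, hy, ← map_mul, ← map_mul, show x6 * y6 = y6 * x6 by decide +kernel,
      mul_inv_cancel])
  have c : Commute x y := mul_inv_eq_one.1 (by_contra fun q => s1 q (by
    have := hs (r (y * x) (w 4))
    rw [← End.mul_apply, ← map_mul, inv_mul_cancel_right, map_mul, map_mul, End.mul_apply, End.mul_apply, fx, fy, fx,
      fy] at this
    exact (smul_left_injective K h0 ((one_smul K _).trans this)).symm))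
  have z : ∀ {a x}, θ a = θ x → ∀ g, Commute (a * x⁻¹) g := fun e g =>
    (Subgroup.mem_center_iff.1 (cen (by rw [MonoidHom.mem_ker, map_mul, map_inv, e, mul_inv_cancel])) g).symm
  rw [← inv_mul_cancel_right a x, ← inv_mul_cancel_right b y] at n
  exact n ((z (ha.trans hx.symm) _).mul_left ((z (hb.trans hy.symm) _).symm.mul_right c))

end H4a

open H4a in
theorem hex {X : Type*} [Group X] [Finite X] {Y : Type*} [Group Y] [Finite Y] {θ : Y →* X} {z : ℕ} (E : Ce z θ)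
    {K V : Type*} [Field K] [AddCommGroup V] [Module K V] [FiniteDimensional K V]
    (z3 : z = 3) {j : An 6 →* X} (hj : Injective j) (nc : Nc θ (j x6) (j y6)) (h2 : (2 : K) = 0)
    {r : Y →* End K V} (sc : ∀ g, θ g = 1 → ∃ a : K, a ^ 3 = 1 ∧ (g ≠ 1 → a ≠ 1) ∧ ∀ v, r g v = a • v)
    {j5 : An 5 →* Y} (h5 : ∀ g, θ (j5 g) = j (up g)) {v : V} (hv : v ∈ Fx (r.comp j5)) (h0 : v ≠ 0)
    (La : AddSubgroup V) (i : ∀ y, ∀ u ∈ La, r y u ∈ La) (m : v ∈ La) :
    ∃ u : Fin 3 → V, (∀ i, u i ∈ La) ∧ Submodule.span K (Set.range u) ≠ ⊥ ∧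
      ∀ y, θ y ∈ j.range → ∀ w ∈ Submodule.span K (Set.range u),
        r y w ∈ Submodule.span K (Set.range u) := by
  have fx : ∀ a, r (j5 a) v = v := mem_Fx.1 hv
  obtain ⟨f, hf⟩ := exists_up (n := 5) (g := f6) rfl
  obtain ⟨F, hF, F5, eF5⟩ : ∃ F, θ F = j f6 ∧ F * (F * (F * (F * F))) = 1 ∧ r F v = v :=
    ⟨j5 f, hf ▸ h5 f, by
      simp only [← map_mul]
      rw [up_inj (a₁ := f * (f * (f * (f * f)))) (a₂ := 1) (by simp only [map_mul, map_one, hf]; decide +kernel),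
        map_one], fx f⟩
  obtain ⟨B, hB, B2⟩ : ∃ B, θ B = j b6 ∧ B * B = 1 := by
    obtain ⟨B, hB⟩ := E.surj (j b6)
    refine ⟨B ^ 3, by rw [map_pow, hB, ← map_pow, show b6 ^ 3 = b6 by decide +kernel], ?_⟩
    have := pow_card_eq_one' (x := (⟨B * B, by
      rw [MonoidHom.mem_ker, map_mul, hB, ← map_mul, show b6 * b6 = 1 by decide +kernel, map_one]⟩ : θ.ker))
    rw [E.card, z3] at this
    rw [← (Commute.refl B).mul_pow]
    exact congrArg Subtype.val this
  have mv : ∀ {y y' g g'}, θ y = j g → θ y' = j g' → (g'⁻¹ * g).1 5 = 5 → ∃ a : K, a ^ 3 = 1 ∧ r y v = a • r y' v :=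
    fun {y y' g g'} e e' h => by
    obtain ⟨a, ha⟩ := exists_up (n := 5) h
    obtain ⟨c, c3, -, hc⟩ := sc (y * (y' * j5 a)⁻¹) (by
      rw [map_mul, map_inv, map_mul, h5, ha, e, e', ← map_mul, mul_inv_cancel_left, mul_inv_cancel])
    refine ⟨c, c3, ?_⟩
    rw [← inv_mul_cancel_right y (y' * j5 a), map_mul, End.mul_apply, hc, map_mul, End.mul_apply, fx]
  have mu : ∀ {y y' g g'}, θ y = j g → θ y' = j g' → θ (y * y') = j (g * g') := fun e e' => by
    rw [map_mul, map_mul, e, e']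
  have bb : ∀ u, r B (r B u) = u := fun u => by rw [← End.mul_apply, ← map_mul, B2, map_one, End.one_apply]
  have one : ∀ {u} {d : K}, d ^ 3 = 1 → r B u = d • u → r B u = u := fun {u d} d3 e => by
    have := bb u
    rw [e, map_smul, e] at this
    rw [e, ← this, smul_smul, smul_smul, ← pow_two, ← pow_succ, d3, one_smul, this]
  have t1 := mu hF hB
  have t2 := mu hF t1
  have t3 := mu hF t2
  have t4 := mu hF t3
  obtain ⟨c, c3, eB1⟩ := mv (mu hB t1) t2 (by decide +kernel)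
  obtain ⟨d, d3, eB3⟩ := mv (mu hB t3) t3 (by decide +kernel)
  obtain ⟨d', d3', eB4⟩ := mv (mu hB t4) t4 (by decide +kernel)
  have eF4 : r F (r F (r F (r F (r F (r B v))))) = r B v := by
    simpa only [map_mul, End.mul_apply, map_one, End.one_apply] using congrArg (r · (r B v)) F5
  have eB0 := bb v
  simp only [map_mul, End.mul_apply] at eB1 eB3 eB4
  replace eB3 := one d3 eB3
  replace eB4 := one d3' eB4
  have m0 := i B v m
  have m1 := i F _ m0
  have m2 := i F _ m1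
  have m3 := i F _ m2
  have m4 := i F _ m3
  have n3 := i F _ (eB1 ▸ i B _ m1)
  rw [map_smul] at n3
  have n4 := i F _ n3
  rw [map_smul] at n4
  have n5 := i B _ (i F _ n4)
  rw [map_smul, eF4, map_smul, eB0] at n5
  have eB2 := congrArg (c ^ 2 • ·) (bb (r F (r B v)))
  simp only [eB1, map_smul, smul_smul, ← pow_succ, c3, one_smul] at eB2
  generalize eB5 : r B v = v0 at *
  generalize eF0 : r F v0 = v1 at *
  generalize eF1 : r F v1 = v2 at *
  generalize eF2 : r F v2 = v3 at *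
  generalize eF3 : r F v3 = v4 at *
  have hc : c ^ 2 + c + 1 = 0 := (mul_eq_zero.1 (show (c - 1) * (c ^ 2 + c + 1) = 0 by linear_combination c3)).resolve_left
    fun e => split hF hB hj E.cen (fun g h => (sc g h).imp fun _ a => a.2) (w := ![v0, v1, v2, v3, v4, v]) h0
      (fun i => by fin_cases i <;> assumption) (fun i => by
        rw [sub_eq_zero.1 e, one_smul] at eB1
        rw [sub_eq_zero.1 e, one_pow, one_smul] at eB2
        fin_cases i <;> assumption) nc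
  have sc' : ∀ g, θ g = 1 → ∃ a : K, ∀ v, r g v = a • v := fun g h => (sc g h).imp fun _ a => a.2.2
  have mem : ∀ {u : Fin 3 → V} {w} (a b d : K), w = a • u 0 + b • u 1 + d • u 2 → w ∈ span K (Set.range u) :=
    fun a b d e => e ▸ add_mem (add_mem (smul_mem _ _ (subset_span ⟨0, rfl⟩)) (smul_mem _ _ (subset_span ⟨1, rfl⟩)))
      (smul_mem _ _ (subset_span ⟨2, rfl⟩))
  let u : Fin 3 → V := ![v0 + v3 + (c • v4 + v4) + v, v1 + (c • v3 + v3) + (c • v4 + v4) + c • v,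
    v2 + (c • v3 + v3) + v4 + v]
  by_cases hu : span K (Set.range u) = ⊥
  · have u0 : v0 + v3 + (c • v4 + v4) + v = 0 := span_eq_bot.1 hu _ ⟨0, rfl⟩
    have k := mem (u := ![v3, v4, v]) (w := v0) (-1) (-c - 1) (-1) (by
      simp only [Matrix.cons_val]; linear_combination (norm := module) u0)
    refine ⟨![v3, v4, v], fun i => by fin_cases i <;> assumption, fun e => h0 (span_eq_bot.1 e _ ⟨2, rfl⟩),
      inv hF hB sc' (fun i => ?_) fun i => ?_⟩ <;> fin_cases i
    exacts [subset_span ⟨1, eF3.symm⟩, (congrArg (· ∈ _) eF4).mpr k, subset_span ⟨2, eF5.symm⟩,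
      subset_span ⟨0, eB3.symm⟩, subset_span ⟨1, eB4.symm⟩, (congrArg (· ∈ _) eB5).mpr k]
  refine ⟨u, fun i => ?_, hu, inv hF hB sc' (fun i => ?_) fun i => ?_⟩ <;> fin_cases i
  · exact add_mem (add_mem (add_mem m0 m3) (add_mem n4 m4)) m
  · exact add_mem (add_mem (add_mem m1 (add_mem n3 m3)) (add_mem n4 m4)) n5
  · exact add_mem (add_mem (add_mem m2 (add_mem n3 m3)) m4) m
  on_goal 1 => refine mem (c ^ 2) 1 0 ?_
  on_goal 2 => refine mem (c ^ 2) 0 1 ?_
  on_goal 3 => refine mem 1 0 0 ?_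
  on_goal 4 => refine mem 1 0 0 ?_
  on_goal 5 => refine mem c 0 c ?_
  on_goal 6 => refine mem 1 (c ^ 2) 0 ?_
  all_goals
    simp only [u, Fin.zero_eta, Fin.mk_one, Fin.reduceFinMk, Matrix.cons_val, map_add, map_smul, eF0, eF1, eF2, eF3,
      eF4, eF5, eB0, eB1, eB2, eB3, eB4, eB5]
    match_scalars <;> grind

end CF.Am
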