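import Cfsg.Agent.S0892

/-! Central extensions with kernel of exponent three. -/

set_option autoImplicit false

namespace CF.Am.SP

open Function Subgroup
open scoped commutatorElement

variable {A X Y : Type*} [Group A] [Group X] [Group Y]

theorem dif {θ : Y →* X} {a b : Y} (h : θ a = θ b) : a * b⁻¹ ∈ θ.ker := by
  rw [MonoidHom.mem_ker, map_mul, map_inv, h, mul_inv_cancel]

theorem comm_eq {θ : Y →* X} (c : θ.ker ≤ center Y) {a a' b b' : Y} (ha : θ a = θ a')
    (hb : θ b = θ b') : ⁅a, b⁆ = ⁅a', b'⁆ := by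
  obtain ⟨u, hu, rfl⟩ : ∃ u ∈ center Y, a = u * a' := ⟨_, c (dif ha), by group⟩
  obtain ⟨v, hv, rfl⟩ : ∃ v ∈ center Y, b = v * b' := ⟨_, c (dif hb), by group⟩
  have e := mem_center_iff.1 hu
  have f := mem_center_iff.1 hv
  calc _ = u * (a' * v) * b' * a'⁻¹ * u⁻¹ * b'⁻¹ * v⁻¹ := by rw [commutatorElement_def]; group
    _ = (u * (v * a' * b' * a'⁻¹)) * u⁻¹ * b'⁻¹ * v⁻¹ := by rw [f]; group
    _ = (v * (a' * b' * a'⁻¹ * b'⁻¹)) * v⁻¹ := by rw [← e]; group
    _ = _ := by rw [← f, commutatorElement_def]; group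

theorem lift_uniq {θ : Y →* X} (c : θ.ker ≤ center Y) (p : commutator A = ⊤) {f f' : A →* Y}
    (h : ∀ g, θ (f g) = θ (f' g)) : f = f' := by
  refine MonoidHom.eq_of_eqOn_dense (s := commutatorSet A) (commutator_eq_closure A ▸ p) ?_
  rintro _ ⟨a, b, rfl⟩
  rw [map_commutatorElement, map_commutatorElement]
  exact comm_eq c (h a) (h b)

/-- A section exists unless the kernel lies in the commutator group. -/
theorem sec [Finite Y] {φ : Y →* A} (s : Surjective φ) (d : Nat.card φ.ker ∣ 3)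
    (p : commutator A = ⊤) :
    (∃ f : A →* Y, ∀ g, φ (f g) = g) ∨ (Nat.card φ.ker = 3 ∧ φ.ker ≤ commutator Y) := by
  by_cases h : φ.ker ⊓ commutator Y = ⊥
  · have ex : ∀ g, ∃ y ∈ commutator Y, φ y = g := fun g => by
      have : g ∈ (commutator Y).map φ := by
        rw [map_commutator_eq, MonoidHom.range_eq_top.2 s, ← commutator_def, p]
        trivial
      exact this
    choose f m e using ex
    refine .inl ⟨.mk' f fun a b => mul_inv_eq_one.1 (mem_bot.1 (h ▸ ⟨dif ?_, ?_⟩)), e⟩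
    · rw [map_mul, e, e, e]
    · exact (commutator Y).mul_mem (m _) ((commutator Y).inv_mem (mul_mem (m _) (m _)))
  · have l : φ.ker ⊓ commutator Y ≤ φ.ker := inf_le_left
    have n : Nat.card ↥(φ.ker ⊓ commutator Y) = 3 :=
      ((Nat.dvd_prime Nat.prime_three).1 ((card_dvd_of_le l).trans d)).resolve_left
        fun e => h (card_eq_one.1 e)
    have n' : Nat.card φ.ker = 3 := Nat.dvd_antisymm d (n ▸ card_dvd_of_le l)
    exact .inr ⟨n', inf_eq_left.1 (eq_of_le_of_card_ge l (by omega))⟩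

/-- Transfer into an abelian subgroup. -/
theorem trf [Finite Y] (P : Subgroup Y) (c : ∀ a ∈ P, ∀ b ∈ P, a * b = b * a) {z : Y}
    (hc : z ∈ center Y) (hd : z ∈ commutator Y) : z ^ P.index = 1 := by
  haveI : IsMulCommutative P := ⟨⟨fun a b => Subtype.ext (c _ a.2 _ b.2)⟩⟩
  open scoped IsMulCommutative in
  have := MonoidHom.transfer_eq_pow (MonoidHom.id P) z fun k g _ => by
    rw [mul_assoc, ← mem_center_iff.1 (pow_mem hc k), inv_mul_cancel_left]
  open scoped IsMulCommutative in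
  rw [Abelianization.commutator_subset_ker _ hd] at this
  exact (congrArg Subtype.val this).symm

/-- Lifts of generators of a Sylow `3`-subgroup do not commute in a nonsplit extension. -/
theorem ncm [Finite Y] {φ : Y →* A} (s : Surjective φ) (c : φ.ker ≤ center Y)
    (n : Nat.card φ.ker = 3) (d : φ.ker ≤ commutator Y) {a b : Y}
    (h : ∀ Q : Subgroup A, φ a ∈ Q → φ b ∈ Q → ¬ 3 ∣ Q.index) : ¬ Commute a b := fun ab => by
  haveI := Finite.one_lt_card_iff_nontrivial.1 (by omega : 1 < Nat.card φ.ker)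
  obtain ⟨⟨z, hz⟩, z1⟩ := exists_ne (1 : φ.ker)
  have z3 : z ^ 3 = 1 := congrArg Subtype.val (n ▸ pow_card_eq_one' (x := (⟨z, hz⟩ : φ.ker)))
  let T : Set Y := {a, b} ∪ φ.ker
  have cm : ∀ x ∈ T, ∀ y ∈ T, x * y = y * x := by
    rintro x (hx | hx) y (hy | hy)
    · rcases hx with rfl | rfl <;> rcases hy with rfl | rfl
      exacts [rfl, ab, ab.symm, rfl]
    · exact mem_center_iff.1 (c hy) _
    all_goals exact (mem_center_iff.1 (c hx) _).symm
  have k : φ.ker ≤ closure T := fun x hx => subset_closure (.inr hx)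
  have e := trf (closure T) (fun x hx y hy => congrArg Subtype.val
    ((closureCommGroupOfComm cm).mul_comm ⟨x, hx⟩ ⟨y, hy⟩)) (c hz) (d hz)
  rw [← index_map_eq _ s k] at e
  have := h ((closure T).map φ) ⟨a, subset_closure (.inl (.inl rfl)), rfl⟩
    ⟨b, subset_closure (.inl (.inr rfl)), rfl⟩
  refine z1 (Subtype.ext ?_)
  have := pow_gcd_eq_one.2 ⟨z3, e⟩
  rwa [(Nat.prime_three.coprime_iff_not_dvd.2 ‹_›).gcd_eq_one, pow_one] at this

theorem nine [Finite A] {x y : A} (hx : orderOf x = 3) (hy : orderOf y = 3) (c : Commute x y)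
    (d : Disjoint (zpowers x) (zpowers y)) {Q : Subgroup A} (mx : x ∈ Q) (my : y ∈ Q) :
    9 ∣ Nat.card Q := by
  have cm : ∀ (a : zpowers x) (b : zpowers y), Commute ((zpowers x).subtype a) ((zpowers y).subtype b) := by
    rintro ⟨_, i, rfl⟩ ⟨_, k, rfl⟩
    exact c.zpow_zpow i k
  have i := (MonoidHom.noncommCoprod_injective _ _ cm).2
    ⟨subtype_injective _, subtype_injective _, by simpa using d⟩
  have l : (MonoidHom.noncommCoprod _ _ cm).range ≤ Q := by
    rw [MonoidHom.noncommCoprod_range]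
    simpa using ⟨mx, my⟩
  have := card_dvd_of_le l
  rwa [← Nat.card_congr (MonoidHom.ofInjective i).toEquiv, Nat.card_prod, Nat.card_zpowers,
    Nat.card_zpowers, hx, hy] at this

/-- The preimage of an embedded group. -/
noncomputable def pr (θ : Y →* X) {j : A →* X} (hj : Injective j) : j.range.comap θ →* A :=
  (MonoidHom.ofInjective hj).symm.toMonoidHom.comp (θ.subgroupComap j.range)

theorem pr_eq (θ : Y →* X) {j : A →* X} (hj : Injective j) (y : j.range.comap θ) :
    j (pr θ hj y) = θ y := MonoidHom.apply_ofInjective_symm hj _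

theorem pr_surj {θ : Y →* X} (s : Surjective θ) {j : A →* X} (hj : Injective j) :
    Surjective (pr θ hj) := fun g => by
  obtain ⟨y, hy⟩ := s (j g)
  exact ⟨⟨y, g, hy.symm⟩, hj (by rw [pr_eq, hy])⟩

theorem pr_ker (θ : Y →* X) {j : A →* X} (hj : Injective j) :
    (pr θ hj).ker = θ.ker.subgroupOf _ := by
  ext y
  rw [mem_subgroupOf, MonoidHom.mem_ker, MonoidHom.mem_ker, ← pr_eq θ hj, map_eq_one_iff _ hj]

theorem pr_card (θ : Y →* X) {j : A →* X} (hj : Injective j) :
    Nat.card (pr θ hj).ker = Nat.card θ.ker := by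
  rw [pr_ker]
  exact Nat.card_congr (subgroupOfEquivOfLe fun y (hy : θ y = 1) =>
    show θ y ∈ j.range from hy ▸ one_mem _).toEquiv

theorem pr_cen {θ : Y →* X} (c : θ.ker ≤ center Y) {j : A →* X} (hj : Injective j) :
    (pr θ hj).ker ≤ center _ := fun y hy => mem_center_iff.2 fun g => Subtype.ext
  (mem_center_iff.1 (c (mem_subgroupOf.1 (pr_ker θ hj ▸ hy))) g)

theorem spl [Finite Y] {θ : Y →* X} (s : Surjective θ) (d : Nat.card θ.ker ∣ 3)
    (p : commutator A = ⊤) {j : A →* X} (hj : Injective j) :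
    (∃ f : A →* Y, ∀ g, θ (f g) = j g) ∨
      (Nat.card (pr θ hj).ker = 3 ∧ (pr θ hj).ker ≤ commutator _) :=
  (sec (pr_surj s hj) (pr_card θ hj ▸ d) p).imp_left fun ⟨f, e⟩ =>
    ⟨(Subgroup.subtype _).comp f, fun g => (pr_eq θ hj (f g)).symm.trans (congrArg j (e g))⟩

theorem perf {n : ℕ} (h : 5 ≤ n) : commutator (alternatingGroup (Fin n)) = ⊤ :=
  commutator_alternatingGroup_eq_top (by simpa using h)

end CF.Am.SP
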