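import Cfsg.Agent.Am.A
import Cfsg.Agent.Am.SP0

/-! Lifting alternating groups and single elements to the central extension. -/

set_option autoImplicit false

namespace CF.Am

open Function Subgroup CF.Al

namespace SP

theorem upi {n : ℕ} : Injective (up (n := n)) := fun a b h => Subtype.ext (Equiv.ext fun i =>
  Fin.castSucc_injective _ (by
    rw [← upP_cast, ← upP_cast]
    exact congrArg (fun g : An (n + 1) => g.1 i.castSucc) h))

theorem nine6 {Q : Subgroup (An 6)} (mx : x6 ∈ Q) (my : y6 ∈ Q) : 9 ∣ Nat.card Q := by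
  haveI : Fact (Nat.Prime 3) := ⟨Nat.prime_three⟩
  have hx : orderOf x6 = 3 := orderOf_eq_prime (by decide) (by decide)
  have hy : orderOf y6 = 3 := orderOf_eq_prime (by decide) (by decide)
  refine nine hx hy (by unfold Commute SemiconjBy; decide) (disjoint_def.2 fun {g} a b => ?_) mx my
  rw [mem_zpowers_iff_mem_range_orderOf, Finset.mem_image] at a b
  obtain ⟨i, hi, rfl⟩ := a
  obtain ⟨k, hk, e⟩ := b
  rw [hx, Finset.mem_range] at hi
  rw [hy, Finset.mem_range] at hk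
  revert e
  interval_cases i <;> interval_cases k <;> decide

theorem idx {n : ℕ} (h : n = 6 ∨ n = 7) {Q : Subgroup (An n)} (d : 9 ∣ Nat.card Q) :
    ¬ 3 ∣ Q.index := fun e => by
  haveI : Nontrivial (Fin n) := Fin.nontrivial_iff_two_le.2 (by omega)
  have := Nat.mul_dvd_mul d e
  rw [card_mul_index, nat_card_alternatingGroup, Nat.card_eq_fintype_card, Fintype.card_fin] at this
  rcases h with rfl | rfl <;> norm_num [Nat.factorial] at this

variable {X Y : Type*} [Group X] [Group Y] [Finite Y] {θ : Y →* X} {z : ℕ} (E : Ce z θ)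
include E

theorem three {c : Y} (h : θ c = 1) : c ^ 3 = 1 := by
  obtain ⟨k, e⟩ := E.dvd
  have : c ^ z = 1 := congrArg Subtype.val (E.card ▸ pow_card_eq_one' (x := (⟨c, h⟩ : θ.ker)))
  rw [e, pow_mul, this, one_pow]

omit [Finite Y] in
theorem cm {c : Y} (h : θ c = 1) (g : Y) : Commute g c := mem_center_iff.1 (E.cen h) g

theorem split {n : ℕ} (h5 : 5 ≤ n) {j : An n →* X} (hj : Injective j) {x y : An n}
    (h : ∀ Q : Subgroup (An n), x ∈ Q → y ∈ Q → ¬ 3 ∣ Q.index) :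
    (∃ j' : An n →* Y, ∀ g, θ (j' g) = j g) ∨ (z = 3 ∧ Nc θ (j x) (j y)) :=
  (spl E.surj (E.card ▸ E.dvd) (perf h5) hj).imp_right fun ⟨c, d⟩ => by
    obtain ⟨a, rfl⟩ := pr_surj E.surj hj x
    obtain ⟨b, rfl⟩ := pr_surj E.surj hj y
    exact ⟨by rw [← E.card, ← pr_card θ hj, c], a, b, (pr_eq θ hj a).symm, (pr_eq θ hj b).symm,
      fun e => ncm (pr_surj E.surj hj) (pr_cen E.cen hj) c d h (Subtype.ext e)⟩

/-- Lifts of order prime to three are unique. -/
theorem uniq {m : ℕ} (hm : m.Coprime 3) {a b : Y} (h : θ a = θ b) (ha : a ^ m = 1) (hb : b ^ m = 1) :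
    a = b := by
  have k : θ (a * b⁻¹) = 1 := dif h
  have e : (a * b⁻¹) ^ m = 1 := by
    have := (cm E k b).symm.mul_pow m
    rwa [inv_mul_cancel_right, ha, hb, mul_one, eq_comm] at this
  have := pow_gcd_eq_one.2 ⟨e, three E k⟩
  rwa [hm.gcd_eq_one, pow_one, mul_inv_eq_one] at this

end SP

open SP

variable {X : Type*} [Group X] [Finite X] {H : Subgroup X}
  {Y : Type*} [Group Y] [Finite Y] {θ : Y →* X} {z : ℕ} (E : Ce z θ)
include E

theorem exists_split {n : ℕ} (h5 : 5 ≤ n) (h6 : n ≠ 6) (h7 : n ≠ 7) {j : An n →* X} (hj : Injective j) :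
    ∃ j' : An n →* Y, ∀ g, θ (j' g) = j g :=
  (spl E.surj (E.card ▸ E.dvd) (perf h5) hj).resolve_right fun ⟨c, d⟩ => by
    have := Cfsg.Agent.S0892.result n (by omega) h6 h7 _ (pr_cen E.cen hj) d
      (QuotientGroup.quotientKerEquivOfSurjective _ (pr_surj E.surj hj))
    omega

theorem split6 {j : An 6 →* X} (hj : Injective j) :
    (∃ j' : An 6 →* Y, ∀ g, θ (j' g) = j g) ∨ (z = 3 ∧ Nc θ (j x6) (j y6)) :=
  split E (by omega) hj fun _ a b => idx (.inl rfl) (nine6 a b)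

theorem split7 {j : An 7 →* X} (hj : Injective j) :
    (∃ j' : An 7 →* Y, ∀ g, θ (j' g) = j g) ∨ (z = 3 ∧ Nc θ (j (up x6)) (j (up y6))) :=
  split E (by omega) hj fun Q a b => idx (.inr rfl)
    ((nine6 (Q := Q.comap up) a b).trans (card_comap_dvd_of_injective Q up upi))

/-- The preimage of `H` normalizes the lift. -/
theorem norm_lift {n : ℕ} (h5 : 5 ≤ n) {j : An n →* X} (M : Mx H j) {j' : An n →* Y}
    (hj : ∀ g, θ (j' g) = j g) {y : Y} (hy : θ y ∈ H) :
    ∃ α : MulAut (An n), ∀ g, y * j' g = j' (α g) * y := by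
  choose f hf using M.nor _ hy
  let a : An n →* An n := .mk' f fun a b => M.inj (by
    rw [map_mul, ← hf, ← hf, ← hf, map_mul]; group)
  have i : Injective a := (injective_iff_map_eq_one a).2 fun g (e : f g = 1) => M.inj (by
    have := hf g
    rw [e, map_one, conj_eq_one_iff] at this
    rw [this, map_one])
  have := lift_uniq E.cen (perf h5) (f := (MulAut.conj y).toMonoidHom.comp j') (f' := j'.comp a)
    fun g => by
      change θ (y * j' g * y⁻¹) = θ (j' (f g))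
      rw [map_mul, map_mul, map_inv, hj, hj, hf]
  exact ⟨MulEquiv.ofBijective a (Finite.injective_iff_bijective.1 i), fun g =>
    mul_inv_eq_iff_eq_mul.1 (DFunLike.congr_fun this g)⟩

/-- Real elements have real lifts of the same order. -/
theorem real_lift {x : X} {m : ℕ} (e : x ^ m = 1) (r : Re x) : ∃ y, θ y = x ∧ y ^ m = 1 ∧ Re y := by
  obtain ⟨y, rfl⟩ := E.surj x
  obtain ⟨g, hg⟩ := isConj_iff.1 r
  obtain ⟨g, rfl⟩ := E.surj g
  obtain ⟨c, k, hc⟩ : ∃ c, θ c = 1 ∧ g * y * g⁻¹ = y⁻¹ * c :=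
    ⟨y * (g * y * g⁻¹), by rw [map_mul, map_mul, map_mul, map_inv, hg, mul_inv_cancel], by group⟩
  have c3 := three E k
  have iv : g * (y * c) * g⁻¹ = (y * c)⁻¹ := by
    calc _ = g * y * (c * g⁻¹) := by group
      _ = y⁻¹ * c ^ 3 * c⁻¹ := by rw [← (cm E k g⁻¹).eq, ← mul_assoc, hc, pow_three]; group
      _ = _ := by rw [c3, mul_one, (cm E k y).eq, mul_inv_rev]
  have t : θ (y * c) = θ y := by rw [map_mul, k, mul_one]
  refine ⟨y * c, t, ?_, isConj_iff.2 ⟨g, iv⟩⟩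
  have k' : θ ((y * c) ^ m) = 1 := by rw [map_pow, t, e]
  have : ((y * c) ^ m)⁻¹ = (y * c) ^ m := by
    rw [← inv_pow, ← iv, conj_pow, (cm E k' g).eq, mul_inv_cancel_right]
  refine uniq E (m := 2) (by norm_num) (k'.trans (map_one θ).symm) ?_ (one_pow 2)
  rw [pow_two, ← eq_inv_iff_mul_eq_one, this]

theorem cop_lift {x : X} {m : ℕ} (hm : m.Coprime 3) (e : x ^ m = 1) : ∃ y, θ y = x ∧ y ^ m = 1 ∧
    (∀ k, IsConj x (x ^ k) → IsConj y (y ^ k)) ∧ ∀ g, Commute (θ g) x → Commute g y := by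
  obtain ⟨y, rfl, hy⟩ : ∃ y, θ y = x ∧ y ^ m = 1 := by
    obtain ⟨y, rfl⟩ := E.surj x
    have k : θ (y ^ m) = 1 := by rw [map_pow, e]
    have k' : θ ((y ^ m) ^ (2 * m)) = 1 := by rw [map_pow, k, one_pow]
    refine ⟨y * (y ^ m) ^ (2 * m), by rw [map_mul, k', mul_one], ?_⟩
    obtain ⟨l, hl⟩ : 3 ∣ 2 * m * m + 1 := by
      have : ¬ 3 ∣ m := Nat.prime_three.coprime_iff_not_dvd.1 hm.symm
      obtain ⟨l, rfl | rfl⟩ : ∃ l, m = 3 * l + 1 ∨ m = 3 * l + 2 := ⟨m / 3, by omega⟩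
      exacts [⟨6 * l * l + 4 * l + 1, by ring⟩, ⟨6 * l * l + 8 * l + 3, by ring⟩]
    rw [(cm E k' y).mul_pow, ← pow_mul, ← pow_succ', hl, pow_mul, three E k, one_pow]
  have cj : ∀ g : Y, (g * y * g⁻¹) ^ m = 1 := fun g => by rw [conj_pow, hy, mul_one, mul_inv_cancel]
  refine ⟨y, rfl, hy, fun k h => ?_, fun g h => mul_inv_eq_iff_eq_mul.1 (uniq E hm ?_ (cj g) hy)⟩
  · obtain ⟨g, hg⟩ := isConj_iff.1 h
    obtain ⟨g, rfl⟩ := E.surj g
    refine isConj_iff.2 ⟨g, uniq E hm ?_ (cj g) (by rw [← pow_mul, mul_comm, pow_mul, hy, one_pow])⟩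
    rw [map_mul, map_mul, map_inv, hg, map_pow]
  · rw [map_mul, map_mul, map_inv, h.eq, mul_inv_cancel_right]

end CF.Am
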