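import Cfsg.Agent.Am.NL
import Cfsg.Agent.Am.B
import Cfsg.Agent.Am.SP
import Cfsg.Agent.Am.H4a

/-! Alternating subgroups of `E₆(q)`: the triple cover of `A₆` in `E₆(4)`. -/

set_option autoImplicit false
set_option linter.unusedSectionVars false

namespace CF.Am

open Module Function Cfsg.Lie CF.E83 CF.Al Submodule

variable {X : Type*} [Group X] [Finite X] {H T : Subgroup X}
variable {Y : Type*} [Group Y] [Finite Y] {θ : Y →* X} {z : ℕ} (E : Ce z θ)
variable {K V W : Type*} [Field K] [AddCommGroup V] [Module K V] [AddCommGroup W] [Module K W]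
  [FiniteDimensional K V] [FiniteDimensional K W] {q : ℕ}

namespace H4b

/-- The field with four elements. -/
def F4 (h2 : (2 : K) = 0) : Subfield K where
  carrier := {x | x ^ 4 = x}
  zero_mem' := by simp
  one_mem' := by simp
  add_mem' {x y} (a : _ = _) (b : _ = _) := show _ = _ by
    linear_combination a + b + (2 * x ^ 3 * y + 3 * x ^ 2 * y ^ 2 + 2 * x * y ^ 3) * h2
  neg_mem' {x} (a : _ = _) := show _ = _ by linear_combination a + x * h2
  mul_mem' {x y} (a : _ = _) (b : _ = _) := show _ = _ by rw [mul_pow, a, b]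
  inv_mem' x (a : _ = _) := show _ = _ by rw [inv_pow, a]

open Polynomial in
theorem card_F4 (h2 : (2 : K) = 0) : Finite (F4 h2) ∧ Nat.card (F4 h2) ≤ 4 := by
  classical
  have s : (F4 h2 : Set K) ⊆ (X ^ 4 - X : K[X]).roots.toFinset := fun x (a : _ = _) => by
    simp [FiniteField.X_pow_card_sub_X_ne_zero K (show 1 < 4 by norm_num), a]
  refine ⟨(Set.Finite.subset (Finset.finite_toSet _) s).to_subtype, (Set.ncard_le_ncard s).trans ?_⟩
  rw [Set.ncard_coe_finset]
  exact (Multiset.toFinset_card_le _).trans ((card_roots' _).trans_eq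
    (FiniteField.X_pow_card_sub_X_natDegree_eq K (by norm_num)))

section
variable {F : Subfield K} {k : ℕ}

/-- Change of basis. -/
def op (M : Matrix (Fin k) (Fin k) F) (u : Fin k → V) : Fin k → V := fun i => ∑ a, (M i a : K) • u a

theorem op_le (M : Matrix (Fin k) (Fin k) F) (u : Fin k → V) :
    span K (Set.range (op M u)) ≤ span K (Set.range u) :=
  span_le.2 (by rintro _ ⟨i, rfl⟩; exact sum_mem fun a _ => smul_mem _ _ (subset_span ⟨a, rfl⟩))

theorem op_inv {M M' : Matrix (Fin k) (Fin k) F} (h : M' * M = 1) (u : Fin k → V) : op M' (op M u) = u := by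
  funext i
  have (a : Fin k) : ∑ b, (M' i b : K) * M b a = (1 : Matrix (Fin k) (Fin k) K) i a := by
    have := congrArg Subtype.val (congrFun (congrFun h i) a)
    rw [Matrix.mul_apply, Matrix.one_apply] at this
    simpa [Matrix.one_apply, apply_ite] using this
  simp only [op, Finset.smul_sum, smul_smul]
  rw [Finset.sum_comm]
  simp [← Finset.sum_smul, this, Matrix.one_apply]

end

include E

theorem cnt {j : An 6 →* X} (M : Mx H j) {r : Y →* End K V} (i : Irr r) {F : Subfield K} [Fintype F] {n : ℕ}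
    {b : Basis (Fin n) K V} (hb : ∀ x i j, b.repr (r x (b i)) j ∈ F) {k : ℕ} {u : Fin k → V}
    (m : ∀ i, u i ∈ Ln.La F b) (li : LinearIndependent K u) (h0 : span K (Set.range u) ≠ ⊥)
    (h1 : span K (Set.range u) ≠ ⊤)
    (hU : ∀ y, θ y ∈ H → ∀ w ∈ span K (Set.range u), r y w ∈ span K (Set.range u)) :
    Nat.card X * ∏ a : Fin k, (Fintype.card F ^ k - Fintype.card F ^ a.1) ≤
      Nat.card H * (Fintype.card F ^ n) ^ k := by
  classical
  obtain ⟨f, c⟩ := Ln.card_La (F := F) b
  let e : {w : Fin k → V | ∀ i, w i ∈ Ln.La F b} ≃ (Fin k → Ln.La F b) := Equiv.subtypePiEquivPi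
  have s (A : GL (Fin k) F) : span K (Set.range (op A.1 u)) = span K (Set.range u) :=
    (op_le _ _).antisymm ((congrArg (fun x => span K (Set.range x)) (op_inv A.inv_mul u)).ge.trans (op_le _ _))
  have := NL.count E (H := H) (r := ⟨⟨fun y => (r y).compLeft (Fin k), by ext; simp⟩, fun x y => by ext; simp⟩)
    (L := {w | ∀ i, w i ∈ Ln.La F b}) (D := Set.range fun A : GL (Fin k) F => op A.1 u) (Finite.of_equiv _ e.symm)
    (by
      rintro y _ ⟨A, rfl⟩ a
      exact Ln.ap_La b (hb y) (sum_mem fun t _ c => by simpa using mul_mem (A.1 a t).2 (m t c)))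
    (by
      rintro y _ ⟨A, rfl⟩ ⟨B, e⟩
      refine st_mem E M i h0 h1 hU fun v => ?_
      refine fun c => ((s A).ge.trans (span_le.2 ?_) : _ ≤ comap (r y) (span K (Set.range u))) c
      rintro _ ⟨a, rfl⟩
      exact (s B).le (subset_span ⟨a, congrFun e a⟩))
  rw [Set.ncard_range_of_injective (f := fun A : GL (Fin k) F => op A.1 u) fun A B e => Units.ext (Matrix.ext fun a t => Subtype.ext
    (Fintype.linearIndependent_iffₛ.1 li _ _ (congrFun e a) t)), Matrix.card_GL_field, ← Nat.card_coe_set_eq,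
    Nat.card_congr e, Nat.card_fun, Nat.card_fin] at this
  exact this.trans (Nat.mul_le_mul_left _ (Nat.pow_le_pow_left (c.trans_eq (by simp)) _))

theorem core (z3 : z = 3) {j : An 6 →* X} (M : Mx H j) (hH : H = j.range) (nc : Nc θ (j x6) (j y6))
    (h2 : (2 : K) = 0) {r : Y →* End K (N K)} (i : Irr r)
    (sc : ∀ g, θ g = 1 → ∃ a : K, a ^ 3 = 1 ∧ (g ≠ 1 → a ≠ 1) ∧ ∀ v, r g v = a • v)
    (fr : ∀ g (v : N K), r g (fun a => v a ^ 4) = fun a => r g v a ^ 4) (big : 4 ^ 78 ≤ 6 * Nat.card X)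
    {j5 : An 5 →* Y} (h5 : ∀ g, θ (j5 g) = j (up g)) : Fx (r.comp j5) = ⊥ := by
  obtain ⟨f, c⟩ := card_F4 h2
  have := Fintype.ofFinite (F4 h2)
  let b := (Pi.basisFun K I27).reindex (Fintype.equivFin _)
  have hb (x a t) : b.repr (r x (b a)) t ∈ F4 h2 := by
    have := fr x (b a)
    rw [show (fun t => b a t ^ 4) = b a from funext fun t => by simp [b, Pi.single_apply]] at this
    simpa [b] using! (congrFun this _).symm
  refine le_bot_iff.1 ((Ln.le_span b (F := F4 h2) fun f v m => mem_Fx.2 fun g => ?_).ge.trans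
    (span_le.2 fun v m => ?_))
  · exact (Ln.pj_ap b (hb _) f v).symm.trans (congrArg _ (mem_Fx.1 m g))
  by_contra v0
  obtain ⟨u, mu, h0, hU⟩ := hex E z3 M.inj nc h2 sc h5 m.2 v0 _ (fun y _ => Ln.ap_La b (hb y)) m.1
  obtain ⟨w, mw, e, li⟩ := exists_fun_fin_finrank_span_eq K (Set.range u)
  have d : finrank K (span K (Set.range u)) ≤ 3 := (finrank_range_le_card u).trans_eq (by simp)
  have := cnt E M i hb (fun a => by obtain ⟨t, e⟩ := mw a; exact e ▸ mu t) li (e.trans_ne h0)
    (fun o => by rw [← e, o] at d; simp at d) (by rw [e, hH]; exact hU)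
  rw [hH, ← Nat.card_congr (MonoidHom.ofInjective M.inj).toEquiv, nat_card_alternatingGroup] at this
  rw [Nat.card_eq_fintype_card] at c
  have := Fintype.one_lt_card (α := F4 h2)
  generalize Fintype.card (F4 h2) = m at *
  generalize finrank K (span K (Set.range u)) = k at *
  interval_cases m <;> interval_cases k <;> norm_num [Fin.prod_univ_succ, Nat.factorial] at * <;> omega

end H4b

include E

theorem h4 [IsAlgClosed K] (z3 : z = 3) {j : An 6 →* X} (M : Mx H j) (hH : H = j.range)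
    (nc : Nc θ (j x6) (j y6)) {r r' : Y →* End K (N K)} {l : Y →* End K W} (jp : JP r r')
    (tb : TB 4 r l) (i : Irr r) (i' : Irr r')
    (sc : ∀ g, θ g = 1 → ∃ a : K, a ^ 3 = 1 ∧ (g ≠ 1 → a ≠ 1) ∧ ∀ v, r g v = a • v)
    (sc' : ∀ g, θ g = 1 → ∃ a : K, a ^ 3 = 1 ∧ (g ≠ 1 → a ≠ 1) ∧ ∀ v, r' g v = a • v)
    (fr : ∀ g (v : N K), r g (fun a => v a ^ 4) = fun a => r g v a ^ 4)
    (fr' : ∀ g (v : N K), r' g (fun a => v a ^ 4) = fun a => r' g v a ^ 4)
    (big : 4 ^ 78 ≤ 6 * Nat.card X) : False := by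
  have h2 : (2 : K) = 0 := pow_eq_zero_iff two_ne_zero |>.1 (by have := tb.hq; push_cast at this; linear_combination this)
  have u : Injective (j.comp up) := M.inj.comp up_inj
  obtain ⟨j5, h5⟩ := exists_split E le_rfl (by norm_num) (by norm_num) u
  have t := tb.comp (j := j5) fun a b e => u (by rw [← h5, ← h5, e])
  have a := (t.i2 h2 a5 (by decide)).1
  have b := t.n3 (fun e => one_ne_zero (by linear_combination e - h2 : (1 : K) = 0)) b5 (by decide) (by decide)
    (isConj_iff.2 ⟨ap ![1, 0, 2, 4, 3] ![1, 0, 2, 4, 3], by decide⟩)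
  have c := (t.n5 (fun e => one_ne_zero (by linear_combination e - 2 * h2 : (1 : K) = 0)) (a5 * b5) (by decide)
    (by decide) (isConj_iff.2 ⟨ap ![0, 2, 1, 4, 3] ![0, 2, 1, 4, 3], by decide⟩)).1
  exact ((jp.comp j5).sco g5 (by omega)).elim (· (H4b.core E z3 M hH nc h2 i sc fr big h5))
    (· (H4b.core E z3 M hH nc h2 i' sc' fr' big h5))

end CF.Am
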