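import Cfsg.Agent.Am.A
import Cfsg.Agent.Chev.TabX

/-! Involutions of `E₆` in characteristic two on the module of dimension `27`. -/

set_option autoImplicit false

namespace CF.Am

open Module Function Cfsg.Lie CF.E83 CF.Al CF.Chev CF.BN Matrix
open CF.Geom.E6 (tg sg eF)

namespace I2

universe u

/-- A root element acting on a formal sum of basis vectors. -/
def st (r : ℕ) (l : List I27) : List I27 := l ++ (l.filter (sg r · ≠ 0)).map (tg r)

/-- Coordinates from numbers. -/
def ix (a : ℕ) : I27 := (.ofNat 3 (a / 9), .ofNat 3 (a / 3), .ofNat 3 a)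

/-- Formal sums in echelon form. -/
def Ech (f : List I27 → List I27) (c : List (ℕ × List ℕ)) : Prop :=
  ∀ i j : Fin c.length, (f ((c.get j).2.map ix)).count (ix (c.get i).1) % 2 = if j = i then 1 else 0

instance (f : List I27 → List I27) (c : List (ℕ × List ℕ)) : Decidable (Ech f c) := by unfold Ech; infer_instance

/-- Cascades, kernels and images. -/
def tbl : List (List ℕ × List (ℕ × List ℕ) × List (ℕ × List ℕ)) := [
  ([71], [(0, [0]), (2, [2]), (3, [3]), (4, [4]), (5, [5]), (6, [6]), (8, [8]), (9, [9]), (10, [10]), (12, [12]), (13, [13]), (14, [14]), (15, [15]), (16, [16]), (18, [18]), (20, [20]), (21, [21]), (23, [23]), (24, [24]), (25, [25]), (26, [26])],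
    [(26, [1]), (24, [7]), (5, [11]), (3, [17]), (13, [19]), (12, [22])]),
  ([71, 60], [(0, [0]), (2, [2]), (3, [3]), (5, [5]), (6, [6]), (8, [8]), (10, [10]), (12, [12]), (13, [13]), (14, [14]), (16, [16]), (18, [18]), (20, [20]), (21, [21]), (24, [24]), (25, [25]), (19, [19, 26])],
    [(13, [19]), (18, [4]), (24, [7]), (8, [9]), (5, [11]), (6, [15]), (3, [17]), (19, [1, 19]), (12, [22]), (14, [23])]),
  ([71, 60, 44], [(0, [0]), (2, [2]), (3, [3]), (5, [5]), (6, [6]), (8, [8]), (12, [12]), (13, [13]), (14, [14]), (20, [20]), (21, [21]), (18, [18, 23]), (22, [22, 24]), (25, [25]), (19, [19, 26])],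
    [(13, [19]), (14, [18]), (12, [22]), (8, [9]), (2, [10]), (5, [11]), (6, [15]), (0, [16]), (3, [17]), (18, [4, 18]), (19, [1, 19]), (22, [7, 22])]),
  ([71, 60, 44, 39], [(2, [2]), (5, [5]), (8, [8]), (6, [6, 9]), (0, [0, 10]), (3, [3, 11]), (12, [12]), (13, [13]), (14, [14]), (20, [20]), (21, [21]), (18, [18, 23]), (22, [22, 24]), (25, [25]), (19, [19, 26])],
    [(2, [0]), (13, [19]), (5, [3]), (14, [18]), (8, [6]), (12, [22]), (6, [6, 15]), (0, [0, 16]), (3, [3, 17]), (18, [4, 18]), (19, [1, 19]), (22, [7, 22])])]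

theorem chk : ∀ e ∈ tbl, Ech id e.2.1 ∧ Ech (fun l => e.1.foldr st l ++ l) e.2.2 ∧
    (∀ c ∈ e.2.1, ∀ a, (e.1.foldr st (c.2.map ix) ++ c.2.map ix).count a % 2 = 0) ∧
    e.2.1.length + e.2.2.length = 27 ∧ 15 ≤ e.2.1.length ∧ e.2.1.length ≠ 16 := by decide +kernel

theorem casc : tabE6.chkCasc (fun w => w ∈ [] :: tbl.map (·.1)) 8 (fun _ => true) [] = true := by decide +kernel

variable {K : Type*} [Field K]

variable (K) in
/-- The vector of a formal sum. -/
def vec (l : List I27) : N K := fun a => l.count a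

theorem vec_cons (b : I27) (l : List I27) : vec K (b :: l) = Pi.single b 1 + vec K l := by
  funext a
  by_cases h : a = b <;> simp [vec, h, List.count_cons_of_ne, add_comm, Ne.symm]

theorem vec_app (l m : List I27) : vec K (l ++ m) = vec K l + vec K m := by
  funext a; simp [vec]

variable (h2 : (2 : K) = 0)
include h2

theorem vec_st (r : Fin 72) (l : List I27) : (1 + (1 : K) • eF K r) *ᵥ vec K l = vec K (st r l) := by
  rw [one_smul, add_mulVec, one_mulVec, st, vec_app]
  congr 1
  induction l with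
  | nil => rw [show vec K [] = 0 from funext fun _ => by simp [vec], mulVec_zero]; exact funext fun _ => by simp [vec]
  | cons b l ih =>
    rw [vec_cons, mulVec_add, ih]
    have e : eF K r *ᵥ Pi.single b 1 = (sg r b : K) • (Pi.single (tg r b) 1 : N K) := by
      funext a
      simp [eF, Geom.E6.mono, Pi.single_apply]
    by_cases h : sg r b = 0
    · simp [e, h]
    · have := Geom.E6.sg_sq (F := K) h
      have : (sg r b : K) = 1 := sub_eq_zero.1 (pow_eq_zero_iff (n := 2) two_ne_zero |>.1 (by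
        linear_combination this + (1 - (sg r b : K)) * h2))
      rw [List.filter_cons_of_pos (by simpa using h), List.map_cons, vec_cons, e, this, one_smul]

theorem cast_mod (n : ℕ) : (n : K) = (n % 2 : ℕ) := by
  conv_lhs => rw [← Nat.mod_add_div n 2]
  simp [h2]

theorem Ech.le {f : List I27 → List I27} {c : List (ℕ × List ℕ)} (h : Ech f c) {U : Submodule K (N K)}
    (m : ∀ e ∈ c, vec K (f (e.2.map ix)) ∈ U) : c.length ≤ finrank K U := by
  have li : LinearIndependent K fun j : Fin c.length => vec K (f ((c.get j).2.map ix)) :=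
    Fintype.linearIndependent_iff.2 fun a e i => by
      have := congrFun e (ix (c.get i).1)
      simp only [Finset.sum_apply, Pi.smul_apply, vec, cast_mod h2 (List.count _ _), h i] at this
      simpa using this
  have := Submodule.finrank_mono (Submodule.span_le.2 (by
    rintro _ ⟨j, rfl⟩; exact m _ (List.get_mem _ _)) : Submodule.span K (Set.range fun j : Fin c.length =>
      vec K (f ((c.get j).2.map ix))) ≤ U)
  rwa [finrank_span_eq_card li, Fintype.card_fin] at this

theorem core {G : Type*} [Group G] {R : G →* End K (N K)} {x : Fin 72 → G}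
    (hx : ∀ r v, R (x r) v = (1 + (1 : K) • eF K r) *ᵥ v) {T : List (Fin 72)}
    (h : T.map Fin.val ∈ [] :: tbl.map (·.1)) : 15 ≤ dm R (T.map x).prod ∧ dm R (T.map x).prod ≠ 16 := by
  have a : ∀ l, R (T.map x).prod (vec K l) = vec K ((T.map Fin.val).foldr st l) := fun l => by
    clear h
    induction T with
    | nil => simp
    | cons r T ih => rw [List.map_cons, List.prod_cons, map_mul, End.mul_apply, ih, hx, vec_st h2]; rfl
  have b : ∀ l, (R (T.map x).prod - 1) (vec K l) = vec K ((T.map Fin.val).foldr st l ++ l) := fun l => by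
    rw [LinearMap.sub_apply, a, vec_app, End.one_apply, sub_eq_add_neg]
    congr 1
    exact neg_eq_iff_add_eq_zero.2 (by rw [← two_smul K, h2, zero_smul])
  rcases List.mem_cons.1 h with h | h
  · rw [List.map_eq_nil_iff.1 h, List.map_nil, List.prod_nil, dm_one]
    simp
  obtain ⟨e, he, q⟩ := List.mem_map.1 h
  obtain ⟨c1, c2, c3, c4, c5, c6⟩ := chk e he
  rw [q] at c2 c3
  have l1 := c1.le h2 (U := fs (R (T.map x).prod)) fun c hc => by
    change _ = _
    rw [b]
    exact funext fun a => by rw [vec, cast_mod h2]; simp only [id, c3 c hc a]; simp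
  have l2 := c2.le h2 (U := LinearMap.range (R (T.map x).prod - 1)) fun c _ => ⟨_, b _⟩
  have := LinearMap.finrank_range_add_finrank_ker (R (T.map x).prod - 1)
  rw [show finrank K (N K) = 27 by simp] at this
  unfold dm fs at *
  omega

omit h2 in
theorem red {B ι : Type} [Fintype B] [DecidableEq B] [Fintype ι] [DecidableEq ι] {C : ChevBasis B ι}
    {π : Equiv.Perm B} {p q z : ℕ} [Fact p.Prime] {X : Type*} [Group X] (L : LS.{u} C π p q z X) (h2 : (2 : L.K) = 0)
    (hN : C.N3) (md : ∀ (F : Type u) [Field F], ∃ (G : Type u) (_ : Group G) (ρ : StRep C F G), Univ ρ) {x : L.G}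
    (hσ : L.T.σ x = x) (e : x ^ 2 = 1) :
    ∃ T, Casc C.toRootSys Set.univ T ∧ IsConj x (T.map (L.ρ.x · 1)).prod := by
  classical
  obtain ⟨-, n, M, hM, k⟩ := L.frob
  let F := RingHom.eqLocusField (iterateFrobenius L.K p M) (RingHom.id _)
  have : Finite F := (Finset.finite_toSet (Polynomial.X ^ p ^ M - Polynomial.X : Polynomial L.K).roots.toFinset).subset
    fun t ht => by
      have : t ^ p ^ M = t := ht
      simp [FiniteField.X_pow_card_sub_X_ne_zero L.K (Nat.one_lt_pow hM.ne' (Fact.out : p.Prime).one_lt), this]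
  have : CharP F 2 := (CharP.charP_iff_prime_eq_zero Nat.prime_two).2 (Subtype.ext h2)
  obtain ⟨G, _, ρ, h₀⟩ := md F
  obtain ⟨a, rfl⟩ := (L.h.mem_range_fa h₀ (i := F.subtype) (L.h.fa_x L.h.r3 (iterateFrobenius L.K p M))
    fun t => ⟨fun h => ⟨⟨t, h⟩, rfl⟩, by rintro ⟨t, rfl⟩; exact t.2⟩).2 ((k x).symm.trans (iterate_fixed hσ n))
  have h1 : ρ.LJ Set.univ = ρ.Gp := by simp [StRep.LJ, RootSys.inSub_univ, ρ.H_le_Gp]
  obtain ⟨T, hT, m, -, f⟩ := StRep.exists_casc (J := Set.univ) (g := a) h₀.faith hN (by rw [h1, h₀.top]; trivial)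
    (h₀.fa_injective L.h F.subtype (by rw [map_pow, e, map_one]))
  refine ⟨T, hT, ?_⟩
  have := (h₀.fa L.h.r3 F.subtype).map_isConj (isConj_iff.2 ⟨m, f⟩)
  rwa [map_list_prod, List.map_map, show (h₀.fa L.h.r3 F.subtype) ∘ (ρ.x · 1) = (L.ρ.x · 1) from
    funext fun r => h₀.fa_x _ _ r 1] at this

omit h2 in
/-- All twists. -/
theorem main {π : Equiv.Perm (Fin 6)} {p q z : ℕ} [Fact p.Prime] {X : Type*} [Group X] {L : LS cE6 π p q z X}
    {R : L.G →* End L.K (N L.K)} (h2 : (2 : L.K) = 0)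
    (hx : ∀ r t v, R (L.ρ.x r t) v = (1 + t • eF L.K r) *ᵥ v) {x : L.G} (hσ : L.T.σ x = x) (e : x ^ 2 = 1) :
    15 ≤ dm R x ∧ dm R x ≠ 16 := by
  obtain ⟨T, hT, c⟩ := red L h2 sameLenE6.n3 (fun F _ => ⟨_, _, _, univ_stRep goodE6 F (torE6 F)⟩) hσ e
  rw [dm_conj c]
  exact core h2 (fun r => hx r 1) (of_decide_eq_true (certE6.of_chkCasc hT (fun _ => ⟨fun _ => rfl, fun _ => trivial⟩) casc))

end I2

variable {p q z : ℕ} [Fact p.Prime] {X : Type*} [Group X] [Finite X] {L : LS cE6 1 p q z X}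
  {R : L.G →* End L.K (N L.K)}

theorem i2 (h2 : (2 : L.K) = 0)
    (hx : ∀ r t v, R (L.ρ.x r t) v = (1 + t • Geom.E6.eF L.K r) *ᵥ v) (x : Yg L) (e : x ^ 2 = 1) :
    15 ≤ dm R x.1 ∧ dm R x.1 ≠ 16 := I2.main h2 hx x.2 (congrArg Subtype.val e)

end CF.Am
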