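import Cfsg.Agent.Am.B

/-! The modules of dimension `27` are irreducible. -/

set_option autoImplicit false

namespace CF.Am

open Module Function Cfsg.Lie CF.E83 CF.Al Matrix
open CF.Geom.E6 (tg sg eF Col)

namespace IR

/-- Two roots whose operators have a product of rank one. -/
def pr (b : I27) : Fin 72 × Fin 72 := [(2, 56), (56, 67), (1, 56), (0, 14), (10, 59), (0, 13), (2, 15), (15, 67),
  (1, 15), (7, 57), (6, 57), (13, 62), (0, 12), (0, 11), (1, 14), (9, 58), (8, 58), (14, 64), (3, 15), (11, 61),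
  (3, 56), (4, 15), (12, 61), (4, 56), (0, 15), (5, 57), (0, 56)].getD (9 * b.1 + 3 * b.2.1 + b.2.2) 0

theorem pr_spec : ∀ b c, if c = b then (sg (pr b).1 (tg (pr b).2 c) * sg (pr b).2 c) ^ 2 = 1
    else sg (pr b).1 (tg (pr b).2 c) * sg (pr b).2 c = 0 := by decide +kernel

theorem conn : ∀ a k, k = a ∨ ¬Col a k ∨ ∃ m, a ≠ m ∧ ¬Col a m ∧ m ≠ k ∧ ¬Col m k := by decide +kernel

end IR

variable {K : Type*} [Field K] {S : Type*} [Group S]

open IR in
theorem irr_N (r : S →* End K (N K))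
    (h : ∀ s : Fin 72, ∃ g, ∀ v, r g v = (1 + Geom.E6.eF K s).mulVec v) : Irr r := by
  refine fun U hU => or_iff_not_imp_left.2 fun h0 => ?_
  have h1 : ∀ (s : Fin 72), ∀ v ∈ U, eF K s *ᵥ v ∈ U := fun s v hv => by
    obtain ⟨g, e⟩ := h s
    simpa [e, add_mulVec] using U.sub_mem (hU g v hv) hv
  have h2 : ∀ {a} {c : K}, c ≠ 0 → Pi.single a c ∈ U → (Pi.single a 1 : N K) ∈ U := fun {a c} hc m => by
    simpa [← Pi.single_smul, hc] using U.smul_mem c⁻¹ m
  have h3 : ∀ a k, a ≠ k → ¬Col a k → (Pi.single a 1 : N K) ∈ U → (Pi.single k 1 : N K) ∈ U := fun a k n c m => by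
    obtain ⟨s, rfl, e⟩ := Geom.E6.exists_root a k n c
    refine h2 (left_ne_zero_of_mul_eq_one (Geom.E6.sg_sq (F := K) e)) ?_
    convert h1 s _ m using 1
    ext x
    simp [eF, Geom.E6.mono, Pi.single_apply]
  obtain ⟨v, hv, n⟩ := (Submodule.ne_bot_iff U).1 h0
  obtain ⟨b, hb⟩ := ne_iff.1 n
  have h4 : (Pi.single (tg (pr b).1 (tg (pr b).2 b)) 1 : N K) ∈ U := by
    have e := pr_spec b b
    rw [if_pos rfl] at e
    refine h2 (c := (sg (pr b).1 (tg (pr b).2 b) * sg (pr b).2 b : ℤ) * v b) (mul_ne_zero (fun z => ?_) hb) ?_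
    · have := congrArg (Int.cast (R := K)) e
      rw [Int.cast_pow, z] at this
      simp at this
    · convert h1 (pr b).1 _ (h1 (pr b).2 _ hv) using 1
      ext x
      rw [mulVec_mulVec, eF, eF, Geom.E6.mono_mul, mulVec, dotProduct, Finset.sum_eq_single b]
      · simp [Geom.E6.mono, Pi.single_apply]
      · intro c _ hc
        have e := pr_spec b c
        rw [if_neg hc] at e
        simp [Geom.E6.mono, ← Int.cast_mul, e]
      · simp
  refine eq_top_iff.2 fun w _ => ?_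
  rw [pi_eq_sum_univ' w]
  refine U.sum_mem fun k _ => U.smul_mem _ ?_
  rcases conn (tg (pr b).1 (tg (pr b).2 b)) k with rfl | c | ⟨m, a1, a2, a3, a4⟩
  · exact h4
  · exact (eq_or_ne _ k).elim (· ▸ h4) (h3 _ _ · c h4)
  · exact h3 _ _ a3 a4 (h3 _ _ a1 a2 h4)

theorem JP.irr {r r' : S →* End K (N K)} (h : JP r r') (i : Irr r) : Irr r' := fun U hU => by
  have e := rk_pp U
  rcases i (pp U) (fun g v hv => mem_pp.2 fun w hw => by
    rw [dotProduct_comm, h.dot, dotProduct_comm]; exact mem_pp.1 hv _ (hU _ w hw)) with q | q <;> rw [q] at e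
  · exact .inr (Submodule.eq_top_of_finrank_eq (by simpa using e))
  · exact .inl (Submodule.finrank_eq_zero.1 (by simpa using e))

end CF.Am
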