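import Cfsg.Agent.Am.A

/-! The adjoint identity of the cubic form of type `E₆`. -/

set_option autoImplicit false

namespace CF.Am

open Module Function Cfsg.Lie Matrix

variable {K : Type*} [Field K]

namespace JA

theorem sh0 (v : N K) (i j : Fin 3) : sh v (0, i, j) =
    v (0, i + 1, j + 1) * v (0, i + 2, j + 2) - v (0, i + 1, j + 2) * v (0, i + 2, j + 1) -
      v (1, j, 0) * v (2, 0, i) - v (1, j, 1) * v (2, 1, i) - v (1, j, 2) * v (2, 2, i) := by
  simp [sh, Geom.E6.Q, Fin.sum_univ_five, Geom.E6.p1, Geom.E6.p2, Geom.E6.ep]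
  ring

theorem sh1 (v : N K) (i j : Fin 3) : sh v (1, i, j) =
    v (1, i + 1, j + 1) * v (1, i + 2, j + 2) - v (1, i + 1, j + 2) * v (1, i + 2, j + 1) -
      v (2, j, 0) * v (0, 0, i) - v (2, j, 1) * v (0, 1, i) - v (2, j, 2) * v (0, 2, i) := by
  simp [sh, Geom.E6.Q, Fin.sum_univ_five, Geom.E6.p1, Geom.E6.p2, Geom.E6.ep]
  ring

theorem sh2 (v : N K) (i j : Fin 3) : sh v (2, i, j) =
    v (2, i + 1, j + 1) * v (2, i + 2, j + 2) - v (2, i + 1, j + 2) * v (2, i + 2, j + 1) -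
      v (0, j, 0) * v (1, 0, i) - v (0, j, 1) * v (1, 1, i) - v (0, j, 2) * v (1, 2, i) := by
  simp [sh, Geom.E6.Q, Fin.sum_univ_five, Geom.E6.p1, Geom.E6.p2, Geom.E6.ep]
  ring

theorem f3 {P : Fin 3 → Prop} (h0 : P 0) (h1 : P 1) (h2 : P 2) (i : Fin 3) : P i := by
  fin_cases i
  exacts [h0, h1, h2]

end JA

open JA in
theorem sh_sh (v : N K) : sh (sh v) = cubicT v • v := by
  funext ⟨k, i, j⟩
  rw [Pi.smul_apply, smul_eq_mul]
  simp only [cubicT, mat3, det_fin_three, trace, mul_apply, Fin.sum_univ_three, Matrix.diag_apply, of_apply]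
  revert k i j
  refine f3 ?_ ?_ ?_ <;> refine f3 ?_ ?_ ?_ <;> refine f3 ?_ ?_ ?_ <;>
    simp only [sh0, sh1, sh2, Fin.reduceAdd] <;> ring

end CF.Am
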