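import Cfsg.Agent.Am.A

/-! Alternating subgroups of `E₆(q)`: stabilisers of subspaces and fixed lines. -/

set_option autoImplicit false
set_option linter.unusedSectionVars false

namespace CF.Am

open Module Function Cfsg.Lie CF.E83 CF.Al

variable {X : Type*} [Group X] [Finite X] {H T : Subgroup X}
variable {Y : Type*} [Group Y] [Finite Y] {θ : Y →* X} {z : ℕ} (E : Ce z θ)
variable {K V W : Type*} [Field K] [AddCommGroup V] [Module K V] [AddCommGroup W] [Module K W]
  [FiniteDimensional K V] [FiniteDimensional K W] {q : ℕ}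

namespace NL

/-- The stabiliser of a subspace. -/
def St (r : Y →* End K V) (U : Submodule K V) : Subgroup Y where
  carrier := {y | ∀ v ∈ U, r y v ∈ U}
  one_mem' v m := by simpa using m
  mul_mem' {a b} x y v m := by simpa using x _ (y v m)
  inv_mem' {a} x := by
    obtain ⟨n, e⟩ := mem_powers_iff_mem_zpowers.2 (inv_mem (Subgroup.mem_zpowers a))
    rw [← e]
    intro v m
    clear e
    induction n with
    | zero => simpa using m
    | succ n k => simpa [pow_succ'] using x _ k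

theorem cm {G : Type*} [Group G] {y k a : G} (hy : y * y = 1) (hk : k * k = 1) (c : Commute a y) (d : Commute a k)
    (h3 : a ^ 3 = 1) (e : y * k * a * (y * k * a) = 1) : y * k = k * y := by
  have i : (y * k)⁻¹ = k * y := by rw [mul_inv_rev, inv_eq_of_mul_eq_one_right hy, inv_eq_of_mul_eq_one_right hk]
  have e1 : (y * k) ^ 2 = a := by
    rw [← pow_two, (c.mul_right d).symm.mul_pow] at e
    rw [← mul_one ((y * k) ^ 2), ← h3, pow_succ a 2, ← mul_assoc, e, one_mul]
  have e2 : a = y⁻¹ * a * y⁻¹⁻¹ := c.inv_right.symm.mul_inv_cancel.symm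
  rw [← e1, ← conj_pow, inv_mul_cancel_left, inv_inv, ← i, inv_pow, e1] at e2
  have e3 : a = 1 := by rw [← h3, pow_succ, pow_two]; nth_rw 2 [e2]; simp
  rw [← i, eq_inv_iff_mul_eq_one, ← pow_two, e1, e3]

omit [FiniteDimensional K V] in
theorem line {ρ : Y →* End K V} {L : AddSubgroup V} (i : ∀ g, ∀ v ∈ L, ρ g v ∈ L)
    (h : ∀ g, ∃ w, (∀ k, Commute w k) ∧ w ^ 3 = 1 ∧ (∃ a : K, ∀ v, ρ w v = a • v) ∧ ρ (g * w * (g * w)) = 1)
    {u : V} (m : u ∈ L) (u0 : u ≠ 0) : ∃ v ∈ L, v ≠ 0 ∧ ∀ g, ∃ a : K, ρ g v = a • v := by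
  classical
  choose w c w3 sc sq using h
  have u1 (g) : ρ.toHomUnits (g * w g) * ρ.toHomUnits (g * w g) = 1 := Units.ext (by rw [← map_mul]; exact sq g)
  have cm (g h v) : ρ (g * w g) (ρ (h * w h) v) = ρ (h * w h) (ρ (g * w g) v) := by
    have := NL.cm (u1 g) (u1 h) ((c (g * w g * (h * w h)) _).map _) ((c _ _).map _) (by rw [← map_pow, w3, map_one])
      (by simpa only [map_mul] using u1 (g * w g * (h * w h)))
    exact LinearMap.congr_fun (congrArg Units.val this) v
  have (s : Finset Y) : ∃ v ∈ L, v ≠ 0 ∧ ∀ h ∈ s, ∃ a : K, ρ (h * w h) v = a • v := by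
    induction s using Finset.induction_on with
    | empty => exact ⟨u, m, u0, by simp⟩
    | insert h s _ k =>
      obtain ⟨v, a, d, e⟩ := k
      by_cases o : ρ (h * w h) v - v = 0
      · exact ⟨v, a, d, (Finset.forall_mem_insert ..).2 ⟨⟨1, by rwa [one_smul, ← sub_eq_zero]⟩, e⟩⟩
      refine ⟨_, sub_mem (i _ v a) a, o, (Finset.forall_mem_insert ..).2 ⟨⟨-1, ?_⟩, fun g m => ?_⟩⟩
      · rw [map_sub, ← End.mul_apply, ← map_mul, sq]; simp
      obtain ⟨ε, t⟩ := e g m
      exact ⟨ε, by rw [map_sub, cm, t, map_smul, smul_sub]⟩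
  obtain ⟨v, a, d, e⟩ := this (Set.toFinite (Set.univ : Set Y)).toFinset
  refine ⟨v, a, d, fun g => ?_⟩
  obtain ⟨ε, t⟩ := e g (by simp)
  obtain ⟨b, s⟩ := sc g
  refine ⟨b * (b * ε), ?_⟩
  rw [mul_smul, mul_smul, ← t, ← s, ← s, ← End.mul_apply, ← End.mul_apply, ← map_mul, ← map_mul,
    ((c g _).mul_left (c g _)).eq, mul_assoc, ← pow_three, w3, mul_one]

include E

theorem cube {g : Y} (h : θ g = 1) : g ^ 3 = 1 :=
  orderOf_dvd_iff_pow_eq_one.1 ((Subgroup.orderOf_dvd_natCard θ.ker h).trans (E.card ▸ E.dvd))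

theorem zc {g : Y} (h : θ g = 1) (y : Y) : Commute g y := (Subgroup.mem_center_iff.1 (E.cen h) y).symm

theorem count {r : Y →* End K V} {L D : Set V} (f : L.Finite) (i : ∀ x, ∀ v ∈ D, r x v ∈ L)
    (h : ∀ x, ∀ v ∈ D, r x v ∈ D → θ x ∈ H) : Nat.card X * D.ncard ≤ Nat.card H * L.ncard := by
  have := Ln.count (H := H.comap θ) f i h
  rw [← (H.comap θ).card_mul_index, H.index_comap_of_surjective E.surj, mul_assoc] at this
  rw [← H.card_mul_index, mul_assoc]
  exact Nat.mul_le_mul_left _ (Nat.le_of_mul_le_mul_left this Nat.card_pos)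

omit E in
theorem inv {n : ℕ} (h5 : 5 ≤ n) {j : An n →* X} (M : Mx H j) {j' : An n →* Y} (hj : ∀ g, θ (j' g) = j g)
    {r : Y →* End K V} (sc : ∀ g, θ g = 1 → ∃ a : K, ∀ v, r g v = a • v) {y : Y} (m : θ y ∈ H) {v : V}
    (u : v ∈ Fx (r.comp j')) : r y v ∈ Fx (r.comp j') := by
  have s (g) : ∃ a : K, r (j' g) (r y v) = a • r y v := by
    obtain ⟨g', e⟩ := M.nor _ (inv_mem m) g
    obtain ⟨a, k⟩ := sc ((j' g')⁻¹ * (y⁻¹ * j' g * y)) (by simp [hj, ← e, mul_assoc])
    refine ⟨a, ?_⟩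
    have := congrArg (r (y * j' g')) (k v)
    rw [← End.mul_apply, ← map_mul, map_smul, map_mul r y (j' g'), End.mul_apply,
      show r (j' g') v = v from mem_Fx.1 u g'] at this
    simpa [mul_assoc] using this
  generalize r y v = x at s
  choose a s using s
  have t (g) : r (j' g⁻¹) (r (j' g) x) = x := by rw [← End.mul_apply, ← map_mul, ← map_mul]; simp
  let N : Subgroup (An n) :=
    { carrier := {g | r (j' g) x = x}
      one_mem' := by simp
      mul_mem' {g h} (c : _ = _) (d : _ = _) := by simp [c, d]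
      inv_mem' {g} (c : _ = _) := show _ = _ by simpa only [c] using t g }
  refine mem_Fx.2 fun g => ((commutator_alternatingGroup_eq_top (by simpa using h5)).ge.trans
    (Subgroup.commutator_le.2 fun g _ h _ => ?_) : ⊤ ≤ N) trivial
  have c := t g
  have d := t h
  change r (j' (g * h * g⁻¹ * h⁻¹)) x = x
  simp only [map_mul, End.mul_apply, s, map_smul, smul_smul] at c d ⊢
  rw [show a h⁻¹ * (a g⁻¹ * (a h * a g)) = a g * a g⁻¹ * (a h * a h⁻¹) by ring, mul_smul, d, c]

end NL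

open NL

include E

theorem st_mem {A : Type*} [Group A] {j : A →* X} (M : Mx H j) {r : Y →* End K V} (i : Irr r)
    {U : Submodule K V} (h0 : U ≠ ⊥) (h1 : U ≠ ⊤) (hU : ∀ y, θ y ∈ H → ∀ v ∈ U, r y v ∈ U) {y : Y}
    (hy : ∀ v ∈ U, r y v ∈ U) : θ y ∈ H := by
  have l : H ≤ (St r U).map θ := fun x m => by
    obtain ⟨y, rfl⟩ := E.surj x
    exact ⟨y, hU y m, rfl⟩
  rcases M.co.le_iff.1 l with o | o
  · refine ((i U fun g v m => ?_).elim h0 h1).elim
    obtain ⟨k, c, e⟩ := o.ge (Subgroup.mem_top (θ g))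
    simpa [← End.mul_apply, ← map_mul] using c _ (hU (k⁻¹ * g) (by simp [e, one_mem]) v m)
  · exact o.le ⟨y, hy, rfl⟩

theorem nl {n : ℕ} (h5 : 5 ≤ n) {j : An n →* X} (M : Mx H j) {j' : An n →* Y}
    (hj : ∀ g, θ (j' g) = j g) {r : Y →* End K V} (i : Irr r) (d : 2 ≤ finrank K V)
    (sc : ∀ g, θ g = 1 → ∃ a : K, ∀ v, r g v = a • v) {F : Subfield K} [Finite F] (hr : Rt F r)
    (c : Nat.card H * Nat.card F ^ finrank K V < Nat.card X) : Fx (r.comp j') = ⊥ := by
  obtain ⟨b, hb⟩ := hr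
  refine le_bot_iff.1 ((Ln.le_span b (F := F) fun f v m => mem_Fx.2 fun g => ?_).ge.trans
    (Submodule.span_le.2 fun u m => ?_))
  · exact (Ln.pj_ap b (hb _) f v).symm.trans (congrArg _ (mem_Fx.1 m g))
  by_contra u0
  obtain ⟨v, a, v0, e⟩ := line (ρ := Representation.subrepresentation (r.comp (H.comap θ).subtype) (Fx (r.comp j'))
    fun g v m => inv h5 M hj sc g.2 m) (L := (Ln.La F b).comap (Fx (r.comp j')).subtype.toAddMonoidHom)
    (fun g v => Ln.ap_La b (hb _)) (fun y => by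
      obtain ⟨g, e⟩ := M.sq _ y.2
      have k : θ ((j' g)⁻¹ * (y * y)) = 1 := by simp [hj, e]
      obtain ⟨a, s⟩ := sc _ k
      refine ⟨⟨_, show θ _ ∈ H from k ▸ one_mem _⟩, fun t => Subtype.ext (zc E k t), Subtype.ext (cube E k),
        ⟨a, fun v => Subtype.ext (s v)⟩, LinearMap.ext fun v => Subtype.ext ?_⟩
      refine Eq.trans (congrArg (r · v.1) ?_) (mem_Fx.1 v.2 g)
      have := cube E k
      change y.1 * _ * (y.1 * _) = _
      rw [← pow_two, (zc E k _).symm.mul_pow]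
      rw [pow_succ', mul_assoc, inv_mul_eq_one] at this
      rw [pow_two, ← this]) (u := ⟨u, m.2⟩) m.1 fun o => u0 (congrArg Subtype.val o)
  have := count E (r := r) (H := H) (D := {v.1}) (Ln.card_La (F := F) b).1
    (by rintro x _ rfl; exact Ln.ap_La b (hb x) a) (by
      rintro x _ rfl (k : _ = _)
      have s {y} {t : K} (e : r y v = t • v.1) : ∀ w ∈ K ∙ v.1, r y w ∈ K ∙ v.1 := fun w m => by
        obtain ⟨c, rfl⟩ := Submodule.mem_span_singleton.1 m
        rw [map_smul, e, smul_smul]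
        exact Submodule.smul_mem _ _ (Submodule.mem_span_singleton_self _)
      refine st_mem E M i (U := K ∙ v.1) (by simpa using v0) (fun o => ?_) (fun y m => ?_) (s (t := 1) (by simpa using k))
      · have := finrank_span_singleton (K := K) (show v.1 ≠ 0 by simpa using v0)
        rw [o, finrank_top] at this
        omega
      · obtain ⟨t, e⟩ := e ⟨y, m⟩
        exact s (congrArg Subtype.val e))
  rw [Set.ncard_singleton, mul_one] at this
  exact c.not_ge (this.trans (Nat.mul_le_mul_left _ (Ln.card_La b).2))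

end CF.Am
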