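import Cfsg.Agent.Am.B
import Cfsg.Agent.Am.BG
import Cfsg.Agent.Am.SP

/-! The triple cover of `A₆`: elements of order three have a centralizer of dimension `30`. -/

set_option autoImplicit false

namespace CF.Am

open Module Function Cfsg.Lie CF.E83 CF.Al Equiv Equiv.Perm

namespace NS

theorem cj {a b : An 6} (h : IsConj a.1 b.1) {c : Perm (Fin 6)} (s : sign c = -1)
    (e : c * b.1 * c⁻¹ = b.1) : IsConj a b := by
  obtain ⟨π, hπ⟩ := isConj_iff.1 h
  rcases Int.units_eq_one_or (sign π) with k | k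
  · exact isConj_iff.2 ⟨⟨π, mem_alternatingGroup.2 k⟩, Subtype.ext hπ⟩
  · refine isConj_iff.2 ⟨⟨c * π, by simp [k, s]⟩, Subtype.ext (Eq.trans ?_ e)⟩
    change c * π * a.1 * (c * π)⁻¹ = _
    rw [← hπ]; group

/-- The two classes of elements of order three. -/
theorem cls {x : An 6} (e : x ^ 3 = 1) (n1 : x ≠ 1) : IsConj x x6 ∨ IsConj x (x6 * y6) := by
  have : Fact (Nat.Prime 3) := ⟨Nat.prime_three⟩
  have k : ∀ {x : An 6}, x ^ 3 = 1 → ∃ n, x.1.cycleType = .replicate n 3 ∧ n * 3 = x.1.support.card :=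
    fun {x} e => by
      have h := cycleType_of_pow_prime_eq_one (σ := x.1) (congrArg Subtype.val e)
      exact ⟨_, h, by rw [← sum_cycleType, h]; simp⟩
  obtain ⟨n, h1, h2⟩ := k e
  obtain ⟨a, h3, h4⟩ := k (x := x6) (by decide)
  obtain ⟨b, h5, h6⟩ := k (x := x6 * y6) (by decide)
  rw [show x6.1.support.card = 3 by decide] at h4
  rw [show (x6 * y6).1.support.card = 6 by decide] at h6
  have h7 : x.1.support.card ≤ 6 := by simpa using x.1.support.card_le_univ
  have h8 : x.1.support.card ≠ 0 := fun h =>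
    n1 (Subtype.ext (support_eq_empty_iff.1 (Finset.card_eq_zero.1 h)))
  rcases (by omega : n = a ∨ n = b) with rfl | rfl
  · exact .inl (cj (isConj_iff_cycleType_eq.2 (h1.trans h3.symm)) (c := swap 3 4) (by decide)
      (by decide))
  · exact .inr (cj (isConj_iff_cycleType_eq.2 (h1.trans h5.symm))
      (c := swap 0 3 * swap 1 4 * swap 2 5) (by decide) (by decide))

theorem same {x y : An 6} (ex : x ^ 3 = 1) (ey : y ^ 3 = 1) (n1 : x ≠ 1)
    (h : x.1.support.card = y.1.support.card) : IsConj x y := by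
  have k : ∀ {a b : An 6}, IsConj a b → a.1.support.card = b.1.support.card := fun h => by
    obtain ⟨g, rfl⟩ := isConj_iff.1 h
    exact (card_support_conj ..).symm
  have n2 : y ≠ 1 := by
    rintro rfl
    exact n1 (Subtype.ext (support_eq_empty_iff.1 (Finset.card_eq_zero.1 (by simpa using h))))
  have h3 : x6.1.support.card = 3 := by decide
  have h6 : (x6 * y6).1.support.card = 6 := by decide
  rcases cls ex n1 with a | a <;> rcases cls ey n2 with b | b
  · exact a.trans b.symm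
  · have := k a; have := k b; omega
  · have := k a; have := k b; omega
  · exact a.trans b.symm

/-- The Sylow subgroup. -/
def io : Multiplicative (Fin 3 × Fin 3) →* An 6 :=
  .mk' (fun a => x6 ^ a.toAdd.1.val * y6 ^ a.toAdd.2.val) (by decide +kernel)

variable {K V : Type*} [Field K] [AddCommGroup V] [Module K V] [FiniteDimensional K V]

theorem cnt {q : ℕ} (hq : (q : K) = 0) (q2 : 2 ≤ q) (h3 : (3 : K) ≠ 0) (l : An 6 →* End K V) :
    2 * dm l x6 + 2 * dm l (x6 * y6) = finrank K V + 3 * finrank K ↥(fs (l x6) ⊓ fs (l y6)) := by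
  obtain ⟨β, h⟩ := exists_br hq q2 l
  have h1 := h.hom io (by
    rw [show Fintype.card (Multiplicative (Fin 3 × Fin 3)) = 3 * 3 from rfl]
    exact_mod_cast mul_ne_zero h3 h3)
  have h2 : Fx (l.comp io) = fs (l x6) ⊓ fs (l y6) := by
    refine le_antisymm (fun v hv => ?_) fun v hv => mem_Fx.2 fun g => ?_
    · have a : l (io (.ofAdd (1, 0))) v = v := mem_Fx.1 hv _
      have b : l (io (.ofAdd (0, 1))) v = v := mem_Fx.1 hv _
      rw [show io (.ofAdd (1, 0)) = x6 by decide] at a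
      rw [show io (.ofAdd (0, 1)) = y6 by decide] at b
      exact ⟨mem_fs.2 a, mem_fs.2 b⟩
    · change l (x6 ^ _ * y6 ^ _) v = v
      rw [map_mul, map_pow, map_pow, End.mul_apply, End.pow_apply, End.pow_apply,
        iterate_fixed (mem_fs.1 hv.2), iterate_fixed (mem_fs.1 hv.1)]
  have a : ∀ i j, (io (.ofAdd (i, j))).1.support.card = 3 → β (io (.ofAdd (i, j))) = β x6 :=
    fun i j e => h.isConj (same (by revert i j; decide) (by decide)
      (fun k => by simp [k] at e) (e.trans (by decide)))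
  have b : ∀ i j, (io (.ofAdd (i, j))).1.support.card = 6 → β (io (.ofAdd (i, j))) = β (x6 * y6) :=
    fun i j e => h.isConj (same (by revert i j; decide) (by decide)
      (fun k => by simp [k] at e) (e.trans (by decide)))
  rw [h2, ← Multiplicative.ofAdd.sum_comp, Fintype.sum_prod_type] at h1
  simp only [Fin.sum_univ_three] at h1
  rw [a 0 1 (by decide), a 0 2 (by decide), a 1 0 (by decide), a 2 0 (by decide), b 1 1 (by decide),
    b 1 2 (by decide), b 2 1 (by decide), b 2 2 (by decide),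
    show io (.ofAdd (0, 0)) = 1 from map_one io, h.one,
    show Fintype.card (Multiplicative (Fin 3 × Fin 3)) = 9 from rfl] at h1
  have h4 := h.three h3 (x := x6) (by decide) (same (by decide) (by decide) (by decide) (by decide))
  have h5 := h.three h3 (x := x6 * y6) (by decide)
    (same (by decide) (by decide) (by decide) (by decide))
  have : (2 * dm l x6 + 2 * dm l (x6 * y6) : ℂ) =
      finrank K V + 3 * finrank K ↥(fs (l x6) ⊓ fs (l y6)) := by
    push_cast at h1
    linear_combination (h1 - 2 * h4 - 2 * h5) / 3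
  exact_mod_cast this

open CF.Chev CF.BN CF.ExA
variable {p q z k : ℕ} [Fact p.Prime] {X : Type*} [Group X] [Finite X] {π : Perm (Fin 6)}
  {L : LS cE6 π p q z X} {r : BN.Fx L.T.σ →* End L.K (N L.K)} {f : L.G →* GL (Fin 6 ⊕ Fin 72) L.K}
  {l : X →* End L.K (LA L.K)} (hz : z ∣ 3)
  (cen : ∀ g, L.θ g = 1 → ∃ a : L.K, a ^ 3 = 1 ∧ (g ≠ 1 → a ≠ 1) ∧ ∀ v, r g v = a • v)
  (hf : L.ρ.IsAdHom f) (eq : ∀ y : BN.Fx L.T.σ, l (L.θ y) = X3.Ad f y)
  (t : TB k r ((X3.Ad f).comp (BN.Fx L.T.σ).subtype))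
include hz cen hf eq t

theorem key {x y : X} (ex : x ^ 3 = 1) (ey : y ^ 3 = 1) (re : Re x) (c : Commute x y)
    (nc : Nc L.θ x y) :
    (3 : L.K) ≠ 0 ∧ (dm l x = 30 ∨ dm l x = 24 ∧ finrank L.K ↥(fs (l x) ⊓ fs (l y)) = 8) := by
  have E : Ce z L.θ := ⟨L.surj, fun g hg => Subgroup.mem_center_iff.2 fun a => Subtype.ext
    (Subgroup.mem_center_iff.1 ((L.ker g).1 hg) a), L.card_ker, hz⟩
  have : Finite (BN.Fx L.T.σ) := L.frob.finite
  obtain ⟨a', b, ha', rfl, n⟩ := nc
  obtain ⟨a, rfl, a3, ra⟩ := real_lift E ex re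
  replace n : ¬ Commute a b := fun h => n (by
    rw [show a' = a' * a⁻¹ * a by group]
    exact (SP.cm E (SP.dif ha') b).symm.mul_left h)
  obtain ⟨w, hw⟩ : ∃ w, b * a * b⁻¹ = a * w := ⟨a⁻¹ * (b * a * b⁻¹), by group⟩
  have w0 : L.θ w = 1 := by
    have := congrArg L.θ hw
    rw [map_mul, map_mul, map_inv, map_mul, ← c.eq, mul_inv_cancel_right] at this
    exact (mul_eq_left.1 this.symm)
  have w1 : w ≠ 1 := by
    rintro rfl
    exact n (by rw [mul_one, mul_inv_eq_iff_eq_mul] at hw; exact hw.symm)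
  have w2 : w.1 ≠ 1 := fun h => w1 (Subtype.ext h)
  obtain ⟨ω, o3, o1, ho⟩ := cen w w0
  replace o1 := o1 w1
  have h3 : (3 : L.K) ≠ 0 := fun h => o1 (sub_eq_zero.1 (pow_eq_zero_iff three_ne_zero |>.1
    (show (ω - 1) ^ 3 = 0 by linear_combination o3 - (ω ^ 2 - ω) * h)))
  have hp : p ≠ 3 := by
    rintro rfl
    exact h3 (CharP.cast_eq_zero L.K 3)
  have a1 : a ≠ 1 := by
    rintro rfl
    exact n (Commute.one_left b)
  have e1 : dm l (L.θ a) = dm ((X3.Ad f).comp (BN.Fx L.T.σ).subtype) a := by rw [dm, eq]; rfl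
  have d : dm r a ≠ 15 := fun h => by
    have h1 : dm r (a * w) = 15 := (dm_conj (isConj_iff.2 ⟨b, hw⟩)).symm.trans h
    have h2 := Submodule.finrank_add_finrank_le_of_disjoint (s := fs (r a))
      (t := fs (r (a * w))) (Submodule.disjoint_def.2 fun v h4 h5 => by
        rw [mem_fs] at h4 h5
        rw [map_mul, End.mul_apply, ho, map_smul, h4] at h5
        exact (smul_eq_zero.1 (show (ω - 1) • v = 0 by rw [sub_smul, h5, one_smul, sub_self])).resolve_left
          (sub_ne_zero.2 o1))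
    rw [t.dr] at h2
    change dm _ _ + dm _ _ ≤ _ at h2
    omega
  have d1 := ((t.n3 h3 a a3 a1 ra).resolve_right fun h => d h.1).2
  refine ⟨h3, ?_⟩
  rcases t.t3 h3 a a3 a1 ra with h | h | h
  · refine .inr ⟨e1.trans h, ?_⟩
    obtain ⟨g, c, -, hc⟩ := (in_top L).exists_tor (x := a) (((Nat.coprime_primes Nat.prime_three
      Fact.out).2 hp.symm).coprime_dvd_left (orderOf_dvd_of_pow_eq_one a3))
    rw [eq, eq]
    exact X3.x3 L.h hf hp hc (congrArg Subtype.val a3) ((L.ker w).1 w0) w2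
      (congrArg Subtype.val hw) ((L.ker (b ^ 3)).1 (by rw [map_pow, ey])) h
  · exact .inl (e1.trans h)
  · exact absurd h d1

/-- Any twist. -/
theorem gen {j : An 6 →* X} (nc : Nc L.θ (j x6) (j y6)) (x : An 6) (e : x ^ 3 = 1) (n1 : x ≠ 1) :
    dm l (j x) = 30 := by
  have p3 : ∀ {x : An 6}, x ^ 3 = 1 → j x ^ 3 = 1 := fun h => by rw [← map_pow, h, map_one]
  obtain ⟨h3, k1⟩ := key hz cen hf eq t (p3 (by decide)) (p3 (by decide))
    (Re.map j (same (by decide) (by decide) (by decide) (by decide)))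
    (Commute.map (Subtype.ext (by decide)) j) nc
  obtain ⟨-, k2⟩ := key hz cen hf eq t (x := j (x6 * y6)) (y := j y6) (p3 (by decide)) (p3 (by decide))
    (Re.map j (same (by decide) (by decide) (by decide) (by decide)))
    (Commute.map (Subtype.ext (by decide)) j) (by
      obtain ⟨a, b, ha, hb, n⟩ := nc
      exact ⟨a * b, b, by rw [map_mul, map_mul, ha, hb], hb, fun h =>
        n (by simpa using h.mul_left (Commute.refl b).inv_left)⟩)
  have k3 := cnt t.hq t.q2 h3 (l.comp j)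
  rw [t.dl] at k3
  rw [show fs (l (j (x6 * y6))) ⊓ fs (l (j y6)) = fs (l (j x6)) ⊓ fs (l (j y6)) from
    Submodule.ext fun v => and_congr_left fun h => by
      rw [SetLike.mem_coe, SetLike.mem_coe, mem_fs, mem_fs, map_mul, map_mul, End.mul_apply,
        mem_fs.1 h]] at k2
  change 2 * dm l (j x6) + 2 * dm l (j (x6 * y6)) =
    78 + 3 * finrank L.K ↥(fs (l (j x6)) ⊓ fs (l (j y6))) at k3
  rcases cls e n1 with h | h <;> rw [dm_conj (j.map_isConj h)] <;> omega

end NS

open CF.Chev CF.BN CF.ExA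
variable {p q z : ℕ} [Fact p.Prime] {X : Type*} [Group X] [Finite X] {L : LS cE6 1 p q z X}
  {R R' : L.G →* End L.K (N L.K)} {f : L.G →* GL (Fin 6 ⊕ Fin 72) L.K}
  {l : X →* End L.K (LA L.K)} (hz : z = Nat.gcd 3 (q - 1))
include hz

theorem ns3 (S : Sd L R R' 1) (D : Ld L f l) (t : TB q (rY L R) (rY L (X3.Ad f))) {j : An 6 →* X}
    (hj : Injective j) (nc : Nc L.θ (j x6) (j y6)) (x : An 6) (e : x ^ 3 = 1) (n1 : x ≠ 1) :
    dm l (j x) = 30 :=
  NS.gen (hz ▸ Nat.gcd_dvd_left ..) (fun g hg => (S.cen g ((L.ker g).1 hg)).imp fun _ h =>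
    ⟨h.1, fun n => h.2.1 fun k => n (Subtype.ext k), h.2.2⟩) D.hf D.eq t nc x e n1

end CF.Am
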