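import Cfsg.Agent.Am.TK
import Cfsg.Agent.Am.SP
import Cfsg.Agent.Am.NL

/-! Alternating subgroups of `E₆(q)`: tori in stabilisers of subspaces. -/

set_option autoImplicit false
set_option linter.unusedSectionVars false

namespace CF.Am

open Module Function Cfsg.Lie CF.E83 CF.Al CF.Chev CF.BN CF.ExA Matrix

namespace ST

section
variable {K V : Type*} [Field K] [AddCommGroup V] [Module K V] [FiniteDimensional K V]
  {U : Submodule K V}

theorem back {τ : K →+* K} [RingHomSurjective τ] (F : V →ₛₗ[τ] V) (hF : Surjective F)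
    (h : ∀ v ∈ U, F v ∈ U) {v : V} (hv : F v ∈ U) : v ∈ U := by
  rcases (show U ≤ U.comap F from h).eq_or_lt with e | e
  · exact e.ge hv
  · exact (not_strictMono_of_wellFoundedGT _
      ((Submodule.comap_strictMono_of_surjective hF).strictMono_iterate_of_lt_map e)).elim

/-- The stabiliser of a subspace. -/
def St {G : Type*} [Group G] (ρ : G →* End K V) (U : Submodule K V) : Subgroup G where
  carrier := {a | ∀ v ∈ U, ρ a v ∈ U}
  one_mem' v m := by simpa using m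
  mul_mem' {a b} x y v m := by simpa using x _ (y v m)
  inv_mem' {a} x v m := by
    have k : ∀ v, ρ a (ρ a⁻¹ v) = v := fun v => by rw [← End.mul_apply, ← map_mul]; simp
    exact back (ρ a) (fun v => ⟨_, k v⟩) x (by rwa [k])

theorem aut {X A : Type*} [Group X] [Group A] [Finite A] {H : Subgroup X} {j : A →* X} (M : Mx H j)
    {x : X} (hx : x ∈ H) : ∃ α : MulAut A, ∀ g, x * j g = j (α g) * x := by
  choose f hf using M.nor _ hx
  let a : A →* A := .mk' f fun a b => M.inj (by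
    rw [map_mul, ← hf, ← hf, ← hf, map_mul]; group)
  have i : Injective a := (injective_iff_map_eq_one a).2 fun g (e : f g = 1) => M.inj (by
    have := hf g
    rw [e, map_one, conj_eq_one_iff] at this
    rw [this, map_one])
  exact ⟨MulEquiv.ofBijective a (Finite.injective_iff_bijective.1 i), fun g =>
    mul_inv_eq_iff_eq_mul.1 (hf g)⟩

end

variable {B ι : Type} [Fintype B] [DecidableEq B] [Fintype ι] [DecidableEq ι] {C : ChevBasis B ι}
  {π : Equiv.Perm B} {p q z : ℕ} [Fact p.Prime] {X : Type*} [Group X] (L : LS C π p q z X)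

theorem φ_surj : Surjective L.φ := fun t => by
  obtain ⟨M, -, e⟩ := L.pow
  obtain ⟨s, hs⟩ := IsAlgClosed.exists_pow_nat_eq t (n := q) (e ▸ pow_pos (Fact.out : p.Prime).pos _)
  exact ⟨s, (L.φ_eq s).trans hs⟩

theorem φ_onto {J : Type} [Fintype J] {U : Submodule L.K (J → L.K)} (hφ : ∀ v ∈ U, L.φ ∘ v ∈ U)
    {v : J → L.K} (hv : v ∈ U) : ∃ w ∈ U, L.φ ∘ w = v := by
  have : RingHomSurjective L.φ := ⟨φ_surj L⟩
  have s : Surjective fun v : J → L.K => L.φ ∘ v := (φ_surj L).comp_left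
  obtain ⟨w, rfl⟩ := s v
  exact ⟨w, back (τ := L.φ) ⟨⟨fun v => L.φ ∘ v, fun _ _ => funext fun _ => map_add _ _ _⟩,
    fun _ _ => funext fun _ => map_mul _ _ _⟩ s hφ hv, rfl⟩

end ST

open CF.Am.ST

variable {p q z : ℕ} [Fact p.Prime] {X : Type*} [Group X] [Finite X] {L : LS cE6 1 p q z X}
  {R R' : L.G →* End L.K (N L.K)} {ε : ℤ} {f : L.G →* GL (Fin 6 ⊕ Fin 72) L.K}
  {l : X →* End L.K (LA L.K)} {H : Subgroup X} (hz : z = Nat.gcd 3 (q - 1))
include hz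

theorem no_tor {A : Type*} [Group A] {j : A →* X} (M : Mx H j) {J : Type} [Fintype J]
    {ρ : L.G →* End L.K (J → L.K)} (fr : ∀ g v, ρ (L.T.σ g) (L.φ ∘ v) = L.φ ∘ ρ g v)
    (ir : Irr (rY L ρ)) {U : Submodule L.K (J → L.K)} (h0 : U ≠ ⊥) (h1 : U ≠ ⊤)
    (hU : ∀ y : Yg L, L.θ y ∈ H → ∀ v ∈ U, ρ y v ∈ U) (hφ : ∀ v ∈ U, L.φ ∘ v ∈ U)
    {I : Type*} {g : L.G} {c : I → Fin 6 → L.Kˣ} {Q : I → Yg L} (hQ : ∀ i, (Q i).1 = tc L g (c i))
    (E : Set (Yg L)) {k : ℕ} {y : Fin k → Fin 6 → ℤ} (hy : LinearIndependent ℤ y)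
    (h2 : ∀ j r, (∀ i, rv cE6 (c i) r = 1) → pr cE6 (y j) (cE6.vec r) = 0)
    (h3 : ∀ j (t : L.Kˣ), ∀ v ∈ U, ρ (tc L g fun a => t ^ y j a) v ∈ U)
    (h4 : ∀ j (t : L.Kˣ), ∀ e ∈ E, Commute (tc L g fun a => t ^ y j a) e.1) :
    ∃ T ≤ H, Tk q z k T ∧ ∀ s ∈ T, (∀ i, Commute s (L.θ (Q i))) ∧ ∀ e ∈ E, Commute s (L.θ e) := by
  have : Finite (Yg L) := L.frob.finite
  obtain ⟨T, hT, h⟩ := exists_tk hz (g := g) (c := c) (fun i => hQ i ▸ (Q i).2)
    (Γ := St ρ U ⊓ Subgroup.centralizer (Subtype.val '' E)) (fun a ha => ⟨fun v hv => by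
      obtain ⟨w, hw, rfl⟩ := φ_onto L hφ hv
      exact fr a w ▸ hφ _ (ha.1 w hw), by
      rintro _ ⟨e, he, rfl⟩
      have := congrArg L.T.σ (ha.2 _ ⟨e, he, rfl⟩)
      rwa [map_mul, map_mul, show L.T.σ e.1 = e.1 from e.2] at this⟩) hy h2
    fun j t => ⟨h3 j t, by rintro _ ⟨e, he, rfl⟩; exact (h4 j t e he).symm⟩
  refine ⟨T, fun s hs => ?_, hT, fun s hs => ?_⟩ <;> obtain ⟨a, rfl, ha, e, -, he⟩ := h s hs
  · exact st_mem (ce L hz) M ir h0 h1 hU ha.1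
  refine ⟨fun i => Commute.map (Subtype.ext ?_) _, fun e m =>
    Commute.map (Subtype.ext (ha.2 _ ⟨e, m, rfl⟩).symm) _⟩
  rw [Subgroup.coe_mul, Subgroup.coe_mul, he, hQ, conj_mul, conj_mul, ← map_mul, ← map_mul, mul_comm e]

theorem can_N {n : ℕ} (h5 : 5 ≤ n) {j : An n →* X} (M : Mx H j) {j' : An n →* Yg L}
    (hj : ∀ g, L.θ (j' g) = j g) (S : Sd L R R' ε) {U : Submodule L.K (N L.K)}
    (h : Can ((rY L R).comp j') U) :
    (∀ y : Yg L, L.θ y ∈ H → ∀ v ∈ U, R y v ∈ U) ∧ ∀ v ∈ U, L.φ ∘ v ∈ U := by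
  have : Finite (Yg L) := L.frob.finite
  refine ⟨fun y hy => ?_, h (L.φ.toAddMonoidHom.compLeft _) 1 fun a v => ?_⟩
  · obtain ⟨α, e⟩ := norm_lift (ce L hz) h5 M hj hy
    exact h (R y).toAddMonoidHom α fun a v => by
      simpa using congrArg (fun x : Yg L => R x v) (e a)
  · have := S.fr (j' a) v
    rw [show L.T.σ (j' a).1 = (j' a).1 from (j' a).2] at this
    exact this.symm

theorem can_L {A : Type*} [Group A] [Finite A] {j : A →* X} (M : Mx H j) (D : Ld L f l)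
    {U : Submodule L.K (LA L.K)} (h : Can (l.comp j) U) :
    (∀ y : Yg L, L.θ y ∈ H → ∀ v ∈ U, X3.Ad f y v ∈ U) ∧ ∀ v ∈ U, L.φ ∘ v ∈ U := by
  refine ⟨fun y hy => ?_, h (L.φ.toAddMonoidHom.compLeft _) 1 fun a v => ?_⟩
  · obtain ⟨α, e⟩ := aut M hy
    rw [← D.eq]
    exact h (l (L.θ y)).toAddMonoidHom α fun a v => by
      simpa using congrArg (fun x => l x v) (e a)
  · obtain ⟨y, e⟩ := L.surj (j a)
    have := D.fr y v
    rw [show L.T.σ y.1 = y.1 from y.2, ← D.eq, e] at this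
    exact this.symm

end CF.Am
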