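import Cfsg.Agent.Am.A
import Cfsg.Agent.Am.G2

/-! The fixed points of a Frobenius map on a stable subtorus. -/

set_option autoImplicit false

namespace CF.Am

open Module Function Cfsg.Lie CF.Chev CF.BN CF.ExA Matrix

namespace TK

theorem det_ten {M : Matrix (Fin 3) (Fin 3) ℤ} {d : ℕ} (hd : 0 < d) (h : M ^ d = 1) :
    ¬ ((3 : ℤ) • M - 1).det.natAbs ∣ 10 := fun e => by
  obtain ⟨d, rfl⟩ := Nat.exists_eq_add_one_of_ne_zero hd.ne'
  let G := ∑ j ∈ Finset.range (d + 1), (M ^ j)ᵀ * M ^ j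
  have h1 : Mᵀ * G * M = G := by
    have := Finset.sum_range_succ' (fun j => (M ^ j)ᵀ * M ^ j) (d + 1)
    rw [Finset.sum_range_succ, h, pow_zero, add_left_inj] at this
    refine .trans ?_ this.symm
    simp only [G, Finset.mul_sum, Finset.sum_mul, pow_succ, transpose_mul, Matrix.mul_assoc]
  have h2 : G.det ≠ 0 := fun k => by
    obtain ⟨v, hv, k⟩ := exists_mulVec_eq_zero_iff.2 k
    have h3 : ∑ j ∈ Finset.range (d + 1), (M ^ j *ᵥ v) ⬝ᵥ (M ^ j *ᵥ v) = 0 := by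
      have := congrArg (v ⬝ᵥ ·) k
      simpa only [G, sum_mulVec, dotProduct_sum, ← mulVec_mulVec, dotProduct_mulVec v, vecMul_transpose,
        dotProduct_zero] using this
    have := (Finset.sum_eq_zero_iff_of_nonneg fun j _ => Finset.sum_nonneg fun i _ =>
      mul_self_nonneg _).1 h3 0 (by simp)
    rw [pow_zero, one_mulVec] at this
    exact hv (dotProduct_self_eq_zero.1 this)
  have h3 : (((3 : ℤ) • (1 : Matrix _ _ ℤ) - M)ᵀ * G * M).det = (G * ((3 : ℤ) • M - 1)).det := by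
    congr 1
    rw [transpose_sub, Matrix.sub_mul, Matrix.sub_mul, h1]
    simp only [Matrix.mul_sub, transpose_smul, transpose_one, smul_mul_assoc, mul_smul_comm, one_mul, mul_one]
  rw [det_mul, det_mul, det_mul, det_transpose, mul_right_comm, mul_comm, mul_right_inj' h2] at h3
  obtain ⟨a, c, k⟩ : ∃ a c : ℤ, ∀ x y : ℤ, (x • M - y • (1 : Matrix _ _ ℤ)).det =
      x ^ 3 * M.det - x ^ 2 * y * c + x * y ^ 2 * a - y ^ 3 :=
    ⟨M 0 0 + M 1 1 + M 2 2, M 0 0 * M 1 1 - M 0 1 * M 1 0 + M 0 0 * M 2 2 - M 0 2 * M 2 0 + M 1 1 * M 2 2 -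
      M 1 2 * M 2 1, fun x y => by
      simp only [det_fin_three, Matrix.sub_apply, Matrix.smul_apply, smul_eq_mul, Matrix.one_apply]; simp; ring⟩
  have h4 := G1.le_det hd h 3
  have h5 := G1.le_det hd h 4
  have k1 := k 3 1
  have k2 := k 4 1
  have k3 := k (-1) (-3)
  simp only [one_smul, neg_smul, neg_sub_neg, Nat.cast_ofNat, Fintype.card_fin] at *
  have h6 := Nat.le_of_dvd (by norm_num) e
  have h7 : ((3 : ℤ) • M - 1).det.natAbs = 10 := by
    generalize ((3 : ℤ) • M - 1).det.natAbs = n at *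
    interval_cases n <;> simp at e ⊢
  rw [k3] at h3
  rw [k2] at h5
  rw [k1] at h3 h7
  rcases Int.isUnit_iff.1 (IsUnit.of_pow_eq_one (a := M.det) (n := d + 1) (by rw [← det_pow, h, det_one]) hd.ne') with u | u <;>
    rw [u] at h3 h5 h7 <;> norm_num at h3 h5 h7 <;> omega

variable {B ι : Type} [Fintype B] [DecidableEq B] [Fintype ι] [DecidableEq ι] {C : ChevBasis B ι}
  {π : Equiv.Perm B} {p q z : ℕ} [Fact p.Prime] {X : Type*} [Group X] {L : LS C π p q z X}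

theorem root {K : Type*} [Field K] [IsAlgClosed K] (t : Kˣ) {n : ℕ} (hn : 0 < n) : ∃ s, s ^ n = t :=
  let ⟨s, e⟩ := IsAlgClosed.exists_pow_nat_eq (t : K) hn
  ⟨.mk0 s fun h => t.ne_zero (by rw [← e, h, zero_pow hn.ne']), Units.ext e⟩

/-- The fixed points on the largest subtorus inside `Γ`. -/
theorem gen (hπ : G1.Gr C π) {I : Type*} {g : L.G} {c : I → B → L.Kˣ}
    (hQ : ∀ i, L.T.σ (g * L.h.r3.tor (c i) * g⁻¹) = g * L.h.r3.tor (c i) * g⁻¹) {Γ : Subgroup L.G}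
    (hΓ : ∀ a ∈ Γ, L.T.σ a ∈ Γ) {k : ℕ} {y : Fin k → B → ℤ} (hy : LinearIndependent ℤ y)
    (h1 : ∀ j r, (∀ i, rv C (c i) r = 1) → pr C (y j) (C.vec r) = 0)
    (h2 : ∀ j (t : L.Kˣ), g * L.h.r3.tor (fun a => t ^ y j a) * g⁻¹ ∈ Γ) :
    ∃ (n d : ℕ) (M : Matrix (Fin n) (Fin n) ℤ) (ψ : (mp (A := L.Kˣ) ((q : ℤ) • M - 1)).ker →* BN.Fx L.T.σ),
      k ≤ n ∧ 0 < d ∧ M ^ d = 1 ∧ Injective ψ ∧
      Nat.card (mp (A := L.Kˣ) ((q : ℤ) • M - 1)).ker = ((q : ℤ) • M - 1).det.natAbs ∧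
      ∀ s, (ψ s).1 ∈ Γ ∧ ∃ e, (∀ r, (∀ i, rv C (c i) r = 1) → rv C e r = 1) ∧
        (ψ s).1 = g * L.h.r3.tor e * g⁻¹ := by
  obtain ⟨τ, hτ, h0⟩ := hπ
  obtain ⟨w, hw, h3, h4⟩ := G2.exists_v L hτ h0 (T := Set.range c) (by rintro _ ⟨i, rfl⟩; exact hQ i)
  simp only [Set.forall_mem_range] at h3 h4
  have hv := mul_mem (C.W_le_Aut hw) hτ
  generalize w * τ = v at h3 h4 hv
  let χ : (B → L.Kˣ) →* L.G := (MulAut.conj g).toMonoidHom.comp L.h.r3.tor
  have hχ : ∀ e, χ e = g * L.h.r3.tor e * g⁻¹ := fun _ => rfl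
  let P : Submodule ℤ (B → ℤ) :=
    { carrier := {y | (∀ r, (∀ i, rv C (c i) r = 1) → pr C y (C.vec r) = 0) ∧
        ∀ t : L.Kˣ, (fun a => t ^ y a) ∈ Γ.comap χ}
      add_mem' := fun a b => ⟨fun r hr => by rw [pr_add, a.1 r hr, b.1 r hr, add_zero], fun t => by
        simp only [Pi.add_apply, _root_.zpow_add]; exact mul_mem (a.2 t) (b.2 t)⟩
      zero_mem' := ⟨fun r _ => by simp [pr_apply], fun t => by
        simp only [Pi.zero_apply, zpow_zero]; exact one_mem _⟩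
      smul_mem' := fun m _ a => ⟨fun r hr => by rw [pr_smul, a.1 r hr, mul_zero], fun t => by
        simpa only [Pi.smul_apply, smul_eq_mul, _root_.zpow_mul] using a.2 (t ^ m)⟩ }
  have k1 : ∀ {y}, y ∈ P → ∀ t : L.Kˣ, ∀ r, (∀ i, rv C (c i) r = 1) → rv C (fun a => t ^ y a) r = 1 :=
    fun hy t r hr => by
      have := hy.1 r hr
      rw [pr_vec] at this
      simp only [rv_eq, ← _root_.zpow_mul, ← zpow_sum', this, zpow_zero]
  have : IsTorsionFree ℤ ((B → ℤ) ⧸ P) := .of_smul_eq_zero fun m x e => or_iff_not_imp_left.2 fun hm => by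
    obtain ⟨x, rfl⟩ := P.mkQ_surjective x
    replace e : (m.natAbs : ℤ) • x ∈ P := by
      have : m • x ∈ P := (Submodule.Quotient.mk_eq_zero _).1 e
      rcases Int.natAbs_eq m with k | k
      exacts [k ▸ this, by simpa using P.neg_mem (k ▸ this :)]
    refine (Submodule.Quotient.mk_eq_zero _).2 ⟨fun r hr => ?_, fun t => ?_⟩
    · have := e.1 r hr
      rw [pr_smul] at this
      simpa [hm] using this
    · obtain ⟨s, rfl⟩ := root t (Int.natAbs_pos.2 hm)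
      simpa only [Pi.smul_apply, smul_eq_mul, _root_.zpow_mul, zpow_natCast] using e.2 s
  let f := (Module.finBasis ℤ ((B → ℤ) ⧸ P)).equivFun.toLinearMap ∘ₗ P.mkQ
  have hf : f.ker = P := by simp [f]
  have q0 : 0 < q := by obtain ⟨M, -, rfl⟩ := L.pow; exact pow_pos (Fact.out : p.Prime).pos _
  obtain ⟨Λ, Δ, M, h5, h6, h7⟩ := G1.exists_sub f (A := Mw C v) fun y hy => by
    rw [hf] at hy ⊢
    refine ⟨fun r hr => ?_, fun t => ?_⟩
    · obtain ⟨r, rfl⟩ := v.surjective r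
      rw [pr_Mw hv, hy.1 r fun i => ?_]
      rw [← G1.rv_pow, ← rv_Mw hv, h3 i, hr i]
    · obtain ⟨s, rfl⟩ := root t q0
      have := hΓ _ (hy.2 s)
      rw [hχ, h4 _ (k1 hy s)] at this
      refine Subgroup.mem_comap.2 (hχ _ ▸ (congrArg (fun e => g * L.h.r3.tor e * g⁻¹ ∈ Γ) (funext fun a => ?_)).mp this)
      simp only [mp_apply, Pi.pow_apply, ← zpow_natCast, ← _root_.zpow_mul, ← zpow_sum', mulVec,
        dotProduct, Finset.mul_sum]
      exact congrArg _ (Finset.sum_congr rfl fun _ _ => by ring)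
  have hk : k ≤ finrank ℤ f.ker := by
    simpa using (LinearIndependent.of_comp f.ker.subtype
      (v := fun j => (⟨y j, hf.ge ⟨h1 j, h2 j⟩⟩ : f.ker)) hy).fintype_card_le_finrank
  simp only [hf] at h7
  generalize finrank ℤ f.ker = n at Λ Δ M h5 h6 h7 hk
  have h8 : ∀ m, Mw C v ^ m * Λ = Λ * M ^ m := fun m => by
    induction' m with m ih
    · simp
    · rw [pow_succ, Matrix.mul_assoc, h6, ← Matrix.mul_assoc, ih, Matrix.mul_assoc, pow_succ]
  have h9 : M ^ orderOf v = 1 := by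
    rw [← Matrix.one_mul (M ^ _), ← h5, Matrix.mul_assoc, ← h8, ← Mw_pow hv, pow_orderOf_eq_one,
      Mw_one, Matrix.one_mul]
  have e1 : ∀ t : _ → L.Kˣ, mp Λ t = ∏ j, fun a => t j ^ Λᵀ j a := fun t => funext fun a => by
    simp [mp_apply]
  have e2 : ∀ t : _ → L.Kˣ, ∀ r, (∀ i, rv C (c i) r = 1) → rv C (mp Λ t) r = 1 := fun t r hr => by
    rw [rv_eq]
    refine (prod_prod_zpow t (fun j k => Λ j k) _).trans (Finset.prod_eq_one fun j _ => ?_)
    have := (h7 j).1 r hr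
    rw [pr_vec] at this
    simp only [transpose_apply] at this
    simp [this]
  have e3 := card_ker_mp (K := L.K) (E := (q : ℤ) • M - 1) (by
    have := (Int.castRingHom L.K).map_det ((q : ℤ) • M - 1)
    rw [show RingHom.mapMatrix _ _ = -1 by
      ext i j
      change (((q : ℤ) * M i j - (1 : Matrix _ _ ℤ) i j : ℤ) : L.K) = _
      by_cases h : i = j <;> simp [L.cast_q, h, one_apply]] at this
    exact this.trans_ne (by simp [det_neg]))
  have e4 : ∀ t : (mp ((q : ℤ) • M - 1)).ker, (χ.comp (mp Λ)).comp (Subgroup.subtype _) t ∈ BN.Fx L.T.σ :=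
    fun ⟨t, ht⟩ => by
    have : mp ((q : ℤ) • M - 1) t = 1 := ht
    rw [sub_eq_add_neg, mp_add, ← neg_one_smul ℤ (1 : Matrix _ _ ℤ), mp_smul, mp_smul, mp_one,
      _root_.zpow_neg_one, mul_inv_eq_one, zpow_natCast] at this
    change L.T.σ (χ (mp Λ t)) = χ (mp Λ t)
    rw [hχ, h4 _ (e2 t), map_pow, mp_mp, h6, ← mp_mp, ← map_pow, this]
  refine ⟨n, _, M, MonoidHom.codRestrict _ _ e4, hk, orderOf_pos v, h9, fun a b e => ?_, e3, fun t =>
    ⟨show mp Λ t.1 ∈ Γ.comap χ from e1 _ ▸ prod_mem fun j _ => (h7 j).2 _, _, e2 t, rfl⟩⟩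
  have : χ (mp Λ a) = χ (mp Λ b) := congrArg Subtype.val e
  rw [hχ, hχ, mul_left_inj, mul_right_inj] at this
  have := congrArg (mp Δ) (L.h.inj this)
  exact Subtype.ext (by simpa [mp_mp, h5, mp_one] using this)

end TK

variable {p q z : ℕ} [Fact p.Prime] {X : Type*} [Group X] [Finite X] {L : LS cE6 1 p q z X}
  (hz : z = Nat.gcd 3 (q - 1))
include hz

variable (L) in
theorem ce : Ce z L.θ :=
  ⟨L.surj, fun g h => Subgroup.mem_center_iff.2 fun a => Subtype.ext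
    (Subgroup.mem_center_iff.1 ((L.ker g).1 h) a), L.card_ker, hz ▸ Nat.gcd_dvd_left _ _⟩

theorem exists_tk {I : Type*} {g : L.G} {c : I → Fin 6 → L.Kˣ}
    (hQ : ∀ i, L.T.σ (tc L g (c i)) = tc L g (c i)) {Γ : Subgroup L.G} (hΓ : ∀ a ∈ Γ, L.T.σ a ∈ Γ)
    {k : ℕ} {y : Fin k → Fin 6 → ℤ} (hy : LinearIndependent ℤ y)
    (h1 : ∀ j r, (∀ i, rv cE6 (c i) r = 1) → pr cE6 (y j) (cE6.vec r) = 0)
    (h2 : ∀ j (t : L.Kˣ), tc L g (fun a => t ^ y j a) ∈ Γ) :
    ∃ T : Subgroup X, Tk q z k T ∧ ∀ s ∈ T, ∃ a : Yg L, L.θ a = s ∧ a.1 ∈ Γ ∧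
      ∃ e, (∀ r, (∀ i, rv cE6 (c i) r = 1) → rv cE6 e r = 1) ∧ a.1 = tc L g e := by
  obtain ⟨n, d, M, ψ, hk, hd, hM, inj, cd, h⟩ := TK.gen G1.gr_one hQ hΓ hy h1 h2
  have le := G1.le_det hd hM q
  rw [Fintype.card_fin, ← cd] at le
  have hq : 0 < q - 1 := by
    obtain ⟨M, hM, e⟩ := L.pow
    exact Nat.sub_pos_of_lt (e ▸ Nat.one_lt_pow hM.ne' (Fact.out : p.Prime).one_lt)
  have z0 : 0 < z := hz ▸ Nat.gcd_pos_of_pos_left _ (by norm_num)
  have fk : Finite L.θ.ker := Nat.finite_of_card_ne_zero (L.card_ker.trans_ne z0.ne')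
  have e1 := (L.θ.comp ψ).ker.card_mul_index
  rw [Subgroup.index_ker] at e1
  have e2 : Nat.card (L.θ.comp ψ).ker ≤ z := (Nat.card_le_card_of_injective
    (β := L.θ.ker) (fun s => ⟨ψ s.1, s.2⟩) fun a b e => Subtype.ext (inj (congrArg Subtype.val e))).trans_eq L.card_ker
  refine ⟨(L.θ.comp ψ).range, ⟨((Nat.pow_le_pow_right hq hk).trans le).trans
    (e1 ▸ Nat.mul_le_mul_right _ e2), fun k0 m hm e => ?_, ?_, ?_⟩, ?_⟩
  · have : NeZero (m * z) := ⟨(Nat.mul_pos hm z0).ne'⟩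
    have h4 := Nat.card_le_card_of_injective (β := Fin n → rootsOfUnity (m * z) L.K)
      (fun s : (mp (A := L.Kˣ) ((q : ℤ) • M - 1)).ker => fun i => ⟨s.1 i, congrFun (congrArg Subtype.val
        (inj (a₁ := s ^ (m * z)) (a₂ := 1) (by
          have := pow_card_eq_one' (x := (⟨ψ s ^ m, (map_pow L.θ _ _).trans (e _ ⟨s, rfl⟩)⟩ : L.θ.ker))
          rw [L.card_ker] at this
          rw [map_pow, pow_mul, map_one]
          exact congrArg Subtype.val this))) i⟩)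
      fun a b e => Subtype.ext (funext fun i => congrArg Subtype.val (congrFun e i))
    rw [Nat.card_fun, Nat.card_eq_fintype_card (α := Fin _), Fintype.card_fin] at h4
    have := (Nat.pow_le_pow_iff_left (k0.trans_le hk).ne').1 (le.trans (h4.trans
      (Nat.pow_le_pow_left (card_rootsOfUnity L.K _) _)))
    omega
  · refine Nat.Coprime.coprime_dvd_left (Dvd.intro_left _ e1) ?_
    have := (Int.castRingHom (ZMod q)).map_det ((q : ℤ) • M - 1)
    rw [show RingHom.mapMatrix _ _ = -1 by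
      ext i j
      change (((q : ℤ) * M i j - (1 : Matrix _ _ ℤ) i j : ℤ) : ZMod q) = _
      by_cases h : i = j <;> simp [h, one_apply]] at this
    rw [cd, ← Int.natAbs_natCast q, ← Int.isCoprime_iff_nat_coprime, isCoprime_comm,
      ← ZMod.coe_int_isUnit_iff_isCoprime]
    exact (congrArg IsUnit this).mpr (by simpa [det_neg] using isUnit_one.neg.pow n)
  · rintro rfl k3 e
    obtain rfl : z = 1 := hz
    have e3 : Nat.card (L.θ.comp ψ).ker = 1 := by
      refine le_antisymm e2 (Nat.pos_of_ne_zero fun k => ?_)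
      rw [k, zero_mul] at e1
      exact absurd (e1 ▸ le) (by simp)
    rw [e3, one_mul] at e1
    rw [e1] at e
    obtain rfl : n = 3 := le_antisymm (by_contra fun n4 => by
      have := (Nat.pow_le_pow_right hq (show 4 ≤ n by omega)).trans (le.trans (Nat.le_of_dvd (by norm_num) e))
      omega) (k3.trans hk)
    exact TK.det_ten hd hM (cd ▸ e)
  · rintro _ ⟨s, rfl⟩
    exact ⟨_, rfl, h s⟩

end CF.Am
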