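import Cfsg.Agent.Am.B
import Cfsg.Agent.Am.SP
import Cfsg.Agent.Am.TK
import Cfsg.Agent.Am.ST

/-! Totally white submodules and tori. -/

set_option autoImplicit false

namespace CF.Am

open Module Function Cfsg.Lie CF.E83 CF.Al CF.Chev CF.BN CF.ExA Matrix

namespace WP

variable {K : Type*} [Field K]

theorem sh_map (φ : K →+* K) (v : N K) : sh (φ ∘ v) = φ ∘ sh v := by
  funext a
  simp [sh, Geom.E6.Q]

/-- A subspace that is invariant under diagonal maps is spanned by joint eigenvectors. -/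
theorem eig {J I : Type*} [Fintype J] [DecidableEq J] {D : I → End K (J → K)} {μ : I → J → K}
    (hD : ∀ i a, D i (Pi.single a 1) = μ i a • Pi.single a 1) {W : Submodule K (J → K)}
    (hW : ∀ i, ∀ v ∈ W, D i v ∈ W) {T : End K (J → K)}
    (hT : ∀ v ∈ W, (∀ i, ∃ m : K, D i v = m • v) → T v ∈ W) : ∀ v ∈ W, T v ∈ W := by
  classical
  have e : ∀ i v a, D i v a = μ i a * v a := fun i v a => by
    conv_lhs => rw [pi_eq_sum_univ' v]
    simp [hD, Pi.single_apply, mul_comm]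
  intro v
  induction h : (Finset.univ.filter fun a => v a ≠ 0).card using Nat.strong_induction_on generalizing v with
  | _ n ih =>
  intro hv
  by_cases c : ∀ i a b, v a ≠ 0 → v b ≠ 0 → μ i a = μ i b
  · refine hT v hv fun i => ?_
    by_cases v0 : v = 0
    · exact ⟨0, by simp [v0]⟩
    obtain ⟨a, ha⟩ := Function.ne_iff.1 v0
    refine ⟨μ i a, funext fun b => ?_⟩
    by_cases hb : v b = 0
    · simp [e, hb]
    · simp [e, c i a b ha hb]
  push Not at c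
  obtain ⟨i, a, b, ha, hb, ne⟩ := c
  have k : ∀ a, v a ≠ 0 → T (D i v - μ i a • v) ∈ W := fun a ha =>
    ih _ (h ▸ Finset.card_lt_card ⟨fun x hx => by
      simp only [Finset.mem_filter, Finset.mem_univ, true_and] at hx ⊢
      exact fun x0 => hx (by simp [e, x0]), fun s => by
      simpa [e] using s (Finset.mem_filter.2 ⟨Finset.mem_univ a, ha⟩)⟩) _ rfl
      (W.sub_mem (hW i v hv) (W.smul_mem _ hv))
  have := W.smul_mem (μ i a - μ i b)⁻¹ (W.sub_mem (k b hb) (k a ha))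
  rwa [← map_sub, sub_sub_sub_cancel_left, ← sub_smul, map_smul, smul_smul, inv_mul_cancel₀ (sub_ne_zero.2 ne),
    one_smul] at this

/-- The coordinatewise field map. -/
def sl {J : Type*} (φ : K →+* K) : (J → K) →ₛₗ[φ] (J → K) where
  toFun v := φ ∘ v
  map_add' a b := funext fun i => map_add φ (a i) (b i)
  map_smul' a b := funext fun i => map_mul φ a (b i)

end WP

variable {p q z : ℕ} [Fact p.Prime] {X : Type*} [Group X] [Finite X] {L : LS cE6 1 p q z X}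
  {R R' : L.G →* End L.K (N L.K)} {ε : ℤ} {H : Subgroup X} (hz : z = Nat.gcd 3 (q - 1))
include hz

theorem wp_of {n : ℕ} (h5 : 5 ≤ n) {j : An n →* X} (M : Mx H j) {j' : An n →* Yg L}
    (hj : ∀ g, L.θ (j' g) = j g) (S : Sd L R R' ε) {I : Type} [Finite I] {g : L.G}
    {c : I → Fin 6 → L.Kˣ} {Q : I → An n} (hQ : ∀ i, (j' (Q i)).1 = tc L g (c i)) {k : ℕ}
    {y : Fin k → Fin 6 → ℤ} (hy : LinearIndependent ℤ y)
    (h2 : ∀ j r, (∀ i, rv cE6 (c i) r = 1) → pr cE6 (y j) (cE6.vec r) = 0)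
    (pu : ∀ v, sh v = 0 → (∀ i, ∃ μ : L.K, R (L.h.r3.tor (c i)) v = μ • v) → ∀ j (t : L.Kˣ),
      ∃ μ : L.K, R (L.h.r3.tor fun a => t ^ y j a) v = μ • v)
    (sm : ∀ T ≤ H, (∀ s ∈ T, ∀ i, Commute s (j (Q i))) → ¬ Tk q z k T) :
    WP ((rY L R).comp j') := by
  intro U hU U1 W0 le sb tw
  by_contra W1
  obtain ⟨c1, c2⟩ := can_N hz h5 M hj S hU
  let P : Set (Submodule L.K (N L.K)) := {W | W ≤ U ∧ Sb ((rY L R).comp j') W ∧ TW W}
  have ind : ∀ F : N L.K →+ N L.K, (∀ W ∈ P, ∃ W' ∈ P, ∀ v ∈ W, F v ∈ W') → ∀ v ∈ sSup P, F v ∈ sSup P :=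
    fun F h v hv => Submodule.iSup_induction (fun W : P => W.1) (motive := fun v => F v ∈ sSup P)
      (by rwa [← sSup_eq_iSup']) (fun W v hv => let ⟨_, a, b⟩ := h W W.2; (le_sSup a : _ ≤ sSup P) (b v hv)) (by simp)
      fun a b ha hb => by rw [map_add]; exact add_mem ha hb
  have mm : ∀ a b v, R a (R b v) = R (a * b) v := fun a b v => by rw [map_mul, End.mul_apply]
  have : Finite (Yg L) := L.frob.finite
  have : RingHomSurjective L.φ := ⟨fun x => by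
    obtain ⟨m, -, e⟩ := L.pow
    simpa only [L.φ_eq] using IsAlgClosed.exists_pow_nat_eq x (e ▸ pow_pos (Fact.out : p.Prime).pos m : 0 < q)⟩
  refine (no_tor hz M S.fr S.irr (U := sSup P)
    (fun e => W1 (eq_bot_iff.2 (e ▸ le_sSup ⟨le, sb, tw⟩)))
    (fun e => U1 (eq_top_iff.2 (e ▸ sSup_le fun _ h => h.1)))
    (fun y hy => ind (R y).toAddMonoidHom fun W hW => ⟨W.map (R y), ⟨?_, ?_, ?_⟩, fun v hv => ⟨v, hv, rfl⟩⟩)
    (ind (WP.sl L.φ).toAddMonoidHom fun W hW => ⟨W.map (WP.sl L.φ), ⟨?_, ?_, ?_⟩,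
      fun v hv => ⟨v, hv, rfl⟩⟩) hQ ∅ hy h2
    (fun i t => ind (R _).toAddMonoidHom fun W hW => ⟨W, hW, fun v hv => ?_⟩) (by simp)).elim
    fun T ⟨t1, t2, t3⟩ => sm T t1 (fun s hs i => hj _ ▸ (t3 s hs).1 i) t2
  · rintro _ ⟨v, hv, rfl⟩
    exact c1 y hy v (hW.1 hv)
  · rintro a _ ⟨v, hv, rfl⟩
    obtain ⟨α, hα⟩ := norm_lift (ce L hz) h5 M hj hy
    refine ⟨_, hW.2.1 (α⁻¹ a) v hv, ?_⟩
    have := congrArg (fun x : Yg L => R x v) (hα (α⁻¹ a))
    simpa [← mm] using this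
  · rintro _ ⟨v, hv, rfl⟩
    rw [(S.jp _).s1, hW.2.2 v hv, map_zero]
  · rintro _ ⟨v, hv, rfl⟩
    exact c2 v (hW.1 hv)
  · rintro a _ ⟨v, hv, rfl⟩
    refine ⟨_, hW.2.1 a v hv, (S.fr (j' a) v).symm.trans ?_⟩
    rw [show L.T.σ (j' a) = j' a from (j' a).2]
    rfl
  · rintro _ ⟨v, hv, rfl⟩
    refine (WP.sh_map L.φ v).trans ?_
    rw [hW.2.2 v hv]
    exact funext fun _ => map_zero _
  · obtain ⟨u, hu, e⟩ := WP.eig (fun i => S.tor (c i)) (W := W.map (R g⁻¹)) (T := R (L.h.r3.tor fun a => t ^ y i a))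
      (fun i _ ⟨u, hu, e⟩ => ⟨_, hW.2.1 (Q i) u hu, by
        change R g⁻¹ (R (j' (Q i)).1 u) = _
        rw [← e, hQ, mm, mm, ← mul_assoc, ← mul_assoc, inv_mul_cancel, one_mul]⟩)
      (fun u hu h => by
        obtain ⟨m, hm⟩ := pu u (by obtain ⟨u, hu, rfl⟩ := hu; rw [(S.jp _).s1, hW.2.2 u hu, map_zero]) h i t
        exact hm ▸ Submodule.smul_mem _ _ hu) _ ⟨v, hv, rfl⟩
    have : R (tc L g fun a => t ^ y i a) v = u := by
      rw [← mm, ← mm, ← e, mm, mul_inv_cancel, map_one, End.one_apply]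
    exact this ▸ hu

end CF.Am
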