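import Cfsg.Agent.Am.P5a
import Cfsg.Agent.Am.CG
import Cfsg.Agent.Am.WP

/-! The subalgebra of dimension eight in characteristic five. -/

set_option autoImplicit false

namespace CF.Am

open Module Function Cfsg.Lie CF.E83 CF.Al CF.Chev CF.BN CF.ExA Matrix Sum
open X3 (Ad)

namespace P5b

theorem lat {P : Matrix (Fin 6) (Fin 6) ℤ} (h : P ^ 3 = 1) {y : Fin 6 → ℤ} (y0 : y ≠ 0) :
    LinearIndependent ℤ ![y, P *ᵥ y] ∨ P *ᵥ y = y := by
  refine or_iff_not_imp_right.2 fun n => LinearIndependent.pair_iff.2 fun a b e => ?_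
  have k : b • P *ᵥ y = (-a) • y := by rw [neg_smul, eq_neg_iff_add_eq_zero, add_comm, e]
  have k3 : ∀ n, b ^ n • (P ^ n) *ᵥ y = (-a) ^ n • y := fun n => by
    induction' n with n ih
    · simp
    · rw [pow_succ P, ← mulVec_mulVec, pow_succ b, mul_smul, ← mulVec_smul, k, mulVec_smul,
        smul_comm, ih, smul_smul, pow_succ']
  replace k3 := k3 3
  rw [h, one_mulVec] at k3
  obtain rfl : b = -a := (Odd.pow_injective (by decide)) (smul_left_injective ℤ y0 k3)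
  have : -a = 0 := by_contra fun a0 => n (smul_right_injective _ a0 k)
  omega

theorem sev {K V I J : Type*} [Field K] [AddCommGroup V] [Module K V] [FiniteDimensional K V]
    [Fintype I] {b : I ⊕ J → V} (hb : LinearIndependent K b) {F : Submodule K V} {r : J}
    (h : ∀ o : Option I, b (o.elim (inr r) inl) ∈ F) : Fintype.card (Option I) ≤ finrank K F :=
  LinearIndependent.fintype_card_le_finrank (b := fun o => (⟨_, h o⟩ : F)) (.of_comp F.subtype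
    (hb.comp (fun o : Option I => o.elim (inr r) inl) (by rintro (_ | _) (_ | _) <;> simp)))

section
variable {B ι : Type} [Fintype B] [DecidableEq B] [Fintype ι] [DecidableEq ι] {C : ChevBasis B ι}
  {K : Type*} [Field K] {G : Type*} [Group G] {ρ : StRep C K G} (h : Univ ρ)

theorem nw {I : Type*} {c : I → B → Kˣ} (hc : ∀ r, ¬ ∀ i, rv C (c i) r = 1) {n : G}
    (hn : ∀ i, n * h.r3.tor (c i) * n⁻¹ ∈ ρ.H) : ∃ w, ρ.NW n w := by
  obtain ⟨w, u, hu, m, hm, u', hu', rfl⟩ := exists_unu h.top n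
  have k := fun i => conj_H_decomp h.faith hu hm hu' (tor_mem_H h.r3 (c i)) (hn i) rfl
  have k1 := mem_U_of_conj h.faith h.r3 C.closed_pos (fun _ h => h) (ρ.Uw_le_Up _ hu')
    (T := Set.range c) (by rintro _ ⟨i, rfl⟩; exact (k i).2.2)
  have k2 := mem_U_of_conj h.faith h.r3 C.closed_pos (fun _ h => h) hu
    (T := Set.range fun i => mp (Mw C w) (c i)) (by
      rintro _ ⟨i, rfl⟩
      rw [← conj_tor h.r3 hm.acts, (k i).2.1]
      exact (k i).1)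
  rw [Set.eq_empty_of_forall_notMem (s := {r | _ ∧ _}) fun r hr => ?_, ρ.U_empty,
    Subgroup.mem_bot] at k1 k2
  · exact ⟨w, by rwa [k1, k2, one_mul, mul_one]⟩
  · obtain ⟨r, rfl⟩ := w.surjective r
    exact hc r fun i => (rv_Mw hm.mem_Aut _ _).symm.trans (hr.2 _ ⟨i, rfl⟩)
  · exact hc r fun i => hr.2 _ ⟨i, rfl⟩

theorem cen {c : B → Kˣ} : h.r3.tor c ∈ Subgroup.center G ↔ ∀ r, rv C c r = 1 :=
  h.mem_center_iff.trans ⟨fun ⟨_, a, b⟩ => h.inj b ▸ a, fun a => ⟨c, a, rfl⟩⟩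

include h in
theorem cen_H {g : G} (hg : g ∈ Subgroup.center G) : g ∈ ρ.H := by
  obtain ⟨c, -, rfl⟩ := h.mem_center_iff.1 hg
  exact tor_mem_H _ c

end

section
variable {K : Type*} [Field K] {G : Type*} [Group G] {ρ : StRep cE6 K G} (h : Univ ρ)
  {f : G →* GL (Fin 6 ⊕ Fin 72) K} (hf : ρ.IsAdHom f)

include hf in
theorem ad (c : Fin 6 → Kˣ) (v : LA K) (a : Fin 6 ⊕ Fin 72) : Ad f (h.r3.tor c) v a =
    (a.elim (fun _ => 1) fun r => (rv cE6 c r : K)) * v a := by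
  conv_lhs => rw [pi_eq_sum_univ' v]
  simp only [map_sum, map_smul, ← Pi.basisFun_apply, X3.ad_bv h hf]
  simp [Pi.single_apply, mul_comm]

/-- The Cartan subalgebra. -/
def ca : (Fin 6 → K) →ₗ[K] LA K := LinearMap.pi fun a => a.elim LinearMap.proj fun _ => 0

theorem bk_ca (u : Fin 6 → K) (v : LA K) (a : Fin 6 ⊕ Fin 72) : bk K (ca u) v a =
    (a.elim (fun _ => 0) fun r => ∑ i, u i * cE6.A (cE6.simple i) r) * v a := by
  change (cE6.ad K (ca u) *ᵥ v) a = _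
  rw [LieBasis.ad_apply, Fintype.sum_sum_type]
  rcases a with i | r <;>
    simp [ca, LieBasis.br_inl, sum_mulVec, smul_mulVec, mulVec_diagonal, cE6.A_simple, Finset.sum_mul,
      mul_assoc]

include hf in
theorem core (h5 : (5 : K) = 0) {c : Fin 2 → Fin 6 → Kˣ}
    (hc : ∀ a b : ℕ, (∀ r, rv cE6 (c 0 ^ a * c 1 ^ b) r = 1) → 2 ∣ a ∧ 6 ∣ b)
    (h12 : c 0 ^ 2 = 1 ∧ ∀ r, rv cE6 (c 1 ^ 6) r = 1) {W F : Submodule K (LA K)}
    (cl : ∀ u ∈ W, ∀ v ∈ W, bk K u v ∈ W) (iv : ∀ i, ∀ v ∈ W, Ad f (h.r3.tor (c i)) v ∈ W)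
    (hF : ∀ v, v ∈ F ↔ ∀ i, Ad f (h.r3.tor (c i)) v = v) (h6 : finrank K F = 6)
    (h2 : 2 ≤ finrank K ↥(W ⊓ F)) {n : G} (hn : ∀ i, n * h.r3.tor (c i) * n⁻¹ ∈ ρ.H)
    (n3 : n ^ 3 ∈ Subgroup.center G) (nW : ∀ v ∈ W, Ad f n v ∈ W ∧ Ad f n⁻¹ v ∈ W) :
    (∀ r, ¬ ∀ i, rv cE6 (c i) r = 1) ∧ (∃ P : Matrix (Fin 6) (Fin 6) ℤ, P ^ 3 = 1 ∧
      ∀ (y : Fin 6 → ℤ) (t : Kˣ), n * h.r3.tor (fun a => t ^ y a) * n⁻¹ =
        h.r3.tor fun a => t ^ (P *ᵥ y) a) ∧ ∃ k, ∃ y : Fin k → Fin 6 → ℤ, LinearIndependent ℤ y ∧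
      (∀ j (t : Kˣ), ∀ v ∈ W, Ad f (h.r3.tor fun a => t ^ y j a) v ∈ W) ∧
      (k = 2 ∨ k = 1 ∧ ∀ j (t : Kˣ), Commute (h.r3.tor fun a => t ^ y j a) n) := by
  have nr : ∀ r, ¬ ∀ i, rv cE6 (c i) r = 1 := fun r hr => by
    simpa [h6] using sev (Pi.basisFun K _).linearIndependent (F := F) (r := r) fun o => (hF _).2 fun i => by
      rw [X3.ad_bv h hf]; cases o <;> simp [hr]
  obtain ⟨w, hw⟩ := nw h nr hn
  have cj : ∀ (y : Fin 6 → ℤ) (t : Kˣ), n * h.r3.tor (fun a => t ^ y a) * n⁻¹ =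
      h.r3.tor fun a => t ^ (Mw cE6 w *ᵥ y) a := fun y t => by rw [conj_tor h.r3 hw.acts, mp_zpow]
  have w3 : Mw cE6 w ^ 3 = 1 := by
    rw [← Mw_pow hw.mem_Aut, pow_three, (hw.mul (hw.mul hw)).eq_one_of_mem_Bo h.faith
      (ρ.H_le_Bo (cen_H h (pow_three n ▸ n3))), Mw_one]
  refine ⟨nr, ⟨_, w3, cj⟩, ?_⟩
  obtain ⟨v, hv⟩ := exists_linearIndependent_of_le_finrank h2
  have e : ∀ k, ca (fun i => (v k).1 (inl i)) = (v k).1 := fun k => funext fun a => by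
    rcases a with i | r
    · rfl
    refine (by_contra fun n0 => nr r fun i => Units.ext ?_ : (v k).1 (inr r) = 0).symm
    exact (mul_left_eq_self₀.1 ((ad h hf _ _ _).symm.trans
      (congrFun ((hF _).1 (v k).2.2 i) (inr r)))).resolve_right n0
  obtain ⟨y, y0, hy⟩ := p5a h5 hc h12 (h := fun k i => (v k).1 (inl i)) (.of_comp ca
    (funext e ▸ hv.map' (W ⊓ F).subtype (Submodule.ker_subtype _) :
      LinearIndependent K fun k => ca fun i => (v k).1 (inl i)))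
  have st : ∀ t : Kˣ, ∀ u ∈ W, Ad f (h.r3.tor fun a => t ^ y a) u ∈ W := fun t =>
    WP.eig (I := Fin 2 ⊕ Fin 2) (D := Sum.elim (fun i => Ad f (h.r3.tor (c i))) fun k => bk K (v k).1)
      (μ := Sum.elim (fun i a => a.elim (fun _ => 1) fun r => (rv cE6 (c i) r : K))
        fun k a => a.elim (fun _ => 0) fun r => ∑ i, (v k).1 (inl i) * cE6.A (cE6.simple i) r)
      (by
        rintro (i | k) a
        · simpa only [Pi.basisFun_apply, elim_inl] using X3.ad_bv h hf (c i) a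
        · funext b
          rw [elim_inr, elim_inr, ← congrArg (bk K · _ b) (e k), bk_ca]
          by_cases k : b = a <;> simp [k])
      (by
        rintro (i | k)
        exacts [iv i, cl _ (v k).2.1])
      fun u hu m => by
        choose m hm using m
        have k1 := fun i a (n0 : u a ≠ 0) => mul_right_cancel₀ n0 ((ad h hf (c i) u a).symm.trans
          (congrFun (hm (inl i)) a))
        have k2 := fun k a (n0 : u a ≠ 0) => mul_right_cancel₀ n0 ((bk_ca _ u a).symm.trans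
          (congrFun ((congrArg (bk K · u) (e k)).trans (hm (inr k))) a))
        by_cases u0 : u = 0
        · simp [u0]
        obtain ⟨a, ha⟩ := ne_iff.1 u0
        convert W.smul_mem (a.elim (fun _ => 1) fun r => (rv cE6 (fun a => t ^ y a) r : K)) hu
        funext b
        rw [ad h hf, Pi.smul_apply, smul_eq_mul]
        by_cases hb : u b = 0
        · simp [hb]
        congr 1
        have k3 := fun i => (k1 i a ha).trans (k1 i b hb).symm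
        rcases a with i | r <;> rcases b with j | s
        · rfl
        · exact (nr s fun i => Units.ext (k3 i).symm).elim
        · exact (nr r fun i => Units.ext (k3 i)).elim
        · simp only [elim_inr, rv_zp, hy r s (fun i => Units.ext (k3 i))
            fun k => (k2 k _ ha).trans (k2 k _ hb).symm]
  rcases lat w3 y0 with i | i
  · refine ⟨2, _, i, Fin.forall_fin_two.2 ⟨st, fun t u hu => ?_⟩, .inl rfl⟩
    change Ad f (h.r3.tor fun a => t ^ (Mw cE6 w *ᵥ y) a) u ∈ W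
    rw [← cj, map_mul, map_mul]
    exact (nW _ (st t _ (nW u hu).2)).1
  · exact ⟨1, fun _ => y, linearIndependent_unique_iff.2 y0, fun _ => st, .inr ⟨rfl, fun _ t =>
      (mul_inv_eq_iff_eq_mul.1 ((cj y t).trans (by rw [i]))).symm⟩⟩

end

theorem a7 : (up s6 : An 7) ^ 2 = 1 ∧ (up t6 * x7) ^ 6 = 1 ∧ up s6 * (up t6 * x7) = up t6 * x7 * up s6 ∧
    up t6 = (up t6 * x7) ^ 3 ∧ x7 = (up t6 * x7) ^ 4 ∧ (up x6 : An 7) ^ 3 = 1 ∧
    up x6 * up s6 * (up x6)⁻¹ = up s6 * (up t6 * x7) ^ 3 ∧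
    up x6 * (up t6 * x7) * (up x6)⁻¹ = up s6 * (up t6 * x7) ^ 4 ∧
    ∀ a < 2, ∀ b < 6, up s6 ^ a * (up t6 * x7) ^ b = 1 → a = 0 ∧ b = 0 := by decide +kernel

/-- The torus in the stabilizer, for any twist. -/
theorem gen {π : Equiv.Perm (Fin 6)} {q z : ℕ} [Fact (Nat.Prime 5)] {X : Type*} [Group X] [Finite X]
    (L : LS cE6 π 5 q z X) (E : Ce z L.θ) {f : L.G →* GL (Fin 6 ⊕ Fin 72) L.K} (hf : L.ρ.IsAdHom f)
    {l : X →* End L.K (LA L.K)} (eq : ∀ y, l (L.θ y) = Ad f y)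
    (br : ∀ g u v, Ad f g (bk L.K u v) = bk L.K (Ad f g u) (Ad f g v)) {j : An 7 →* X}
    (hj : Injective j) {U : Submodule L.K (LA L.K)} (hU : Sb (l.comp j) U)
    (cl : ∀ u ∈ U, ∀ v ∈ U, bk L.K u v ∈ U) (h6 : finrank L.K (F12 (l.comp j)) = 6)
    (h2 : 2 ≤ finrank L.K ↥(U ⊓ F12 (l.comp j))) :
    ∃ (g : L.G) (c : Fin 2 → Fin 6 → L.Kˣ) (Q : Fin 2 → BN.Fx L.T.σ) (e : BN.Fx L.T.σ),
      (∀ i, (Q i).1 = g * L.h.r3.tor (c i) * g⁻¹) ∧ L.θ (Q 0) = j (up s6) ∧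
      L.θ (Q 1) = j (up t6 * x7) ∧ L.θ e = j (up x6) ∧ (∀ r, ¬ ∀ i, rv cE6 (c i) r = 1) ∧
      (∃ P : Matrix (Fin 6) (Fin 6) ℤ, P ^ 3 = 1 ∧ ∀ (y : Fin 6 → ℤ) (t : L.Kˣ),
        e.1 * (g * L.h.r3.tor (fun a => t ^ y a) * g⁻¹) * e.1⁻¹ =
          g * L.h.r3.tor (fun a => t ^ (P *ᵥ y) a) * g⁻¹) ∧
      ∃ k, ∃ y : Fin k → Fin 6 → ℤ, LinearIndependent ℤ y ∧
        (∀ i (t : L.Kˣ), ∀ v ∈ U, Ad f (g * L.h.r3.tor (fun a => t ^ y i a) * g⁻¹) v ∈ U) ∧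
        (k = 2 ∨ k = 1 ∧ ∀ i (t : L.Kˣ), Commute (g * L.h.r3.tor (fun a => t ^ y i a) * g⁻¹) e.1) := by
  have : Finite (BN.Fx L.T.σ) := L.frob.finite
  obtain ⟨a1, a2, a3, a4, a5, a6, a7, a8, a9⟩ := a7
  have hF : ∀ v, v ∈ F12 (l.comp j) ↔ l (j (up s6)) v = v ∧ l (j (up t6 * x7)) v = v := fun v => by
    simp only [F12, Submodule.mem_inf, mem_fs, MonoidHom.comp_apply]
    refine ⟨fun ⟨⟨a, b⟩, c⟩ => ⟨a, by rw [map_mul, map_mul, End.mul_apply, c, b]⟩, fun ⟨a, b⟩ => ?_⟩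
    have : ∀ n, l (j ((up t6 * x7) ^ n)) v = v := fun n => by
      rw [map_pow, map_pow, End.pow_apply, iterate_fixed b]
    exact ⟨⟨a, (congrArg (fun x => l (j x) v) a4).trans (this 3)⟩,
      (congrArg (fun x => l (j x) v) a5).trans (this 4)⟩
  clear a4 a5
  generalize F12 (l.comp j) = F at *
  generalize up s6 = s at *
  generalize up t6 * x7 = τ at *
  generalize up x6 = x at *
  obtain ⟨Q0, b1, b2, -, b3⟩ := cop_lift E (x := j s) (m := 2) (by norm_num)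
    (by rw [← map_pow, a1, map_one])
  obtain ⟨Q1, b4⟩ := E.surj (j τ)
  obtain ⟨e, b5⟩ := E.surj (j x)
  have b6 : L.θ (Q1 ^ 6) = 1 := by rw [map_pow, b4, ← map_pow, a2, map_one]
  obtain ⟨g, hg⟩ := toral_pair L.big (L.frob.mem_Alg Q0.2) (L.frob.mem_Alg Q1.2)
    ((b3 _ (b4 ▸ (show Commute s τ from a3).symm.map j)).symm.map (Subgroup.subtype _))
    (Nat.Coprime.coprime_dvd_left (orderOf_dvd_of_pow_eq_one (n := 6 * 3) (by
      rw [pow_mul]; exact congrArg Subtype.val (SP.three E b6))) (by norm_num)) (a := 1)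
    Nat.prime_two (by norm_num) (congrArg Subtype.val b2)
  choose c hc using fun i : Fin 2 => L.h.r3.range_tor.ge (hg (![Q0, Q1] i).1 (by fin_cases i <;> simp))
  let ψ : BN.Fx L.T.σ →* L.G := (MulAut.conj g).symm.toMonoidHom.comp (Subgroup.subtype _)
  have hψ : ∀ y, g * ψ y * g⁻¹ = y := fun y => (MulAut.conj g).apply_symm_apply _
  have c0 : L.h.r3.tor (c 0) = ψ Q0 := hc 0
  have c1 : L.h.r3.tor (c 1) = ψ Q1 := hc 1
  have ce : ∀ y, L.θ y = 1 ↔ ψ y ∈ Subgroup.center L.G := fun y => by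
    rw [L.ker, ← hψ, Subgroup.Normal.mem_comm_iff inferInstance, inv_mul_cancel_left]
  let A := LinearMap.GeneralLinearGroup.toLinearEquiv ((Ad f).toHomUnits g)
  have kk : ∀ y v, A (Ad f (ψ y) v) = l (L.θ y) (A v) := fun y v => by
    change Ad f g _ = l _ (Ad f g v)
    rw [eq, ← hψ, ← End.mul_apply, ← End.mul_apply, ← map_mul, ← map_mul, inv_mul_cancel_right]
  have iv : ∀ y a, L.θ y = j a → ∀ v ∈ U.comap A.toLinearMap, Ad f (ψ y) v ∈ U.comap A.toLinearMap :=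
    fun y a k v hv => show A _ ∈ U from (kk y v).symm ▸ k ▸ hU a _ hv
  have hH : ∀ y (b : ℕ), L.θ y = j (s * τ ^ b) → ψ y ∈ L.ρ.H := fun y b k => by
    have := mul_mem (cen_H L.h ((ce (y * (Q0 * Q1 ^ b)⁻¹)).1 (by simp [k, b1, b4])))
      (tor_mem_H L.h.r3 (c 0 * c 1 ^ b))
    rwa [map_mul L.h.r3.tor, map_pow, c0, c1, ← map_pow, ← map_mul, ← map_mul,
      inv_mul_cancel_right] at this
  obtain ⟨nr, ⟨P, P3, hP⟩, k, y, hy, st, hk⟩ := core L.h hf (CharP.cast_eq_zero L.K 5) (c := c) (fun a b k => by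
      rw [← cen L.h, map_mul, map_pow, map_pow, c0, c1, ← map_pow, ← map_pow, ← map_mul, ← ce,
        map_mul, map_pow, map_pow, b1, b4, ← map_pow, ← map_pow, ← map_mul, map_eq_one_iff _ hj,
        pow_eq_pow_mod a a1, pow_eq_pow_mod b a2] at k
      have := a9 _ (by omega) _ (by omega) k
      omega)
    ⟨L.h.inj (by rw [map_pow, c0, ← map_pow, b2, map_one, map_one]),
      (cen L.h).1 (by rw [map_pow, c1, ← map_pow]; exact (ce _).1 b6)⟩
    (W := U.comap A.toLinearMap) (F := F.comap A.toLinearMap)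
    (fun u hu v hv => show Ad f g _ ∈ U from br g u v ▸ cl _ hu _ hv)
    (Fin.forall_fin_two.2 ⟨c0 ▸ iv _ _ b1, c1 ▸ iv _ _ b4⟩)
    (fun v => (hF (A v)).trans (by
      rw [Fin.forall_fin_two, c0, c1, ← b1, ← b4, ← kk, ← kk, A.injective.eq_iff, A.injective.eq_iff]))
    ((A.ofSubmodule' F).finrank_eq.trans h6) (h2.trans_eq (A.ofSubmodule' _).finrank_eq.symm)
    (n := ψ e) (Fin.forall_fin_two.2
      ⟨by rw [c0, ← map_inv, ← map_mul, ← map_mul]; exact hH _ 3 (by simp [← a7, b1, b5]),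
        by rw [c1, ← map_inv, ← map_mul, ← map_mul]; exact hH _ 4 (by simp [← a8, b4, b5])⟩)
    (by rw [← map_pow, ← ce, map_pow, b5, ← map_pow, a6, map_one])
    fun v hv => ⟨iv _ _ b5 v hv, map_inv ψ e ▸ iv _ x⁻¹ (by simp [b5]) v hv⟩
  refine ⟨g, c, ![Q0, Q1], e, Fin.forall_fin_two.2 ⟨c0 ▸ (hψ _).symm, c1 ▸ (hψ _).symm⟩, b1, b4, b5,
    nr, ⟨P, P3, fun y t => by rw [← hP, ← hψ e]; group⟩, k, y, hy, fun i t v hv => ?_, hk.imp_right (.imp_right fun hk i t =>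
      hψ e ▸ (hk i t).map (MulAut.conj g))⟩
  rw [map_mul, map_mul]
  refine st i t _ (show Ad f g _ ∈ U from ?_)
  rwa [← End.mul_apply, ← map_mul, mul_inv_cancel, map_one]

end P5b

variable {p q z : ℕ} [Fact p.Prime] {X : Type*} [Group X] [Finite X] {L : LS cE6 1 p q z X}
  {f : L.G →* GL (Fin 6 ⊕ Fin 72) L.K} {l : X →* End L.K (LA L.K)} {H : Subgroup X}
  (hz : z = Nat.gcd 3 (q - 1))
include hz

theorem p5 (hp : p = 5) {j : An 7 →* X} (M : Mx H j) (D : Ld L f l) {U : Submodule L.K (LA L.K)}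
    (hU : Can (l.comp j) U) (h8 : finrank L.K U = 8) (cl : ∀ u ∈ U, ∀ v ∈ U, bk L.K u v ∈ U)
    (h6 : finrank L.K (F12 (l.comp j)) = 6) (h2 : 2 ≤ finrank L.K ↥(U ⊓ F12 (l.comp j))) : False := by
  subst hp
  obtain ⟨g, c, Q, e, q0, q1, q2, q3, nr, -, k, y, hy, st, hk⟩ :=
    P5b.gen L (ce L hz) D.hf D.eq D.br M.inj hU.sb cl h6 h2
  obtain ⟨c1, c2⟩ := can_L hz M D hU
  have key := fun E => no_tor hz M D.fr (fun W hW => D.irr (CharP.cast_eq_zero L.K 5) W fun x => by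
      obtain ⟨y, rfl⟩ := L.surj x
      exact D.eq y ▸ hW y) (by rintro rfl; simp at h8)
    (by rintro rfl; simp at h8) c1 c2 q0 E hy (fun _ r hr => (nr r hr).elim) st
  have hq : 5 ≤ q ∧ (z = 1 ∨ z = 3 ∧ 25 ≤ q) := by
    obtain ⟨m, h0, e⟩ := L.pow
    have := Nat.pow_le_pow_right (n := 5) (by omega) h0
    refine ⟨by omega, ((Nat.dvd_prime Nat.prime_three).1 (hz ▸ Nat.gcd_dvd_left _ _)).imp_right
      fun z3 => ⟨z3, ?_⟩⟩
    obtain rfl | h := h0.nat_succ_le.eq_or_lt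
    · rw [hz, e] at z3; simp at z3
    · exact e ▸ Nat.pow_le_pow_right (n := 5) (by omega) h
  rcases hk with rfl | ⟨rfl, hk⟩
  · obtain ⟨T, t1, t2, t3⟩ := key ∅ (by simp)
    have := (cenS M t1 fun s hs => ⟨q1 ▸ (t3 s hs).1 0, q2 ▸ (t3 s hs).1 1⟩).1
    have t := t2.le
    obtain ⟨a, rfl | ⟨rfl, b⟩⟩ := hq
    · have := Nat.pow_le_pow_left (show 4 ≤ q - 1 by omega) 2
      omega
    · have := Nat.pow_le_pow_left (show 24 ≤ q - 1 by omega) 2
      omega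
  · obtain ⟨T, t1, t2, t3⟩ := key {e} (by simpa using hk)
    have := (cenS M t1 fun s hs => ⟨q1 ▸ (t3 s hs).1 0, q2 ▸ (t3 s hs).1 1⟩).2
      fun s hs => q3 ▸ (t3 s hs).2 e rfl
    have t := pow_one (q - 1) ▸ t2.le
    obtain ⟨a, rfl | ⟨rfl, b⟩⟩ := hq <;> omega

end CF.Am
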