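import Cfsg.Agent.Am.IR

/-! The two modules of dimension `27`. -/

set_option autoImplicit false

namespace CF.Am

open Module Function Cfsg.Lie CF.E83 CF.Al CF.Chev CF.BN Matrix
open CF.Geom.E6 (tg sg eF Col wt)

namespace R1

variable {K : Type*} [Field K]

/-- The inverse transposed matrix. -/
def tr : GL I27 K →* GL I27 K :=
  .mk' (fun g => ⟨g⁻¹.1ᵀ, g.1ᵀ, by simp [← transpose_mul], by simp [← transpose_mul]⟩) fun a b =>
    Units.ext (by simp [transpose_mul])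

theorem tr_tr (g : GL I27 K) : tr (tr g) = g := Units.ext rfl

theorem tp_spec : ∀ (r : Fin 72) b, (sg r b = 0 ∨ tg (cE6.neg r) (tg r b) = b ∧ sg (cE6.neg r) (tg r b) = sg r b) ∧
    cE6.neg (cE6.neg r) = r := by decide +kernel

theorem eF_tp (r : Fin 72) : (eF K r)ᵀ = eF K (cE6.neg r) := by
  have h : ∀ (r : Fin 72) a b, sg r b = 0 ∨ a ≠ tg r b ∨ eF K (cE6.neg r) b a = eF K r a b := fun r a b =>
    (tp_spec r b).1.imp_right fun e => or_iff_not_imp_left.2 fun n => by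
      simp [eF, Geom.E6.mono, not_not.1 n, e]
  ext a b
  rcases h r b a with e | e | e
  · rcases h (cE6.neg r) a b with e' | e' | e'
    · simp [eF, Geom.E6.mono, e, e']
    · simp [eF, Geom.E6.mono, e, e']
    · rw [← e', (tp_spec r a).2]; rfl
  · rcases h (cE6.neg r) a b with e' | e' | e'
    · simp [eF, Geom.E6.mono, e, e']
    · simp [eF, Geom.E6.mono, e, e']
    · rw [← e', (tp_spec r a).2]; rfl
  · exact e.symm

theorem pair (g : GL I27 K) (v w : N K) : g.1 *ᵥ v ⬝ᵥ (tr g).1 *ᵥ w = v ⬝ᵥ w := by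
  change _ ⬝ᵥ g⁻¹.1ᵀ *ᵥ w = _
  rw [dotProduct_mulVec, vecMul_transpose, mulVec_mulVec]
  simp

theorem sh_map (hF : ∃ s : K, s ≠ 0 ∧ s ≠ 1) {g : GL I27 K} (h : g ∈ E6univ K) (v : N K) :
    sh (g.1 *ᵥ v) = (tr g).1 *ᵥ sh v := by
  refine dotProduct_eq _ _ fun w => ?_
  obtain ⟨w, rfl⟩ : ∃ u, g.1 *ᵥ u = w := ⟨g⁻¹.1 *ᵥ w, by simp [mulVec_mulVec]⟩
  rw [sh_dot_eq, Geom.E6.B_map hF h, ← sh_dot_eq, dotProduct_comm (_ *ᵥ _), pair, dotProduct_comm]

variable (K) in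
/-- The representation of the Steinberg group. -/
noncomputable def st6 : StRep cE6 K (GL I27 K) := Geom.E6.st K

theorem val_h6 (i : Fin 6) (t : Kˣ) : ((st6 K).h (cE6.simple i) t).1 = diagonal fun a => ((t ^ wt a i : Kˣ) : K) :=
  Geom.E6.rep.val_st_h_mat _ (by
    refine (congrArg₂ _ (Geom.E6.mono_mul ..) (Geom.E6.mono_mul ..)).trans
      ((Geom.E6.mono_sub (Geom.E6.wt_spec i)).trans ?_)
    ext a b
    by_cases h : a = b <;> simp [Geom.E6.mono, h]) K t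

theorem inv6' : ∀ j i, ∑ l, Geom.E6.inv6 j l * wt (Geom.E6.fr l) i = if i = j then 1 else 0 := by decide +kernel

theorem scal {g g' : End K (N K)} (h : Jg g g') {a : K} (e : a ^ 3 = 1) (s : ∀ v, g v = a • v) (w : N K) :
    g' w = a ^ 2 • w := by
  refine (dotProduct_eq _ _ fun v => ?_)
  rw [dotProduct_comm, smul_dotProduct, dotProduct_comm w, ← h.pr v w, s, smul_dotProduct, smul_smul, ← pow_succ, e,
    one_smul]

end R1

open R1

variable {p q z : ℕ} [Fact p.Prime] {X : Type*} [Group X] (L : LS cE6 1 p q z X)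

theorem R1.σ_x (r : Fin 72) (t : L.K) : L.T.σ (L.ρ.x r t) = L.ρ.x r (L.φ t) := by
  rw [L.φ_eq]
  obtain ⟨M, -, rfl⟩ := L.pow
  simpa [L.h.fr_x p] using L.gr.iterate_eq L.h L.φ_eq (pow_one 1) (L.ρ.x r t)

theorem exists_sd : ∃ R R', Sd L R R' 1 ∧
    ∀ r t v, R (L.ρ.x r t) v = (1 + t • Geom.E6.eF L.K r) *ᵥ v := by
  have h3 : (st6 L.K).R3 := MinRep.r3_st _ L.K _
  have h4 := h3.tor_apply_of_diag (Units.coeHom _) wt val_h6
  obtain ⟨σ, hσ⟩ := StRep.exists_hom_of_tor L.h.faith L.h.top L.h.r3 h3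
    fun c hc => by rw [(injective_iff_map_eq_one _).1 L.h.inj c hc, map_one]
  have hx : ∀ r t, (σ (L.ρ.x r t)).1 = 1 + t • eF L.K r := fun r t =>
    (congrArg Units.val (hσ r t)).trans (Geom.E6.val_st_x _ r t)
  have hx' : ∀ r t, tr (σ (L.ρ.x r t)) = σ (L.ρ.x (cE6.neg r) (-t)) := fun r t => Units.ext (by
    change (σ _)⁻¹.1ᵀ = _
    rw [← map_inv, ← PreSt.x_neg, hx, hx, transpose_add, transpose_smul, eF_tp, transpose_one])
  have ht : ∀ c, (σ (L.h.r3.tor c)).1 = diagonal fun a => ((∏ i, c i ^ wt a i : L.Kˣ) : L.K) := fun c =>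
    (congrArg Units.val (fh_tor (τ := .id _) hσ _ h3 c)).trans (h4 c)
  have hF : ∃ s : L.K, s ≠ 0 ∧ s ≠ 1 := by
    classical
    obtain ⟨s, h⟩ := Infinite.exists_notMem_finset ({0, 1} : Finset L.K)
    exact ⟨s, by simpa using h⟩
  have m : ∀ g, σ g ∈ E6univ L.K ∧ tr (σ g) ∈ E6univ L.K := fun g => by
    have : L.ρ.Gp ≤ (E6univ L.K ⊓ (E6univ L.K).comap tr).comap σ := L.ρ.U_le_iff.2 fun r _ t =>
      ⟨hσ r t ▸ Geom.E6.st_mem _ r t, Subgroup.mem_comap.2 (by rw [hx', hσ]; exact Geom.E6.st_mem _ _ _)⟩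
    exact this (L.h.top ▸ trivial)
  let R := en ((Units.coeHom _).comp σ)
  let R' := en ((Units.coeHom _).comp (tr.comp σ))
  have e : ∀ g v, R g v = (σ g).1 *ᵥ v := fun g v => en_apply ..
  have e' : ∀ g v, R' g v = (tr (σ g)).1 *ᵥ v := fun g v => en_apply ..
  have jp : JP R R' := fun g => ⟨fun v w => by rw [e, e', pair], fun v => by rw [e, e', sh_map hF (m g).1],
    fun v => by rw [e, e', sh_map hF (m g).2, tr_tr], fun v => e g v ▸ (m g).1 v, fun v => e' g v ▸ (m g).2 v⟩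
  have fr : ∀ τ : L.G →* GL I27 L.K, (∀ r t, (τ (L.ρ.x r (L.φ t))).1 = (τ (L.ρ.x r t)).1.map L.φ) → ∀ g v,
      (τ (L.T.σ g)).1 *ᵥ (L.φ ∘ v) = L.φ ∘ ((τ g).1 *ᵥ v) := fun τ h g v => by
    have : ((Units.coeHom _).comp τ).comp L.T.σ = L.φ.mapMatrix.toMonoidHom.comp ((Units.coeHom _).comp τ) :=
      MonoidHom.eq_of_eqOn_dense (s := {g | ∃ r ∈ (Set.univ : Set (Fin 72)), ∃ t, g = L.ρ.x r t}) L.h.top (by
        rintro _ ⟨r, -, t, rfl⟩
        exact (congrArg (τ · |>.1) (σ_x L r t)).trans (h r t))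
    rw [show (τ (L.T.σ g)).1 = (τ g).1.map L.φ from DFunLike.congr_fun this g]
    exact funext fun a => (RingHom.map_mulVec ..).symm
  have fx : ∀ r t, (σ (L.ρ.x r (L.φ t))).1 = (σ (L.ρ.x r t)).1.map L.φ := fun r t => by
    rw [hx, hx]
    ext a b
    simp [one_apply, eF, Geom.E6.mono, apply_ite L.φ]
  have ir : Irr (rY L R) := irr_N _ fun s => ⟨⟨L.ρ.x s 1, (σ_x L s 1).trans (by rw [map_one]; rfl)⟩, fun v => by
    simpa [hx] using e (L.ρ.x s 1) v⟩
  have ce : ∀ g ∈ Subgroup.center L.G, ∃ a : L.K, a ^ 3 = 1 ∧ (g ≠ 1 → a ≠ 1) ∧ ∀ v, R g v = a • v := by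
    intro g hg
    obtain ⟨c, -, rfl⟩ := L.h.mem_center_iff.1 hg
    set d : I27 → L.Kˣ := fun a => ∏ i, c i ^ wt a i with hd
    have h1 : ∀ a k, a ≠ k → ¬Col a k → d k = d a := fun a k n cl => by
      obtain ⟨s, rfl, h⟩ := Geom.E6.exists_root a k n cl
      have := congrFun₂ (congrArg (σ · |>.1) (Subgroup.mem_center_iff.1 hg (L.ρ.x s 1))) (tg s a) a
      simp only [map_mul, Units.val_mul, hx, ht, mul_diagonal, diagonal_mul] at this
      refine Units.ext (mul_left_cancel₀ ?_ (this.trans (mul_comm _ _))).symm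
      simpa [eF, Geom.E6.mono, n.symm] using left_ne_zero_of_mul_eq_one (Geom.E6.sg_sq (F := L.K) h)
    have h2 : ∀ k, d k = d 0 := fun k => by
      rcases IR.conn 0 k with rfl | cl | ⟨m, a1, a2, a3, a4⟩
      · rfl
      · exact (eq_or_ne _ k).elim (· ▸ rfl) (h1 _ _ · cl)
      · exact (h1 _ _ a3 a4).trans (h1 _ _ a1 a2)
    have h5 : ∀ v, R (L.h.r3.tor c) v = (d 0 : L.K) • v := fun v => funext fun a => by
      rw [e, ht, mulVec_diagonal, ← h2 a]; rfl
    refine ⟨d 0, ?_, fun n o => n ?_, h5⟩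
    · have := (jp (L.h.r3.tor c)).t1 fun a => if a.1 = 0 ∧ a.2.1 = a.2.2 then 1 else 0
      rw [h5, Geom.E6.T_smul] at this
      simpa [cubicT, mat3, det_fin_three, trace, Matrix.mul_apply, Fin.sum_univ_three] using this
    · rw [show c = 1 from funext fun j => ?_, map_one]
      have : ∏ l, d (Geom.E6.fr l) ^ Geom.E6.inv6 j l = c j := by
        have : ∀ (x : L.Kˣ) (f : Fin 6 → ℤ), ∏ i, x ^ f i = x ^ ∑ i, f i := fun x f => by
          simp [Fin.prod_univ_six, Fin.sum_univ_six, _root_.zpow_add]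
        simp only [hd, ← Finset.prod_zpow, ← _root_.zpow_mul]
        rw [Finset.prod_comm]
        simp only [this, mul_comm (Geom.E6.wt _ _), inv6']
        simp
      simpa [h2, Units.val_eq_one.1 o] using this.symm
  refine ⟨R, R', ⟨.inl rfl, jp, fun c a => ?_, fun c a => ?_, fun g v => by rw [e, e, fr σ fx],
    fun g v => by rw [e', e']; exact fr (tr.comp σ) (fun r t => by
      simp only [MonoidHom.comp_apply, hx', ← map_neg, fx]) g v, ir, (jp.comp _).irr ir, ce, fun g hg => ?_⟩,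
    fun r t v => by rw [e, hx]⟩
  · rw [e, ht, diagonal_mulVec_single, ← Pi.single_smul, smul_eq_mul]
    simp
  · rw [e', show (tr (σ _)).1 = (σ _)⁻¹.1ᵀ from rfl, ← map_inv, ← map_inv, ht, diagonal_transpose,
      diagonal_mulVec_single, ← Pi.single_smul, smul_eq_mul]
    simp
  · obtain ⟨a, a1, a2, a3⟩ := ce g hg
    exact ⟨a ^ 2, by rw [← pow_mul, mul_comm, pow_mul, a1, one_pow], fun n o => a2 n (by
      rw [← a1, pow_succ, o, one_mul]), scal (jp g) a1 a3⟩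

end CF.Am
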