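import Cfsg.Agent.Am.A
import Cfsg.Agent.Ey.E1

/-! The adjoint module of `E₆(q)`. -/

set_option autoImplicit false

namespace CF.Am

open Module Function Cfsg.Lie CF.E83 CF.Al CF.Chev CF.BN CF.ExA Matrix Sum Finset

namespace R2

section
variable {B ι : Type} [Fintype B] [DecidableEq B] [Fintype ι] [DecidableEq ι] (C : LieBasis B ι)
  {K : Type*} [Field K]

theorem ad_skew (a c : B ⊕ ι) : C.ad K (LieBasis.bv K a) *ᵥ LieBasis.bv K c =
    -C.ad K (LieBasis.bv K c) *ᵥ LieBasis.bv K a := by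
  have h : ∀ a c, C.ad K (LieBasis.bv K (inl a)) *ᵥ LieBasis.bv K c =
      (C.sp a (C.wt c) : K) • LieBasis.bv K c := fun a c => by
    rw [C.ad_bv, C.br_inl]
    funext b
    rw [mulVec_diagonal, Pi.smul_apply, LieBasis.bv_apply]
    split_ifs with e <;> simp [e]
  rw [neg_mulVec]
  rcases a with i | r <;> rcases c with j | s
  · simp [h]
  · rw [h, C.ad_root, C.E_one_inl, neg_smul, neg_neg, RootSys.wt_inr]
  · rw [h, C.ad_root, C.E_one_inl, neg_smul, RootSys.wt_inr]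
  rw [C.ad_root, C.ad_root]
  by_cases e : s = C.neg r
  · rw [e, C.E_one_neg]
    nth_rewrite 3 [← C.neg_neg r]
    rw [C.E_one_neg, C.hv_neg, neg_neg]
  by_cases k : ∃ u, C.vec u = C.vec s + C.vec r
  · obtain ⟨u, k⟩ := k
    rw [C.E_one_root k, C.E_one_root (k.trans (add_comm _ _)), C.N_anti k]
    simp
  · push Not at k
    rw [C.E_one_none k e, C.E_one_none (fun u => add_comm (C.vec s) _ ▸ k u)
      (mt C.eq_neg_comm.1 e), neg_zero]

theorem ad_self (a : B ⊕ ι) : C.ad K (LieBasis.bv K a) *ᵥ LieBasis.bv K a = 0 := by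
  rcases a with i | r
  · rw [C.ad_bv, C.br_inl]
    funext b
    rw [mulVec_diagonal, LieBasis.bv_apply]
    split_ifs with e <;> simp [e]
  · rw [C.ad_root, C.E_self le_rfl]

theorem ad_alt (u : B ⊕ ι → K) : C.ad K u *ᵥ u = 0 := by
  have h : ∀ s : Finset (B ⊕ ι), C.ad K (∑ c ∈ s, u c • LieBasis.bv K c) *ᵥ
      (∑ c ∈ s, u c • LieBasis.bv K c) = 0 := fun s => by
    induction s using Finset.induction_on with
    | empty => simp
    | insert a s ha ih =>
      rw [sum_insert ha, map_add, add_mulVec, mulVec_add, mulVec_add, ih, add_zero, map_smul,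
        smul_mulVec, mulVec_smul, ad_self, smul_zero, smul_zero, zero_add, map_sum, sum_mulVec,
        mulVec_sum, ← sum_add_distrib]
      refine sum_eq_zero fun c _ => ?_
      rw [map_smul, smul_mulVec, smul_mulVec, mulVec_smul, mulVec_smul, ad_skew C a c, neg_mulVec,
        smul_comm (u c)]
      simp
  simpa only [← LieBasis.eq_sum_bv] using h univ

end

theorem a1 (θ : Fin 72) : ∃ a, cE6.A θ a = 1 := by
  obtain ⟨w, hw, i, rfl⟩ := cE6.exists_W_simple θ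
  have : ∀ i : Fin 6, ∃ j, cE6.car i j = -1 := by simp only [carE6']; decide
  obtain ⟨j, e⟩ := this i
  exact ⟨w (cE6.neg (cE6.simple j)), by
    rw [RootSys.A_aut (cE6.W_le_Aut hw), cE6.A_neg_right, cE6.A_simple_simple, e]; rfl⟩

theorem sx {B ι : Type} [Fintype B] [DecidableEq B] [Fintype ι] [DecidableEq ι] {C : ChevBasis B ι}
    {p q z : ℕ} [Fact p.Prime] {X : Type*} [Group X] (L : LS C 1 p q z X) (r : ι) (t : L.K) :
    L.T.σ (L.ρ.x r t) = L.ρ.x r (t ^ q) := by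
  obtain ⟨M, -, rfl⟩ := L.pow
  simpa [L.h.fr_x p] using L.gr.iterate_eq L.h L.φ_eq (pow_one 1) (L.ρ.x r t)

variable {K : Type*} [Field K] {A : Submodule K (LA K)}

theorem key (hA : ∀ r, ∀ v ∈ A, cE6.X r 1 *ᵥ v ∈ A) (n : A ≠ ⊤) {v : LA K} (hv : v ∈ A) :
    (∀ s, v (inr s) = 0) ∧ ∀ j, ∑ i, v (inl i) * (cE6.car i j : K) = 0 := by
  have z : ∀ v ∈ A, ∀ s, v (inr s) = 0 := fun v hv s => by_contra fun e =>
    n (Ey.E1.top sameLenE6 hA a1 goodE6.conn (Ey.E1.ext sameLenE6 hA a1 hv e))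
  refine ⟨z v hv, fun j => ?_⟩
  have := z _ (hA (cE6.simple j) v hv) (cE6.simple j)
  rw [LieBasis.eq_sum_bv K v, Fintype.sum_sum_type] at this
  simpa [z v hv, mulVec_sum, mulVec_smul, LieBasis.X_inl, Finset.sum_apply, LieBasis.bv_apply,
    cE6.vec_simple, cE6.sp_single] using this

theorem cz {v : LA K} (h : (∀ s, v (inr s) = 0) ∧ ∀ j, ∑ i, v (inl i) * (cE6.car i j : K) = 0) :
    3 * v (inl 0) = 0 ∧ (v (inl 0) = 0 → v = 0) := by
  have a0 := h.2 0
  have a1 := h.2 1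
  have a2 := h.2 2
  have a3 := h.2 3
  have a4 := h.2 4
  have a5 := h.2 5
  simp [Fin.sum_univ_six, carE6', cmE6] at a0 a1 a2 a3 a4 a5
  refine ⟨by linear_combination 4 * a0 + 3 * a1 + 5 * a2 + 6 * a3 + 4 * a4 + 2 * a5, fun b0 => ?_⟩
  have b2 : v (inl 2) = 0 := by linear_combination 2 * b0 - a0
  have b3 : v (inl 3) = 0 := by linear_combination 2 * b2 - b0 - a2
  have b5 : v (inl 5) = 0 := by linear_combination -a4 - 2 * a3 - a1 - 2 * b2 + 2 * b3
  have b4 : v (inl 4) = 0 := by linear_combination 2 * b5 - a5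
  have b1 : v (inl 1) = 0 := by linear_combination -a3 - b2 + 2 * b3 - b4
  funext a
  rcases a with i | r
  · fin_cases i
    exacts [b0, b1, b2, b3, b4, b5]
  · exact h.1 r

end R2

variable {p q z : ℕ} [Fact p.Prime] {X : Type*} [Group X] [Finite X] {L : LS cE6 1 p q z X}

set_option linter.unusedSectionVars false in
open R2 in
variable (L) in
/-- piece R2 -/
theorem exists_ld : ∃ f l, Ld L f l := by
  obtain ⟨f, hf⟩ := L.h.faith
  have e0 : ∀ g v, X3.Ad f g v = (f g).val *ᵥ v := fun g v => en_apply _ _ _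
  have hk : L.θ.ker ≤ (rY L (X3.Ad f)).toHomUnits.ker := fun g hg =>
    Units.ext (X3.ad_cen L.h hf ((L.ker g).1 hg))
  obtain ⟨l, hl⟩ : ∃ l : X →* End L.K (LA L.K), ∀ y : Yg L, l (L.θ y) = X3.Ad f y :=
    ⟨(Units.coeHom _).comp (L.θ.liftOfSurjective L.surj ⟨_, hk⟩), fun y =>
      congrArg Units.val (L.θ.liftOfRightInverse_comp_apply _ (rightInverse_surjInv L.surj) ⟨_, hk⟩ y)⟩
  have hx : ∀ r, ∃ x, ∀ v, l x v = cE6.X r 1 *ᵥ v := fun r =>
    ⟨L.θ ⟨L.ρ.x r 1, (sx L r 1).trans (by rw [one_pow]; rfl)⟩, fun v => by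
      rw [hl, e0, hf, LieBasis.val_xG]⟩
  have k1 : ∀ {A : Submodule L.K (LA L.K)}, Sb l A → A ≠ ⊤ → ∀ v ∈ A,
      (∀ s, v (inr s) = 0) ∧ ∀ j, ∑ i, v (inl i) * (cE6.car i j : L.K) = 0 := fun h n v hv =>
    key (fun r v hv => (hx r).elim fun x e => e v ▸ h x v hv) n hv
  obtain ⟨a, ha⟩ := a1 0
  obtain ⟨x, hxa⟩ := hx a
  have k2 : l x (cE6.hv _ 0) - cE6.hv _ 0 = -LieBasis.bv L.K (inr a) := by
    rw [hxa, LieBasis.X_hv, ha]; simp
  have k3 : (-LieBasis.bv L.K (inr a) : LA L.K) (inr a) ≠ 0 := by simp [LieBasis.bv_apply]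
  have k4 := k1 (A := Al.Fx l) (fun g v hv => by rwa [Al.mem_Fx.1 hv]) fun e => k3 (by
    rw [← k2, Al.mem_Fx.1 (e ▸ Submodule.mem_top), sub_self]; rfl)
  have k5 : (3 : L.K) ≠ 0 → ∀ {A : Submodule L.K (LA L.K)}, Sb l A → A ≠ ⊤ → A = ⊥ :=
    fun h3 A h n => eq_bot_iff.2 fun v hv => (cz (k1 h n v hv)).2
      ((mul_eq_zero.1 (cz (k1 h n v hv)).1).resolve_left h3)
  refine ⟨f, l, hf, hl, fun g v => ?_, fun g u v => ?_, fun u => ad_alt _ u, ?_,
    fun h3 => eq_bot_iff.2 fun v hv => (cz (k4 v hv)).2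
      ((mul_eq_zero.1 (cz (k4 v hv)).1).resolve_left h3), by_contra fun n => k3 ?_,
    fun h5 A h => or_iff_not_imp_right.2 (k5 (fun h3 => ?_) h)⟩
  · have h1 : f.comp L.T.σ = (GeneralLinearGroup.map L.φ).comp f :=
      StRep.hom_ext L.h.top fun r t => Units.ext (by
        rw [MonoidHom.comp_apply, MonoidHom.comp_apply, sx, hf, hf, ← L.φ_eq, LieBasis.val_xG,
          ← LieBasis.X_map']
        rfl)
    rw [e0, e0, show f (L.T.σ g) = _ from DFunLike.congr_fun h1 g]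
    exact funext fun a => (L.φ.map_mulVec _ _ a).symm
  · have : cE6.IsAut (f g).val := L.ρ.U_induction (p := fun g => cE6.IsAut (f g).val)
      (by rw [map_one]; exact cE6.isAut_one) (fun g r t _ _ ih => by
        rw [map_mul, Units.val_mul, hf, LieBasis.val_xG]
        exact ih.mul (cE6.isAut_X r t)) (show g ∈ L.ρ.Gp from L.h.top ▸ Subgroup.mem_top _)
    rw [e0, e0, e0]
    change (f g).val *ᵥ cE6.ad L.K u *ᵥ v = cE6.ad L.K ((f g).val *ᵥ u) *ᵥ ((f g).val *ᵥ v)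
    rw [mulVec_mulVec, mulVec_mulVec, this]
  · refine (LinearMap.finrank_le_finrank_of_injective (f := (LinearMap.proj (inl 0) :
      LA L.K →ₗ[L.K] L.K) ∘ₗ (Al.Fx l).subtype) ((injective_iff_map_eq_zero _).2 fun v e =>
        Subtype.ext ((cz (k4 v v.2)).2 e))).trans (finrank_self _).le
  · refine (k1 (fun g v hv => ?_) n _ (k2 ▸ sub_mem_Cx x _)).1 a
    simpa using add_mem (sub_mem_Cx (r := l) g v) hv
  · exact one_ne_zero (α := L.K) (by linear_combination 2 * h3 - h5)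

end CF.Am
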