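import Cfsg.Agent.Am.SP

/-! Alternating subgroups of `E₆(q)`: fixed space dimensions in the central quotient. -/

set_option autoImplicit false
set_option linter.unusedSectionVars false

namespace CF.Am

open Module Function Cfsg.Lie CF.E83 CF.Al

variable {X : Type*} [Group X] [Finite X] {H T : Subgroup X}
variable {Y : Type*} [Group Y] [Finite Y] {θ : Y →* X} {z : ℕ} (E : Ce z θ)
include E
variable {K V W : Type*} [Field K] [AddCommGroup V] [Module K V] [AddCommGroup W] [Module K W]
  [FiniteDimensional K V] [FiniteDimensional K W] {q : ℕ}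

theorem TL.down {l' : Y →* End K W} {l : X →* End K W} (h : TL q l') (e : ∀ y, l (θ y) = l' y) :
    TL q l := by
  have d (y) : dm l (θ y) = dm l' y := by unfold dm; rw [e]
  have n {y : Y} (k : θ y ≠ 1) : y ≠ 1 := fun o => k (by rw [o, map_one])
  refine ⟨h.hq, h.q2, h.dl, fun a x b c => ?_, fun a x b c r => ?_, fun a x b c r => ?_, fun a x b c r => ?_,
    fun a a' x b r => ?_, fun a x b c r => ?_⟩
  · obtain ⟨y, rfl, f, -⟩ := cop_lift E (by norm_num) b
    exact d y ▸ h.t2 a y f (n c)
  · obtain ⟨y, rfl, f, g⟩ := real_lift E b r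
    exact d y ▸ h.t3 a y f (n c) g
  · obtain ⟨y, rfl, f, g⟩ := real_lift E b r
    rw [← map_pow] at c ⊢
    simpa only [d] using h.t4 a y f (n c) g
  · obtain ⟨y, rfl, f, g, -⟩ := cop_lift E (by norm_num) b
    have := h.t5 a y f (n c) (by
      rw [Re, inv_eq_of_mul_eq_one_left ((pow_succ _ 4).symm.trans f)]
      exact g 4 (inv_eq_of_mul_eq_one_left ((pow_succ _ 4).symm.trans b) ▸ r))
    exact d y ▸ this.imp_right fun k o => k (o.imp_left (g 2))
  · obtain ⟨y, rfl, f, g⟩ := real_lift E b r
    simpa only [← map_pow, d] using h.t6 a a' y f g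
  · obtain ⟨y, rfl, f, g, -⟩ := cop_lift E (by norm_num) b
    exact d y ▸ h.t7 a y f (n c) (g 2 r)

end CF.Am
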