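import Cfsg.Agent.Am.TB
import Cfsg.Agent.Am.TK
import Cfsg.Agent.Am.SP

/-! Central tori of centralizers of semisimple elements of `E₆(q)`. -/

set_option autoImplicit false

namespace CF.Am

open Module Function Cfsg.Lie CF.E83 CF.Al CF.Chev CF.BN CF.ExA Matrix Finset TB

namespace TU

theorem diag {K V I : Type*} [Field K] [AddCommGroup V] [Module K V] (b : Basis I K V)
    {A B : End K V} {α β : I → K} (hA : ∀ i, A (b i) = α i • b i) (hB : ∀ i, B (b i) = β i • b i)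
    (h : ∀ i, α i = 1 → β i = 1) :
    fs A ≤ fs B ∧ LinearMap.range (B - 1) ≤ LinearMap.range (A - 1) := by
  let D := b.constr K fun i => ((β i - 1) / (α i - 1)) • b i
  have e : ∀ i, (β i - 1) / (α i - 1) * (α i - 1) = β i - 1 := fun i => by
    by_cases k : α i = 1
    · simp [k, h i k]
    · exact div_mul_cancel₀ _ (sub_ne_zero.2 k)
  have a : ∀ {A : End K V} {α : I → K}, (∀ i, A (b i) = α i • b i) → ∀ i,
      (A - 1) (b i) = (α i - 1) • b i := fun h i => by simp [h, sub_smul]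
  have e1 : B - 1 = D ∘ₗ (A - 1) := b.ext fun i => by
    rw [LinearMap.comp_apply, a hA, a hB, map_smul, b.constr_basis, smul_smul, mul_comm, e]
  have e2 : B - 1 = (A - 1) ∘ₗ D := b.ext fun i => by
    rw [LinearMap.comp_apply, b.constr_basis, map_smul, a hA, a hB, smul_smul, e]
  exact ⟨by rw [fs, fs, e1]; exact LinearMap.ker_le_ker_comp _ _,
    e2 ▸ LinearMap.range_comp_le_range _ _⟩

theorem li {k : ℕ} {y τ : Fin k → Fin 6 → ℤ} (h : ∀ a b, y a ⬝ᵥ τ b = 0 ↔ a ≠ b) :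
    LinearIndependent ℤ y := Fintype.linearIndependent_iff.2 fun g hg b => by
  have := congrArg (· ⬝ᵥ τ b) hg
  simp only [sum_dotProduct, smul_dotProduct, zero_dotProduct] at this
  rw [sum_eq_single b (fun a _ k => by rw [(h a b).2 k, smul_zero]) (by simp)] at this
  exact (mul_eq_zero.1 this).resolve_right fun k => (h b b).1 k rfl

theorem rv_ψ {K : Type*} [Field K] {m : ℕ} (ψ : AddChar (ZMod m) Kˣ) (y : Fin 6 → ZMod m)
    (r : Fin 72) : rv cE6 (fun i => ψ (y i)) r = ψ (∑ i, y i * tabE6.car i r) := by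
  simp only [rv_eq, tabE6'.car, ← AddChar.map_zsmul_eq_zpow, zsmul_eq_mul, mul_comm,
    Fin.prod_univ_six, Fin.sum_univ_six, AddChar.map_add_eq_mul]

/-- The cocharacters kill the roots of the centralizer. -/
abbrev Kl (m : ℕ) (u : List ℤ) {k : ℕ} (y : Fin k → Fin 6 → ℤ) : Prop :=
  ∀ r : Fin 72, (∑ i : Fin 6, u.getD i 0 * tabE6.car i r) % m = 0 →
    ∀ j, ∑ i : Fin 6, y j i * tabE6.car i r = 0

variable {p q z : ℕ} [Fact p.Prime] {X : Type*} [Group X] [Finite X] {L : LS cE6 1 p q z X}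
  {f : L.G →* GL (Fin 6 ⊕ Fin 72) L.K} {l : X →* End L.K (LA L.K)}

theorem core (hz : z = Nat.gcd 3 (q - 1)) (D : Ld L f l) {m k n : ℕ} (hm : (m : L.K) ≠ 0) {x : Yg L}
    (hx : x ^ m = 1) (n1 : L.θ x ≠ 1) (e : IsConj x (x ^ k)) {P : ℕ → Prop} [DecidablePred P]
    (Y : List ((Fin n → Fin 6 → ℤ) × (Fin n → Fin 6 → ℤ)))
    (h : chk m k fun _ u => P (6 + nn w72 m 1 u) →
      ∃ y ∈ Y, (∀ a b, y.1 a ⬝ᵥ y.2 b = 0 ↔ a ≠ b) ∧ Kl m u y.1) (d : P (dm l (L.θ x))) :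
    ∃ T, Tk q z n T ∧ Zs l (L.θ x) T ∧ ∀ g : Yg L, Commute g x → ∀ s ∈ T, Commute (L.θ g) s := by
  have : NeZero m := ⟨by rintro rfl; simp at hm⟩
  obtain ⟨u, s, -, h1, H⟩ := nf hm hx (fun k => n1 (by rw [k, map_one])) (.inl e) h
  rw [decide_eq_true_eq, ← nz_nn, ← ad_coord D.hf H, pow_one, dm, ← D.eq] at h1
  obtain ⟨y, -, hy, h2⟩ := h1 d
  obtain ⟨g, ψ, h3, h4⟩ := H
  replace h4 := h4 1
  simp only [pow_one, one_smul] at h4
  set c : Fin 6 → L.Kˣ := fun i => ψ (u i)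
  obtain ⟨T, h5, h6⟩ := exists_tk hz (g := g) (c := fun _ : Unit => c) (fun _ => by
      rw [tc, ← h4]; exact x.2)
    (Γ := ⊤) (fun _ _ => trivial) (li hy) (fun j r k => by
      have := k ()
      rw [rv_ψ, ← ψ.map_zero_eq_one, h3.eq_iff] at this
      simp only [pr_vec, tabE6'.car]
      refine h2 r (Int.emod_eq_zero_of_dvd ((ZMod.intCast_zmod_eq_zero_iff_dvd _ m).1 ?_)) j
      simpa [-List.ofFn_succ] using this) fun _ _ => trivial
  have h7 : ∀ g : Yg L, Commute g x → ∀ s ∈ T, Commute (L.θ g) s := fun a k s hs => by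
    obtain ⟨b, rfl, -, e, h7, h8⟩ := h6 s hs
    refine Commute.map (Subtype.ext ?_) _
    have := cent_le L.h (c := c) (isOfFinOrder_iff_pow_eq_one.2 ⟨m, NeZero.pos m, funext fun i => by
      rw [Pi.pow_apply, ← ψ.map_nsmul_eq_pow, nsmul_eq_mul, ZMod.natCast_self, zero_mul,
        ψ.map_zero_eq_one]; rfl⟩) (fun r k => h7 r fun _ => k) (g := g⁻¹ * a * g) (by
      simpa [h4, mul_assoc] using (k.map (Yg L).subtype).map (MulAut.conj g⁻¹))
    simpa [h8, mul_assoc] using (this.map (MulAut.conj g)).eq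
  have h8 : ∀ s ∈ T, fs (l (L.θ x)) ≤ fs (l s) ∧
      LinearMap.range (l s - 1) ≤ LinearMap.range (l (L.θ x) - 1) := fun s hs => by
    obtain ⟨b, rfl, -, e, h7, h8⟩ := h6 s hs
    have k : ∀ c a, X3.Ad f (tc L g c) (X3.Ad f g (Pi.basisFun L.K _ a)) =
        (a.elim (fun _ => 1) fun r => (rv cE6 c r : L.K)) • X3.Ad f g (Pi.basisFun L.K _ a) :=
      fun c a => by rw [Classical.rep_conj_apply _ rfl, X3.ad_bv L.h D.hf, map_smul]
    rw [D.eq, D.eq, h4, h8]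
    refine diag ((Pi.basisFun L.K _).map (LinearMap.GeneralLinearGroup.toLinearEquiv
      ((X3.Ad f).toHomUnits g))) (k c) (k e) ?_
    rintro (i | r) a
    · rfl
    · exact congrArg Units.val (h7 r fun _ => Units.ext a)
  exact ⟨T, h5, ⟨fun s hs => (h7 x (.refl _) s hs).symm, fun s hs => (h8 s hs).1,
    fun s hs => (h8 s hs).2⟩, h7⟩

end TU

variable {p q z : ℕ} [Fact p.Prime] {X : Type*} [Group X] [Finite X] {L : LS cE6 1 p q z X}
  {f : L.G →* GL (Fin 6 ⊕ Fin 72) L.K} {l : X →* End L.K (LA L.K)} (hz : z = Nat.gcd 3 (q - 1))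
include hz

theorem tu (D : Ld L f l) : TU q z l := by
  have : Finite (Yg L) := L.frob.finite
  have E := ce L hz
  have n1 : ∀ {x : X} {d}, dm l x = d → d ≠ 78 → x ≠ 1 := by
    rintro _ _ rfl h rfl
    simp [dm_one] at h
  refine ⟨fun h x e d => ?_, fun h x e r d => ?_, fun h x e r d => ?_, fun h x e n r => ?_⟩
  · obtain ⟨y, rfl, e', -, c⟩ := cop_lift E (by decide) e
    obtain ⟨T, h1, h2, h3⟩ := TU.core hz D (m := 2) (k := 1) (by simpa) e' (n1 d (by decide))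
      (by rw [pow_one]) (P := (· = 46)) [(![![2, 0, 1, 0, -1, -2]], ![![1, 0, 0, 0, 0, 0]])] (by decide +kernel) d
    refine ⟨T, h1, h2, fun g k => ?_⟩
    obtain ⟨g, rfl⟩ := E.surj g
    exact h3 g (c g k)
  · obtain ⟨y, rfl, e', r'⟩ := real_lift E e r
    exact (TU.core hz D (m := 3) (by simpa) e' (n1 d (by decide)) ((re e' r').elim id False.elim)
      (P := (· = 30)) [(![![4, 3, 5, 6, 4, 2], ![2, 3, 4, 6, 5, 4]], ![![2, 0, -1, 0, 0, 0], ![0, 0, 0, 0, -1, 2]])]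
      (by decide +kernel) d).imp fun _ h => ⟨h.1, h.2.1⟩
  · obtain ⟨y, rfl, e', r'⟩ := real_lift E e r
    exact (TU.core hz D (m := 5) (by simpa) e' (n1 d (by decide)) ((re e' r').elim id False.elim)
      (P := (· = 18)) [(![![4, 3, 5, 6, 4, 2], ![3, 6, 6, 9, 6, 3], ![2, 3, 4, 6, 5, 4]],
        ![![2, 0, -1, 0, 0, 0], ![0, 2, 0, -1, 0, 0], ![0, 0, 0, 0, -1, 2]])]
      (by decide +kernel) d).imp fun _ h => ⟨h.1, h.2.1⟩
  · obtain ⟨y, rfl, e', r', -⟩ := cop_lift E (by decide) e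
    exact (TU.core hz D (m := 7) (by simpa) e' n (r' 2 r) (P := fun _ => True)
      [(![![4, 3, 5, 6, 4, 2], ![2, 3, 4, 6, 5, 4]], ![![2, 0, -1, 0, 0, 0], ![0, 0, 0, 0, -1, 2]]),
        (![![3, 6, 6, 9, 6, 3], ![6, 9, 12, 18, 12, 6]],
          ![![0, 2, 0, -1, 0, 0], ![0, -1, -1, 2, -1, 0]])]
      (by decide +kernel) trivial).imp fun _ h => ⟨h.1, h.2.1⟩

end CF.Am
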