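import Cfsg.Agent.Am.WP
import Cfsg.Agent.Am.CG
import Cfsg.Agent.Al.C3

/-! White submodules for `A₇` in characteristic three. -/

set_option autoImplicit false

namespace CF.Am

open Module Function Cfsg.Lie CF.E83 CF.Al CF.Chev CF.BN CF.ExA Matrix Finset
open CF.Geom.E6 (wt p1 p2 ep)

namespace W7

/-- The standard element of order seven. -/
def x0 : Fin 6 → ℤ := ![5, 6, 9, 12, 9, 5]

/-- The central cocharacters of its centralizer. -/
def ys : Fin 4 → Fin 6 → ℤ := ![![4, 3, 5, 6, 4, 2], ![5, 6, 10, 12, 8, 4], ![4, 6, 8, 12, 10, 5], ![2, 3, 4, 6, 5, 4]]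

/-- The weights of the standard element. -/
def ew (a : I27) : ZMod 7 := ∑ i, (x0 i : ZMod 7) * wt a i

theorem d1 : allAlc [1, 2, 2, 3, 2, 1] 7 (trA adE6 3 fun _ x => x.all (· % (7 : ℕ) == 0) ||
    forceL (x.map ((2 : ℕ) * ·)) (hsL ExA.w27 7 (32 ^ ·)) != hsL ExA.w27 7 (32 ^ ·) x ||
      decide (hsL ExA.w27 7 (fun j => if j = 0 then 1 else 0) x = 3 → x = [5, 6, 9, 12, 9, 5])) := by
  decide +kernel

theorem d2 : ∀ j (r : Fin 72), (∑ i, (x0 i : ZMod 7) * tabE6.car i r) = 0 →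
    ∑ i : Fin 6, ys j i * tabE6.car i r = 0 := by decide +kernel

theorem d3 : ∀ a b : I27, ew a = ew b → (∀ j, ∑ i, ys j i * wt a i = ∑ i, ys j i * wt b i) ∨
    ∃ c n, (p1 c n = a ∧ p2 c n = b ∨ p1 c n = b ∧ p2 c n = a) ∧
      ∀ m, m ≠ n → ew (p1 c m) ≠ ew a ∨ ew (p2 c m) ≠ ew a := by
  decide +kernel

theorem ind : LinearIndependent ℤ ys := Fintype.linearIndependent_iff.2 fun a h i => by
  have h0 := congrFun h 0
  have h1 := congrFun h 1
  have h2 := congrFun h 2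
  have h5 := congrFun h 5
  simp [ys, Fin.sum_univ_four] at h0 h1 h2 h5
  fin_cases i <;> simp <;> omega

theorem pure {K : Type*} [Field K] {v : N K} (h : sh v = 0) (e : ∀ a b, v a ≠ 0 → v b ≠ 0 → ew a = ew b)
    {a b : I27} (ha : v a ≠ 0) (hb : v b ≠ 0) (j : Fin 4) : ∑ i, ys j i * wt a i = ∑ i, ys j i * wt b i := by
  rcases d3 a b (e a b ha hb) with k | ⟨c, n, h1, h2⟩
  · exact k j
  have h3 : Geom.E6.Q c v = 0 := congrFun h c
  rw [Geom.E6.Q, sum_eq_single n (fun m _ hm => ?_) (by simp)] at h3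
  · refine absurd h3 (mul_ne_zero (Geom.E6.ep_ne n) ?_)
    rcases h1 with ⟨rfl, rfl⟩ | ⟨rfl, rfl⟩
    exacts [mul_ne_zero ha hb, mul_ne_zero hb ha]
  · rcases h2 m hm with k | k <;> simp [not_not.1 fun z => k (e _ a z ha)]

variable {p q z : ℕ} [Fact p.Prime] {X : Type*} [Group X] {L : LS cE6 1 p q z X}
  {R R' : L.G →* End L.K (N L.K)} {ε : ℤ}

theorem diag (S : Sd L R R' ε) (c : Fin 6 → L.Kˣ) (v : N L.K) (a : I27) :
    R (L.h.r3.tor c) v a = ((∏ i, c i ^ (ε * wt a i) : L.Kˣ) : L.K) * v a := by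
  conv_lhs => rw [pi_eq_sum_univ' v, map_sum]
  simp [S.tor, Pi.single_apply, mul_comm]

theorem fx3 (S : Sd L R R' ε) : ∃ P, ExA.Rep L.h P ∧ ∀ g, ExA.fx P g = dm R g := by
  rcases S.sg with rfl | rfl
  · exact ⟨R, fun c a => by simpa using S.tor c a, fun g => by rw [dm, (fs_eig _).1, ExA.fx]⟩
  · exact ⟨R', fun c a => by simpa using S.tor' c a, fun g => by
      rw [← S.jp.dm_eq, dm, (fs_eig _).1, ExA.fx]⟩

end W7

variable {p q z : ℕ} [Fact p.Prime] {X : Type*} [Group X] [Finite X] {L : LS cE6 1 p q z X}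
  {R R' : L.G →* End L.K (N L.K)} {ε : ℤ} {H : Subgroup X} (hz : z = Nat.gcd 3 (q - 1))
include hz

open W7 in
theorem w7 (hp : p = 3) {j : An 7 →* X} (M : Mx H j) {j' : An 7 →* Yg L} (hj : ∀ g, L.θ (j' g) = j g)
    (S : Sd L R R' ε) (d : dm ((rY L R).comp j') (C3.T * C3.U) = 3) : WP ((rY L R).comp j') := by
  have hx : j' (C3.T * C3.U) ^ 7 = 1 := by rw [← map_pow, C3.W7, map_one]
  obtain ⟨Y, C⟩ := (in_top L).exists_coord (m := 7) (by rw [hp]; decide) hx
  obtain ⟨u, hu⟩ := isConj_iff.1 C3.cW2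
  obtain ⟨w, hw, h3⟩ := C.conj (j' u).1
  obtain ⟨w, hw, x, s, h3, -, h4⟩ := rat_E6 (m := 7) (k := 2) d1 (y := Y 1) (fun e => C3.W1 (M.inj (by
    have : j' (C3.T * C3.U) = 1 := Subtype.ext (by simpa using C.zero_iff.1 e)
    rw [← hj, this, map_one, map_one])))
    ⟨w, hw, (h3 1 2 (by simpa using congrArg (fun g => (j' g).1) hu)).trans (C.smul (by simp))⟩
  obtain ⟨P, hP, e⟩ := fx3 S
  have h5 := hP.coord (C.W hw) 1
  obtain ⟨g, ψ, h6, h7⟩ := C.W hw
  replace h7 := h7 1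
  simp only [pow_one, h3] at h5 h7
  rw [decide_eq_true_eq, ← nz_wts, ← h5, e] at h4
  obtain rfl : x = x0 := List.ofFn_injective (h4 d)
  refine wp_of hz (by decide) M hj S (I := Unit) (g := g) (c := fun _ i => ψ (x0 i)) (Q := fun _ => C3.T * C3.U)
    (fun _ => h7) ind (fun k r h => ?_) (fun v hv h k t => ?_) fun T le c k => ?_
  · have := h ()
    rw [ExA.rv_ψ, ← ψ.map_zero_eq_one, h6.eq_iff] at this
    simp only [pr_vec, dz, tabE6'.car] at this ⊢
    exact d2 k r this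
  · obtain ⟨μ, hμ⟩ := h ()
    have h8 : ∀ a, v a ≠ 0 → (ψ (ε * ew a) : L.K) = μ := fun a ha => mul_right_cancel₀ ha (by
      rw [← smul_eq_mul μ, ← Pi.smul_apply μ, ← hμ, diag S, ew, mul_sum]
      congr 2
      simp only [← AddChar.map_zsmul_eq_zpow, zsmul_eq_mul, Int.cast_mul]
      refine (map_prod ψ.toMonoidHom (fun i => .ofAdd ((ε : ZMod 7) * (x0 i * wt a i))) _).trans ?_
      exact prod_congr rfl fun i _ => congrArg ψ (show (ε : ZMod 7) * (x0 i * wt a i) = _ by ring))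
    have h9 : ∀ a b, v a ≠ 0 → v b ≠ 0 → ew a = ew b := fun a b ha hb => by
      have := h6 (Units.ext ((h8 a ha).trans (h8 b hb).symm))
      rcases S.sg with rfl | rfl <;> simpa using this
    by_cases v0 : v = 0
    · exact ⟨0, by simp [v0]⟩
    obtain ⟨a, ha⟩ := Function.ne_iff.1 v0
    refine ⟨(t ^ (ε * ∑ i, ys k i * wt a i) : L.Kˣ), funext fun b => ?_⟩
    by_cases hb : v b = 0
    · simp [diag S, hb]
    rw [diag S, pure hv h9 ha hb, Pi.smul_apply, smul_eq_mul, mul_sum, zpow_sum']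
    simp only [← _root_.zpow_mul, mul_left_comm ε]
  · have h8 := cen7 M le C3.W7 C3.W1 fun s hs => c s hs ()
    obtain ⟨m, h9, h10⟩ := L.pow
    obtain ⟨m, rfl⟩ : ∃ n, m = n + 1 := ⟨m - 1, by omega⟩
    have h11 : z = 1 := by
      rw [hz, h10, hp, pow_succ]
      have : 0 < 3 ^ m := by positivity
      exact (Nat.Prime.coprime_iff_not_dvd Nat.prime_three).2 (by omega)
    have h12 := k.le
    have h13 : 2 ^ 4 ≤ (q - 1) ^ 4 := Nat.pow_le_pow_left (by
      have : 0 < 3 ^ m := by positivity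
      rw [h10, hp, pow_succ]; omega) 4
    rw [h11] at h12
    omega

end CF.Am
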