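import Cfsg.Agent.Am.C5
import Cfsg.Agent.Am.C6b
import Cfsg.Agent.Am.C7p
import Cfsg.Agent.Am.C75
import Cfsg.Agent.Am.C73a
import Cfsg.Agent.Am.C73b
import Cfsg.Agent.Am.C82a
import Cfsg.Agent.Am.C82b
import Cfsg.Agent.Am.C92
import Cfsg.Agent.Am.C8o
import Cfsg.Agent.Am.CG
import Cfsg.Agent.Am.SP
import Cfsg.Agent.Am.AU
import Cfsg.Agent.Am.TL
import Cfsg.Agent.Am.NL
import Cfsg.Agent.Am.H4b
import Cfsg.Agent.Am.R1
import Cfsg.Agent.Am.R2
import Cfsg.Agent.Am.I2
import Cfsg.Agent.Am.TB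
import Cfsg.Agent.Am.TK
import Cfsg.Agent.Am.TU
import Cfsg.Agent.Am.W7
import Cfsg.Agent.Am.V6
import Cfsg.Agent.Am.NS
import Cfsg.Agent.Am.P5b
import Cfsg.Agent.Al.O
import Cfsg.Agent.S1054

/-! Alternating subgroups of `E₆(q)`: assembly. -/

set_option autoImplicit false

namespace CF.Am

open Module Function Cfsg Cfsg.Lie CF.E83 CF.Al CF.Al.Ln Submodule

section
variable {K W : Type*} [Field K] [AddCommGroup W] [Module K W] [FiniteDimensional K W]
  {X A : Type*} [Group X] [Finite X] [IsSimpleGroup X] [Group A] {H T : Subgroup X} {j : A →* X}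

/-- The subgroup has new fixed or cofixed points. -/
def Nw (l : X →* End K W) (j : A →* X) : Prop := Fx (l.comp j) ≠ Fx l ∨ Cx (l.comp j) ≠ Cx l

theorem Nw.le {l : X →* End K W} (h : Nw l j) (M : Mx H j) (hX : ∃ a b : X, a * b ≠ b * a) {x : A}
    (hz : Zs l (j x) T) : T ≤ H := fun z m => by
  rcases h with h | h
  · obtain ⟨u, a, u0⟩ := SetLike.exists_of_lt ((Fx_le_comp j).lt_of_ne h.symm)
    obtain ⟨v, -, c, e⟩ := key M hX (L := ⊤) (fun _ _ _ => trivial) trivial a u0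
    exact e z (mem_fs.1 (hz.fx z m (mem_fs.2 (mem_Fx.1 c x))))
  · rw [Ne, ← Subspace.dualAnnihilator_inj, ← fx_dual, ← fx_dual, ← dual_comp] at h
    obtain ⟨u, a, u0⟩ := SetLike.exists_of_lt ((Fx_le_comp j).lt_of_ne (Ne.symm h))
    obtain ⟨v, -, c, e⟩ := key M hX (L := ⊤) (fun _ _ _ => trivial) trivial a u0
    rw [dual_comp, fx_dual, mem_dualAnnihilator] at c
    refine inv_mem_iff.1 (e z⁻¹ (LinearMap.ext fun w => ?_))
    obtain ⟨y, k⟩ := hz.cx z m ⟨w, rfl⟩
    have := c _ (sub_mem_Cx x y)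
    rw [show (l.comp j) x y - y = l z w - w from k] at this
    simpa [sub_eq_zero] using! this

theorem Tk.not_ten {q z : ℕ} (hz : z = Nat.gcd 3 (q - 1)) (h : Tk q z 3 T) (h3 : 3 ≤ q) :
    ¬ Nat.card T ∣ 10 := fun d => by
  have h1 := h.le
  have h2 := Nat.le_of_dvd (by decide) d
  have h4 : z ≤ 3 := hz ▸ Nat.gcd_le_left _ (by decide)
  have h5 := Nat.mul_le_mul h4 h2
  obtain rfl | rfl | e : q = 3 ∨ q = 4 ∨ 5 ≤ q := by omega
  · exact h.th rfl le_rfl d
  · have := h.co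
    generalize Nat.card T = c at *
    obtain rfl | rfl : c = 9 ∨ c = 10 := by subst hz; norm_num at h1; omega
    · norm_num at d
    · norm_num at this
  · have := Nat.pow_le_pow_left (show 4 ≤ q - 1 by omega) 3
    omega

end

section
open CF.Chev CF.BN CF.ExA
variable {p q z : ℕ} [Fact p.Prime] {X : Type*} [Group X] [Finite X] (L : LS cE6 1 p q z X)

/-- The field of definition. -/
def Fq : Subfield L.K := RingHom.eqLocusField L.φ (RingHom.id _)

omit [Finite X] in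
include L in
theorem two_le_q : 2 ≤ q := by
  obtain ⟨M, hM, e⟩ := L.pow
  exact e ▸ Nat.one_lt_pow hM.ne' (Fact.out : p.Prime).one_lt

omit [Finite X] in
theorem card_Fq : Finite (Fq L) ∧ Nat.card (Fq L) ≤ q := by
  classical
  have h2 := FiniteField.X_pow_card_sub_X_ne_zero L.K (two_le_q L)
  have h3 : (Fq L : Set L.K) ⊆ (Polynomial.X ^ q - Polynomial.X : Polynomial L.K).roots.toFinset :=
    fun t ht => by
      have : t ^ q = t := (L.φ_eq t).symm.trans ht
      simp [h2, this]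
  refine ⟨(Finset.finite_toSet _).subset h3, (Set.ncard_le_ncard h3).trans ?_⟩
  rw [Set.ncard_coe_finset]
  exact (Multiset.toFinset_card_le _).trans ((Polynomial.card_roots' _).trans
    (FiniteField.X_pow_card_sub_X_natDegree_eq _ (two_le_q L)).le)

omit [Finite X] in
theorem cast_iff {r : ℕ} (hr : r.Prime) : (r : L.K) = 0 ↔ p = r :=
  (CharP.cast_eq_zero_iff L.K p r).trans (Nat.prime_dvd_prime_iff_eq Fact.out hr)

variable {L} {R R' : L.G →* End L.K (N L.K)} {ε : ℤ} {f : L.G →* GL (Fin 6 ⊕ Fin 72) L.K}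
  {l : X →* End L.K (LA L.K)} {H : Subgroup X}

omit [Finite X] in
theorem Sd.rt (S : Sd L R R' ε) : Rt (Fq L) (rY L R) :=
  ⟨(Pi.basisFun L.K I27).reindex (Fintype.equivFinOfCardEq (finrank_fintype_fun_eq_card L.K).symm),
    fun x a b => by
      have := S.fr x (Pi.single ((Fintype.equivFinOfCardEq
        (finrank_fintype_fun_eq_card L.K).symm).symm a) 1)
      have h : ∀ c : I27, L.φ ∘ Pi.single c 1 = Pi.single c 1 := fun c => funext fun d => by
        simp only [comp_apply, Pi.single_apply]; split_ifs <;> simp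
      rw [show L.T.σ x = x from x.2, h] at this
      simpa [Fq] using (congrFun this _).symm⟩

omit [Finite X] in
theorem Sd.sc (S : Sd L R R' ε) (g : Yg L) (h : L.θ g = 1) :
    ∃ a : L.K, a ^ 3 = 1 ∧ (g ≠ 1 → a ≠ 1) ∧ ∀ v, rY L R g v = a • v :=
  (S.cen g ((L.ker g).1 h)).imp fun _ e => ⟨e.1, fun n => e.2.1 fun k => n (Subtype.ext k), e.2.2⟩

variable (hz : z = Nat.gcd 3 (q - 1)) (big : q ^ 78 ≤ 6 * Nat.card X) {n : ℕ} {j : An n →* X}
  (M : Mx H j)
include hz big M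

theorem Sd.fx (S : Sd L R R' ε) (h5 : 5 ≤ n) (h12 : n ≤ 12) {j' : An n →* Yg L}
    (hj : ∀ g, L.θ (j' g) = j g) : Al.Fx ((rY L R).comp j') = ⊥ := by
  have : Finite (Yg L) := L.frob.finite
  have := (card_Fq L).1
  refine nl (ce L hz) h5 M hj S.irr (by simp) (fun g h => (S.sc g h).imp fun _ e => e.2.2) S.rt ?_
  have : Nontrivial (Fin n) := Fin.nontrivial_iff_two_le.2 (by omega)
  have h1 : 2 * Nat.card (An n) = _ := two_mul_nat_card_alternatingGroup (α := Fin n)
  rw [Nat.card_perm, Nat.card_fin] at h1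
  have h2 := Nat.factorial_le h12
  have h3 := Nat.pow_le_pow_left (two_le_q L) 51
  have h4 := Nat.mul_le_mul (M.c4.trans (show _ ≤ 958003200 by norm_num [Nat.factorial] at h2; omega))
    (Nat.pow_le_pow_left (card_Fq L).2 27)
  have h6 := Nat.mul_le_mul_right (q ^ 27) h3
  have h7 := Nat.pow_pos (n := 27) (show 0 < q from (two_le_q L).trans_lt' two_pos)
  rw [← pow_add] at h6
  rw [show finrank L.K (N L.K) = 27 by simp]
  norm_num at h6
  omega

theorem hn (S : Sd L R R' 1) (D : Ld L f l) (t : TB q (rY L R) (rY L (X3.Ad f))) (h5 : 5 ≤ n)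
    (h12 : n ≤ 12) {j' : An n →* Yg L} (hj : ∀ g, L.θ (j' g) = j g) :
    HN q ((rY L R).comp j') ((rY L R').comp j') (l.comp j) := by
  have := t.comp (j := j') fun a b e => M.inj (by rw [← hj, ← hj, e])
  rw [show (rY L (X3.Ad f)).comp j' = l.comp j from MonoidHom.ext fun g =>
    (D.eq _).symm.trans (congrArg l (hj g))] at this
  exact ⟨(S.jp.comp _).comp _, this, S.fx hz big M h5 h12 hj, S.symm.fx hz big M h5 h12 hj⟩

variable [IsSimpleGroup X] (hX : ∃ a b : X, a * b ≠ b * a)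
include hX

omit big in
theorem hl (D : Ld L f l) (t : TL q l) (h5 : 5 ≤ n) (h7 : n ≤ 7) : HL q (Nw l j) (l.comp j) := by
  refine ⟨t.comp M.inj, fun k => ?_, fun k a b y e r d => ?_⟩
  · rw [Nw, not_or, not_not, not_not] at k
    rw [k.1, k.2]
    exact ⟨D.fx, D.fx', D.cx⟩
  · obtain ⟨T, h1, h2⟩ := (tu hz D).u5 a (j y) (by rw [← map_pow, e, map_one]) (r.map j) d
    refine h1.not_ten hz b (cen5 h5 h7 M (k.le M hX h2) e ?_ h2.cm)
    rintro rfl
    rw [dm_one, t.dl] at d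
    omega

omit big in
theorem k2 (D : Ld L f l) (t : TL q l) (k : Nw l j) (a : (2 : L.K) ≠ 0) {x : An n} (e : x ^ 2 = 1)
    (d : dm (l.comp j) x = 46) {m : ℕ} (m0 : 0 < m) (c : x ≠ 1 → ∀ s ∈ H,
      (∀ g, Commute g x → Commute (j g) s) → s ^ m = 1) : q ≤ m * z + 1 := by
  obtain ⟨T, h1, h2, h3⟩ := (tu hz D).u2 a (j x) (by rw [← map_pow, e, map_one]) d
  refine h1.ex one_pos m m0 fun s hs => c ?_ s (k.le M hX h2 hs) fun g hg => h3 _ (hg.map j) s hs
  rintro rfl
  rw [dm_one, t.dl] at d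
  omega

end

section
open CF.Chev CF.BN CF.ExA
variable {p q z : ℕ} [Fact p.Prime] {X : Type*} [Group X] [Finite X] [IsSimpleGroup X]
  {L : LS cE6 1 p q z X} {R R' : L.G →* End L.K (N L.K)} {f : L.G →* GL (Fin 6 ⊕ Fin 72) L.K}
  {l : X →* End L.K (LA L.K)} {H : Subgroup X} (hz : z = Nat.gcd 3 (q - 1))
  (big : q ^ 78 ≤ 6 * Nat.card X) (hX : ∃ a b : X, a * b ≠ b * a) (S : Sd L R R' 1) (D : Ld L f l)
  (t : TB q (rY L R) (rY L (X3.Ad f))) (t' : TL q l)
include hz big hX S D t t'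

theorem m5 {j : An 5 →* X} (M : Mx H j) : False := by
  have : Finite (Yg L) := L.frob.finite
  obtain ⟨j', hj⟩ := exists_split (ce L hz) le_rfl (by decide) (by decide) M.inj
  refine c5 (hn hz big M S D t le_rfl (by decide) hj) (hl hz M hX D t' le_rfl (by decide))
    fun k a x e d => ?_
  have h1 := k2 hz M hX D t' k a e d two_pos fun n s m c => cen25 M e n m c
  have h2 := two_le_q L
  have h3 : ¬ 2 ∣ q := by
    rintro ⟨c, rfl⟩
    obtain ⟨M, hM, e⟩ := L.pow
    exact a ((cast_iff L Nat.prime_two).2 ((Nat.prime_dvd_prime_iff_eq Nat.prime_two Fact.out).1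
      (Nat.prime_two.dvd_of_dvd_pow (e ▸ dvd_mul_right 2 c))).symm)
  have h4 : z ≤ 3 := hz ▸ Nat.gcd_le_left _ (by decide)
  have h5 : q ≤ 7 := by omega
  interval_cases q <;> simp_all

theorem m6 {j : An 6 →* X} (M : Mx H j) : 7 ≤ p := by
  have : Finite (Yg L) := L.frob.finite
  have k := hl hz M hX D t' (by decide) (by decide)
  obtain ⟨m, hm, hq⟩ := L.pow
  by_contra! hp
  have h1 : p = 2 ∨ p = 3 ∨ p = 5 := by
    have := (Fact.out : p.Prime)
    interval_cases p <;> simp_all (config := {decide := true})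
  have h3 : p = 3 → z = 1 := fun e => hz.trans (by
    rw [hq, e]
    exact (Nat.coprime_self_sub_right (Nat.one_le_pow _ _ (by decide))).2 (by simp) |>.symm.symm
      |>.coprime_dvd_left (dvd_pow_self 3 hm.ne'))
  rcases split6 (ce L hz) M.inj with ⟨j', hj⟩ | ⟨z3, nc⟩
  · have h := hn hz big M S D t (by decide) (by decide) hj
    by_cases e : p = 3
    · have e' := (cast_iff L Nat.prime_three).2 e
      obtain ⟨a, d2, d4, d5⟩ := c6b h k e' fun k x b d => by
        simpa [h3 e] using k2 hz M hX D t' k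
          (mt (cast_iff L Nat.prime_two).1 (by omega)) b d four_pos fun n s m c => cen26 M b n m c
      have h9 : 9 ≤ q := by
        rw [hq, e] at a ⊢
        exact Nat.pow_le_pow_right (n := 3) (i := 2) (by decide)
          (by by_contra! c; exact a (by rw [show m = 1 by omega, pow_one]))
      obtain ⟨w, v⟩ := v6 hz e h9 M hj S d2
      obtain ⟨w', v'⟩ := v6 hz e h9 M hj S.symm fun x a b => (h.jp.dm_eq x).trans (d2 x a b)
      exact c6c h e' d2 d4 d5 w w' v v'
    · exact c6a h ((h1.imp_right fun c => c.resolve_left e).imp (cast_iff L Nat.prime_two).2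
        (cast_iff L Nat.prime_five).2)
  have x3 := ns3 hz S D t M.inj nc
  have nw := c6n k x3
  have p3 : p ≠ 3 := fun e => by omega
  have h4 : 3 ∣ q - 1 := by rw [z3] at hz; exact hz ▸ Nat.gcd_dvd_right _ _
  by_cases h16 : 16 ≤ q
  · obtain ⟨T, h5, h6⟩ := (tu hz D).u3 (mt (cast_iff L Nat.prime_three).1 p3) (j x6)
      (by rw [← map_pow, show x6 ^ 3 = 1 by decide, map_one])
      (Re.map j (isConj_iff.2 ⟨ap ![1, 0, 2, 4, 3, 5] ![1, 0, 2, 4, 3, 5], by decide⟩))
      (x3 x6 (by decide) (by decide))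
    have h7 := cen3 M (nw.le M hX h6) h6.cm
    have h8 := h5.le
    have := Nat.pow_le_pow_left (show 15 ≤ q - 1 by omega) 2
    rw [z3] at h8
    omega
  obtain rfl : q = 4 := by
    have h5 : m < 4 := (Nat.pow_lt_pow_iff_right (a := 2) (by decide)).1
      ((Nat.pow_le_pow_left (Fact.out : p.Prime).two_le m).trans_lt (by omega))
    rcases h1 with rfl | rfl | rfl <;> interval_cases m <;> omega
  have p5 : (5 : L.K) ≠ 0 := fun e => by
    have := L.cast_q
    exact one_ne_zero (α := L.K) (by push_cast at this; linear_combination e - this)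
  have r : Re f6 := isConj_iff.2 ⟨ap ![0, 4, 3, 2, 1, 5] ![0, 4, 3, 2, 1, 5], by decide⟩
  have e5 : j f6 ^ 5 = 1 := by rw [← map_pow, show f6 ^ 5 = 1 by decide, map_one]
  have ph : ∀ v : N L.K, (fun a => v a ^ 4) = L.φ ∘ v := fun v => funext fun a => (L.φ_eq _).symm
  refine Am.h4 (ce L hz) z3 M (eq_range (ce L hz) M nc fun c => k.k5 nw p5 (by decide) f6 (by decide) r
    ((t'.t5 p5 _ e5 (mt (map_eq_one_iff j M.inj).1 (by decide)) (r.map j)).2 (.inl c))) nc
    (S.jp.comp _) t S.irr S.irr' S.sc S.symm.sc (fun g v => ?_) (fun g v => ?_) big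
  · rw [ph, ph]; exact (congrArg (R · _) (g.2 : L.T.σ g = g)).symm.trans (S.fr g v)
  · rw [ph, ph]; exact (congrArg (R' · _) (g.2 : L.T.σ g = g)).symm.trans (S.fr' g v)

theorem m7 {j : An 7 →* X} (M : Mx H j) : False := by
  have : Finite (Yg L) := L.frob.finite
  have k := hl hz M hX D t' (by decide) (by decide)
  obtain ⟨m, hm, hq⟩ := L.pow
  have pq : p ≤ q := hq ▸ Nat.le_self_pow hm.ne' p
  have k5 : p ≠ 5 → 3 ≤ q → ¬ Nw l j := fun a b c =>
    have a' := mt (cast_iff L Nat.prime_five).1 a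
    have r : Re C3.Y := by
      rw [Re, inv_eq_of_mul_eq_one_left ((pow_succ _ 4).symm.trans C3.Y5)]; exact C3.cY4
    k.k5 c a' b _ C3.Y5 r ((k.tl.t5 a' _ C3.Y5 C3.Y1 r).2 (.inl C3.cY2))
  by_cases h5 : p = 5
  · have e := (cast_iff L Nat.prime_five).2 h5
    have nw : ¬ Nw l j := fun c => by
      obtain ⟨T, h1, h2⟩ := (tu hz D).u7 (mt (cast_iff L (by norm_num : Nat.Prime 7)).1 (by omega))
        (j (C3.T * C3.U)) (by rw [← map_pow, C3.W7, map_one]) (mt (map_eq_one_iff j M.inj).1 C3.W1)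
        (map_pow j _ 2 ▸ j.map_isConj C3.cW2)
      have h3 := cen7 M (c.le M hX h2) C3.W7 C3.W1 h2.cm
      have h4 := h1.le
      have h6 : z ≤ 3 := hz ▸ Nat.gcd_le_left _ (by decide)
      have h7 := Nat.mul_le_mul h6 h3
      rcases (show m = 1 ∨ 2 ≤ m by omega) with rfl | c
      · subst h5 hq hz
        norm_num at h4
        omega
      · have := Nat.pow_le_pow_right (n := p) (by omega) c
        have := Nat.pow_le_pow_left (show 24 ≤ q - 1 by subst h5; omega) 2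
        omega
    obtain ⟨-, h1, h2⟩ := k.old nw
    obtain ⟨U, a, b, c, d, g⟩ := c75 k.tl (h1 (mt (cast_iff L Nat.prime_three).1 (by omega))) h2 e
      (bk L.K) (fun g u v => by
        obtain ⟨y, hy⟩ := L.surj (j g)
        simp only [MonoidHom.comp_apply, ← hy, D.eq, D.br]) D.alt
    exact p5 hz h5 M D a b c d g
  by_cases h2 : p = 2
  · have e := (cast_iff L Nat.prime_two).2 h2
    rcases split7 (ce L hz) M.inj with ⟨j', hj⟩ | ⟨z3, nc⟩
    · exact c72s (hn hz big M S D t (by decide) (by decide) hj) e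
    obtain ⟨-, h3, h4⟩ := k.old (k5 h5 (by
      by_contra! c
      obtain rfl : q = 2 := by omega
      simp [z3] at hz))
    exact c72n k.tl (h3 (mt (cast_iff L Nat.prime_three).1 (by omega))) h4 e
      (ns3 hz S D t (j := j.comp up) (M.inj.comp up_inj) nc)
  have p3 : 3 ≤ p := by have := (Fact.out : p.Prime).two_le; omega
  by_cases h3 : p = 3
  · have e := (cast_iff L Nat.prime_three).2 h3
    rcases split7 (ce L hz) M.inj with ⟨j', hj⟩ | ⟨z3, -⟩
    · have h := hn hz big M S D t (by decide) (by decide) hj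
      obtain ⟨a, b, c, d, g⟩ := c73a h k e
      obtain ⟨-, -, -, d', g'⟩ := c73a h.symm k e
      exact c73b h e a b c d g g' (w7 hz h3 M hj S d) (w7 hz h3 M hj S.symm d')
    · have h4 : 3 ∣ q - 1 := by rw [z3] at hz; exact hz ▸ Nat.gcd_dvd_right _ _
      have h6 : 3 ∣ q := hq ▸ h3 ▸ dvd_pow_self p hm.ne'
      omega
  obtain ⟨-, h4, h6⟩ := k.old (k5 h5 (p3.trans pq))
  have e := mt (cast_iff L Nat.prime_three).1 h3
  exact c7p k.tl (h4 e) h6 (mt (cast_iff L Nat.prime_two).1 h2) e (mt (cast_iff L Nat.prime_five).1 h5)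

omit hX t' in
theorem m8 {n : ℕ} (h8 : 8 ≤ n) (h12 : n ≤ 12) {j : An n →* X} (M : Mx H j) : False := by
  have : Finite (Yg L) := L.frob.finite
  obtain ⟨j', hj⟩ := exists_split (ce L hz) (by omega) (by omega) (by omega) M.inj
  have h := hn hz big M S D t (by omega) h12 hj
  by_cases h2 : (2 : L.K) = 0
  · rcases h8.eq_or_lt with rfl | h9
    exacts [c82b h h2 (c82a h h2), c92 h9 h12 h h2]
  · exact c8o h8 h.tb h2

end

theorem big_E6 {q : ℕ} (h : 2 ≤ q) : q ^ 78 ≤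
    2 * (q ^ 36 * (q ^ 2 - 1) * (q ^ 5 - 1) * (q ^ 6 - 1) * (q ^ 8 - 1) * (q ^ 9 - 1) * (q ^ 12 - 1)) := by
  have k : ∀ n, 2 ^ n * (q ^ n - 1) ≥ (2 ^ n - 1) * q ^ n := fun n => by
    have h1 := Nat.pow_le_pow_left h n
    have h2 := Nat.one_le_two_pow (n := n)
    zify [h2, h2.trans h1] at h1 ⊢
    linarith
  have := Nat.mul_le_mul (Nat.mul_le_mul (Nat.mul_le_mul (Nat.mul_le_mul (Nat.mul_le_mul
    (Nat.mul_le_mul_left (q ^ 36) (k 2)) (k 5)) (k 6)) (k 8)) (k 9)) (k 12)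
  generalize q ^ 2 - 1 = a, q ^ 5 - 1 = a', q ^ 6 - 1 = b, q ^ 8 - 1 = c, q ^ 9 - 1 = c',
    q ^ 12 - 1 = d at this ⊢
  rw [show q ^ 36 * ((2 ^ 2 - 1) * q ^ 2) * ((2 ^ 5 - 1) * q ^ 5) * ((2 ^ 6 - 1) * q ^ 6) *
      ((2 ^ 8 - 1) * q ^ 8) * ((2 ^ 9 - 1) * q ^ 9) * ((2 ^ 12 - 1) * q ^ 12) =
      3126356394525 * q ^ 78 by norm_num; ring,
    show q ^ 36 * (2 ^ 2 * a) * (2 ^ 5 * a') * (2 ^ 6 * b) * (2 ^ 8 * c) * (2 ^ 9 * c') * (2 ^ 12 * d) =
      4398046511104 * (q ^ 36 * a * a' * b * c * c' * d) by ring] at this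
  omega

open CF.Chev CF.BN CF.ExA in
theorem main {F : Type*} [Field F] [Fintype F] (p : ℕ) [Fact p.Prime] [CharP F p]
    (H : Subgroup (chevE6.group F)) (hH : IsCoatom H) (n : ℕ) (hn : 5 ≤ n)
    (e : generalizedFittingSubgroup H ≃* alternatingGroup (Fin n)) : n = 6 ∧ 7 ≤ p := by
  obtain ⟨L⟩ : Nonempty (LS cE6 1 p (Fintype.card F) _ (chevE6.group F)) :=
    exists_LS_chev goodE6 (fun K _ => torE6 K) cenE6 F p
  have hc := cardE6 F (Nat.card_eq_fintype_card (α := F))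
  generalize Fintype.card F = q at L hc
  have hz : Nat.gcd 3 (q - 1) ^ 1 = Nat.gcd 3 (q - 1) := pow_one _
  have big : q ^ 78 ≤ 6 * Nat.card (chevE6.group F) := by
    have := big_E6 (two_le_q L)
    have := Nat.mul_le_mul_right (Nat.card (chevE6.group F)) (Nat.gcd_le_left (q - 1) three_pos)
    omega
  have : Finite (chevE6.group F) := Nat.finite_of_card_ne_zero fun k => by
    have := Nat.pow_pos (n := 78) (show 0 < q from (two_le_q L).trans_lt' two_pos)
    omega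
  have : Finite (Yg L) := L.frob.finite
  obtain ⟨hs, hX⟩ := Cfsg.Agent.S1054.result (F := F) chevE6 (by simp)
  replace hX : ∃ a b : chevE6.group F, a * b ≠ b * a := by
    by_contra! k
    exact hX ⟨⟨k⟩⟩
  obtain ⟨j, M⟩ := exists_mx hH hn e
  have hb := bound_E6 L (r := n)
    (Sec.of_inj ⟨⊤, Subgroup.subtype _, fun x => ⟨⟨x, trivial⟩, rfl⟩⟩ j M.inj)
  obtain ⟨R, R', S, hx⟩ := exists_sd L
  obtain ⟨f, l, D⟩ := exists_ld L
  have t := tb S D.hf fun h => i2 h hx
  have t' := TL.down (ce L hz) t.toTL D.eq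
  by_cases h8 : 8 ≤ n
  · exact (m8 hz big S D t h8 (by split_ifs at hb <;> omega) M).elim
  obtain rfl | rfl | rfl : n = 5 ∨ n = 6 ∨ n = 7 := by omega
  exacts [(m5 hz big hX S D t t' M).elim, ⟨rfl, m6 hz big hX S D t t' M⟩,
    (m7 hz big hX S D t t' M).elim]

end CF.Am
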