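import Cfsg.Agent.BN.Aff
import Cfsg.Agent.BN.TwComb
import Cfsg.Agent.Chev.Mult
import Cfsg.Agent.Chev.Torus

/-! A sublattice of index at least `300` of the root lattice `E₆` is not spanned by differences of roots. -/

set_option autoImplicit false

namespace CF.Am

open Module Function CF.Chev CF.BN Matrix

namespace P5a

/-- The Cartan matrix. -/
def Cm : Matrix (Fin 6) (Fin 6) ℤ := !![2, 0, -1, 0, 0, 0; 0, 2, 0, -1, 0, 0; -1, 0, 2, -1, 0, 0;
  0, -1, -1, 2, -1, 0; 0, 0, 0, -1, 2, -1; 0, 0, 0, 0, -1, 2]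

/-- Twice the simple roots. -/
def Bm : Matrix (Fin 6) (Fin 8) ℤ := !![1, -1, -1, -1, -1, -1, -1, 1; 2, 2, 0, 0, 0, 0, 0, 0;
  -2, 2, 0, 0, 0, 0, 0, 0; 0, -2, 2, 0, 0, 0, 0, 0; 0, 0, -2, 2, 0, 0, 0, 0; 0, 0, 0, -2, 2, 0, 0, 0]

/-- The adjugate of the Cartan matrix. -/
def Cj : Matrix (Fin 6) (Fin 6) ℤ := !![4, 3, 5, 6, 4, 2; 3, 6, 6, 9, 6, 3; 5, 6, 10, 12, 8, 4;
  6, 9, 12, 18, 12, 6; 4, 6, 8, 12, 10, 5; 2, 3, 4, 6, 5, 4]

theorem BB : Bm * Bmᵀ = (4 : ℤ) • Cm := by decide +kernel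

theorem CC : Cm * Cj = (3 : ℤ) • 1 := by decide +kernel

theorem dC : Cm.det = 3 := by decide +kernel

theorem sp (i : Fin 6) (v : Fin 6 → ℤ) : cE6.sp i v = (Cm *ᵥ v) i := by
  have : ∀ i j, cE6.car i j = Cm i j := fun i j => by
    rw [carE6']; fin_cases i <;> fin_cases j <;> rfl
  simp only [RootSys.sp_apply, this, mulVec, dotProduct]

theorem AA (r s : Fin 72) : cE6.A r s = cE6.vec r ⬝ᵥ Cm *ᵥ cE6.vec s := by
  rw [RootSys.A_def, RootSys.cor_apply]
  refine Finset.sum_congr rfl fun i _ => ?_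
  rw [sp, mul_right_cancel₀ (cE6.len_ne_zero r) ((cE6.cov_len r i).trans
    (congrArg _ (sameLenE6 (cE6.simple i) r)))]

theorem Age (r s : Fin 72) : -2 ≤ cE6.A r s := by
  by_cases h1 : s = r
  · simp [h1]
  by_cases h2 : s = cE6.neg r
  · simp [h2, RootSys.A_neg_right]
  · have := (RootSys.abs_A_le_of_len (R := cE6.toRootSys) (sameLenE6 r s) h1 h2).1
    omega

theorem nm (r s : Fin 72) : (cE6.vec r - cE6.vec s) ⬝ᵥ Cm *ᵥ (cE6.vec r - cE6.vec s) ≤ 8 := by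
  have := Age r s
  have := Age s r
  simp only [mulVec_sub, sub_dotProduct, dotProduct_sub, ← AA, RootSys.A_self]
  omega

theorem amgm {G : Matrix (Fin 6) (Fin 6) ℝ} (h : G.PosSemidef) {t : ℝ} (ht : G.trace ≤ 6 * t) :
    G.det ≤ t ^ 6 := by
  have e := h.eigenvalues_nonneg
  rw [h.1.trace_eq_sum_eigenvalues] at ht
  have k := Real.geom_mean_le_arith_mean_weighted Finset.univ (fun _ : Fin 6 => (6 : ℝ)⁻¹) _
    (fun _ _ => by positivity) (by simp) fun i _ => e i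
  rw [← Finset.mul_sum, Real.finsetProd_rpow _ _ fun i _ => e i] at k
  have p : 0 ≤ ∏ i, h.1.eigenvalues i := Finset.prod_nonneg fun i _ => e i
  have := pow_le_pow_left₀ (by positivity) (k.trans (show _ ≤ t by simp only [RCLike.ofReal_real_eq_id, id] at ht; linarith)) 6
  rw [← Real.rpow_natCast, ← Real.rpow_mul p] at this
  rw [h.1.det_eq_prod_eigenvalues]
  simpa using this

theorem had {D : Matrix (Fin 6) (Fin 6) ℤ} (h : ∀ j, D j ⬝ᵥ Cm *ᵥ D j ≤ 8) : 3 * D.det ^ 2 ≤ 8 ^ 6 := by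
  have e : (D * Bm) * (D * Bm)ᵀ = (4 : ℤ) • (D * Cm * Dᵀ) := by
    rw [transpose_mul, Matrix.mul_assoc, ← Matrix.mul_assoc Bm, BB, Matrix.smul_mul,
      Matrix.mul_smul, Matrix.mul_assoc]
  have t : (D * Cm * Dᵀ).trace ≤ 6 * 8 := by
    refine (Finset.sum_le_sum (g := fun _ => 8) fun j _ => ?_).trans (by simp)
    rw [Matrix.mul_assoc]
    exact h j
  let f := Int.castRingHom ℝ
  have p := posSemidef_self_mul_conjTranspose ((D * Bm).map f)
  rw [conjTranspose_eq_transpose_of_trivial, ← transpose_map, ← Matrix.map_mul, e] at p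
  have := amgm p (t := 32) (by
    rw [← AddMonoidHom.map_trace f, trace_smul, smul_eq_mul]
    exact (Int.cast_le (R := ℝ) (n := 6 * 32)).2 (by omega) |>.trans (by norm_num))
  rw [← RingHom.mapMatrix_apply, ← RingHom.map_det, det_smul, det_mul, det_mul, det_transpose, dC] at this
  have h2 : 4 ^ 6 * (D.det * 3 * D.det) ≤ 32 ^ 6 := by
    rw [← Int.cast_le (R := ℝ)]
    exact (by simpa using this : (f (4 ^ 6 * (D.det * 3 * D.det))) ≤ 32 ^ 6).trans (by norm_num)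
  nlinarith

section
variable {D : Matrix (Fin 6) (Fin 6) ℤ} {A : Type*} [CommGroup A] (φ : Multiplicative (Fin 6 → ℤ) →* A)
  (h : ∀ j, φ (.ofAdd (D j)) = 1)
include h

theorem dv : Nat.card φ.range ∣ D.det.natAbs := by
  by_cases h0 : D.det = 0
  · simp [h0]
  have h1 : Injective (toLin' Dᵀ) := by
    rw [← LinearMap.ker_eq_bot, ker_toLin'_eq_bot_iff]
    exact fun v hv => eq_zero_of_mulVec_eq_zero (by simpa using h0) hv
  have h2 := Submodule.natAbs_det_equiv _ (LinearEquiv.ofInjective _ h1)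
  rw [show _ ∘ₗ _ = toLin' Dᵀ from rfl, LinearMap.det_toLin', det_transpose] at h2
  rw [h2, ← Subgroup.index_ker]
  refine Subgroup.index_dvd_of_le (H := (LinearMap.range (toLin' Dᵀ)).toAddSubgroup.toSubgroup) ?_
  rintro _ ⟨v, rfl⟩
  change φ (.ofAdd (Dᵀ *ᵥ v)) = 1
  rw [mulVec_transpose, vecMul_eq_sum, ofAdd_sum, map_prod]
  simp [ofAdd_zsmul, h, -smul_eq_mul, -zsmul_eq_mul]

theorem pw {p : ℕ} [Fact p.Prime] (hp : ∀ v, φ v ^ p = 1) {n : ℕ} (hD : ¬ (p : ℤ) ^ (n + 1) ∣ D.det) :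
    Nat.card φ.range ∣ p ^ n := by
  have h1 := dv φ h
  have : Finite φ.range := Nat.finite_of_card_ne_zero fun e => hD (by
    rw [e, zero_dvd_iff, Int.natAbs_eq_zero] at h1; simp [h1])
  obtain ⟨k, hk⟩ := IsPGroup.iff_card.1 (show IsPGroup p φ.range from fun ⟨_, v, rfl⟩ =>
    ⟨1, Subtype.ext (by simpa using hp v)⟩)
  rw [hk] at h1 ⊢
  refine pow_dvd_pow _ (by_contra fun c => hD ?_)
  exact_mod_cast Int.natCast_dvd.2 ((pow_dvd_pow p (show n + 1 ≤ k by omega)).trans h1)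

theorem triv {p : ℕ} [Fact p.Prime] (hp : ∀ v, φ v ^ p = 1) (hD : ¬ (p : ℤ) ∣ D.det) : φ = 1 := by
  have := pw φ h hp (n := 0) (by simpa using hD)
  rwa [pow_zero, Nat.dvd_one, Subgroup.card_eq_one, MonoidHom.range_eq_bot_iff] at this

theorem cyc {p : ℕ} [Fact p.Prime] (hp : ∀ v, φ v ^ p = 1) (hD : ¬ (p : ℤ) ^ 2 ∣ D.det) :
    ∃ u, ∀ v, ∃ k : ℤ, φ v = φ u ^ k := by
  obtain ⟨⟨_, u, rfl⟩, hu⟩ := (isCyclic_of_card_dvd_prime (α := φ.range) (p := p)
    (pow_one p ▸ pw φ h hp (n := 1) hD)).exists_generator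
  exact ⟨u, fun v => (hu ⟨_, v, rfl⟩).imp fun k e => (congrArg Subtype.val e).symm⟩

end

theorem tc1 {K : Type*} [Field K] {c : Fin 6 → Kˣ} (h : ∀ r, rv cE6 c r = 1) : cE6.torChar c = 1 :=
  cE6.char_eq_one_of_simple fun j => h _

theorem big {K : Type*} [Field K] (h5 : (5 : K) = 0) {c : Fin 2 → Fin 6 → Kˣ}
    (hc : ∀ a b : ℕ, (∀ r, rv cE6 (c 0 ^ a * c 1 ^ b) r = 1) → 2 ∣ a ∧ 6 ∣ b)
    (h12 : c 0 ^ 2 = 1 ∧ ∀ r, rv cE6 (c 1 ^ 6) r = 1) {h : Fin 2 → Fin 6 → K}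
    (hh : LinearIndependent K h) {D : Matrix (Fin 6) (Fin 6) ℤ}
    (e1 : ∀ i j, cE6.torChar (c i) (.ofAdd (D j)) = 1)
    (e2 : ∀ k j, ∑ i, h k i * (Cm *ᵥ D j) i = 0) : 300 ∣ D.det := by
  have : Fact (Nat.Prime 5) := ⟨by decide⟩
  have t6 := fun v => DFunLike.congr_fun ((map_pow _ _ _).symm.trans (tc1 h12.2)) v
  have t2 := fun v => DFunLike.congr_fun ((map_pow cE6.torChar _ _).symm.trans
    ((congrArg _ h12.1).trans (map_one _))) v
  simp only [MonoidHom.pow_apply, MonoidHom.one_apply] at t6 t2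
  have hc' : ∀ a b : ℕ, (∀ v, cE6.torChar (c 0) v ^ a * cE6.torChar (c 1) v ^ b = 1) → 2 ∣ a ∧ 6 ∣ b :=
    fun a b e => hc a b fun r => by simpa [rv, Char.ev] using e (.ofAdd (cE6.vec r))
  have d3 : (3 : ℤ) ∣ D.det := by_contra fun n => absurd (hc' 0 2 fun v => by
    rw [pow_zero, one_mul]
    exact DFunLike.congr_fun (triv (cE6.torChar (c 1) ^ 2) (fun j => by simp [e1]) (p := 3)
      (fun v => by simp [← pow_mul, t6]) n) v).2 (by decide)
  have d4 : (2 : ℤ) ^ 2 ∣ D.det := by_contra fun n => by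
    obtain ⟨u, hu⟩ := cyc ((cE6.torChar (c 0)).prod (cE6.torChar (c 1) ^ 3)) (fun j => by simp [e1]) (p := 2)
      (fun v => by simp [← pow_mul, t6, t2]) n
    simp only [MonoidHom.prod_apply, MonoidHom.pow_apply, Prod.pow_mk, Prod.mk.injEq] at hu
    have k : ∀ a b : ℕ, cE6.torChar (c 0) u ^ a * (cE6.torChar (c 1) u ^ 3) ^ b = 1 → 2 ∣ a ∧ 6 ∣ 3 * b :=
      fun a b e => hc' a _ fun v => by
        obtain ⟨m, h1, h2⟩ := hu v
        rw [pow_mul, h1, h2, ← zpow_natCast, ← zpow_natCast _ b, zpow_comm, zpow_comm _ m, ← mul_zpow,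
          zpow_natCast, zpow_natCast, e, _root_.one_zpow]
    have s : ∀ x : Kˣ, x ^ 2 = 1 → x = 1 ∨ x = -1 := fun x hx =>
      (sq_eq_one_iff.1 (congrArg Units.val hx)).imp Units.ext Units.ext
    rcases s _ (t2 u) with a | a
    · exact absurd (k 1 0 (by simp [a])).1 (by decide)
    rcases s (cE6.torChar (c 1) u ^ 3) (by rw [← pow_mul, t6]) with b | b
    · exact absurd (k 0 1 (by simp [b])).2 (by decide)
    · exact absurd (k 1 1 (by simp [a, b])).1 (by decide)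
  have d5 : ((5 : ℕ) : ℤ) ^ 2 ∣ D.det := by_contra fun n => by
    let ψ : (Fin 6 → ℤ) →+ Fin 2 → K := AddMonoidHom.mk' (fun v k => ∑ i, h k i * (Cm *ᵥ v) i) fun v w => by
      ext k; simp [mulVec_add, mul_add, Finset.sum_add_distrib]
    obtain ⟨u, hu⟩ := cyc ψ.toMultiplicative (fun j => funext fun k => e2 k j) (p := 5)
      (fun v => funext fun k => by
        change ((5 : ℕ) • ψ v.toAdd) k = 0
        simp [h5]) n
    obtain ⟨a, a0, ha⟩ : ∃ a : Fin 2 → K, a ≠ 0 ∧ ∑ k, a k * ψ u.toAdd k = 0 := by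
      generalize ψ u.toAdd = w
      by_cases z : w 0 = 0
      · exact ⟨![1, 0], by simp, by simp [z]⟩
      · exact ⟨![w 1, -w 0], fun e => z (by simpa using congrFun e 1), by simp [mul_comm (w 0)]⟩
    refine a0 (funext (Fintype.linearIndependent_iff.1 hh a (funext fun i => ?_)))
    obtain ⟨m, hm⟩ := hu (.ofAdd (Cj *ᵥ Pi.single i 1))
    have h1 : ψ (Cj *ᵥ Pi.single i 1) = m • ψ u.toAdd := hm
    have h2 : ∀ k, ψ (Cj *ᵥ Pi.single i 1) k = 3 * h k i := fun k => by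
      simp [ψ, -mulVec_single, CC, Pi.single_apply, mul_comm]
    have h3 : (3 : K) ≠ 0 := fun e => one_ne_zero (α := K) (by linear_combination 2 * e - h5)
    refine mul_left_cancel₀ h3 ?_
    have h4 := congrArg ((m : K) * ·) ha
    simp only [Fin.sum_univ_two, h1, Pi.smul_apply, zsmul_eq_mul, Pi.add_apply, smul_eq_mul,
      Pi.zero_apply] at h2 h4 ⊢
    linear_combination h4 - a 0 * h2 0 - a 1 * h2 1
  omega

end P5a

open P5a in
/-- P5a: pure root system statement. `χ` = restriction of roots to `V₄ × 3`, `μ` = to `U ∩ 𝔥`. -/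
theorem p5a {K : Type*} [Field K] (h5 : (5 : K) = 0) {c : Fin 2 → Fin 6 → Kˣ}
    (hc : ∀ a b : ℕ, (∀ r, rv cE6 (c 0 ^ a * c 1 ^ b) r = 1) → 2 ∣ a ∧ 6 ∣ b)
    (h12 : c 0 ^ 2 = 1 ∧ ∀ r, rv cE6 (c 1 ^ 6) r = 1) {h : Fin 2 → Fin 6 → K}
    (hh : LinearIndependent K h) : ∃ y : Fin 6 → ℤ, y ≠ 0 ∧ ∀ r s : Fin 72,
      (∀ i, rv cE6 (c i) r = rv cE6 (c i) s) →
      (∀ k, ∑ i, h k i * cE6.A (cE6.simple i) r = ∑ i, h k i * cE6.A (cE6.simple i) s) →
        pr cE6 y (cE6.vec r) = pr cE6 y (cE6.vec s) := by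
  let S : Set (Fin 6 → ℚ) := {x | ∃ r s, (∀ i, rv cE6 (c i) r = rv cE6 (c i) s) ∧
    (∀ k, ∑ i, h k i * cE6.A (cE6.simple i) r = ∑ i, h k i * cE6.A (cE6.simple i) s) ∧
    x = fun i => ((Cm *ᵥ (cE6.vec r - cE6.vec s)) i : ℚ)}
  rcases (le_top (a := Submodule.span ℚ S)).eq_or_lt with t | t
  · obtain ⟨f, h1, -, h2⟩ := Submodule.exists_fun_fin_finrank_span_eq ℚ S
    have e : finrank ℚ (Submodule.span ℚ S) = 6 := by rw [t]; simp
    generalize finrank ℚ (Submodule.span ℚ S) = n at e f h1 h2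
    subst e
    choose r s e1 e2 e3 using h1
    obtain ⟨D, hD⟩ : ∃ D : Matrix (Fin 6) (Fin 6) ℤ, ∀ j, D j = cE6.vec (r j) - cE6.vec (s j) :=
      ⟨of fun j => cE6.vec (r j) - cE6.vec (s j), fun _ => rfl⟩
    have d := big h5 hc h12 hh (D := D) (fun i j => by
      change (cE6.torChar (c i)).ev (D j) = 1
      rw [hD, Char.ev_sub, mul_inv_eq_one]
      exact e1 j i) fun k j => by
        have := e2 j k
        simp only [RootSys.A_simple, sp] at this
        simp [hD, mulVec_sub, mul_sub, this]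
    have d0 : D.det ≠ 0 := fun z => by
      obtain ⟨v, v0, hv⟩ := exists_vecMul_eq_zero_iff.2 z
      refine v0 (funext fun j => Int.cast_injective (α := ℚ) ?_)
      refine (Fintype.linearIndependent_iff.1 h2 (fun j => v j) (funext fun i => ?_) j).trans (by simp)
      have := congrFun (congrArg (Cm *ᵥ ·) hv) i
      simp only [vecMul_eq_sum, mulVec_sum, mulVec_smul, Finset.sum_apply, mulVec_zero, Pi.smul_apply,
        smul_eq_mul, Pi.zero_apply] at this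
      simp only [e3, ← hD, Finset.sum_apply, Pi.smul_apply, smul_eq_mul, Pi.zero_apply]
      exact_mod_cast this
    have b := had (D := D) fun j => hD j ▸ nm _ _
    obtain ⟨m, hm⟩ := d
    have : m ≠ 0 := fun z => d0 (by simp [hm, z])
    have := sq_pos_of_ne_zero this
    rw [hm] at b
    nlinarith
  · obtain ⟨g, g0, hg⟩ := Submodule.exists_le_ker_of_lt_top _ t
    obtain ⟨b, hb⟩ := IsLocalization.exist_integer_multiples_of_finite (nonZeroDivisors ℤ)
      fun i => g (Pi.single i 1)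
    choose y hy using hb
    have b0 : ((b : ℤ) : ℚ) ≠ 0 := by simp
    have k : ∀ x, ∑ i, (y i : ℚ) * x i = (b : ℤ) * g x := fun x => by
      rw [g.pi_apply_eq_sum_univ x, Finset.mul_sum]
      refine Finset.sum_congr rfl fun i _ => ?_
      have : (y i : ℚ) = (b : ℤ) * g (Pi.single i 1) := by simpa using hy i
      rw [this, show (fun j => if i = j then (1 : ℚ) else 0) = Pi.single i 1 by ext; simp [Pi.single_apply, eq_comm]]
      simp only [smul_eq_mul]; ring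
    refine ⟨y, fun z => g0 (LinearMap.ext fun x => by simpa [z, b0] using k x), fun r s e1 e2 => ?_⟩
    have := k fun i => ((Cm *ᵥ (cE6.vec r - cE6.vec s)) i : ℚ)
    rw [LinearMap.mem_ker.1 (hg (Submodule.subset_span ⟨r, s, e1, e2, rfl⟩)), mul_zero] at this
    rw [← sub_eq_zero, ← map_sub, pr_apply]
    simp only [sp] at this ⊢
    exact_mod_cast this

end CF.Am
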