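import Cfsg.Agent.Am.A

/-! The tables of fixed space dimensions of semisimple elements of `E₆(q)`. -/

set_option autoImplicit false

namespace CF.Am

open Module Function Cfsg.Lie CF.E83 CF.Al CF.Chev CF.BN CF.ExA Matrix Finset

namespace TB

/-- The roots as weights. -/
def w72 : List (List ℤ) :=
  [[0, -1, 0, 0, 0, 0], [0, 1, 0, -1, 0, 0], [0, 0, -1, 1, -1, 0], [0, 0, -1, 0, 1, -1], [0, 0, -1,
  0, 0, 1], [-1, 0, 1, 0, -1, 0], [-1, 0, 1, -1, 1, -1], [-1, 0, 1, -1, 0, 1], [-1, -1, 0, 1, 0,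
  -1], [-1, -1, 0, 1, -1, 1], [-1, -1, 0, 0, 1, 0], [-1, 1, 0, 0, 0, -1], [-1, 1, 0, 0, -1, 1], [-1,
  1, 0, -1, 1, 0], [-1, 0, -1, 1, 0, 0], [-2, 0, 1, 0, 0, 0], [1, 0, 0, 0, -1, 0], [1, 0, 0, -1, 1,
  -1], [1, 0, 0, -1, 0, 1], [1, -1, -1, 1, 0, -1], [1, -1, -1, 1, -1, 1], [1, -1, -1, 0, 1, 0], [0,
  -1, 1, 0, 0, -1], [0, -1, 1, 0, -1, 1], [0, -1, 1, -1, 1, 0], [0, -2, 0, 1, 0, 0], [1, 1, -1, 0,
  0, -1], [1, 1, -1, 0, -1, 1], [1, 1, -1, -1, 1, 0], [1, 0, -2, 1, 0, 0], [0, 1, 1, -1, 0, -1], [0,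
  1, 1, -1, -1, 1], [0, 1, 1, -2, 1, 0], [0, 0, 0, 1, -1, -1], [0, 0, 0, 1, -2, 1], [0, 0, 0, 0, 1,
  -2], [0, 0, 0, 0, -1, 2], [0, 0, 0, -1, 2, -1], [0, 0, 0, -1, 1, 1], [0, -1, -1, 2, -1, 0], [0,
  -1, -1, 1, 1, -1], [0, -1, -1, 1, 0, 1], [-1, 0, 2, -1, 0, 0], [-1, -1, 1, 1, -1, 0], [-1, -1, 1,
  0, 1, -1], [-1, -1, 1, 0, 0, 1], [0, 2, 0, -1, 0, 0], [0, 1, -1, 1, -1, 0], [0, 1, -1, 0, 1, -1],
  [0, 1, -1, 0, 0, 1], [-1, 1, 1, 0, -1, 0], [-1, 1, 1, -1, 1, -1], [-1, 1, 1, -1, 0, 1], [-1, 0, 0,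
  1, 0, -1], [-1, 0, 0, 1, -1, 1], [-1, 0, 0, 0, 1, 0], [2, 0, -1, 0, 0, 0], [1, 0, 1, -1, 0, 0],
  [1, -1, 0, 1, -1, 0], [1, -1, 0, 0, 1, -1], [1, -1, 0, 0, 0, 1], [1, 1, 0, 0, -1, 0], [1, 1, 0,
  -1, 1, -1], [1, 1, 0, -1, 0, 1], [1, 0, -1, 1, 0, -1], [1, 0, -1, 1, -1, 1], [1, 0, -1, 0, 1, 0],
  [0, 0, 1, 0, 0, -1], [0, 0, 1, 0, -1, 1], [0, 0, 1, -1, 1, 0], [0, -1, 0, 1, 0, 0], [0, 1, 0, 0,
  0, 0]]

theorem wts_w72 : wts 6 w72 = univ.val.map fun (r : Fin 72) (i : Fin 6) => tabE6.car i r := by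
  decide +kernel

/-- The number of weights killed by the `j`-th power. -/
noncomputable def nn (w : List (List ℤ)) (m j : ℕ) (x : List ℤ) : ℕ :=
  hsL w m (fun i => if j * i % m = 0 then 1 else 0) x

/-- The check of a table. -/
noncomputable def chk (m k : ℕ) (P : List ℕ → List ℤ → Bool) : Bool :=
  allAlc [1, 2, 2, 3, 2, 1] m (trA adE6 3 fun s x => x.all (· % m == 0) ||
    forceL (x.map (k * ·)) (hsL ExA.w27 m (32 ^ ·)) != hsL ExA.w27 m (32 ^ ·) x || P s x)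

theorem nz_nn {m : ℕ} [NeZero m] (w : List (List ℤ)) (j : ℕ) (u : Fin 6 → ℤ) :
    ExA.nz (wts 6 w) (j • fun i => (u i : ZMod m)) = nn w m j (List.ofFn u) := by
  refine Eq.trans ?_ (hs_wts ..)
  simp only [ExA.nz, hs, dz_nsmul, ← Nat.dvd_iff_mod_eq_zero, ← ZMod.natCast_eq_zero_iff, Nat.cast_mul,
    ZMod.natCast_zmod_val]

theorem ad_coord {K : Type*} [Field K] {G : Type*} [Group G] {ρ : StRep cE6 K G} {h : Univ ρ}
    {f : G →* GL (Fin 6 ⊕ Fin 72) K} (hf : ρ.IsAdHom f) {m : ℕ} {V : Type*} {φ : V → G}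
    {Y : V → Fin 6 → ZMod m} (H : Coord h φ Y) (v : V) :
    dm (X3.Ad f) (φ v) = 6 + ExA.nz (wts 6 w72) (Y v) := by
  classical
  obtain ⟨g, ψ, h1, h2⟩ := H
  rw [h2, ← dm_conj (isConj_iff.2 ⟨g, rfl⟩), X3.dm_tor h hf, wts_w72, ExA.nz, hs, Multiset.map_map,
    card_filter]
  refine congrArg _ (sum_congr rfl fun a _ => if_congr ?_ rfl rfl)
  rw [← h1.eq_iff, ψ.map_zero_eq_one, rv_eq]
  simp only [← AddChar.map_zsmul_eq_zpow, zsmul_eq_mul, dz, mul_comm (Y v _), tabE6'.car]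
  exact Eq.congr_left (map_prod ψ.toMonoidHom
    (fun j : Fin 6 => .ofAdd ((tabE6.car j a : ZMod m) * Y v j)) _).symm

variable {p q z : ℕ} [Fact p.Prime] {X : Type*} [Group X] {L : LS cE6 1 p q z X}
  {R R' : L.G →* End L.K (N L.K)} {f : L.G →* GL (Fin 6 ⊕ Fin 72) L.K}

theorem cop {m : ℕ} (h : (m : L.K) ≠ 0) : m.Coprime p :=
  ((Nat.Prime.coprime_iff_not_dvd Fact.out).2 (mt (CharP.cast_eq_zero_iff L.K p m).2 h)).symm

/-- The normal form of a rational semisimple element. -/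
theorem nf {m k : ℕ} (hm : (m : L.K) ≠ 0) {x : Yg L} (hx : x ^ m = 1) (n1 : x ≠ 1)
    (e : IsConj x (x ^ k) ∨ q % m = k) {P : List ℕ → List ℤ → Bool} (h : chk m k P) :
    ∃ (u : Fin 6 → ℤ) (s : Fin 6 → ℕ), (∀ i, pr cE6 u (cE6.vec (cE6.simple i)) = s i) ∧
      P (List.ofFn s) (List.ofFn u) ∧
      Coord L.h (fun j : ℕ => (x ^ j).1) fun j => j • fun i => (u i : ZMod m) := by
  have : NeZero m := ⟨by rintro rfl; simp at hm⟩
  obtain ⟨Y, H⟩ := (in_top L).exists_coord (cop hm) hx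
  obtain ⟨w, hw, u, s, h3, h4, h5⟩ := rat_E6 h (y := Y 1)
    (fun e => n1 (Subtype.ext (by simpa using H.zero_iff.1 e))) (by
      rcases e with e | rfl
      · obtain ⟨y, e⟩ := isConj_iff.1 e
        obtain ⟨w, hw, h3⟩ := H.conj y.1
        exact ⟨w, hw, (h3 1 k (by simpa using congrArg Subtype.val e)).trans (H.smul (by simp))⟩
      · obtain ⟨w, hw, h3⟩ := H.frob L.σ_tor
        refine ⟨w, hw, (h3 1 (show L.T.σ (x ^ 1).1 = (x ^ 1).1 from (x ^ 1).2)).trans (funext fun i => ?_)⟩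
        rw [mulVec, dotProduct, sum_eq_single i (by simp +contextual [Pm, eq_comm]) (by simp)]
        simp [Pm])
  refine ⟨u, s, h4, h5, ?_⟩
  convert H.W hw using 2 with j j
  · rfl
  rw [H.smul (a := 1) (b := j) (k := j) (by simp), mulVec_smul, h3]

theorem core (S : Sd L R R' 1) (hf : L.ρ.IsAdHom f) {m k : ℕ} (hm : (m : L.K) ≠ 0) {x : Yg L}
    (hx : x ^ m = 1) (n1 : x ≠ 1) (e : IsConj x (x ^ k) ∨ q % m = k) {P : ℕ → ℕ → ℕ → ℕ → Prop}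
    [∀ a b c d, Decidable (P a b c d)]
    (h : chk m k fun _ u => P (nn ExA.w27 m 1 u) (6 + nn w72 m 1 u) (nn ExA.w27 m 2 u) (6 + nn w72 m 2 u)) :
    P (dm (rY L R) x) (dm (rY L (X3.Ad f)) x) (dm (rY L R) (x ^ 2))
      (dm (rY L (X3.Ad f)) (x ^ 2)) := by
  have : NeZero m := ⟨by rintro rfl; simp at hm⟩
  obtain ⟨u, s, -, h1, H⟩ := nf hm hx n1 e h
  have a : ∀ j, dm (rY L R) (x ^ j) = nn ExA.w27 m j (List.ofFn u) := fun j => by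
    rw [← nz_nn, ← Rep.coord (R := R) (fun c a => by simpa only [one_mul] using S.tor c a) H, fx, dm, (fs_eig _).1]
    rfl
  have b : ∀ j, dm (rY L (X3.Ad f)) (x ^ j) = 6 + nn w72 m j (List.ofFn u) := fun j => by
    rw [← nz_nn, ← ad_coord hf H]
    rfl
  rwa [decide_eq_true_eq, ← a, ← a, ← b, ← b, pow_one] at h1

theorem re {S : Type*} [Group S] {x : S} {k : ℕ} {a : Prop} (e : x ^ (k + 1) = 1) (r : Re x) :
    IsConj x (x ^ k) ∨ a := .inl (by rwa [eq_inv_of_mul_eq_one_left ((pow_succ x k).symm.trans e)])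

end TB

open TB

variable {p q z : ℕ} [Fact p.Prime] {X : Type*} [Group X] [Finite X] {L : LS cE6 1 p q z X}
  {R R' : L.G →* End L.K (N L.K)} {f : L.G →* GL (Fin 6 ⊕ Fin 72) L.K}

omit [Finite X] in
theorem tb (S : Sd L R R' 1) (hf : L.ρ.IsAdHom f)
    (i : (2 : L.K) = 0 → ∀ x : Yg L, x ^ 2 = 1 → 15 ≤ dm R x.1 ∧ dm R x.1 ≠ 16) :
    TB q (rY L R) (rY L (X3.Ad f)) := by
  have h4 : (2 : L.K) ≠ 0 → ((4 : ℕ) : L.K) ≠ 0 := fun h => by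
    rw [show ((4 : ℕ) : L.K) = 2 * 2 by norm_num]; exact mul_ne_zero h h
  have n2 := fun (h : (2 : L.K) ≠ 0) (x : Yg L) (e : x ^ 2 = 1) (n : x ≠ 1) =>
    core S hf (m := 2) (k := 1) (by simpa) e n (.inl (by rw [pow_one]))
      (P := fun a b _ _ => (a = 15 ∧ b = 38) ∨ (a = 11 ∧ b = 46)) (by decide +kernel)
  have n3 := fun (h : (3 : L.K) ≠ 0) (x : Yg L) (e : x ^ 3 = 1) (n : x ≠ 1) (r : Re x) =>
    core S hf (m := 3) (by simpa) e n (re e r)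
      (P := fun a b _ _ => (a = 9 ∧ (b = 24 ∨ b = 30)) ∨ (a = 15 ∧ b = 36)) (by decide +kernel)
  have n4 := fun (h : (2 : L.K) ≠ 0) (x : Yg L) (e : x ^ 4 = 1) (n : x ≠ 1) (r : Re x) =>
    core S hf (m := 4) (h4 h) e n (re e r)
      (P := fun a b c d => (d = 46 → 22 ≤ b) ∧ (d = 38 → b = 20 ∨ b = 36) ∧
        (c = 15 → (a = 7 ∧ b = 20) ∨ (a = 9 ∧ b = 20) ∨ (a = 15 ∧ b = 36))) (by decide +kernel)
  have n5 := fun (h : (5 : L.K) ≠ 0) (x : Yg L) (e : x ^ 5 = 1) (n : x ≠ 1) (r : Re x) =>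
    core S hf (m := 5) (by simpa) e n (re e r) (P := fun a b _ _ => 5 ≤ a ∧ 16 ≤ b)
      (by decide +kernel)
  have r5 : (5 : L.K) ≠ 0 → ∀ x : Yg L, x ^ 5 = 1 → x ≠ 1 →
      IsConj x (x ^ 2) ∨ q % 5 = 2 ∨ q % 5 = 3 →
        dm (rY L R) x = 7 ∧ dm (rY L (X3.Ad f)) x = 18 := fun h x e n r =>
    (or_assoc.2 r).elim (fun r => core S hf (m := 5) (by simpa) e n r
      (P := fun a b _ _ => a = 7 ∧ b = 18) (by decide +kernel)) fun r => core S hf (m := 5)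
        (by simpa) e n (.inr r) (P := fun a b _ _ => a = 7 ∧ b = 18) (by decide +kernel)
  have n7 := fun (h : (7 : L.K) ≠ 0) (x : Yg L) (e : x ^ 7 = 1) (n : x ≠ 1) (r : IsConj x (x ^ 2)) =>
    core S hf (m := 7) (by simpa) e n (.inl r) (P := fun a b _ _ =>
      (a = 0 ∧ b = 30) ∨ (a = 3 ∧ b = 12) ∨ (a = 9 ∧ b = 18)) (by decide +kernel)
  refine ⟨⟨L.cast_q, ?_, by simp, fun h x e n => ?_, fun h x e n r => ?_, fun h x e n r => ?_,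
    fun h x e n r => ⟨(n5 h x e n r).2, fun k => (r5 h x e n k).2⟩, fun h h' x e r => ?_,
    fun h x e n r => ?_⟩, by simp, i, n2, fun h x e n r => ?_, fun h x e r d => ?_,
    fun h x e n r => ⟨(n5 h x e n r).1, fun k => (r5 h x e n k).1⟩, n7⟩
  · obtain ⟨M, h, rfl⟩ := L.pow
    exact Nat.one_lt_pow h.ne' (Fact.out : p.Prime).one_lt
  · have := n2 h x e n
    omega
  · have := n3 h x e n r
    omega
  · have := n2 h (x ^ 2) (by rwa [← pow_mul]) n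
    have := n4 h x e (by rintro rfl; simp at n) r
    omega
  · by_cases n : x = 1
    · simp [n, dm_one]
    exact core S hf (m := 6) (by
      rw [show ((6 : ℕ) : L.K) = 2 * 3 by norm_num]; exact mul_ne_zero h h') e n (re e r)
      (P := fun _ b _ d => (d = 24 → 12 ≤ b) ∧ (d = 30 → 14 ≤ b) ∧ (d = 36 → 18 ≤ b))
      (by decide +kernel)
  · have := n7 h x e n r
    omega
  · have := n3 h x e n r
    omega
  · exact (n4 h x e (by rintro rfl; simp [dm_one] at d) r).2.2 d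

end CF.Am
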