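import Cfsg.Agent.Am.A

/-! Totally white subspaces have dimension at most six. -/

set_option autoImplicit false

namespace CF.Am

open Module Function Cfsg.Lie Matrix Geom.E6

variable {K : Type*} [Field K]

namespace TS

/-- A generic height. -/
def ht (a : I27) : ℤ := ![1, 10, 100] a.1 * ![1, 2, -3] a.2.1 - ![10, 100, 1] a.1 * ![1, 2, -3] a.2.2

theorem ht_spec : ∀ c n m, (ht (p1 c n) ≤ ht (p1 c m) → ht (p2 c n) ≤ ht (p2 c m) → n = m) ∧
    ¬ (ht (p1 c n) ≤ ht (p2 c m) ∧ ht (p2 c n) ≤ ht (p1 c m)) := by decide +kernel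

/-- Search for cliques. -/
def nc : ℕ → List I27 → Bool
  | 0, _ => false
  | n + 1, l => l.rec true fun a t ih => nc n (t.filter fun b => ¬Col a b) && ih

theorem nc_spec (n : ℕ) : ∀ l, nc n l = true → ∀ S : Finset I27, (∀ a ∈ S, a ∈ l) →
    (∀ a ∈ S, ∀ b ∈ S, ¬Col a b) → S.card < n := by
  induction n with
  | zero => intro l h; simp [nc] at h
  | succ n ih =>
    intro l
    induction l with
    | nil =>
      intro _ S h _
      rw [Finset.eq_empty_of_forall_notMem fun a ha => nomatch h a ha]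
      simp
    | cons a t iht =>
      intro h S h1 h2
      obtain ⟨h3, h4⟩ : nc n (t.filter fun b => ¬Col a b) = true ∧ nc (n + 1) t = true :=
        Bool.and_eq_true_iff.1 h
      by_cases ha : a ∈ S
      · have := ih _ h3 (S.erase a) (fun b hb => List.mem_filter.2
          ⟨(List.mem_cons.1 (h1 b (Finset.mem_of_mem_erase hb))).resolve_left
            (Finset.ne_of_mem_erase hb), decide_eq_true (h2 a ha b (Finset.mem_of_mem_erase hb))⟩)
          fun b hb c hc => h2 b (Finset.mem_of_mem_erase hb) c (Finset.mem_of_mem_erase hc)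
        rw [Finset.card_erase_of_mem ha] at this
        omega
      · exact iht h4 S (fun b hb => (List.mem_cons.1 (h1 b hb)).resolve_left
          fun e => ha (e ▸ hb)) h2

/-- All coordinates. -/
def al : List I27 := List.finRange 3 ×ˢ List.finRange 3 ×ˢ List.finRange 3

theorem nc7 : nc 7 al = true ∧ ∀ a, a ∈ al := by decide +kernel

theorem R_zero {U : Submodule K (N K)} (h : TW U) {v w : N K} (hv : v ∈ U) (hw : w ∈ U) (c : I27) :
    R c v w = 0 := by
  have h1 := congrFun (h _ (add_mem hv hw)) c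
  have h2 := congrFun (h _ hv) c
  have h3 := congrFun (h _ hw) c
  simp only [sh, Q, R, Fin.sum_univ_five, Pi.add_apply, Pi.zero_apply] at h1 h2 h3 ⊢
  linear_combination h1 - h2 - h3

theorem lead {v w : N K} {c : I27} {n : Fin 5} (h : R c v w = 0) (hv : v (p1 c n) ≠ 0)
    (hv' : ∀ b, v b ≠ 0 → ht (p1 c n) ≤ ht b) (hw : w (p2 c n) ≠ 0)
    (hw' : ∀ b, w b ≠ 0 → ht (p2 c n) ≤ ht b) : False := by
  have e : ∀ m, v (p2 c m) * w (p1 c m) = 0 := fun m => by
    by_contra h
    exact (ht_spec c n m).2 ⟨hv' _ (left_ne_zero_of_mul h), hw' _ (right_ne_zero_of_mul h)⟩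
  rw [R, Finset.sum_eq_single n (fun m _ hm => ?_) (by simp), e, add_zero] at h
  · exact mul_ne_zero (ep_ne n) (mul_ne_zero hv hw) h
  · rw [e, add_zero]
    refine mul_eq_zero_of_right _ (by_contra fun h => hm ?_)
    exact ((ht_spec c n m).1 (hv' _ (left_ne_zero_of_mul h)) (hw' _ (right_ne_zero_of_mul h))).symm

end TS

open TS in
theorem ts {U : Submodule K (N K)} (h : TW U) : finrank K U ≤ 6 := by
  classical
  let S : Finset I27 := Finset.univ.filter fun a => ∃ v ∈ U, v a ≠ 0 ∧ ∀ b, v b ≠ 0 → ht a ≤ ht b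
  have h1 : S.card < 7 := nc_spec 7 al nc7.1 S (fun a _ => nc7.2 a) fun a ha b hb hc => by
    obtain ⟨v, hv, h1, h2⟩ := (Finset.mem_filter.1 ha).2
    obtain ⟨w, hw, h3, h4⟩ := (Finset.mem_filter.1 hb).2
    obtain ⟨c, hc⟩ := col_iff.1 hc
    obtain ⟨n, ⟨rfl, rfl⟩ | ⟨rfl, rfl⟩⟩ := hc.rot
    · exact lead (R_zero h hv hw c) h1 h2 h3 h4
    · exact lead (R_zero h hw hv c) h3 h4 h1 h2
  let f : U →ₗ[K] (S → K) := (LinearMap.funLeft K K Subtype.val).comp U.subtype
  have h2 : Injective f := (injective_iff_map_eq_zero f).2 fun v hv => by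
    by_contra h0
    obtain ⟨a, ha, h3⟩ := (Finset.univ.filter fun a => v.1 a ≠ 0).exists_min_image ht (by
      by_contra h3
      rw [Finset.not_nonempty_iff_eq_empty, Finset.filter_eq_empty_iff] at h3
      exact h0 (Subtype.ext (funext fun a => not_not.1 (h3 (Finset.mem_univ a)))))
    have h4 := (Finset.mem_filter.1 ha).2
    exact h4 (congrFun hv ⟨a, Finset.mem_filter.2 ⟨Finset.mem_univ _, v, v.2, h4, fun b hb =>
      h3 b (Finset.mem_filter.2 ⟨Finset.mem_univ _, hb⟩)⟩⟩)
  have h3 := LinearMap.finrank_le_finrank_of_injective h2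
  rw [finrank_fintype_fun_eq_card, Fintype.card_coe] at h3
  omega

end CF.Am
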