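import Cfsg.Agent.Am.G1
import Cfsg.Agent.Al.J
import Cfsg.Agent.Ev.G2
import Cfsg.Agent.E83.E
import Cfsg.Agent.ExA.E6

/-! Pairs of elements of order three in `E₆` whose commutator generates the centre. -/

set_option autoImplicit false

namespace CF.Am.X3

open CF.Chev CF.BN CF.ExA CF.E83 Cfsg.Lie Function Module Matrix Sum Finset
open CF.Ev (Wc Dm Ort orb_mem Dm_of rk_Wc nw_hv cov_eq_zero)
open CF.Al (en en_apply)

theorem la {K V : Type*} [Field K] [AddCommGroup V] [Module K V] [FiniteDimensional K V]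
    (h3 : (3 : K) ≠ 0) {Y : End K V} (hY : Y ^ 3 = 1) {U W : Submodule K V} {n : ℕ}
    (hU : finrank K U = 3 * n) (hW : finrank K W ≤ n) (h : U ≤ W ⊔ W.map Y ⊔ W.map (Y ^ 2)) :
    finrank K ↥(U ⊓ fs Y) = n := by
  have h0 : ∀ v, Y (Y (Y v)) = v := fun v => by simpa [pow_succ] using DFunLike.congr_fun hY v
  have h1 : ∀ v ∈ U, ∃ a ∈ W, ∃ b ∈ W, ∃ c ∈ W, v = a + Y b + Y (Y c) := fun v hv => by
    obtain ⟨_, h1, _, ⟨c, hc, rfl⟩, rfl⟩ := Submodule.mem_sup.1 (h hv)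
    obtain ⟨a, ha, _, ⟨b, hb, rfl⟩, rfl⟩ := Submodule.mem_sup.1 h1
    exact ⟨a, ha, b, hb, c, hc, by simp [sq]⟩
  refine le_antisymm ((Submodule.finrank_mono (t := W.map (1 + Y + Y ^ 2)) ?_).trans
    ((W.finrank_map_le _).trans hW)) ?_
  · rintro v ⟨hv, e⟩
    obtain ⟨a, ha, b, hb, c, hc, e'⟩ := h1 v hv
    refine (Submodule.smul_mem_iff _ h3).1 ⟨a + b + c, add_mem (add_mem ha hb) hc, ?_⟩
    have e1 := mem_fs.1 e
    rw [show (3 : K) • v = v + Y v + Y (Y v) by rw [e1, e1]; module, e']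
    simp [sq, h0]; abel
  · have h2 := rk_map (Y - 1) U
    have h4 : U.map (Y - 1) ≤ W.map (Y - 1) ⊔ W.map (Y * (Y - 1)) := by
      rintro _ ⟨v, hv, rfl⟩
      obtain ⟨a, ha, b, hb, c, hc, rfl⟩ := h1 v hv
      refine Submodule.mem_sup.2 ⟨_, ⟨a - c, sub_mem ha hc, rfl⟩, _, ⟨b - c, sub_mem hb hc, rfl⟩, ?_⟩
      simp [h0]; abel
    have h5 := (Submodule.finrank_mono h4).trans (Submodule.finrank_add_le_finrank_add_finrank _ _)
    have := W.finrank_map_le (Y - 1)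
    have := W.finrank_map_le (Y * (Y - 1))
    change _ + finrank K ↥(U ⊓ fs Y) = _ at h2
    omega

theorem fs_inv {K V S : Type*} [Field K] [AddCommGroup V] [Module K V] [Group S]
    (r : S →* End K V) (y : S) : fs (r y⁻¹) = fs (r y) := by
  ext v
  simp only [mem_fs]
  constructor <;> intro k <;> conv_lhs => rw [← k, ← End.mul_apply, ← map_mul]
  all_goals simp

theorem fs_inf {K V S : Type*} [Field K] [AddCommGroup V] [Module K V] [Group S]
    (r : S →* End K V) (g x y : S) : finrank K ↥(fs (r (g * x * g⁻¹)) ⊓ fs (r y)) =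
      finrank K ↥(fs (r x) ⊓ fs (r (g⁻¹ * y * g))) := by
  have k : ∀ g v, r g⁻¹ (r g v) = v := fun g v => by rw [← End.mul_apply, ← map_mul]; simp
  have k' : ∀ v, r g (r g⁻¹ v) = v := fun v => by rw [← End.mul_apply, ← map_mul]; simp
  refine (LinearEquiv.finrank_eq ((LinearMap.GeneralLinearGroup.toLinearEquiv
    (r.toHomUnits g)).ofSubmodules _ _ (Submodule.ext fun v => ⟨?_, fun hv => ⟨r g⁻¹ v, ?_, k' v⟩⟩))).symm
  · rintro ⟨v, ⟨a, b⟩, rfl⟩
    change r g v ∈ _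
    have := congrArg (r g) (mem_fs.1 b)
    exact ⟨mem_fs.2 (by simp [k, mem_fs.1 a]), mem_fs.2 (by simpa [k'] using this)⟩
  · have := congrArg (r g⁻¹) (mem_fs.1 hv.1)
    exact ⟨mem_fs.2 (by simpa [k] using this), mem_fs.2 (by simp [k', mem_fs.1 hv.2])⟩

theorem cent_mem {B ι : Type} [Fintype B] [DecidableEq B] [Fintype ι] [DecidableEq ι]
    {C : ChevBasis B ι} {K : Type*} [Field K] {G : Type*} [Group G] {ρ : StRep C K G} (h : Univ ρ)
    {c : B → Kˣ} (hc : IsOfFinOrder c) {g : G} (hg : Commute g (h.r3.tor c)) :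
    g ∈ ρ.U {r | rv C c r = 1} ⊔ ρ.H := by
  obtain ⟨w, hw, u, hu, n, hn, u', hu', rfl⟩ := h.cent_decomp hg
  obtain ⟨m, hm, hm'⟩ := Wt_ind hc (P := fun w => ∃ m ∈ ρ.U {r | rv C c r = 1}, ρ.NW m w)
    ⟨1, one_mem _, StRep.nW_one⟩ (fun a _ ha w _ ⟨m, hm, hm'⟩ => ⟨ρ.n a 1 * m,
      mul_mem (ρ.n_mem_U ha (by simp [rv_neg, ha]) 1) hm, (StRep.nW_n a 1).mul hm'⟩) w hw
  refine mul_mem (mul_mem (Subgroup.mem_sup_left (ρ.U_mono (fun _ h => h.2) hu)) ?_)
    (Subgroup.mem_sup_left (ρ.U_mono (fun _ h => h.1.2) hu'))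
  simpa using mul_mem (Subgroup.mem_sup_right (hn.mul_inv_mem_H hm')) (Subgroup.mem_sup_left hm)

/-- The standard element. -/
def x0 : List ℤ := [2, 3, 4, 6, 4, 2]

/-- The central element. -/
def a0 : Fin 6 → ZMod 3 := ![1, 0, 2, 0, 1, 2]

/-- The Weyl group element. -/
def l0 : List (Fin 6) := [3, 2, 1, 3, 4, 5, 0, 2, 3, 4, 1, 3]

/-- The roots of the centralizer. -/
abbrev Z (x : List ℤ) (r : Fin 72) : Prop := (∑ i : Fin 6, x.getD i 0 * tabE6.car i r) % 3 = 0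

/-- The first component. -/
abbrev In (r : ℕ) : Prop := ∀ i : Fin 6, i ≠ 0 → i ≠ 2 → tabE6.vec r i = 0

/-- The action on the roots. -/
abbrev aw (r : ℕ) : ℕ := actT tabE6 (l0.map Fin.val) r

theorem d1 : ∀ r : Fin 72, Z x0 r → (In r ∨ In (aw r) ∨ In (aw (aw r))) ∧ aw (aw (aw r)) = r ∧
    (In r ∨ tabE6.car 0 r = 0 ∧ tabE6.car 2 r = 0) := by decide +kernel

theorem d2 : ∀ i : Fin 6, (∑ j : Fin 6, (MwT tabE6 (l0.map Fin.val) i j : ZMod 3) * x0.getD j 0) =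
    x0.getD i 0 + a0 i := by decide +kernel

theorem d3 : #{r : Fin 72 | In r} = 6 := by decide +kernel

theorem d4 : allAlc [1, 2, 2, 3, 2, 1] 3 (trA adE6 3 fun _ x =>
    x == x0 || #{r | Z x r} != 18) := by decide +kernel

theorem d5 : ∀ a : Fin 6 → ZMod 3, (∀ j : Fin 6, ∑ i : Fin 6, a i * gd cmE6 i j = 0) →
    a = 0 ∨ a = a0 ∨ -a = a0 := by
  decide +kernel

theorem d6 : Z x0 71 ∧ tabE6.cov 71 3 = 3 ∧ ∀ i : Fin 6, i ≠ 3 → Z x0 (cE6.simple i) := by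
  decide +kernel

/-- The nodes of the first component. -/
abbrev J : Set (Fin 6) := {0, 2}

theorem in_iff {r : Fin 72} : cE6.InSub J r ↔ In r := by
  simp only [RootSys.InSub, tabE6'.vec, Set.mem_insert_iff, Set.mem_singleton_iff, not_or, and_imp]

variable {K : Type*} [Field K] {G : Type*} [Group G] {ρ : StRep cE6 K G} (h : Univ ρ)
  {f : G →* GL (Fin 6 ⊕ Fin 72) K} (hf : ρ.IsAdHom f) {ψ : AddChar (ZMod 3) Kˣ} (hψ : Injective ψ)

/-- The adjoint module. -/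
noncomputable abbrev Ad (f : G →* GL (Fin 6 ⊕ Fin 72) K) : G →* End K (Fin 6 ⊕ Fin 72 → K) :=
  en ((Units.coeHom _).comp f)

/-- Torus elements of order three. -/
abbrev tc (ψ : AddChar (ZMod 3) Kˣ) (x : List ℤ) : Fin 6 → Kˣ := fun i => ψ (x.getD i 0 : ℤ)

theorem rv_ψ (y : Fin 6 → ZMod 3) (r : Fin 72) :
    rv cE6 (fun i => ψ (y i)) r = ψ (∑ i, y i * tabE6.car i r) := by
  simp only [rv_eq, tabE6'.car, ← AddChar.map_zsmul_eq_zpow, zsmul_eq_mul, mul_comm,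
    Fin.prod_univ_six, Fin.sum_univ_six, AddChar.map_add_eq_mul]

include hψ in
theorem rv_tc (x : List ℤ) (r : Fin 72) : rv cE6 (tc ψ x) r = 1 ↔ Z x r := by
  rw [rv_ψ, ← ψ.map_zero_eq_one, hψ.eq_iff, Z, ← Int.dvd_iff_emod_eq_zero]
  exact_mod_cast ZMod.intCast_zmod_eq_zero_iff_dvd _ 3

include hf in
theorem ad_bv (c : Fin 6 → Kˣ) (a : Fin 6 ⊕ Fin 72) : Ad f (h.r3.tor c) (Pi.basisFun K _ a) =
    (a.elim (fun _ => 1) fun r => (rv cE6 c r : K)) • Pi.basisFun K _ a := by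
  rw [en_apply, Pi.basisFun_apply]
  change (f _).val *ᵥ _ = _
  rw [CF.Geom.Sm.ad_tor _ hf, LieBasis.val_tG]
  refine (cE6.TM_bv _ a).trans (congrArg (· • _) ?_)
  rcases a with i | r
  · simp
  · rfl

include hf in
theorem dm_tor [DecidableEq K] (c : Fin 6 → Kˣ) :
    dm (Ad f) (h.r3.tor c) = 6 + #{r | rv cE6 c r = 1} := by
  rw [dm, (fs_eig _).1, finrank_eig _ (ad_bv h hf c), ← Fintype.card_subtype,
    Fintype.card_congr Equiv.subtypeSum, Fintype.card_sum, Fintype.card_subtype,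
    Fintype.card_subtype]
  simp

include h hf in
theorem ad_cen {z : G} (hz : z ∈ Subgroup.center G) : Ad f z = 1 := by
  obtain ⟨c, hc, rfl⟩ := h.mem_center_iff.1 hz
  refine (Pi.basisFun K _).ext fun a => (ad_bv h hf c a).trans ?_
  rcases a with i | r <;> simp [hc]

include hf hψ in
theorem core (h3 : (3 : K) ≠ 0) {y : G} (hz : h.r3.tor (fun i => ψ (a0 i)) ∈ Subgroup.center G)
    (e : y * h.r3.tor (tc ψ x0) * y⁻¹ = h.r3.tor (tc ψ x0) * h.r3.tor fun i => ψ (a0 i)) :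
    fs (Ad f (h.r3.tor (tc ψ x0))) ≤ Wc K J {r | cE6.InSub J r} ⊔
      (Wc K J {r | cE6.InSub J r}).map (Ad f y) ⊔ (Wc K J {r | cE6.InSub J r}).map (Ad f y ^ 2) := by
  set W := Wc K J {r | cE6.InSub J r}
  set T := W ⊔ W.map (Ad f y) ⊔ W.map (Ad f y ^ 2)
  set x := h.r3.tor (tc ψ x0) with hx
  set z := h.r3.tor fun i => ψ (a0 i) with hz'
  have hn := StRep.nW_nw (ρ := ρ) l0
  set n := ρ.nw l0
  have e' : n * x * n⁻¹ = x * z := by
    rw [hx, conj_tor h.r3 hn.acts, mp_ψ, hz', ← map_mul]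
    congr 1
    funext i
    rw [Pi.mul_apply, ← ψ.map_add_eq_mul, ← d2]
    simp [mulVec, dotProduct, tabE6'.Mw]
  have ort : Ort cE6 J {r | rv cE6 (tc ψ x0) r = 1} := fun r hr hi j hj => by
    have := ((d1 r ((rv_tc hψ _ _).1 hr)).2.2).resolve_left (mt in_iff.2 hi)
    rw [← cE6.A_simple, tabE6'.car]
    rcases hj with rfl | rfl
    exacts [this.1, this.2]
  have h1 : ∀ {m : G}, Commute m x → ∀ v ∈ W, Ad f m v ∈ W := fun hm v hv => by
    have := add_mem (orb_mem hf sameLenE6 ort (cent_mem h (isOfFinOrder_iff_pow_eq_one.2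
      ⟨3, by decide, funext fun i => by
        rw [Pi.pow_apply, ← ψ.map_nsmul_eq_pow, nsmul_eq_mul, ZMod.natCast_self, zero_mul,
          ψ.map_zero_eq_one]; rfl⟩) hm) (v := v)
      (Dm_of ort (v := 0) ⟨by simp, by simp⟩ (by simpa using hv))) hv
    rwa [sub_add_cancel] at this
  have hc := Subgroup.mem_center_iff.1 hz
  have h2 : Commute (y⁻¹ * n) x := mul_inv_eq_iff_eq_mul.1 (by
    rw [_root_.mul_inv_rev, inv_inv, mul_assoc y⁻¹, mul_assoc y⁻¹, ← mul_assoc _ n⁻¹, e', ← e]; group)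
  have h4 : Commute ((y * y)⁻¹ * (n * n)) x := mul_inv_eq_iff_eq_mul.1 (by
    have a : ∀ {u : G}, u * x * u⁻¹ = x * z → u * u * x * (u * u)⁻¹ = x * z * z := fun {u} a => by
      rw [_root_.mul_inv_rev, ← mul_assoc, mul_assoc u u, mul_assoc u (u * x), a, ← mul_assoc, hc,
        mul_assoc z, a, ← hc]
    rw [_root_.mul_inv_rev (y * y)⁻¹, inv_inv, mul_assoc (y * y)⁻¹, mul_assoc (y * y)⁻¹,
      ← mul_assoc _ (n * n)⁻¹, a e', ← a e]; group)
  have h5 : ∀ v ∈ W, v ∈ T ∧ Ad f n v ∈ T ∧ Ad f n (Ad f n v) ∈ T := fun v hv =>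
    ⟨Submodule.mem_sup_left (Submodule.mem_sup_left hv),
      Submodule.mem_sup_left (Submodule.mem_sup_right ⟨_, h1 h2 v hv, by
        rw [← End.mul_apply, ← map_mul, mul_inv_cancel_left]⟩),
      Submodule.mem_sup_right ⟨_, h1 h4 v hv, by
        rw [sq, ← map_mul, ← End.mul_apply, ← map_mul, mul_inv_cancel_left, map_mul, End.mul_apply]⟩⟩
  have h6 : ∀ φ : Fin 72 → Fin 6 ⊕ Fin 72 → K, (∀ s, cE6.InSub J s → φ s ∈ W) →
      (∀ s, ∃ c : K, c ≠ 0 ∧ Ad f n (φ s) = c • φ (cE6.wp l0 s)) → ∀ r, Z x0 r → φ r ∈ T :=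
    fun φ a b r hr => by
    choose c c0 hc using b
    obtain ⟨h7, h8, -⟩ := d1 r hr
    have h9 : cE6.wp l0 (cE6.wp l0 (cE6.wp l0 r)) = r := Fin.ext (by simpa only [tabE6'.wp] using h8)
    rcases h7 with h7 | h7 | h7
    · exact (h5 _ (a r (in_iff.2 h7))).1
    · have := (h5 _ (a (cE6.wp l0 r) (in_iff.2 (by rwa [tabE6'.wp])))).2.2
      rwa [hc, map_smul, hc, h9, T.smul_mem_iff (c0 _), T.smul_mem_iff (c0 _)] at this
    · have := (h5 _ (a (cE6.wp l0 (cE6.wp l0 r)) (in_iff.2 (by rwa [tabE6'.wp, tabE6'.wp])))).2.1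
      rwa [hc, h9, T.smul_mem_iff (c0 _)] at this
  have h7 := h6 (fun r => LieBasis.bv K (inr r)) (fun s hs => ⟨fun i _ => by simp [LieBasis.bv_apply],
    fun r hr => by simpa [LieBasis.bv_apply] using fun k : r = s => hr (k ▸ hs)⟩)
    fun s => (hn.ad_bv hf s).imp fun c hc => ⟨fun k => by
      have := congrArg ((f n)⁻¹.val *ᵥ ·) hc
      simp only [k, zero_smul, mulVec_mulVec, mulVec_zero] at this
      simpa [LieBasis.bv_apply] using congrFun this (inr s), (en_apply _ _ _).trans hc⟩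
  have h8 := h6 (cE6.hv K) (fun s hs => ⟨fun i hi => by simp [LieBasis.hv, cov_eq_zero hs hi],
    fun _ _ => rfl⟩) fun s => ⟨1, one_ne_zero, (en_apply _ _ _).trans
      ((nw_hv hf hn s).trans (one_smul _ _).symm)⟩
  have h9 : ∀ i, LieBasis.bv K (inl i) ∈ T := fun i => by
    have a : ∀ i, i ≠ 3 → LieBasis.bv K (inl i) ∈ T := fun i k =>
      cE6.hv_simple K i ▸ h8 _ (d6.2.2 i k)
    by_cases k : i = 3
    swap
    · exact a i k
    have := h8 71 d6.1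
    rw [LieBasis.hv_eq_sum, ← add_sum_erase _ _ (mem_univ 3), T.add_mem_iff_left
      (sum_mem fun j hj => T.smul_mem _ (a j (ne_of_mem_erase hj))), tabE6'.cov] at this
    exact k ▸ (T.smul_mem_iff (by rw [show ((3 : Fin 6) : ℕ) = 3 from rfl]; erw [d6.2.1]; simpa)).1 this
  intro v hv
  rw [pi_eq_sum_univ' v]
  refine sum_mem fun a _ => ?_
  rcases a with i | r
  · exact T.smul_mem _ (h9 i)
  by_cases k : Z x0 r
  · exact T.smul_mem _ (h7 r k)
  have : v (inr r) = 0 := by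
    have a := congrFun (mem_fs.1 hv) (inr r)
    rw [en_apply] at a
    change ((f _).val *ᵥ v) _ = _ at a
    rw [CF.Geom.Sm.ad_tor _ hf, LieBasis.val_tG, LieBasis.TM, mulVec_diagonal] at a
    exact by_contra fun n0 => k ((rv_tc hψ _ _).1 (Units.ext ((mul_left_eq_self₀.1 a).resolve_right n0)))
  simp [this]

include hf hψ in
theorem core' (h3 : (3 : K) ≠ 0) {y : G} (hz : h.r3.tor (fun i => ψ (a0 i)) ∈ Subgroup.center G)
    (e : y * h.r3.tor (tc ψ x0) * y⁻¹ = h.r3.tor (tc ψ x0) * h.r3.tor fun i => ψ (a0 i))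
    (hy : y ^ 3 ∈ Subgroup.center G) (d : dm (Ad f) (h.r3.tor (tc ψ x0)) = 24) :
    finrank K ↥(fs (Ad f (h.r3.tor (tc ψ x0))) ⊓ fs (Ad f y)) = 8 :=
  la h3 (by rw [← map_pow, ad_cen h hf hy]) d (rk_Wc.trans (by
    rw [Set.ncard_pair (by decide), show {r | cE6.InSub J r} = ↑({r | In r} : Finset (Fin 72)) from
      Set.ext fun r => by simp only [Set.mem_ofPred, in_iff, coe_filter, mem_univ, true_and],
      Set.ncard_coe_finset, d3])) (core h hf hψ h3 hz e)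

include h hf in
/-- **X3.** -/
theorem x3 [IsAlgClosed K] {p : ℕ} [Fact p.Prime] [CharP K p] (hp : p ≠ 3) {x y z g : G}
    {c : Fin 6 → Kˣ} (hx : x = g * h.r3.tor c * g⁻¹) (x3 : x ^ 3 = 1) (hz : z ∈ Subgroup.center G)
    (z1 : z ≠ 1) (e : y * x * y⁻¹ = x * z) (hy : y ^ 3 ∈ Subgroup.center G)
    (d : dm (Ad f) x = 24) : finrank K ↥(fs (Ad f x) ⊓ fs (Ad f y)) = 8 := by
  classical
  have h3 : (3 : K) ≠ 0 := fun k => hp ((Nat.prime_dvd_prime_iff_eq Fact.out Nat.prime_three).1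
    ((CharP.cast_eq_zero_iff K p 3).1 k))
  obtain ⟨ψ, hψ, h1⟩ := exists_ψ (B := Fin 6) (K := K) (m := 3) (p := p)
    ((Nat.coprime_primes Nat.prime_three Fact.out).2 hp.symm)
  have hc := Subgroup.mem_center_iff.1 hz
  have z3 : z ^ 3 = 1 := by
    have := congrArg (· ^ 3) e
    simpa [conj_pow, (show Commute x z from hc x).mul_pow, x3] using this.symm
  obtain ⟨v, rfl⟩ := h1 c (h.inj (by simpa [hx, conj_pow, mul_inv_eq_iff_eq_mul] using x3))
  obtain ⟨w, hw, u, -, h2, -, h4⟩ := alcove (C := cE6) carE6 71 (by decide +kernel) d4 v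
  obtain ⟨n, hn⟩ := ρ.exists_nW hw
  have h5 : x = g * n⁻¹ * h.r3.tor (tc ψ (List.ofFn u)) * (g * n⁻¹)⁻¹ := by
    rw [show tc ψ (List.ofFn u) = fun i => ψ ((Mz cE6 3 w *ᵥ v) i) from funext fun i => by
      simp [-List.ofFn_succ, h2, tc], Mz, ← mp_ψ, ← conj_tor h.r3 hn.acts, hx]; group
  generalize g * n⁻¹ = g at h5
  rw [h5, Al.dm_conj (isConj_iff.2 ⟨g, rfl⟩).symm] at d
  have h6 : List.ofFn u = x0 := by
    simp only [dm_tor h hf, rv_tc hψ] at d
    rw [show #{r | Z (List.ofFn u) r} = 18 by convert Nat.add_left_cancel (k := 18) d] at h4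
    simpa only [bne_self_eq_false, Bool.or_false, beq_iff_eq] using h4
  rw [h6] at h5 d
  obtain ⟨a, ha, rfl⟩ := h.mem_center_iff.1 hz
  obtain ⟨a, rfl⟩ := h1 a (h.inj (by simpa using z3))
  have key : ∀ y : G, h.r3.tor (fun i => ψ (a0 i)) ∈ Subgroup.center G →
      y * x * y⁻¹ = x * h.r3.tor (fun i => ψ (a0 i)) → y ^ 3 ∈ Subgroup.center G →
      finrank K ↥(fs (Ad f x) ⊓ fs (Ad f y)) = 8 := fun y hz e hy => by
    rw [← core' h hf hψ h3 hz (y := g⁻¹ * y * g) (by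
      have := congrArg (MulAut.conj g⁻¹) e
      rw [h5, mul_assoc _ g⁻¹, Subgroup.mem_center_iff.1 hz g⁻¹] at this
      simpa [mul_assoc] using this) (by
        have := (inferInstance : (Subgroup.center G).Normal).conj_mem _ hy g⁻¹
        rwa [← conj_pow, inv_inv] at this) d, h5]
    exact fs_inf _ _ _ _
  rcases d5 a (fun j => hψ (by
    simpa only [rv_ψ, ← tabE6'.car, cE6.A_simple_simple, carE6', ψ.map_zero_eq_one, gd] using
      ha (cE6.simple j))) with rfl | rfl | k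
  · exact absurd (by simpa [Pi.one_def] using map_one h.r3.tor) z1
  · exact key y hz e hy
  · have h7 : (h.r3.tor fun i => ψ (a0 i)) = (h.r3.tor fun i => ψ (a i))⁻¹ := by
      rw [← map_inv, ← k]; congr 1; funext i; simp [AddChar.map_neg_eq_inv]
    rw [← key y⁻¹ (h7 ▸ inv_mem hz) (by
      rw [h7, eq_mul_inv_iff_mul_eq, mul_assoc, hc, ← mul_assoc, mul_assoc y⁻¹, ← e]; group)
      (by rw [inv_pow]; exact inv_mem hy)]
    rw [fs_inv]

end CF.Am.X3
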